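import Mathlib
import Cfsg.Agent.Cop.Basic
import Cfsg.Agent.Frob.Aut
import Cfsg.Agent.H11.Nilp

/-!
A coprime action lemma: `Y` acts trivially on the `r`-group `R` as soon as some automorphism `b` of prime
order, fixed-point-free on `Y`, has all its fixed points on `R` centralized by `Y`.
-/

set_option autoImplicit false
set_option linter.all false

namespace Cfsg.Agent.H32.SqAct

open Subgroup
open scoped commutatorElement

universe u

section qact

variable {X : Type u} [Group X]

/-- conjugation by an element normalizing `R` -/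
def cj (R : Subgroup X) (g : X) (hg : g ∈ normalizer (R : Set X)) : R ≃* R where
  toFun x := ⟨g * x * g⁻¹, (mem_normalizer_iff.1 hg x).1 x.2⟩
  invFun x := ⟨g⁻¹ * x * g, (mem_normalizer_iff''.1 hg x).1 x.2⟩
  left_inv x := by apply Subtype.ext; simp [mul_assoc]
  right_inv x := by apply Subtype.ext; simp [mul_assoc]
  map_mul' x y := by apply Subtype.ext; simp [mul_assoc]

theorem cj_apply (R : Subgroup X) (g : X) (hg : g ∈ normalizer (R : Set X)) (x : R) :
    ((cj R g hg x : R) : X) = g * x * g⁻¹ := rfl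

theorem cj_map (R D : Subgroup X) (g : X) (hg : g ∈ normalizer (R : Set X)) (hg' : g ∈ normalizer (D : Set X)) :
    (D.subgroupOf R).map (cj R g hg : R →* R) = D.subgroupOf R := by
  ext x
  constructor
  · rintro ⟨y, hy, rfl⟩
    exact (mem_normalizer_iff.1 hg' y).1 hy
  · intro hx
    refine ⟨(cj R g hg).symm x, ?_, (cj R g hg).apply_symm_apply x⟩
    exact (mem_normalizer_iff''.1 hg' x).1 hx

/-- the action on the quotient -/
def qact (R D : Subgroup X) [hn : (D.subgroupOf R).Normal] :
    ↥(normalizer (R : Set X) ⊓ normalizer (D : Set X)) →* MulAut (R ⧸ D.subgroupOf R) where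
  toFun g := QuotientGroup.congr _ _ (cj R g g.2.1) (cj_map R D g g.2.1 g.2.2)
  map_one' := by
    apply MulEquiv.ext
    intro x
    obtain ⟨x, rfl⟩ := QuotientGroup.mk_surjective x
    change QuotientGroup.mk _ = QuotientGroup.mk _
    congr 1
    apply Subtype.ext
    change (1 : X) * x * (1 : X)⁻¹ = x
    simp
  map_mul' g h := by
    apply MulEquiv.ext
    intro x
    obtain ⟨x, rfl⟩ := QuotientGroup.mk_surjective x
    change QuotientGroup.mk _ = QuotientGroup.mk _
    congr 1
    apply Subtype.ext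
    change ((g : X) * (h : X)) * x * ((g : X) * (h : X))⁻¹ = g * (h * x * h⁻¹) * g⁻¹
    simp [mul_assoc]

theorem qact_mk (R D : Subgroup X) [hn : (D.subgroupOf R).Normal]
    (g : ↥(normalizer (R : Set X) ⊓ normalizer (D : Set X))) (x : R) :
    qact R D g (QuotientGroup.mk x) = QuotientGroup.mk (cj R g g.2.1 x) := rfl

end qact

variable {X : Type u} [Group X] [Finite X]

theorem normalizer_commutator {R Y : Subgroup X} {g : X} (h1 : g ∈ normalizer (R : Set X))
    (h2 : g ∈ normalizer (Y : Set X)) : g ∈ normalizer ((⁅R, Y⁆ : Subgroup X) : Set X) := by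
  rw [mem_normalizer_iff_map_conj_eq] at *
  rw [Subgroup.map_commutator, h1, h2]

theorem normalizer_sup {R Y : Subgroup X} {g : X} (h1 : g ∈ normalizer (R : Set X))
    (h2 : g ∈ normalizer (Y : Set X)) : g ∈ normalizer ((R ⊔ Y : Subgroup X) : Set X) := by
  rw [mem_normalizer_iff_map_conj_eq] at *
  rw [Subgroup.map_sup, h1, h2]

theorem normalizer_inf {R Y : Subgroup X} {g : X} (h1 : g ∈ normalizer (R : Set X))
    (h2 : g ∈ normalizer (Y : Set X)) : g ∈ normalizer ((R ⊓ Y : Subgroup X) : Set X) := by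
  rw [mem_normalizer_iff] at *
  intro x
  exact and_congr (h1 x) (h2 x)

theorem normalizer_centralizer {Y : Subgroup X} {g : X}
    (h2 : g ∈ normalizer (Y : Set X)) : g ∈ normalizer ((centralizer (Y : Set X) : Subgroup X) : Set X) := by
  have key : ∀ g ∈ normalizer (Y : Set X), ∀ x ∈ centralizer (Y : Set X), g * x * g⁻¹ ∈ centralizer (Y : Set X) := by
    intro g hg x hx
    rw [mem_centralizer_iff]
    intro y hy
    have h3 := mem_centralizer_iff.1 hx _ ((mem_normalizer_iff''.1 hg y).1 hy)
    have h4 : y = g * (g⁻¹ * y * g) * g⁻¹ := by group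
    rw [h4]
    calc g * (g⁻¹ * y * g) * g⁻¹ * (g * x * g⁻¹) = g * ((g⁻¹ * y * g) * x) * g⁻¹ := by group
      _ = g * (x * (g⁻¹ * y * g)) * g⁻¹ := by rw [h3]
      _ = g * x * g⁻¹ * (g * (g⁻¹ * y * g) * g⁻¹) := by group
  rw [mem_normalizer_iff]
  intro x
  refine ⟨key g h2 x, fun hx => ?_⟩
  have := key g⁻¹ (inv_mem h2) _ hx
  have e : g⁻¹ * (g * x * g⁻¹) * g⁻¹⁻¹ = x := by group
  rwa [e] at this

theorem fc {q : ℕ} (hq : q.Prime) {r : ℕ} [hr : Fact r.Prime] {b : X} (hb : b ^ q = 1) (n : ℕ) :
    ∀ R Y : Subgroup X, Nat.card R = n → IsPGroup r R → b ∈ normalizer (R : Set X) → b ∈ normalizer (Y : Set X) →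
    Y ≤ normalizer (R : Set X) → (q.Coprime (Nat.card R)) → (Nat.card Y).Coprime (Nat.card R) →
    Y ⊓ centralizer {b} = ⊥ → R ⊓ centralizer {b} ≤ centralizer (Y : Set X) → Y ≤ centralizer (R : Set X) := by
  induction n using Nat.strong_induction_on with
  | _ n ih =>
  intro R Y hn hR hbR hbY hYR hqR hcop hfix hle
  haveI : Group.IsNilpotent R := hR.isNilpotent
  have hRs : Group.IsSolvable R := inferInstance
  set D := ⁅R, R⁆ ⊔ (R ⊓ centralizer (Y : Set X)) with hD
  have hDR : D ≤ R := sup_le (Subgroup.commutator_le_self R) inf_le_left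
  by_cases hDeq : D = R
  · have h1 := H11.eq_of_sup_commutator (M := R ⊓ centralizer (Y : Set X)) (H := R) inf_le_left (by
      conv_lhs => rw [← hDeq]
      exact sup_le le_sup_right le_sup_left)
    rw [Subgroup.le_centralizer_iff]
    rw [← h1]; exact inf_le_right
  -- the quotient action
  have hbD : b ∈ normalizer (D : Set X) := normalizer_sup (normalizer_commutator hbR hbR)
    (normalizer_inf hbR (normalizer_centralizer hbY))
  have hYD : Y ≤ normalizer (D : Set X) := fun y hy => normalizer_sup (normalizer_commutator (hYR hy) (hYR hy))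
    (normalizer_inf (hYR hy) (normalizer_centralizer (le_normalizer hy)))
  have hRD : R ≤ normalizer (D : Set X) := by
    rw [Subgroup.le_normalizer_iff_commutator_le_left]
    exact (Subgroup.commutator_mono hDR le_rfl).trans le_sup_left
  haveI hn1 : (D.subgroupOf R).Normal := (Subgroup.normal_subgroupOf_iff_le_normalizer hDR).2 hRD
  letI : CommGroup (R ⧸ D.subgroupOf R) :=
    { (inferInstance : Group (R ⧸ D.subgroupOf R)) with
      mul_comm := by
        intro x y
        obtain ⟨x, rfl⟩ := QuotientGroup.mk_surjective x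
        obtain ⟨y, rfl⟩ := QuotientGroup.mk_surjective y
        rw [← QuotientGroup.mk_mul, ← QuotientGroup.mk_mul, QuotientGroup.eq]
        change ((x * y)⁻¹ * (y * x) : R).1 ∈ D
        apply Subgroup.mem_sup_left
        have : ((x * y)⁻¹ * (y * x) : R).1 = ⁅(y : X)⁻¹, (x : X)⁻¹⁆ := by
          rw [commutatorElement_def]; push_cast; group
        rw [this]
        exact Subgroup.commutator_mem_commutator (inv_mem y.2) (inv_mem x.2) }
  have hbq : ∀ x : X, b ^ q * x * (b ^ q)⁻¹ = x := by intro x; rw [hb]; simp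
  let c : Y →* MulAut (R ⧸ D.subgroupOf R) := (qact R D).comp (Subgroup.inclusion (le_inf hYR hYD))
  let bb : ↥(normalizer (R : Set X) ⊓ normalizer (D : Set X)) := ⟨b, hbR, hbD⟩
  let f : MulAut (R ⧸ D.subgroupOf R) := qact R D bb
  let σ : MulAut Y := cj Y b hbY
  have hσj : ∀ (j : ℕ) (s : Y), (((σ ^ j) s : Y) : X) = b ^ j * s * (b ^ j)⁻¹ := by
    intro j s
    induction j with
    | zero => change (s : X) = b ^ 0 * s * (b ^ 0)⁻¹; simp
    | succ j ihj =>
      rw [pow_succ' σ]
      change b * ((σ ^ j) s : X) * b⁻¹ = _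
      rw [ihj, pow_succ' b]
      simp [mul_assoc]
  have key := Frob.trivial_action_of_fpf_aut c f σ (by
      intro s v
      obtain ⟨v, rfl⟩ := QuotientGroup.mk_surjective v
      change QuotientGroup.mk _ = QuotientGroup.mk _
      congr 1
      apply Subtype.ext
      change b * ((s : X) * (v : X) * (s : X)⁻¹) * b⁻¹ =
        (b * (s : X) * b⁻¹) * (b * (v : X) * b⁻¹) * (b * (s : X) * b⁻¹)⁻¹
      group) hq (by
      intro v
      have h1 : f ^ q = 1 := by
        change (qact R D bb) ^ q = 1
        rw [← map_pow]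
        have : bb ^ q = 1 := Subtype.ext hb
        rw [this, map_one]
      rw [h1]; rfl) (by
      intro s
      apply Subtype.ext
      rw [hσj, hb]; simp) (by
      intro v hv
      obtain ⟨v, rfl⟩ := QuotientGroup.mk_surjective v
      have h1 : (v : X)⁻¹ * (b * v * b⁻¹) ∈ D := by
        have := QuotientGroup.eq.1 (hv.symm : (QuotientGroup.mk v : R ⧸ D.subgroupOf R) = QuotientGroup.mk (cj R b hbR v))
        exact this
      obtain ⟨c, hc, hc'⟩ := Cop.fixed_points_quotient (zpowers b) R (by rwa [zpowers_le]) (by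
          rw [Nat.card_zpowers]
          exact Nat.Coprime.coprime_dvd_left (orderOf_dvd_of_pow_eq_one hb) hqR) (Or.inr hRs) D hDR hRD
        (by rwa [zpowers_le]) (v : X) v.2 (by
          have h2 : b * v * b⁻¹ * (v : X)⁻¹ ∈ D := by
            have := (mem_normalizer_iff.1 (hRD v.2) _).1 h1
            have e : (v : X) * ((v : X)⁻¹ * (b * v * b⁻¹)) * (v : X)⁻¹ = b * v * b⁻¹ * (v : X)⁻¹ := by group
            rwa [e] at this
          have h3 : ∀ j : ℕ, b ^ j * v * (b ^ j)⁻¹ * (v : X)⁻¹ ∈ D := by
            intro j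
            induction j with
            | zero => simp [D.one_mem]
            | succ j ihj =>
              have h4 := (mem_normalizer_iff.1 hbD _).1 ihj
              have h5 := D.mul_mem h4 h2
              have e : b * (b ^ j * v * (b ^ j)⁻¹ * (v : X)⁻¹) * b⁻¹ * (b * v * b⁻¹ * (v : X)⁻¹) =
                  b ^ (j + 1) * v * (b ^ (j + 1))⁻¹ * (v : X)⁻¹ := by
                rw [pow_succ']; group
              rwa [e] at h5
          intro a ha
          obtain ⟨j, rfl⟩ := (isOfFinOrder_of_finite b).mem_powers_iff_mem_zpowers.2 ha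
          exact h3 j)
      have hcD : c ∈ D := by
        apply Subgroup.mem_sup_right
        refine ⟨hc.1, hle ⟨hc.1, ?_⟩⟩
        have := hc.2
        change c ∈ centralizer {b}
        rw [mem_centralizer_singleton_iff]
        exact ((mem_centralizer_iff.1 this) b (mem_zpowers b)).symm
      rw [QuotientGroup.eq_one_iff]
      change (v : X) ∈ D
      have := D.mul_mem hcD (D.inv_mem hc')
      have e : c * ((v : X)⁻¹ * c)⁻¹ = v := by group
      rwa [e] at this) (by
      intro s hs
      have h1 : (s : X) ∈ Y ⊓ centralizer {b} := by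
        refine ⟨s.2, ?_⟩
        change (s : X) ∈ centralizer {b}
        rw [mem_centralizer_singleton_iff]
        have h2 : b * s * b⁻¹ = s := congrArg Subtype.val hs
        rw [mul_inv_eq_iff_eq_mul] at h2
        exact h2.symm
      rw [hfix] at h1
      exact Subtype.ext h1) (by
      have h1 : Nat.card (R ⧸ D.subgroupOf R) ∣ Nat.card R := Subgroup.card_quotient_dvd_card _
      exact Nat.Coprime.coprime_dvd_right h1 hcop)
  -- `[R, Y] ≤ D`
  have hRY : ⁅R, Y⁆ ≤ D := by
    rw [Subgroup.commutator_comm, Subgroup.commutator_le]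
    intro y hy x hx
    have h1 := key ⟨y, hy⟩ (QuotientGroup.mk ⟨x, hx⟩)
    have h2 := QuotientGroup.eq.1 (h1.symm : (QuotientGroup.mk (⟨x, hx⟩ : R) : R ⧸ D.subgroupOf R) =
      QuotientGroup.mk (cj R y (hYR hy) ⟨x, hx⟩))
    have h3 : x⁻¹ * (y * x * y⁻¹) ∈ D := h2
    have h4 := (mem_normalizer_iff.1 (hRD hx) _).1 h3
    rw [commutatorElement_def]
    have e : x * (x⁻¹ * (y * x * y⁻¹)) * x⁻¹ = y * x * y⁻¹ * x⁻¹ := by group
    rwa [e] at h4
  set W := ⁅R, Y⁆ with hW
  have hWR : W ≤ R := hRY.trans hDR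
  have hlt : Nat.card W < n := by
    rw [← hn]
    have h1 : Nat.card W ≤ Nat.card D := Nat.card_le_card_of_injective _ (Subgroup.inclusion_injective hRY)
    have h2 : Nat.card D < Nat.card R := by
      apply lt_of_le_of_ne (Nat.card_le_card_of_injective _ (Subgroup.inclusion_injective hDR))
      intro h
      exact hDeq (Subgroup.eq_of_le_of_card_ge hDR h.ge)
    omega
  have hWd : Nat.card W ∣ Nat.card R := Subgroup.card_dvd_of_le hWR
  have hYW : Y ≤ normalizer (W : Set X) := fun y hy => normalizer_commutator (hYR hy) (le_normalizer hy)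
  have h1 := ih _ hlt W Y rfl (hR.to_le hWR) (normalizer_commutator hbR hbY) hbY
    hYW (Nat.Coprime.coprime_dvd_right hWd hqR)
    (Nat.Coprime.coprime_dvd_right hWd hcop) hfix ((inf_le_inf_right _ hWR).trans hle)
  have h2 : ⁅W, Y⁆ = ⊥ := by
    rw [Subgroup.commutator_eq_bot_iff_le_centralizer]
    exact Subgroup.le_centralizer_iff.1 h1
  have h3 := Cop.commutator_commutator_eq (A := Y) (K := R) hYR hcop (Or.inr hRs)
  rw [h2] at h3
  exact Subgroup.le_centralizer_iff.1 (Subgroup.commutator_eq_bot_iff_le_centralizer.1 h3.symm)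

end Cfsg.Agent.H32.SqAct
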