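import Mathlib
import Cfsg.Agent.H32.SqFC
import Cfsg.Agent.Solv.Core
import Cfsg.Agent.SigF.PC
import Cfsg.Agent.H49.Core
import Cfsg.Agent.Cop.Hall
import Cfsg.Agent.H32.Syl

/-!
Groups of Fitting height at most two: absolute and relative lemmas.
-/

set_option autoImplicit false
set_option linter.all false

namespace Cfsg.Agent.H32.SqAct

open Subgroup

universe u

section abs

variable {G : Type u} [Group G] [Finite G]

/-- Fitting height at most two -/
def FH2 (G : Type u) [Group G] : Prop :=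
  ∃ N : Subgroup G, ∃ _ : N.Normal, Group.IsNilpotent N ∧ Group.IsNilpotent (G ⧸ N)

/-- only the primes `p` and `r` -/
def PR (p r : ℕ) (G : Type u) [Group G] : Prop := ∀ s : ℕ, s.Prime → s ∣ Nat.card G → s = p ∨ s = r

theorem isPGroup_of_pr {p r : ℕ} [hr : Fact r.Prime] (h : PR p r G) {D : Subgroup G} (hD : (Nat.card D).Coprime p) :
    IsPGroup r D := by
  rw [IsPGroup.iff_card]
  refine ⟨_, Nat.eq_prime_pow_of_unique_prime_dvd Nat.card_pos.ne' fun {d} hd hdd => ?_⟩
  rcases h d hd (hdd.trans (Subgroup.card_subgroup_dvd_card D)) with rfl | rfl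
  · exact absurd hD (fun h => by
      have := Nat.dvd_gcd hdd (dvd_refl d)
      rw [Nat.Coprime] at h
      rw [h] at this
      exact hd.one_lt.ne' (Nat.dvd_one.1 this))
  · rfl

theorem sylow_sup_normal (h : FH2 G) (p : ℕ) [hp : Fact p.Prime] (P : Sylow p G) :
    (Cfsg.pPrimeCore p G ⊔ (P : Subgroup G)).Normal := by
  obtain ⟨N, hNn, hN, hQ⟩ := h
  have h1 : N ≤ Cfsg.pPrimeCore p G ⊔ (P : Subgroup G) := by
    haveI := hN
    refine (Solv.le_iSup_pCore_of_nilpotent N).trans (iSup_le ?_)
    intro s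
    by_cases hs : (s : ℕ) = p
    · rw [hs]; exact (Solv.pCore_le_sylow P).trans le_sup_right
    · refine le_trans (Solv.le_pPrimeCore inferInstance ?_) le_sup_left
      haveI : Fact (s : ℕ).Prime := ⟨s.2⟩
      obtain ⟨k, hk⟩ := IsPGroup.iff_card.1 (Solv.pCore_isPGroup (G := G) (s : ℕ))
      rw [hk]
      exact Nat.Coprime.pow_left _ ((Nat.coprime_primes s.2 hp.out).2 hs)
  have hsurj := QuotientGroup.mk'_surjective N
  haveI := hQ
  have h2 : ((P.mapSurjective hsurj : Sylow p (G ⧸ N)) : Subgroup (G ⧸ N)).Normal := inferInstance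
  have h3 : ((P : Subgroup G).map (QuotientGroup.mk' N)).Normal := h2
  have h4 := h3.comap (QuotientGroup.mk' N)
  rw [Subgroup.comap_map_eq, QuotientGroup.ker_mk'] at h4
  have h5 : Cfsg.pPrimeCore p G ⊔ (P : Subgroup G) = Cfsg.pPrimeCore p G ⊔ ((P : Subgroup G) ⊔ N) := by
    rw [← sup_assoc]
    exact (sup_eq_left.2 h1).symm
  rw [h5]
  infer_instance

/-- In a `{p,r}`-group of Fitting height two the `r`-elements centralizing `O_p` are in `O_r`. -/
theorem le_pCore_of_centralizes (h : FH2 G) {p r : ℕ} [hp : Fact p.Prime] [hr : Fact r.Prime]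
    (hpr : PR p r G) {E : Subgroup G} (hE : IsPGroup r E)
    (hc : E ≤ centralizer (Cfsg.pCore p G : Set G)) : E ≤ Cfsg.pCore r G := by
  obtain ⟨S⟩ : Nonempty (Sylow r G) := inferInstance
  have hpr' : PR r p G := fun s hs hd => (hpr s hs hd).symm
  haveI := hp
  set D := Cfsg.pPrimeCore r G with hD
  have hDp : D ≤ Cfsg.pCore p G := Solv.le_pCore inferInstance (isPGroup_of_pr hpr' (Solv.pPrimeCore_card_coprime r))
  haveI hJ : (D ⊔ (S : Subgroup G)).Normal := sylow_sup_normal h r S
  set J := D ⊔ (S : Subgroup G) with hJd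
  haveI hCn : (centralizer (Cfsg.pCore p G : Set G)).Normal := inferInstance
  set C := J ⊓ centralizer (Cfsg.pCore p G : Set G) with hC
  haveI hCn' : C.Normal := inferInstance
  -- `C` is nilpotent
  have hCnil : Group.IsNilpotent C := by
    let f : C →* (S : Subgroup G).map (QuotientGroup.mk' D) :=
      ((QuotientGroup.mk' D).comp C.subtype).codRestrict _ (by
        intro x
        have h1 : (x : G) ∈ J := x.2.1
        have h2 : (QuotientGroup.mk' D) (x : G) ∈ J.map (QuotientGroup.mk' D) := ⟨x, h1, rfl⟩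
        have h3 : J.map (QuotientGroup.mk' D) = (S : Subgroup G).map (QuotientGroup.mk' D) := by
          rw [hJd, Subgroup.map_sup]
          have : D.map (QuotientGroup.mk' D) = ⊥ := by
            rw [Subgroup.map_eq_bot_iff, QuotientGroup.ker_mk']
          rw [this, bot_sup_eq]
        rwa [h3] at h2)
    haveI : Group.IsNilpotent ((S : Subgroup G).map (QuotientGroup.mk' D)) := (S.2.map _).isNilpotent
    refine Subgroup.isNilpotent_of_ker_le_center f ?_
    intro x hx
    have h1 : (x : G) ∈ D := by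
      have := congrArg Subtype.val (MonoidHom.mem_ker.1 hx)
      exact (QuotientGroup.eq_one_iff (x : G)).1 this
    rw [Subgroup.mem_center_iff]
    intro y
    apply Subtype.ext
    have h2 := Subgroup.mem_centralizer_iff.1 y.2.2 (x : G) (hDp h1)
    exact h2.symm
  have hEJ : E ≤ J := by
    obtain ⟨T, hT⟩ := hE.exists_le_sylow
    obtain ⟨g, rfl⟩ := MulAction.exists_smul_eq G S T
    refine hT.trans ?_
    rintro x ⟨y, hy, rfl⟩
    exact hJ.conj_mem _ (Subgroup.mem_sup_right hy) g
  have hEC : E ≤ C := le_inf hEJ hc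
  have h1 : E.subgroupOf C ≤ Cfsg.pCore r C := by
    haveI := hCnil
    have h2 : IsPGroup r (E.subgroupOf C) := hE.comap_subtype
    obtain ⟨T, hT⟩ := h2.exists_le_sylow
    exact hT.trans (Solv.le_pCore inferInstance T.2)
  have h2 : (Cfsg.pCore r C).map C.subtype ≤ Cfsg.pCore r G :=
    Solv.le_pCore inferInstance ((Solv.pCore_isPGroup r).map _)
  refine le_trans ?_ h2
  rw [← Subgroup.map_subgroupOf_eq_of_le hEC]
  exact Subgroup.map_mono h1

end abs

section rel

variable {X : Type u} [Group X] [Finite X]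

/-- relative `p`-core -/
def co (p : ℕ) (L : Subgroup X) : Subgroup X := (Cfsg.pCore p L).map L.subtype

theorem co_le (p : ℕ) (L : Subgroup X) : co p L ≤ L := Subgroup.map_subtype_le _

theorem co_p (p : ℕ) (L : Subgroup X) : IsPGroup p (co p L) := (Solv.pCore_isPGroup p).map _

theorem normalizer_co (p : ℕ) (L : Subgroup X) : normalizer (L : Set X) ≤ normalizer (co p L : Set X) :=
  H49.normalizer_le_normalizer_map_of_char L _

theorem le_normalizer_co (p : ℕ) (L : Subgroup X) : L ≤ normalizer (co p L : Set X) :=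
  le_normalizer.trans (normalizer_co p L)

theorem le_co {p : ℕ} {L U : Subgroup X} (hU : U ≤ L) (hn : L ≤ normalizer (U : Set X)) (hp : IsPGroup p U) :
    U ≤ co p L := by
  rw [← Subgroup.map_subgroupOf_eq_of_le hU]
  exact Subgroup.map_mono (Solv.le_pCore ((Subgroup.normal_subgroupOf_iff_le_normalizer hU).2 hn) hp.comap_subtype)

theorem co_comm {p r : ℕ} [Fact p.Prime] [Fact r.Prime] (hpr : p ≠ r) (L : Subgroup X) :
    co r L ≤ centralizer (co p L : Set X) := by
  have h1 : Disjoint (Cfsg.pCore r L) (Cfsg.pCore p L) := by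
    apply Subgroup.disjoint_of_coprime_natCard
    obtain ⟨a, ha⟩ := IsPGroup.iff_card.1 (Solv.pCore_isPGroup (G := L) r)
    obtain ⟨b, hb⟩ := IsPGroup.iff_card.1 (Solv.pCore_isPGroup (G := L) p)
    rw [ha, hb]
    exact Nat.Coprime.pow _ _ ((Nat.coprime_primes Fact.out Fact.out).2 hpr.symm)
  rintro _ ⟨x, hx, rfl⟩
  rw [Subgroup.mem_centralizer_iff]
  rintro _ ⟨y, hy, rfl⟩
  have h2 := Subgroup.commute_of_normal_of_disjoint _ _ inferInstance inferInstance h1 x y hx hy
  exact congrArg Subtype.val h2.symm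

/-- relative: Sylow `p`-subgroup -/
theorem le_normalizer_sup {H P : Subgroup X} (h : FH2 H) (p : ℕ) [hp : Fact p.Prime] (hPH : P ≤ H)
    (hc : Nat.card P = p ^ (Nat.card H).factorization p) :
    ∃ D ≤ H, H ≤ normalizer (D : Set X) ∧ (Nat.card D).Coprime p ∧ H ≤ normalizer ((D ⊔ P : Subgroup X) : Set X) := by
  obtain ⟨P', rfl⟩ := Cop.exists_sylow_map_eq hPH hc
  refine ⟨(Cfsg.pPrimeCore p H).map H.subtype, Subgroup.map_subtype_le _, ?_, ?_, ?_⟩
  · rw [← Subgroup.normal_subgroupOf_iff_le_normalizer (Subgroup.map_subtype_le _)]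
    rw [Subgroup.subgroupOf, Subgroup.comap_map_eq_self_of_injective H.subtype_injective]
    infer_instance
  · rw [Subgroup.card_map_of_injective H.subtype_injective]
    exact Solv.pPrimeCore_card_coprime p
  · rw [← Subgroup.map_sup, ← Subgroup.normal_subgroupOf_iff_le_normalizer (Subgroup.map_subtype_le _)]
    rw [Subgroup.subgroupOf, Subgroup.comap_map_eq_self_of_injective H.subtype_injective]
    exact sylow_sup_normal h p P'

theorem le_co_of_centralizes {H E : Subgroup X} (h : FH2 H) {p r : ℕ} [hp : Fact p.Prime] [hr : Fact r.Prime]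
    (hpr : PR p r H) (hEH : E ≤ H) (hE : IsPGroup r E) (hc : E ≤ centralizer (co p H : Set X)) : E ≤ co r H := by
  rw [← Subgroup.map_subgroupOf_eq_of_le hEH]
  apply Subgroup.map_mono
  apply le_pCore_of_centralizes h hpr hE.comap_subtype
  intro x hx
  rw [Subgroup.mem_centralizer_iff]
  intro y hy
  apply Subtype.ext
  exact Subgroup.mem_centralizer_iff.1 (hc hx) (y : X) ⟨y, hy, rfl⟩

/-- In a solvable `{p,r}`-group `L`: an `r`-subgroup `U` normalized by `C_L(Q)`, `Q` a `p`-group, is in `O_r(L)`. -/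
theorem le_co_of_centralizer {L Q U : Subgroup X} (hs : Group.IsSolvable L) {p r : ℕ} [hp : Fact p.Prime]
    [hr : Fact r.Prime] (hpr : PR p r L) (hne : p ≠ r) (hQL : Q ≤ L) (hQ : IsPGroup p Q) (hUL : U ≤ L)
    (hU : IsPGroup r U) (hUQ : U ≤ centralizer (Q : Set X))
    (hn : L ⊓ centralizer (Q : Set X) ≤ normalizer (U : Set X)) : U ≤ co r L := by
  have h1 := SigF.PC.pPrimeCore_centralizer_le (p := p) (SigF.PC.isPConstrained_of_isSolvable hs) (Q.subgroupOf L) hQ.comap_subtype
  have h2 : Cfsg.pPrimeCore p L ≤ Cfsg.pCore r L :=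
    Solv.le_pCore inferInstance (isPGroup_of_pr hpr (Solv.pPrimeCore_card_coprime p))
  have h3 : U.subgroupOf L ≤ centralizer ((Q.subgroupOf L : Subgroup L) : Set L) := by
    intro x hx
    rw [Subgroup.mem_centralizer_iff]
    intro y hy
    apply Subtype.ext
    exact Subgroup.mem_centralizer_iff.1 (hUQ hx) (y : X) hy
  have h4 : (U.subgroupOf L).subgroupOf (centralizer ((Q.subgroupOf L : Subgroup L) : Set L)) ≤
      Cfsg.pPrimeCore p ↥(centralizer ((Q.subgroupOf L : Subgroup L) : Set L)) := by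
    apply Solv.le_pPrimeCore
    · rw [Subgroup.normal_subgroupOf_iff_le_normalizer h3]
      intro x hx
      have h5 : (x : X) ∈ normalizer (U : Set X) := by
        apply hn
        refine ⟨x.2, ?_⟩
        change (x : X) ∈ centralizer (Q : Set X)
        rw [Subgroup.mem_centralizer_iff]
        intro y hy
        exact congrArg Subtype.val (Subgroup.mem_centralizer_iff.1 hx ⟨y, hQL hy⟩ hy)
      rw [Subgroup.mem_normalizer_iff] at h5 ⊢
      intro y
      exact h5 y
    · have h5 : IsPGroup r ((U.subgroupOf L).subgroupOf (centralizer ((Q.subgroupOf L : Subgroup L) : Set L))) :=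
        (hU.comap_subtype).comap_subtype
      obtain ⟨k, hk⟩ := IsPGroup.iff_card.1 h5
      rw [hk]
      exact Nat.Coprime.pow_left _ ((Nat.coprime_primes hr.out hp.out).2 hne.symm)
  have h5 : U.subgroupOf L ≤ Cfsg.pCore r L := by
    rw [← Subgroup.map_subgroupOf_eq_of_le h3]
    exact (Subgroup.map_mono h4).trans (h1.trans h2)
  rw [← Subgroup.map_subgroupOf_eq_of_le hUL]
  exact Subgroup.map_mono h5

end rel

end Cfsg.Agent.H32.SqAct
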