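import Mathlib
import Cfsg.Agent.H32.SqFC
import Cfsg.Agent.H32.SqFH
import Cfsg.Agent.H91.GenCent
import Cfsg.Agent.S3796
import Cfsg.Agent.S0144

/-!
Coprime action of a noncyclic group of order `q^2` with abelian centralizers: set-up.
-/

set_option autoImplicit false
set_option linter.all false

namespace Cfsg.Agent.H32.SqAct

open Subgroup

universe u

variable {X : Type u} [Group X] [Finite X]

/-- The acting group -/
structure AHyp (q : ℕ) (A : Subgroup X) : Prop where
  hq : q.Prime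
  comm : IsMulCommutative A
  card : Nat.card A = q ^ 2
  nc : ¬ IsCyclic A

namespace AHyp

variable {q : ℕ} {A : Subgroup X}

theorem pow (h : AHyp q A) {a : X} (ha : a ∈ A) : a ^ q = 1 := by
  have h1 : orderOf a ∣ q ^ 2 := by
    rw [← h.card, ← Subgroup.orderOf_mk a ha]; exact orderOf_dvd_natCard _
  obtain ⟨k, hk, hk'⟩ := (Nat.dvd_prime_pow h.hq).1 h1
  have h2 : k ≠ 2 := by
    rintro rfl
    apply h.nc
    apply isCyclic_of_orderOf_eq_card (⟨a, ha⟩ : A)
    rw [Subgroup.orderOf_mk, hk', h.card]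
  apply orderOf_dvd_iff_pow_eq_one.1
  rw [hk']
  have h3 : k = 0 ∨ k = 1 := by omega
  rcases h3 with rfl | rfl <;> simp

theorem orderOf_eq (h : AHyp q A) {a : X} (ha : a ∈ A) (h1 : a ≠ 1) : orderOf a = q :=
  haveI := Fact.mk h.hq
  orderOf_eq_prime (h.pow ha) h1

theorem card_zpowers (h : AHyp q A) {a : X} (ha : a ∈ A) (h1 : a ≠ 1) : Nat.card (zpowers a) = q := by
  rw [Nat.card_zpowers, h.orderOf_eq ha h1]

theorem sup_eq (h : AHyp q A) {a b : X} (ha : a ∈ A) (h1 : a ≠ 1) (hb : b ∈ A) (hab : b ∉ zpowers a) :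
    zpowers a ⊔ zpowers b = A := by
  have hle : zpowers a ⊔ zpowers b ≤ A := sup_le (by rwa [zpowers_le]) (by rwa [zpowers_le])
  apply Subgroup.eq_of_le_of_card_ge hle
  have h2 : Nat.card ↥(zpowers a ⊔ zpowers b) ∣ q ^ 2 := h.card ▸ Subgroup.card_dvd_of_le hle
  obtain ⟨k, hk, hk'⟩ := (Nat.dvd_prime_pow h.hq).1 h2
  have h3 : q < Nat.card ↥(zpowers a ⊔ zpowers b) := by
    rw [← h.card_zpowers ha h1]
    have h4 := Nat.card_le_card_of_injective _ (Subgroup.inclusion_injective (le_sup_left : zpowers a ≤ zpowers a ⊔ zpowers b))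
    apply lt_of_le_of_ne h4
    intro h5
    have h6 := Subgroup.eq_of_le_of_card_ge (le_sup_left : zpowers a ≤ zpowers a ⊔ zpowers b) h5.ge
    apply hab
    rw [h6]
    exact Subgroup.mem_sup_right (mem_zpowers b)
  rw [h.card, hk']
  have h4 : k ≠ 0 := by rintro rfl; rw [hk'] at h3; simp at h3; have := h.hq.one_lt; omega
  have h5 : k ≠ 1 := by rintro rfl; rw [hk'] at h3; simp at h3
  have h6 : k = 2 := by omega
  rw [h6]

theorem zpowers_eq (h : AHyp q A) {a b : X} (ha : a ∈ A) (hb : b ∈ A) (hb1 : b ≠ 1) (h1 : a ≠ 1) (hab : b ∈ zpowers a) :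
    zpowers b = zpowers a := by
  apply Subgroup.eq_of_le_of_card_ge (by rwa [zpowers_le])
  rw [h.card_zpowers ha h1, h.card_zpowers hb hb1]

theorem mem_symm (h : AHyp q A) {a b : X} (ha : a ∈ A) (hb : b ∈ A) (hb1 : b ≠ 1) (h1 : a ≠ 1) (hab : b ∈ zpowers a) :
    a ∈ zpowers b := by
  rw [h.zpowers_eq ha hb hb1 h1 hab]; exact mem_zpowers a

theorem centralizer_eq (h : AHyp q A) {a b : X} (ha : a ∈ A) (hb : b ∈ A) (hb1 : b ≠ 1) (h1 : a ≠ 1)
    (hab : b ∈ zpowers a) : centralizer {b} = centralizer {a} := by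
  rw [← SigF.centralizer_zpowers' a, ← SigF.centralizer_zpowers' b, h.zpowers_eq ha hb hb1 h1 hab]

theorem exists_third (h : AHyp q A) {a b : X} (ha : a ∈ A) (h1 : a ≠ 1) (hb : b ∈ A) (hb1 : b ≠ 1) :
    ∃ c ∈ A, c ≠ 1 ∧ c ∉ zpowers a ∧ c ∉ zpowers b := by
  by_cases hab : b ∈ zpowers a
  · have h2 : ∃ c ∈ A, c ∉ zpowers a := by
      by_contra hcon
      push Not at hcon
      have h3 : A ≤ zpowers a := hcon
      have h4 := Nat.card_le_card_of_injective _ (Subgroup.inclusion_injective h3)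
      rw [h.card, h.card_zpowers ha h1] at h4
      have := h.hq.one_lt
      nlinarith
    obtain ⟨c, hc, hca⟩ := h2
    refine ⟨c, hc, ?_, hca, ?_⟩
    · rintro rfl; exact hca (one_mem _)
    · rw [h.zpowers_eq ha hb hb1 h1 hab]; exact hca
  · refine ⟨a * b, A.mul_mem ha hb, ?_, ?_, ?_⟩
    · intro h2
      apply hab
      rw [eq_inv_of_mul_eq_one_right h2]
      exact inv_mem (mem_zpowers a)
    · intro h2
      apply hab
      have := (zpowers a).mul_mem (inv_mem (mem_zpowers a)) h2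
      rwa [inv_mul_cancel_left] at this
    · intro h2
      apply hab
      have h3 := (zpowers b).mul_mem h2 (inv_mem (mem_zpowers b))
      rw [mul_inv_cancel_right] at h3
      exact h.mem_symm hb ha h1 hb1 h3

end AHyp

theorem mem_cen {a x : X} : x ∈ centralizer ({a} : Set X) ↔ x * a = a * x := mem_centralizer_singleton_iff

/-- The configuration of a minimal counterexample. -/
structure Hyp (q : ℕ) (K A : Subgroup X) : Prop extends AHyp q A where
  normal : K.Normal
  cop : (Nat.card A).Coprime (Nat.card K)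
  ab : ∀ a ∈ A, a ≠ 1 → ∀ x ∈ K, ∀ y ∈ K, x ∈ centralizer ({a} : Set X) → y ∈ centralizer ({a} : Set X) → x * y = y * x
  fix : K ⊓ centralizer (A : Set X) = ⊥
  sol : ∀ H ≤ K, H ≠ K → A ≤ normalizer (H : Set X) → Group.IsSolvable H
  chr : ∀ H ≤ K, K ≤ normalizer (H : Set X) → A ≤ normalizer (H : Set X) → H = ⊥ ∨ H = K
  ns : ¬ Group.IsSolvable K

namespace Hyp

variable {q : ℕ} {K A : Subgroup X}

theorem q_cop (h : Hyp q K A) {H : Subgroup X} (hH : H ≤ K) : q.Coprime (Nat.card H) := by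
  have h1 := h.cop
  rw [h.card] at h1
  exact Nat.Coprime.coprime_dvd_right (Subgroup.card_dvd_of_le hH) (Nat.Coprime.coprime_dvd_left (dvd_pow_self q (by norm_num)) h1)

theorem a_cop (h : Hyp q K A) {H : Subgroup X} (hH : H ≤ K) : (Nat.card A).Coprime (Nat.card H) :=
  Nat.Coprime.coprime_dvd_right (Subgroup.card_dvd_of_le hH) h.cop

theorem eq_one (h : Hyp q K A) {a b x : X} (ha : a ∈ A) (h1 : a ≠ 1) (hb : b ∈ A) (hab : b ∉ zpowers a)
    (hx : x ∈ K) (hxa : x ∈ centralizer ({a} : Set X)) (hxb : x ∈ centralizer ({b} : Set X)) : x = 1 := by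
  have h2 : x ∈ K ⊓ centralizer (A : Set X) := by
    refine ⟨hx, ?_⟩
    change x ∈ centralizer (A : Set X)
    rw [← h.toAHyp.sup_eq ha h1 hb hab]
    rw [mem_centralizer_iff]
    intro y hy
    have h3 : zpowers a ⊔ zpowers b ≤ centralizer {x} := by
      apply sup_le
      · rw [zpowers_le, mem_cen]; exact (mem_cen.1 hxa).symm
      · rw [zpowers_le, mem_cen]; exact (mem_cen.1 hxb).symm
    exact mem_cen.1 (h3 hy)
  rw [h.fix] at h2
  exact h2

theorem inf_inf_eq_bot (h : Hyp q K A) {a b : X} (ha : a ∈ A) (h1 : a ≠ 1) (hb : b ∈ A) (hab : b ∉ zpowers a)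
    {Y : Subgroup X} (hY : Y ≤ K) (hYa : Y ≤ centralizer ({a} : Set X)) : Y ⊓ centralizer ({b} : Set X) = ⊥ := by
  rw [eq_bot_iff]
  intro x hx
  exact h.eq_one ha h1 hb hab (hY hx.1) (hYa hx.1) hx.2

theorem gen (h : Hyp q K A) {H T : Subgroup X} (hH : H ≤ K) (hAH : A ≤ normalizer (H : Set X))
    (hT : ∀ a ∈ A, a ≠ 1 → H ⊓ centralizer ({a} : Set X) ≤ T) : H ≤ T := by
  haveI := h.comm
  rw [← H91.genCent_eq A H h.nc hAH (h.a_cop hH)]
  unfold H91.genCent
  refine iSup₂_le ?_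
  intro a ha
  exact hT a ha.1 ha.2

theorem inv_inf (h : Hyp q K A) {H : Subgroup X} (hAH : A ≤ normalizer (H : Set X)) {a : X} (ha : a ∈ A) :
    A ≤ normalizer ((H ⊓ centralizer ({a} : Set X) : Subgroup X) : Set X) := by
  intro b hb
  apply normalizer_inf (hAH hb)
  rw [← SigF.centralizer_zpowers' a]
  apply normalizer_centralizer
  haveI := h.comm
  have h2 : ∀ x ∈ zpowers a, b * x = x * b := by
    intro x hx
    have hxA : x ∈ A := (zpowers_le.2 ha) hx
    exact congrArg Subtype.val (mul_comm' (⟨b, hb⟩ : A) ⟨x, hxA⟩)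
  rw [mem_normalizer_iff]
  intro x
  constructor
  · intro hx
    rw [h2 x hx, mul_inv_cancel_right]; exact hx
  · intro hx
    have h3 := h2 _ hx
    have h4 : b * x * b⁻¹ = x := by
      have : b * (b * x * b⁻¹) * b⁻¹ = b * x * b⁻¹ := by rw [h3]; group
      have h5 := congrArg (fun y => b⁻¹ * y * b) this
      simp only [mul_assoc, inv_mul_cancel_left, inv_mul_cancel, mul_one] at h5
      simpa [mul_assoc] using h5
    rwa [h4] at hx

theorem inv_cen (h : Hyp q K A) {H : Subgroup X} (hAH : A ≤ normalizer (H : Set X)) :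
    A ≤ normalizer ((K ⊓ centralizer (H : Set X) : Subgroup X) : Set X) := by
  intro b hb
  haveI := h.normal
  exact normalizer_inf (le_normalizer_of_normal hb) (normalizer_centralizer (hAH hb))

theorem inv_norm (h : Hyp q K A) {H : Subgroup X} (hAH : A ≤ normalizer (H : Set X)) :
    A ≤ normalizer ((K ⊓ normalizer (H : Set X) : Subgroup X) : Set X) := by
  intro b hb
  haveI := h.normal
  exact normalizer_inf (le_normalizer_of_normal hb) (le_normalizer (hAH hb))

/-- the basic coprime action lemma -/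
theorem fc (h : Hyp q K A) {r : ℕ} [hr : Fact r.Prime] {R Y : Subgroup X} (hR : R ≤ K) (hAR : A ≤ normalizer (R : Set X))
    (hRr : IsPGroup r R) (hY : Y ≤ K) (hAY : A ≤ normalizer (Y : Set X)) (hYR : Y ≤ normalizer (R : Set X))
    (hcop : (Nat.card Y).Coprime (Nat.card R)) {a b : X} (ha : a ∈ A) (h1 : a ≠ 1) (hYa : Y ≤ centralizer ({a} : Set X))
    (hb : b ∈ A) (hab : b ∉ zpowers a) (hle : R ⊓ centralizer ({b} : Set X) ≤ centralizer (Y : Set X)) :
    Y ≤ centralizer (R : Set X) :=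
  SqAct.fc h.hq (h.toAHyp.pow hb) _ R Y rfl hRr (hAR hb) (hAY hb) hYR (h.q_cop hR) hcop
    (h.inf_inf_eq_bot ha h1 hb hab hY hYa) hle

/-- invariant Sylow subgroups -/
theorem exists_syl (h : Hyp q K A) (p : ℕ) [hp : Fact p.Prime] : ∃ P : Sylow p K,
    A ≤ normalizer (((P : Subgroup K).map K.subtype : Subgroup X) : Set X) ∧
    ∀ U ≤ K, A ≤ normalizer (U : Set X) → IsPGroup p U → U ≤ (P : Subgroup K).map K.subtype := by
  haveI := h.normal
  haveI := h.comm
  have hAs : Group.IsSolvable A := Group.isSolvable_of_comm (fun a b => mul_comm' a b)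
  have hAK : A ≤ normalizer (K : Set X) := le_normalizer_of_normal
  obtain ⟨P, hP⟩ := Cop.exists_invariant_sylow hAK h.cop (Or.inl hAs) p
  refine ⟨P, hP, fun U hU hAU hUp => ?_⟩
  obtain ⟨Q, hUQ, hQ⟩ := Cop.exists_invariant_sylow_ge hAK h.cop (Or.inl hAs) p hU hUp hAU
  obtain ⟨c, hc, hc'⟩ := Cop.exists_centralizer_conj_sylow hAK h.cop (Or.inl hAs) p Q P hQ hP
  have hc1 : (c : X) ∈ K ⊓ centralizer (A : Set X) := ⟨c.2, hc⟩
  rw [h.fix, Subgroup.mem_bot] at hc1
  have hc2 : c = 1 := Subtype.ext hc1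
  rw [hc2, map_one, one_smul] at hc'
  rwa [← hc']

/-- invariant Hall subgroups of proper invariant subgroups -/
theorem exists_hall (h : Hyp q K A) (π : Set ℕ) {H : Subgroup X} (hH : H ≤ K) (hAH : A ≤ normalizer (H : Set X))
    (hs : Group.IsSolvable H) : ∃ T ≤ H, A ≤ normalizer (T : Set X) ∧ (∀ s : ℕ, s.Prime → s ∣ Nat.card T → s ∈ π) ∧
      (∀ U ≤ H, A ≤ normalizer (U : Set X) → (∀ s : ℕ, s.Prime → s ∣ Nat.card U → s ∈ π) → U ≤ T) ∧
      ∃ n, Nat.card H = Nat.card T * n ∧ (∀ s : ℕ, s.Prime → s ∣ n → s ∉ π) := by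
  obtain ⟨m, n, hmn, hm, hn⟩ := Cop.exists_pi_parts π (Nat.card H) Nat.card_pos.ne'
  have hcmn := Cop.coprime_of_pi hm hn
  obtain ⟨T, hTH, hT, hAT⟩ := Cop.exists_invariant_hall hAH (h.a_cop hH) hs hmn hcmn
  refine ⟨T, hTH, hAT, by rw [hT]; exact hm, ?_, n, by rw [hT]; exact hmn, hn⟩
  intro U hU hAU hUπ
  have hUn : (Nat.card U).Coprime n := Cop.coprime_of_pi hUπ hn
  obtain ⟨T', hT'H, hT', hAT', hUT'⟩ := Cop.exists_invariant_hall_ge hAH (h.a_cop hH) hs hmn hcmn hU hAU hUn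
  obtain ⟨c, hc, hc'⟩ := Cop.exists_centralizer_conj_hall hAH (h.a_cop hH) hs hmn hcmn hT'H hTH hT' hT hAT' hAT
  have hc1 : c ∈ K ⊓ centralizer (A : Set X) := ⟨hH hc.1, hc.2⟩
  rw [h.fix, Subgroup.mem_bot] at hc1
  rw [hc1, map_one, one_smul] at hc'
  rwa [← hc']

/-- Ward's theorem: Fitting height at most two -/
theorem fh2 (h : Hyp q K A) {H : Subgroup X} (hH : H ≤ K) (hAH : A ≤ normalizer (H : Set X))
    (hs : Group.IsSolvable H) : FH2 H := by
  classical
  let f : A →* MulAut H := ((Subgroup.normalizerMonoidHom H).comp (Subgroup.inclusion hAH))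
  have hfa : ∀ (a : A) (x : H), ((f a x : H) : X) = a * x * (a : X)⁻¹ := fun a x => rfl
  have hlcs : ∃ k l, ((⊤ : Subgroup H).lowerCentralSeries k).lowerCentralSeries l = ⊥ := by
    by_cases hf : Function.Injective f
    · apply Cfsg.Agent.S3796.ward_sd hs h.hq f.range
      · refine ⟨⟨⟨?_⟩⟩, ?_⟩
        · rintro ⟨_, x, rfl⟩ ⟨_, y, rfl⟩
          haveI := h.comm
          apply Subtype.ext
          change f x * f y = f y * f x
          rw [← map_mul, ← map_mul, mul_comm' x y]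
        · rintro _ ⟨x, rfl⟩
          have : x ^ q = 1 := Subtype.ext (h.toAHyp.pow x.2)
          rw [← map_pow, this, map_one]
      · rw [← h.card]
        exact (Nat.card_congr (MonoidHom.ofInjective hf).toEquiv).symm
      · intro g hg
        have h1 : (g : X) ∈ K ⊓ centralizer (A : Set X) := by
          refine ⟨hH g.2, ?_⟩
          change (g : X) ∈ centralizer (A : Set X)
          rw [mem_centralizer_iff]
          intro a ha
          have h2 : a * g * a⁻¹ = g := congrArg Subtype.val (hg (f ⟨a, ha⟩) ⟨_, rfl⟩)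
          rwa [mul_inv_eq_iff_eq_mul] at h2
        rw [h.fix] at h1
        exact Subtype.ext h1
    · rw [injective_iff_map_eq_one] at hf
      push Not at hf
      obtain ⟨a, ha, ha1⟩ := hf
      have hcen : ∀ x : H, (x : X) ∈ centralizer ({(a : X)} : Set X) := by
        intro x
        rw [mem_cen]
        have h2 : (a : X) * x * (a : X)⁻¹ = x := by rw [← hfa, ha]; rfl
        rw [mul_inv_eq_iff_eq_mul] at h2
        exact h2.symm
      refine ⟨1, 0, ?_⟩
      rw [Subgroup.lowerCentralSeries_zero, Subgroup.top_lowerCentralSeries_one]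
      rw [commutator_def, Subgroup.commutator_eq_bot_iff_le_centralizer]
      intro x _
      rw [mem_centralizer_iff]
      intro y _
      apply Subtype.ext
      exact h.ab a a.2 (fun h1 => ha1 (Subtype.ext h1)) _ (hH y.2) _ (hH x.2) (hcen y) (hcen x)
  obtain ⟨k, l, hkl⟩ := hlcs
  refine ⟨(⊤ : Subgroup H).lowerCentralSeries k, inferInstance, ?_, ?_⟩
  · exact (Subgroup.isNilpotent_iff_lowerCentralSeries _).2 ⟨l, hkl⟩
  · rw [Subgroup.nilpotent_iff_lowerCentralSeries]
    refine ⟨k, ?_⟩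
    have h1 := Subgroup.map_lowerCentralSeries (S := (⊤ : Subgroup H))
      (QuotientGroup.mk' ((⊤ : Subgroup H).lowerCentralSeries k)) k
    rw [← MonoidHom.range_eq_map, MonoidHom.range_eq_top.2 (QuotientGroup.mk'_surjective _)] at h1
    rw [← h1, Subgroup.map_eq_bot_iff, QuotientGroup.ker_mk']

end Hyp

end Cfsg.Agent.H32.SqAct
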