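import Mathlib
import Cfsg.Agent.H32.SqBase
import Cfsg.Agent.H30.Schmidt

/-!
Coprime action of a noncyclic group of order `q^2` with abelian centralizers: invariant `{p,r}`-subgroups.
-/

set_option autoImplicit false
set_option linter.all false

namespace Cfsg.Agent.H32.SqAct

open Subgroup
open scoped commutatorElement

universe u

variable {X : Type u} [Group X] [Finite X]

/-- invariant `{p,r}`-subgroups -/
structure PI (K A : Subgroup X) (p r : ℕ) (M : Subgroup X) : Prop where
  le : M ≤ K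
  inv : A ≤ normalizer (M : Set X)
  pr : PR p r M

/-- maximal invariant `{p,r}`-subgroups -/
structure MaxPI (K A : Subgroup X) (p r : ℕ) (M : Subgroup X) : Prop extends PI K A p r M where
  max : ∀ L, PI K A p r L → M ≤ L → L ≤ M

theorem PI.symm {K A : Subgroup X} {p r : ℕ} {M : Subgroup X} (h : PI K A p r M) : PI K A r p M :=
  ⟨h.le, h.inv, fun s hs hd => (h.pr s hs hd).symm⟩

theorem MaxPI.symm {K A : Subgroup X} {p r : ℕ} {M : Subgroup X} (h : MaxPI K A p r M) : MaxPI K A r p M :=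
  ⟨h.toPI.symm, fun L hL hML => h.max L hL.symm hML⟩

theorem PI.of_pgroup {K A : Subgroup X} {p r : ℕ} [hp : Fact p.Prime] {U : Subgroup X} (hU : U ≤ K)
    (hAU : A ≤ normalizer (U : Set X)) (h : IsPGroup p U) : PI K A p r U := by
  refine ⟨hU, hAU, fun s hs hd => Or.inl ?_⟩
  obtain ⟨k, hk⟩ := IsPGroup.iff_card.1 h
  rw [hk] at hd
  exact (Nat.prime_dvd_prime_iff_eq hs hp.out).1 (hs.dvd_of_dvd_pow hd)

theorem PR.mono {p r : ℕ} {U V : Subgroup X} (h : PR p r V) (hUV : U ≤ V) : PR p r U :=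
  fun s hs hd => h s hs (hd.trans (Subgroup.card_dvd_of_le hUV))

theorem solvable_of_pr {p r : ℕ} [hp : Fact p.Prime] [hr : Fact r.Prime] {G : Type u} [Group G] [Finite G]
    (h : PR p r G) : Group.IsSolvable G := by
  have h1 : ∃ a b : ℕ, Nat.card G = p ^ a * r ^ b := by
    have h0 : Nat.card G ≠ 0 := Nat.card_pos.ne'
    refine ⟨(Nat.card G).factorization p, (ordCompl[p] (Nat.card G)).factorization r, ?_⟩
    have h2 : IsPGroup r G ∨ True := Or.inr trivial
    have h3 : ordCompl[p] (Nat.card G) = r ^ (ordCompl[p] (Nat.card G)).primeFactorsList.length := by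
      apply Nat.eq_prime_pow_of_unique_prime_dvd (Nat.ordCompl_pos p h0).ne'
      intro d hd hdd
      rcases h d hd (hdd.trans (Nat.ordCompl_dvd _ _)) with rfl | rfl
      · exact absurd hdd (Nat.not_dvd_ordCompl hd h0)
      · rfl
    have h4 : (ordCompl[p] (Nat.card G)).factorization r = (ordCompl[p] (Nat.card G)).primeFactorsList.length := by
      conv_lhs => rw [h3]
      rw [hr.out.factorization_pow, Finsupp.single_eq_same]
    rw [h4, ← h3]
    exact (Nat.ordProj_mul_ordCompl_eq_self _ _).symm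
  obtain ⟨a, b, hab⟩ := h1
  exact Cfsg.Agent.S0144.result p r a b hp.out hr.out hab

theorem exists_max {K A : Subgroup X} {p r : ℕ} {U : Subgroup X} (hU : PI K A p r U) :
    ∃ M, MaxPI K A p r M ∧ U ≤ M := by
  obtain ⟨M, hUM, hM⟩ := (Set.toFinite {M : Subgroup X | PI K A p r M}).exists_le_maximal (a := U) hU
  exact ⟨M, ⟨hM.prop, fun L hL hML => hM.2 hL hML⟩, hUM⟩

/-- relative centre -/
def zc (H : Subgroup X) : Subgroup X := H ⊓ centralizer (H : Set X)

theorem zc_le (H : Subgroup X) : zc H ≤ H := inf_le_left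

theorem normalizer_zc (H : Subgroup X) : normalizer (H : Set X) ≤ normalizer (zc H : Set X) := fun g hg =>
  normalizer_inf hg (normalizer_centralizer hg)

theorem zc_ne_bot {p : ℕ} [hp : Fact p.Prime] {H : Subgroup X} (hH : IsPGroup p H) (hne : H ≠ ⊥) : zc H ≠ ⊥ := by
  haveI : Nontrivial H := (Subgroup.nontrivial_iff_ne_bot H).2 hne
  have h1 := hH.center_nontrivial
  intro h
  obtain ⟨z, hz⟩ := exists_ne (1 : center H)
  apply hz
  have h2 : ((z : H) : X) ∈ zc H := by
    refine ⟨(z : H).2, ?_⟩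
    change ((z : H) : X) ∈ centralizer (H : Set X)
    rw [mem_centralizer_iff]
    intro y hy
    exact congrArg Subtype.val (Subgroup.mem_center_iff.1 z.2 ⟨y, hy⟩)
  rw [h, Subgroup.mem_bot] at h2
  exact Subtype.ext (Subtype.ext h2)

namespace Hyp

variable {q : ℕ} {K A : Subgroup X} {p r : ℕ} [hp : Fact p.Prime] [hr : Fact r.Prime]

omit hp hr in
theorem ne_top_of_solvable (h : Hyp q K A) {Y : Subgroup X} (hY : Group.IsSolvable Y) : Y ≠ K := by
  rintro rfl; exact h.ns hY

omit hp hr in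
theorem norm_ne (h : Hyp q K A) {Y : Subgroup X} (hY : Y ≤ K) (hAY : A ≤ normalizer (Y : Set X)) (hne : Y ≠ ⊥)
    (hs : Group.IsSolvable Y) : K ⊓ normalizer (Y : Set X) ≠ K := by
  intro h1
  rcases h.chr Y hY (by rw [← h1]; exact inf_le_right) hAY with h2 | h2
  · exact hne h2
  · exact h.ne_top_of_solvable hs h2

omit hp hr in
theorem norm_sol (h : Hyp q K A) {Y : Subgroup X} (hY : Y ≤ K) (hAY : A ≤ normalizer (Y : Set X)) (hne : Y ≠ ⊥)
    (hs : Group.IsSolvable Y) : Group.IsSolvable ↥(K ⊓ normalizer (Y : Set X)) :=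
  h.sol _ inf_le_left (h.norm_ne hY hAY hne hs) (h.inv_norm hAY)

theorem le_of_normalizes (h : Hyp q K A) {M Y U : Subgroup X} (hM : MaxPI K A p r M) (hY : Y ≤ K)
    (hAY : A ≤ normalizer (Y : Set X)) (hne : Y ≠ ⊥) (hs : Group.IsSolvable Y) (hMY : M ≤ normalizer (Y : Set X))
    (hU : PI K A p r U) (hUY : U ≤ normalizer (Y : Set X)) : U ≤ M := by
  obtain ⟨T, hTN, hAT, hTπ, hmax, -⟩ := h.exists_hall {p, r} inf_le_left (h.inv_norm hAY) (h.norm_sol hY hAY hne hs)
  have hT : PI K A p r T := ⟨hTN.trans inf_le_left, hAT, hTπ⟩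
  have h1 := hmax M (le_inf hM.le hMY) hM.inv hM.pr
  have h2 := hM.max T hT h1
  exact (hmax U (le_inf hU.le hUY) hU.inv hU.pr).trans h2

/-- the uniqueness theorem for mixed maximal subgroups: half -/
theorem half (h : Hyp q K A) (hpr : p ≠ r) {M L : Subgroup X} (hM : MaxPI K A p r M)
    (hMp : co p M ≠ ⊥) (hMr : co r M ≠ ⊥) (hL : MaxPI K A p r L) (h1 : zc (co p M) ≤ L) (h2 : zc (co r M) ≤ L) :
    zc (co r M) ≤ co r L ∧ co p L ≤ M ∧ (co p M ≤ L → co r M ≤ L → co r M ≤ co r L) := by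
  have hLs : Group.IsSolvable L := solvable_of_pr hL.pr
  have key : ∀ Y V : Subgroup X, Y ≤ co p M → M ≤ normalizer (Y : Set X) → A ≤ normalizer (Y : Set X) → Y ≠ ⊥ →
      Y ≤ L → V ≤ co r M → M ≤ normalizer (V : Set X) → V ≤ L → V ≤ co r L := by
    intro Y V hY hMY hAY hne hYL hV hMV hVL
    have hYp : IsPGroup p Y := (co_p p M).to_le hY
    have hYs : Group.IsSolvable Y := haveI := hYp.isNilpotent; inferInstance
    have hYK : Y ≤ K := hYL.trans hL.le
    have hCM : L ⊓ centralizer (Y : Set X) ≤ M := by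
      apply h.le_of_normalizes hM hYK hAY hne hYs hMY
      · refine ⟨inf_le_left.trans hL.le, fun a ha => normalizer_inf (hL.inv ha) (normalizer_centralizer (hAY ha)),
          hL.pr.mono inf_le_left⟩
      · exact inf_le_right.trans (centralizer_le_normalizer _)
    apply le_co_of_centralizer hLs hL.pr hpr hYL hYp hVL ((co_p r M).to_le hV)
    · exact hV.trans ((co_comm hpr M).trans (centralizer_le hY))
    · exact hCM.trans hMV
  have hAco : ∀ s : ℕ, A ≤ normalizer (co s M : Set X) := fun s => hM.inv.trans (normalizer_co s M)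
  have e1 : zc (co r M) ≤ co r L := key (zc (co p M)) (zc (co r M)) (zc_le _)
      ((le_normalizer_co p M).trans (normalizer_zc _)) ((hAco p).trans (normalizer_zc _)) (zc_ne_bot (co_p p M) hMp) h1
      (zc_le _) ((le_normalizer_co r M).trans (normalizer_zc _)) h2
  refine ⟨e1, ?_, ?_⟩
  · apply h.le_of_normalizes hM (Y := zc (co r M)) ((zc_le _).trans ((co_le r M).trans hM.le))
      ((hAco r).trans (normalizer_zc _)) (zc_ne_bot (co_p r M) hMr) ?_ ((le_normalizer_co r M).trans (normalizer_zc _))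
    · exact ⟨(co_le p L).trans hL.le, hL.inv.trans (normalizer_co p L), hL.pr.mono (co_le p L)⟩
    · refine le_trans ?_ (centralizer_le_normalizer _)
      exact (co_comm hpr.symm L).trans (centralizer_le e1)
    · haveI := ((co_p r M).to_le (zc_le _)).isNilpotent
      infer_instance
  · intro h3 h4
    exact key (co p M) (co r M) le_rfl (le_normalizer_co p M) (hAco p) hMp h3 le_rfl (le_normalizer_co r M) h4

/-- the uniqueness theorem for mixed maximal subgroups -/
theorem uniq (h : Hyp q K A) (hpr : p ≠ r) {M L : Subgroup X} (hM : MaxPI K A p r M)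
    (hMp : co p M ≠ ⊥) (hMr : co r M ≠ ⊥) (hL : MaxPI K A p r L) (h1 : zc (co p M) ≤ L) (h2 : zc (co r M) ≤ L) :
    L ≤ M := by
  obtain ⟨a1, a2, a3⟩ := h.half hpr hM hMp hMr hL h1 h2
  obtain ⟨b1, b2, b3⟩ := h.half hpr.symm hM.symm hMr hMp hL.symm h2 h1
  -- `b1 : zc (co p M) ≤ co p L`, `b2 : co r L ≤ M`
  have hLp : co p L ≠ ⊥ := by
    intro h3
    rw [h3, le_bot_iff] at b1
    exact zc_ne_bot (co_p p M) hMp b1
  have hLr : co r L ≠ ⊥ := by
    intro h3
    rw [h3, le_bot_iff] at a1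
    exact zc_ne_bot (co_p r M) hMr a1
  obtain ⟨c1, c2, c3⟩ := h.half hpr hL hLp hLr hM ((zc_le _).trans a2) ((zc_le _).trans b2)
  obtain ⟨d1, d2, d3⟩ := h.half hpr.symm hL.symm hLr hLp hM.symm ((zc_le _).trans b2) ((zc_le _).trans a2)
  -- `c2 : co p M ≤ L`, `d2 : co r M ≤ L`
  have e1 := a3 c2 d2
  have e2 := b3 d2 c2
  have e3 := c3 a2 b2
  have e4 := d3 b2 a2
  have e5 : co p L = co p M := le_antisymm e4 e2
  apply h.le_of_normalizes hM (Y := co p M) ((co_le p M).trans hM.le) (hM.inv.trans (normalizer_co p M)) hMp ?_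
    (le_normalizer_co p M) hL.toPI
  · rw [← e5]; exact le_normalizer_co p L
  · haveI := (co_p p M).isNilpotent
    infer_instance

/-- centralizers of subgroups of `O_p(M)` for mixed `M` -/
theorem le_of_centralizes (h : Hyp q K A) (hpr : p ≠ r) {M Y U : Subgroup X} (hM : MaxPI K A p r M)
    (hMp : co p M ≠ ⊥) (hMr : co r M ≠ ⊥) (hY : Y ≤ co p M) (hAY : A ≤ normalizer (Y : Set X)) (hne : Y ≠ ⊥)
    (hU : PI K A p r U) (hUY : U ≤ centralizer (Y : Set X)) : U ≤ M := by
  have hYK : Y ≤ K := hY.trans ((co_le p M).trans hM.le)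
  have hYs : Group.IsSolvable Y := by
    haveI := ((co_p p M).to_le hY).isNilpotent
    infer_instance
  obtain ⟨T, hTN, hAT, hTπ, hmax, -⟩ := h.exists_hall {p, r} (H := K ⊓ centralizer (Y : Set X)) inf_le_left (h.inv_cen hAY)
    (Cop.isSolvable_of_le (inf_le_inf_left K (centralizer_le_normalizer _)) (h.norm_sol hYK hAY hne hYs))
  have hAco : ∀ s : ℕ, A ≤ normalizer (co s M : Set X) := fun s => hM.inv.trans (normalizer_co s M)
  have h1 : zc (co p M) ≤ T := by
    apply hmax
    · refine le_inf ((zc_le _).trans ((co_le p M).trans hM.le)) ?_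
      exact inf_le_right.trans (centralizer_le hY)
    · exact (hAco p).trans (normalizer_zc _)
    · exact (PI.of_pgroup (K := K) (A := A) (p := p) (r := r) ((zc_le _).trans ((co_le p M).trans hM.le))
        ((hAco p).trans (normalizer_zc _)) ((co_p p M).to_le (zc_le _))).pr
  have h2 : zc (co r M) ≤ T := by
    apply hmax
    · refine le_inf ((zc_le _).trans ((co_le r M).trans hM.le)) ?_
      exact (zc_le _).trans ((co_comm hpr M).trans (centralizer_le hY))
    · exact (hAco r).trans (normalizer_zc _)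
    · exact (PI.of_pgroup (K := K) (A := A) (p := r) (r := p) ((zc_le _).trans ((co_le r M).trans hM.le))
        ((hAco r).trans (normalizer_zc _)) ((co_p r M).to_le (zc_le _))).symm.pr
  obtain ⟨L, hL, hTL⟩ := exists_max (K := K) (A := A) (p := p) (r := r) ⟨hTN.trans inf_le_left, hAT, hTπ⟩
  have h3 := h.uniq hpr hM hMp hMr hL (h1.trans hTL) (h2.trans hTL)
  exact ((hmax U (le_inf hU.le hUY) hU.inv hU.pr).trans hTL).trans h3

/-- For mixed `M` every invariant `r`-subgroup is in `M`. -/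
theorem mixed (h : Hyp q K A) (hpr : p ≠ r) {M R : Subgroup X} (hM : MaxPI K A p r M)
    (hMp : co p M ≠ ⊥) (hMr : co r M ≠ ⊥) (hR : R ≤ K) (hAR : A ≤ normalizer (R : Set X)) (hRr : IsPGroup r R)
    (hmax : ∀ U ≤ K, A ≤ normalizer (U : Set X) → IsPGroup r U → U ≤ R) : R ≤ M := by
  have hAco : ∀ s : ℕ, A ≤ normalizer (co s M : Set X) := fun s => hM.inv.trans (normalizer_co s M)
  have hFr : co r M ≤ R := hmax _ ((co_le r M).trans hM.le) (hAco r) (co_p r M)
  have hMs : Group.IsSolvable M := solvable_of_pr hM.pr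
  -- pieces centralizing something in `F(M)`
  have hpc : ∀ a ∈ A, a ≠ 1 → co p M ⊓ centralizer {a} ≠ ⊥ ∨ co r M ⊓ centralizer {a} ≠ ⊥ → R ⊓ centralizer {a} ≤ M := by
    intro a ha ha1 hor
    have hU : PI K A r p (R ⊓ centralizer {a}) := PI.of_pgroup (inf_le_left.trans hR) (h.inv_inf hAR ha) (hRr.to_le inf_le_left)
    have hc : ∀ s : ℕ, R ⊓ centralizer {a} ≤ centralizer ((co s M ⊓ centralizer {a} : Subgroup X) : Set X) := by
      intro s x hx
      rw [mem_centralizer_iff]
      intro y hy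
      exact h.ab a ha ha1 y ((co_le s M).trans hM.le hy.1) x (hR hx.1) hy.2 hx.2
    rcases hor with h1 | h1
    · exact h.le_of_centralizes hpr hM hMp hMr inf_le_left (h.inv_inf (hAco p) ha) h1 hU.symm (hc p)
    · exact h.le_of_centralizes hpr.symm hM.symm hMr hMp inf_le_left (h.inv_inf (hAco r) ha) h1 hU (hc r)
  by_cases hall : ∀ a ∈ A, a ≠ 1 → co p M ⊓ centralizer {a} ≠ ⊥ ∨ co r M ⊓ centralizer {a} ≠ ⊥
  · exact h.gen hR hAR fun a ha ha1 => hpc a ha ha1 (hall a ha ha1)
  push Not at hall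
  obtain ⟨b, hb, hb1, hbp, hbr⟩ := hall
  set Mr := R ⊓ M with hMrd
  have hMrM : Mr ≤ M := inf_le_right
  have hMrR : Mr ≤ R := inf_le_left
  have hAMr : A ≤ normalizer (Mr : Set X) := fun a ha => normalizer_inf (hAR ha) (hM.inv ha)
  have hFMr : co r M ≤ Mr := le_inf hFr (co_le r M)
  have hMrr : IsPGroup r Mr := hRr.to_le hMrR
  haveI hRn : Group.IsNilpotent R := hRr.isNilpotent
  -- enough: the normalizer
  suffices hN : R ⊓ normalizer (Mr : Set X) ≤ M by
    by_contra hcon
    have hlt : Mr < R := lt_of_le_of_ne hMrR (fun h1 => hcon (h1 ▸ hMrM))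
    obtain ⟨x, hxR, hxM, hxn⟩ := H30.exists_mem_normalizer_of_lt hRn hlt
    exact hxM ⟨hxR, hN ⟨hxR, hxn⟩⟩
  have hNco : R ⊓ normalizer (Mr : Set X) ≤ normalizer (co r M : Set X) → R ⊓ normalizer (Mr : Set X) ≤ M := by
    intro h1
    refine h.le_of_normalizes hM ((co_le r M).trans hM.le) (hAco r) hMr (by
        haveI := (co_p r M).isNilpotent
        infer_instance) (le_normalizer_co r M) ?_ h1
    exact (PI.of_pgroup (p := r) (r := p) (inf_le_left.trans hR) (fun a ha => normalizer_inf (hAR ha) (le_normalizer (hAMr ha)))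
      (hRr.to_le inf_le_left)).symm
  apply hNco
  by_cases hcase : Mr ≤ co r M
  · rw [le_antisymm hcase hFMr]; exact inf_le_right
  have hcopM : ∀ Y : Subgroup X, IsPGroup r Y → (Nat.card Y).Coprime (Nat.card (co p M)) := by
    intro Y hY
    obtain ⟨k, hk⟩ := IsPGroup.iff_card.1 hY
    obtain ⟨l, hl⟩ := IsPGroup.iff_card.1 (co_p p M)
    rw [hk, hl]
    exact Nat.Coprime.pow _ _ ((Nat.coprime_primes hr.out hp.out).2 hpr.symm)
  have hfh : FH2 M := h.fh2 hM.le hM.inv hMs
  -- the pieces outside `⟨b⟩`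
  have hpiece : ∀ a ∈ A, a ≠ 1 → a ∉ zpowers b → Mr ⊓ centralizer {a} ≤ co r M := by
    intro a ha ha1 hab
    have h1 : Mr ⊓ centralizer {a} ≤ centralizer (co p M : Set X) := by
      refine h.fc (r := p) (R := co p M) (Y := Mr ⊓ centralizer {a}) ((co_le p M).trans hM.le) (hAco p) (co_p p M)
        (inf_le_left.trans (hMrM.trans hM.le)) (h.inv_inf hAMr ha) ?_ (hcopM _ (hMrr.to_le inf_le_left)) ha ha1 inf_le_right hb
        (fun h2 => hab (h.toAHyp.mem_symm ha hb hb1 ha1 h2)) ?_
      · exact inf_le_left.trans (hMrM.trans (le_normalizer_co p M))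
      · rw [hbp]; exact bot_le
    exact le_co_of_centralizes hfh hM.pr (inf_le_left.trans hMrM) (hMrr.to_le inf_le_left) h1
  set Yb := Mr ⊓ centralizer {b} with hYb
  have hcen : ∀ a ∈ A, a ≠ 1 → a ∈ zpowers b → (centralizer {a} : Subgroup X) = centralizer {b} := fun a ha ha1 hab =>
    h.toAHyp.centralizer_eq hb ha ha1 hb1 hab
  have hYbn : ¬ Yb ≤ centralizer (co p M : Set X) := by
    intro h1
    apply hcase
    have h2 := le_co_of_centralizes hfh hM.pr (inf_le_left.trans hMrM) (hMrr.to_le inf_le_left) h1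
    apply h.gen (hMrM.trans hM.le) hAMr
    intro a ha ha1
    by_cases hab : a ∈ zpowers b
    · rw [hcen a ha ha1 hab]; exact h2
    · exact hpiece a ha ha1 hab
  have hRa : ∀ a ∈ A, a ≠ 1 → a ∉ zpowers b → R ⊓ centralizer {a} ≤ co r M := by
    intro a ha ha1 hab
    have h1 : co p M ⊓ centralizer {a} ≠ ⊥ := by
      intro h2
      apply hYbn
      refine h.fc (r := p) (R := co p M) (Y := Yb) ((co_le p M).trans hM.le) (hAco p) (co_p p M)
        (inf_le_left.trans (hMrM.trans hM.le)) (h.inv_inf hAMr hb) ?_ (hcopM _ (hMrr.to_le inf_le_left)) hb hb1 inf_le_right ha hab ?_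
      · exact inf_le_left.trans (hMrM.trans (le_normalizer_co p M))
      · rw [h2]; exact bot_le
    have h3 := hpc a ha ha1 (Or.inl h1)
    refine le_trans ?_ (hpiece a ha ha1 hab)
    exact le_inf (le_inf inf_le_left h3) inf_le_right
  -- `O_r(M) = [Mr, b]`
  have hMrsup : Mr ≤ co r M ⊔ Yb := by
    apply h.gen (hMrM.trans hM.le) hAMr
    intro a ha ha1
    by_cases hab : a ∈ zpowers b
    · rw [hcen a ha ha1 hab]; exact le_sup_right
    · exact (hpiece a ha ha1 hab).trans le_sup_left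
  have hbn : zpowers b ≤ normalizer (Mr : Set X) := by rw [zpowers_le]; exact hAMr hb
  have e1 : ⁅Mr, zpowers b⁆ ≤ co r M := by
    rw [Subgroup.commutator_le]
    intro x hx c hc
    have hYn : Yb ≤ normalizer (co r M : Set X) := inf_le_left.trans (hMrM.trans (le_normalizer_co r M))
    obtain ⟨f, hf, y, hy, rfl⟩ := (H32.mem_sup_of_le_normalizer hYn).1 (hMrsup hx)
    have hcy : y * c = c * y := by
      have h1 : (y : X) ∈ centralizer (zpowers b : Set X) := by
        rw [SigF.centralizer_zpowers']; exact hy.2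
      exact (mem_centralizer_iff.1 h1 c hc).symm
    have e2 : ⁅f * y, c⁆ = f * (c * f⁻¹ * c⁻¹) := by
      rw [commutatorElement_def]
      calc f * y * c * (f * y)⁻¹ * c⁻¹ = f * (y * c) * y⁻¹ * f⁻¹ * c⁻¹ := by group
        _ = f * (c * y) * y⁻¹ * f⁻¹ * c⁻¹ := by rw [hcy]
        _ = f * (c * f⁻¹ * c⁻¹) := by group
    rw [e2]
    apply (co r M).mul_mem hf
    have hcA : c ∈ A := (zpowers_le.2 hb) hc
    exact (mem_normalizer_iff.1 (hAco r hcA) _).1 (inv_mem hf)
  have e2 : co r M ≤ ⁅Mr, zpowers b⁆ := by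
    have hbF : zpowers b ≤ normalizer (co r M : Set X) := by rw [zpowers_le]; exact hAco r hb
    have h1 := Cop.commutator_sup_centralizer (A := zpowers b) (K := co r M) hbF (by
      rw [Nat.card_zpowers, h.toAHyp.orderOf_eq hb hb1]
      exact h.q_cop ((co_le r M).trans hM.le)) (Or.inr (by
        haveI := (co_p r M).isNilpotent
        infer_instance))
    rw [SigF.centralizer_zpowers', hbr, sup_bot_eq] at h1
    rw [← h1]
    exact Subgroup.commutator_mono hFMr le_rfl
  have e3 : co r M = ⁅Mr, zpowers b⁆ := le_antisymm e2 e1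
  -- the generation of the normalizer
  apply h.gen (inf_le_left.trans hR) (fun a ha => normalizer_inf (hAR ha) (le_normalizer (hAMr ha)))
  intro a ha ha1
  by_cases hab : a ∈ zpowers b
  · rw [hcen a ha ha1 hab]
    intro x hx
    rw [e3]
    apply normalizer_commutator hx.1.2
    have h1 : (x : X) ∈ centralizer (zpowers b : Set X) := by
      rw [SigF.centralizer_zpowers']; exact hx.2
    exact centralizer_le_normalizer _ h1
  · have h1 : (R ⊓ normalizer (Mr : Set X)) ⊓ centralizer {a} ≤ R ⊓ centralizer {a} := inf_le_inf_right _ inf_le_left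
    exact (h1.trans (hRa a ha ha1 hab)).trans le_normalizer

end Hyp

end Cfsg.Agent.H32.SqAct
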