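import Mathlib
import Cfsg.Agent.H32.SqMix

/-!
Coprime action of a noncyclic group of order `q^2` with abelian centralizers: the non-mixed case.
-/

set_option autoImplicit false
set_option linter.all false

namespace Cfsg.Agent.H32.SqAct

open Subgroup
open scoped commutatorElement

universe u

variable {X : Type u} [Group X] [Finite X]

/-- The maximal invariant `p`-subgroup -/
structure MS (K A : Subgroup X) (p : ℕ) (P : Subgroup X) : Prop where
  le : P ≤ K
  inv : A ≤ normalizer (P : Set X)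
  isP : IsPGroup p P
  max : ∀ U ≤ K, A ≤ normalizer (U : Set X) → IsPGroup p U → U ≤ P

/-- The non-mixed configuration. -/
structure NM (K A : Subgroup X) (p r : ℕ) (P R M L : Subgroup X) : Prop where
  hM : MaxPI K A p r M
  hL : MaxPI K A p r L
  hP : MS K A p P
  hR : MS K A r R
  PM : P ≤ M
  RL : R ≤ L
  nPM : M ≤ normalizer (P : Set X)
  nRL : L ≤ normalizer (R : Set X)
  nR : ¬ R ≤ M
  nP : ¬ P ≤ L
  star : ∀ U, PI K A p r U → U ≤ M ∨ U ≤ L
  coM : co r M = ⊥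
  coL : co p L = ⊥

theorem NM.symm {K A : Subgroup X} {p r : ℕ} {P R M L : Subgroup X} (n : NM K A p r P R M L) :
    NM K A r p R P L M :=
  ⟨n.hL.symm, n.hM.symm, n.hR, n.hP, n.RL, n.PM, n.nRL, n.nPM, n.nP, n.nR,
    fun U hU => (n.star U hU.symm).symm, n.coL, n.coM⟩

theorem cop_of_pgroups {p r : ℕ} [hp : Fact p.Prime] [hr : Fact r.Prime] (hpr : p ≠ r) {Y Z : Subgroup X}
    (hY : IsPGroup r Y) (hZ : IsPGroup p Z) : (Nat.card Y).Coprime (Nat.card Z) := by
  obtain ⟨k, hk⟩ := IsPGroup.iff_card.1 hY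
  obtain ⟨l, hl⟩ := IsPGroup.iff_card.1 hZ
  rw [hk, hl]
  exact Nat.Coprime.pow _ _ ((Nat.coprime_primes hr.out hp.out).2 hpr.symm)

namespace Hyp

variable {q : ℕ} {K A : Subgroup X} {p r : ℕ} [hp : Fact p.Prime] [hr : Fact r.Prime]

theorem faith (h : Hyp q K A) {P R M L : Subgroup X} (n : NM K A p r P R M L) {Y : Subgroup X}
    (hYM : Y ≤ M) (hY : IsPGroup r Y) (hc : Y ≤ centralizer (P : Set X)) : Y = ⊥ := by
  rw [eq_bot_iff, ← n.coM]
  apply le_co_of_centralizes (h.fh2 n.hM.le n.hM.inv (solvable_of_pr n.hM.pr)) n.hM.pr hYM hY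
  apply hc.trans
  apply centralizer_le
  exact n.hP.max _ ((co_le p M).trans n.hM.le) (n.hM.inv.trans (normalizer_co p M)) (co_p p M)

/-- the killing lemma -/
theorem kill (h : Hyp q K A) (hpr : p ≠ r) {P R M L : Subgroup X} (n : NM K A p r P R M L) {Y : Subgroup X}
    (hYR : Y ≤ R) (hYM : Y ≤ M) (hAY : A ≤ normalizer (Y : Set X)) {a b : X} (ha : a ∈ A) (ha1 : a ≠ 1)
    (hYa : Y ≤ centralizer ({a} : Set X)) (hb : b ∈ A) (hab : b ∉ zpowers a)
    (hle : P ⊓ centralizer ({b} : Set X) ≤ centralizer (Y : Set X)) : Y = ⊥ := by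
  have hYr := n.hR.isP.to_le hYR
  apply h.faith n hYM hYr
  exact h.fc (r := p) n.hP.le n.hP.inv n.hP.isP (hYR.trans n.hR.le) hAY (hYM.trans n.nPM)
    (cop_of_pgroups hpr hYr n.hP.isP) ha ha1 hYa hb hab hle

omit hp hr in
theorem pieces (h : Hyp q K A) {P R : Subgroup X} (hP : P ≤ K) (hR : R ≤ K) {a : X} (ha : a ∈ A) (ha1 : a ≠ 1) :
    R ⊓ centralizer ({a} : Set X) ≤ centralizer ((P ⊓ centralizer ({a} : Set X) : Subgroup X) : Set X) := by
  intro x hx
  rw [mem_centralizer_iff]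
  intro y hy
  exact h.ab a ha ha1 y (hP hy.1) x (hR hx.1) hy.2 hx.2

theorem star_piece (h : Hyp q K A) {P R M L : Subgroup X} (n : NM K A p r P R M L) {a : X} (ha : a ∈ A) (ha1 : a ≠ 1) :
    R ⊓ centralizer ({a} : Set X) ≤ M ∨ P ⊓ centralizer ({a} : Set X) ≤ L := by
  have hU : PI K A p r ((P ⊓ centralizer ({a} : Set X)) ⊔ (R ⊓ centralizer ({a} : Set X))) := by
    refine ⟨sup_le (inf_le_left.trans n.hP.le) (inf_le_left.trans n.hR.le),
      fun b hb => normalizer_sup (h.inv_inf n.hP.inv ha hb) (h.inv_inf n.hR.inv ha hb), ?_⟩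
    intro s hs hd
    have h1 := H32.card_sup_mul_card_inf (N := P ⊓ centralizer ({a} : Set X)) (H := R ⊓ centralizer ({a} : Set X))
      ((h.pieces n.hP.le n.hR.le ha ha1).trans (centralizer_le_normalizer _))
    have h2 : s ∣ Nat.card ↥(P ⊓ centralizer ({a} : Set X)) * Nat.card ↥(R ⊓ centralizer ({a} : Set X)) := by
      rw [← h1]; exact hd.mul_right _
    rcases hs.dvd_mul.1 h2 with h3 | h3
    · exact (PI.of_pgroup (K := K) (A := A) (p := p) (r := r) (inf_le_left.trans n.hP.le) (h.inv_inf n.hP.inv ha)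
        (n.hP.isP.to_le inf_le_left)).pr s hs h3
    · exact (PI.of_pgroup (K := K) (A := A) (p := r) (r := p) (inf_le_left.trans n.hR.le) (h.inv_inf n.hR.inv ha)
        (n.hR.isP.to_le inf_le_left)).symm.pr s hs h3
  rcases n.star _ hU with h1 | h1
  · exact Or.inl (le_sup_right.trans h1)
  · exact Or.inr (le_sup_left.trans h1)

/-- Hall subgroup of a centralizer -/
theorem star_cen (h : Hyp q K A) {P R M L : Subgroup X} (n : NM K A p r P R M L) {Y : Subgroup X} (hY : Y ≤ P)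
    (hAY : A ≤ normalizer (Y : Set X)) (hne : Y ≠ ⊥) :
    (∀ U, PI K A p r U → U ≤ centralizer (Y : Set X) → U ≤ M) ∨
    (∀ U, PI K A p r U → U ≤ centralizer (Y : Set X) → U ≤ L) := by
  have hYs : Group.IsSolvable Y := by
    haveI := (n.hP.isP.to_le hY).isNilpotent
    infer_instance
  obtain ⟨T, hTN, hAT, hTπ, hmax, -⟩ := h.exists_hall {p, r} (H := K ⊓ centralizer (Y : Set X)) inf_le_left (h.inv_cen hAY)
    (Cop.isSolvable_of_le (inf_le_inf_left K (centralizer_le_normalizer _)) (h.norm_sol (hY.trans n.hP.le) hAY hne hYs))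
  rcases n.star T ⟨hTN.trans inf_le_left, hAT, hTπ⟩ with h1 | h1
  · left; intro U hU hUY; exact (hmax U (le_inf hU.le hUY) hU.inv hU.pr).trans h1
  · right; intro U hU hUY; exact (hmax U (le_inf hU.le hUY) hU.inv hU.pr).trans h1

theorem case1 (h : Hyp q K A) {P R M L : Subgroup X} (n : NM K A p r P R M L) {a : X} (ha : a ∈ A) (ha1 : a ≠ 1)
    (h1 : ¬ R ⊓ centralizer ({a} : Set X) ≤ M) (h2 : P ⊓ centralizer ({a} : Set X) ≠ ⊥) : zc P ≤ L := by
  rcases h.star_cen n inf_le_left (h.inv_inf n.hP.inv ha) h2 with h3 | h3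
  · exfalso
    apply h1
    apply h3 _ _ (h.pieces n.hP.le n.hR.le ha ha1)
    exact (PI.of_pgroup (inf_le_left.trans n.hR.le) (h.inv_inf n.hR.inv ha) (n.hR.isP.to_le inf_le_left)).symm
  · apply h3
    · exact PI.of_pgroup ((zc_le P).trans n.hP.le) (n.hP.inv.trans (normalizer_zc P)) (n.hP.isP.to_le (zc_le P))
    · exact inf_le_right.trans (centralizer_le inf_le_left)

theorem case2 (h : Hyp q K A) (hpr : p ≠ r) {P R M L : Subgroup X} (n : NM K A p r P R M L) (hz : zc P ≤ L) :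
    ∃ k ∈ A, k ≠ 1 ∧ ∀ b ∈ A, b ≠ 1 → b ∉ zpowers k → P ⊓ L ⊓ centralizer ({b} : Set X) = ⊥ ∧
      R ⊓ centralizer ({b} : Set X) ≠ ⊥ := by
  have hPne : P ≠ ⊥ := by intro h1; apply n.nP; rw [h1]; exact bot_le
  have hzne := zc_ne_bot n.hP.isP hPne
  have hzK := (zc_le P).trans n.hP.le
  have hzA := n.hP.inv.trans (normalizer_zc P)
  obtain ⟨k, hk, hk1, hkne⟩ : ∃ k ∈ A, k ≠ 1 ∧ zc P ⊓ centralizer ({k} : Set X) ≠ ⊥ := by
    by_contra hcon
    push Not at hcon
    apply hzne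
    rw [eq_bot_iff]
    exact h.gen hzK hzA fun a ha ha1 => (hcon a ha ha1).le
  set Zk := zc P ⊓ centralizer ({k} : Set X) with hZk
  have hZkP : Zk ≤ P := inf_le_left.trans (zc_le P)
  have hZkA : A ≤ normalizer (Zk : Set X) := h.inv_inf hzA hk
  have hcen : R ⊓ centralizer (Zk : Set X) ≤ M := by
    have hPc : P ≤ centralizer (Zk : Set X) := by
      have h1 : Zk ≤ centralizer (P : Set X) := inf_le_left.trans inf_le_right
      exact Subgroup.le_centralizer_iff.1 h1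
    rcases h.star_cen n hZkP hZkA hkne with h1 | h1
    · apply h1 _ _ inf_le_right
      exact (PI.of_pgroup (inf_le_left.trans n.hR.le) (fun a ha => normalizer_inf (n.hR.inv ha)
        (normalizer_centralizer (hZkA ha))) (n.hR.isP.to_le inf_le_left)).symm
    · exfalso
      apply n.nP
      exact h1 P (PI.of_pgroup n.hP.le n.hP.inv n.hP.isP) hPc
  -- `P ⊓ L` and `R ⊓ M` commute
  have hcomm : R ⊓ M ≤ centralizer ((P ⊓ L : Subgroup X) : Set X) := by
    rw [← Subgroup.commutator_eq_bot_iff_le_centralizer, eq_bot_iff]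
    have h1 : P ⊓ R = ⊥ := Cop.inf_eq_bot_of_coprime (cop_of_pgroups hpr.symm n.hP.isP n.hR.isP)
    rw [← h1]
    apply le_inf
    · rw [Subgroup.commutator_comm]
      refine le_trans (Subgroup.commutator_mono inf_le_left inf_le_right) ?_ 
      exact Subgroup.le_normalizer_iff_commutator_le_left.1 n.nPM
    · refine le_trans (Subgroup.commutator_mono inf_le_left inf_le_right) ?_ 
      exact Subgroup.le_normalizer_iff_commutator_le_left.1 n.nRL
  refine ⟨k, hk, hk1, fun b hb hb1 hkb => ⟨?_, ?_⟩⟩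
  · have hPLA : A ≤ normalizer ((P ⊓ L : Subgroup X) : Set X) := fun a ha => normalizer_inf (n.hP.inv ha) (n.hL.inv ha)
    apply h.kill hpr.symm n.symm (inf_le_left.trans inf_le_left) (inf_le_left.trans inf_le_right) (h.inv_inf hPLA hb)
      hb hb1 inf_le_right hk (fun h1 => hkb (h.toAHyp.mem_symm hb hk hk1 hb1 h1))
    have h1 : R ⊓ centralizer ({k} : Set X) ≤ centralizer (Zk : Set X) :=
      (h.pieces n.hP.le n.hR.le hk hk1).trans (centralizer_le (inf_le_inf_right _ (zc_le P)))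
    refine le_trans (le_inf inf_le_left ((le_inf inf_le_left h1).trans hcen)) (hcomm.trans (centralizer_le inf_le_left))
  · intro h1
    apply hkne
    apply h.kill hpr.symm n.symm hZkP (inf_le_left.trans hz) hZkA hk hk1 inf_le_right hb hkb
    rw [h1]; exact bot_le

theorem final2 (h : Hyp q K A) (hpr : p ≠ r) {P R M L : Subgroup X} (n : NM K A p r P R M L) (hz : zc P ≤ L)
    (hz' : zc R ≤ M) : False := by
  obtain ⟨k, hk, hk1, H1⟩ := h.case2 hpr n hz
  obtain ⟨l, hl, hl1, H2⟩ := h.case2 hpr.symm n.symm hz'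
  obtain ⟨b, hb, hb1, hbk, hbl⟩ := h.toAHyp.exists_third hk hk1 hl hl1
  rcases h.star_piece n hb hb1 with h1 | h1
  · apply (H1 b hb hb1 hbk).2
    rw [eq_bot_iff, ← (H2 b hb hb1 hbl).1]
    exact le_inf (le_inf inf_le_left h1) inf_le_right
  · apply (H2 b hb hb1 hbl).2
    rw [eq_bot_iff, ← (H1 b hb hb1 hbk).1]
    exact le_inf (le_inf inf_le_left h1) inf_le_right

omit hp hr in
theorem exists_I (h : Hyp q K A) {P R M L : Subgroup X} (n : NM K A p r P R M L) :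
    ∃ a ∈ A, a ≠ 1 ∧ ¬ R ⊓ centralizer ({a} : Set X) ≤ M := by
  by_contra hcon
  push Not at hcon
  exact n.nR (h.gen n.hR.le n.hR.inv hcon)

/-- the condition `(C)` -/
def CC (A P : Subgroup X) : Prop := ∃ m ∈ A, m ≠ 1 ∧ ∀ b ∈ A, b ≠ 1 → b ∉ zpowers m → P ⊓ centralizer ({b} : Set X) ≠ ⊥

theorem case3a (h : Hyp q K A) (hpr : p ≠ r) {P R M L : Subgroup X} (n : NM K A p r P R M L)
    (hI : ∀ a ∈ A, a ≠ 1 → ¬ R ⊓ centralizer ({a} : Set X) ≤ M → P ⊓ centralizer ({a} : Set X) = ⊥)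
    (hC : CC A P) : ∃ m ∈ A, m ≠ 1 ∧ R ≤ centralizer ({m} : Set X) ∧
      ∀ b ∈ A, b ≠ 1 → b ∉ zpowers m → R ⊓ centralizer ({b} : Set X) = ⊥ := by
  obtain ⟨a, ha, ha1, haI⟩ := h.exists_I n
  obtain ⟨m, hm, hm1, hmC⟩ := hC
  have ham : a ∈ zpowers m := by
    by_contra h1
    exact hmC a ha ha1 h1 (hI a ha ha1 haI)
  have key : ∀ b ∈ A, b ≠ 1 → b ∉ zpowers m → R ⊓ centralizer ({b} : Set X) = ⊥ := by
    intro b hb hb1 hbm
    have h1 : R ⊓ centralizer ({b} : Set X) ≤ M := by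
      by_contra h2
      exact hmC b hb hb1 hbm (hI b hb hb1 h2)
    apply h.kill hpr n inf_le_left h1 (h.inv_inf n.hR.inv hb) hb hb1 inf_le_right ha
    · intro h2
      apply hbm
      have h3 := h.toAHyp.mem_symm hb ha ha1 hb1 h2
      exact (zpowers_le.2 ham) h3
    · rw [hI a ha ha1 haI]; exact bot_le
  refine ⟨m, hm, hm1, ?_, key⟩
  apply h.gen n.hR.le n.hR.inv
  intro b hb hb1
  by_cases hbm : b ∈ zpowers m
  · rw [h.toAHyp.centralizer_eq hm hb hb1 hm1 hbm]; exact inf_le_right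
  · rw [key b hb hb1 hbm]; exact bot_le

theorem case3b (h : Hyp q K A) (hpr : p ≠ r) {P R M L : Subgroup X} (n : NM K A p r P R M L)
    (hI : ∀ a ∈ A, a ≠ 1 → ¬ R ⊓ centralizer ({a} : Set X) ≤ M → P ⊓ centralizer ({a} : Set X) = ⊥)
    (hC : CC A R) : ∃ m ∈ A, m ≠ 1 ∧ P ≤ centralizer ({m} : Set X) := by
  obtain ⟨a, ha, ha1, haI⟩ := h.exists_I n
  obtain ⟨m, hm, hm1, hmC⟩ := hC
  refine ⟨m, hm, hm1, ?_⟩
  apply h.gen n.hP.le n.hP.inv
  intro b hb hb1
  by_cases hba : b ∈ zpowers a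
  · rw [h.toAHyp.centralizer_eq ha hb hb1 ha1 hba, hI a ha ha1 haI]; exact bot_le
  by_cases hbI : R ⊓ centralizer ({b} : Set X) ≤ M
  · have h1 : R ⊓ centralizer ({b} : Set X) = ⊥ := by
      apply h.kill hpr n inf_le_left hbI (h.inv_inf n.hR.inv hb) hb hb1 inf_le_right ha
      · intro h2; exact hba (h.toAHyp.mem_symm hb ha ha1 hb1 h2)
      · rw [hI a ha ha1 haI]; exact bot_le
    have h2 : b ∈ zpowers m := by
      by_contra h3
      exact hmC b hb hb1 h3 h1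
    rw [h.toAHyp.centralizer_eq hm hb hb1 hm1 h2]; exact inf_le_right
  · rw [hI b hb hb1 hbI]; exact bot_le

omit hp hr in
theorem comm_of_le (h : Hyp q K A) {P : Subgroup X} (hP : P ≤ K) {m : X} (hm : m ∈ A) (hm1 : m ≠ 1)
    (hc : P ≤ centralizer ({m} : Set X)) : ∀ x ∈ P, ∀ y ∈ P, x * y = y * x := fun x hx y hy =>
  h.ab m hm hm1 x (hP hx) y (hP hy) (hc hx) (hc hy)

theorem final3 (h : Hyp q K A) (hpr : p ≠ r) {P R M L : Subgroup X} (n : NM K A p r P R M L)
    (hCP : (p ≠ 2 ∨ ∀ x ∈ P, ∀ y ∈ P, x * y = y * x) → CC A P)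
    (hCR : (r ≠ 2 ∨ ∀ x ∈ R, ∀ y ∈ R, x * y = y * x) → CC A R)
    (hI : ∀ a ∈ A, a ≠ 1 → ¬ R ⊓ centralizer ({a} : Set X) ≤ M → P ⊓ centralizer ({a} : Set X) = ⊥) : False := by
  have key : CC A P → False := by
    intro hC
    obtain ⟨m, hm, hm1, hRm, hmR⟩ := h.case3a hpr n hI hC
    obtain ⟨m', hm', hm'1, hR'⟩ := hCR (Or.inr (h.comm_of_le n.hR.le hm hm1 hRm))
    obtain ⟨b, hb, hb1, hbm, hbm'⟩ := h.toAHyp.exists_third hm hm1 hm' hm'1
    exact hR' b hb hb1 hbm' (hmR b hb hb1 hbm)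
  by_cases hr2 : r = 2
  · exact key (hCP (Or.inl (by rintro rfl; exact hpr hr2.symm)))
  · obtain ⟨m, hm, hm1, hPm⟩ := h.case3b hpr n hI (hCR (Or.inl hr2))
    exact key (hCP (Or.inr (h.comm_of_le n.hP.le hm hm1 hPm)))

theorem final (h : Hyp q K A) (hpr : p ≠ r) {P R M L : Subgroup X} (n : NM K A p r P R M L)
    (hCP : (p ≠ 2 ∨ ∀ x ∈ P, ∀ y ∈ P, x * y = y * x) → CC A P)
    (hCR : (r ≠ 2 ∨ ∀ x ∈ R, ∀ y ∈ R, x * y = y * x) → CC A R) : False := by
  by_cases hI : ∀ a ∈ A, a ≠ 1 → ¬ R ⊓ centralizer ({a} : Set X) ≤ M → P ⊓ centralizer ({a} : Set X) = ⊥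
  · exact h.final3 hpr n hCP hCR hI
  by_cases hI' : ∀ a ∈ A, a ≠ 1 → ¬ P ⊓ centralizer ({a} : Set X) ≤ L → R ⊓ centralizer ({a} : Set X) = ⊥
  · exact h.final3 hpr.symm n.symm hCR hCP hI'
  push Not at hI hI'
  obtain ⟨a, ha, ha1, h1, h2⟩ := hI
  obtain ⟨b, hb, hb1, h3, h4⟩ := hI'
  exact h.final2 hpr n (h.case1 n ha ha1 h1 h2) (h.case1 n.symm hb hb1 h3 h4)

/-- maximal subgroups with `O_r = 1` -/
theorem le_of_co_eq_bot (h : Hyp q K A) (hpr : p ≠ r) {P H : Subgroup X} (hP : MS K A p P) (hH : MaxPI K A p r H)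
    (hHne : H ≠ ⊥) (hco : co r H = ⊥) : P ≤ H ∧ H ≤ normalizer (P : Set X) := by
  have hHs : Group.IsSolvable H := solvable_of_pr hH.pr
  have hAs : Group.IsSolvable A := by
    haveI := h.comm
    exact Group.isSolvable_of_comm (fun a b => mul_comm' a b)
  obtain ⟨S, hAS⟩ := Cop.exists_invariant_sylow hH.inv (h.a_cop hH.le) (Or.inl hAs) p
  set S' := (S : Subgroup H).map H.subtype with hS'
  have hS'H : S' ≤ H := Subgroup.map_subtype_le _
  have hS'P : S' ≤ P := hP.max _ (hS'H.trans hH.le) hAS (S.2.map _)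
  obtain ⟨D, hDH, hHD, hDp, hHDS⟩ := le_normalizer_sup (h.fh2 hH.le hH.inv hHs) p hS'H (by
    rw [hS', Subgroup.card_map_of_injective H.subtype_injective, Sylow.card_eq_multiplicity])
  have hDr : IsPGroup r D := by
    rw [IsPGroup.iff_card]
    refine ⟨_, Nat.eq_prime_pow_of_unique_prime_dvd Nat.card_pos.ne' fun {d} hd hdd => ?_⟩
    rcases hH.pr d hd (hdd.trans (Subgroup.card_dvd_of_le hDH)) with rfl | rfl
    · exact absurd (Nat.Coprime.coprime_dvd_left hdd hDp) (fun h1 => hd.one_lt.ne' ((Nat.coprime_self _).1 h1))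
    · rfl
  have hDbot : D = ⊥ := by
    rw [eq_bot_iff, ← hco]
    exact le_co hDH hHD hDr
  rw [hDbot, bot_sup_eq] at hHDS
  have hS'ne : S' ≠ ⊥ := by
    intro h1
    -- then `H` is an `r`-group
    have h2 : IsPGroup r H := by
      rw [IsPGroup.iff_card]
      refine ⟨_, Nat.eq_prime_pow_of_unique_prime_dvd Nat.card_pos.ne' fun {d} hd hdd => ?_⟩
      rcases hH.pr d hd hdd with rfl | rfl
      · exfalso
        have h3 := S.dvd_card_of_dvd_card hdd
        have h4 : (S : Subgroup H) = ⊥ := (Subgroup.map_eq_bot_iff_of_injective _ H.subtype_injective).1 h1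
        rw [h4, Subgroup.card_bot] at h3
        exact hd.one_lt.ne' (Nat.dvd_one.1 h3)
      · rfl
    apply hHne
    rw [eq_bot_iff, ← hco]
    exact le_co le_rfl le_normalizer h2
  have hS's : Group.IsSolvable S' := by
    haveI := (S.2.map H.subtype).isNilpotent
    infer_instance
  have hPS : P ≤ S' := by
    by_contra hcon
    have hlt : S' < P := lt_of_le_of_ne hS'P (fun h1 => hcon h1.ge)
    obtain ⟨x, hxP, hxS, hxn⟩ := H30.exists_mem_normalizer_of_lt hP.isP.isNilpotent hlt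
    have h1 : P ⊓ normalizer (S' : Set X) ≤ H := by
      refine h.le_of_normalizes hH (hS'H.trans hH.le) hAS hS'ne hS's hHDS ?_ inf_le_right
      exact PI.of_pgroup (inf_le_left.trans hP.le) (fun a ha => normalizer_inf (hP.inv ha) (le_normalizer (hAS ha)))
        (hP.isP.to_le inf_le_left)
    -- `P ⊓ N(S')` is a `p`-subgroup of `H` containing the Sylow subgroup `S'`
    have h2 : IsPGroup p ((P ⊓ normalizer (S' : Set X)).subgroupOf H) := (hP.isP.to_le inf_le_left).comap_subtype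
    have h3 : (S : Subgroup H) ≤ (P ⊓ normalizer (S' : Set X)).subgroupOf H := by
      intro y hy
      have h4 : (y : X) ∈ S' := ⟨y, hy, rfl⟩
      exact ⟨hS'P h4, le_normalizer h4⟩
    have h5 := S.3 h2 h3
    apply hxS
    have h6 : (⟨x, h1 ⟨hxP, hxn⟩⟩ : H) ∈ (P ⊓ normalizer (S' : Set X)).subgroupOf H := ⟨hxP, hxn⟩
    rw [h5] at h6
    exact ⟨_, h6, rfl⟩
  have e : S' = P := le_antisymm hS'P hPS
  rw [← e]
  exact ⟨hS'H, hHDS⟩

/-- For any two primes there is an invariant `{p,r}`-subgroup containing both Sylow subgroups. -/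
theorem pair (h : Hyp q K A) (hpr : p ≠ r) {P R : Subgroup X} (hP : MS K A p P) (hR : MS K A r R)
    (hCP : P ≠ ⊥ → (p ≠ 2 ∨ ∀ x ∈ P, ∀ y ∈ P, x * y = y * x) → CC A P)
    (hCR : R ≠ ⊥ → (r ≠ 2 ∨ ∀ x ∈ R, ∀ y ∈ R, x * y = y * x) → CC A R) :
    ∃ M, PI K A p r M ∧ P ≤ M ∧ R ≤ M := by
  have hPI : PI K A p r P := PI.of_pgroup hP.le hP.inv hP.isP
  have hRI : PI K A p r R := (PI.of_pgroup hR.le hR.inv hR.isP).symm
  by_contra hcon
  have hno : ∀ M, PI K A p r M → P ≤ M → R ≤ M → False := fun M h1 h2 h3 => hcon ⟨M, h1, h2, h3⟩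
  have hPne : P ≠ ⊥ := by rintro rfl; exact hno R hRI bot_le le_rfl
  have hRne : R ≠ ⊥ := by rintro rfl; exact hno P hPI le_rfl bot_le
  -- no mixed maximal subgroups
  have hmix : ∀ H, MaxPI K A p r H → co p H ≠ ⊥ → co r H ≠ ⊥ → False := fun H hH h1 h2 =>
    hno H hH.toPI (h.mixed hpr.symm hH.symm h2 h1 hP.le hP.inv hP.isP hP.max)
      (h.mixed hpr hH h1 h2 hR.le hR.inv hR.isP hR.max)
  have hMne : ∀ H, MaxPI K A p r H → H ≠ ⊥ := by
    intro H hH h1
    apply hPne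
    have := hH.max P hPI (by rw [h1]; exact bot_le)
    rwa [h1, le_bot_iff] at this
  obtain ⟨M, hM, hPM⟩ := exists_max hPI
  obtain ⟨L, hL, hRL⟩ := exists_max hRI
  have hRM : ¬ R ≤ M := fun h1 => hno M hM.toPI hPM h1
  have hPL : ¬ P ≤ L := fun h1 => hno L hL.toPI h1 hRL
  have hcoM : co r M = ⊥ := by
    by_contra h1
    have h2 : co p M = ⊥ := by
      by_contra h3
      exact hmix M hM h3 h1
    exact hRM (h.le_of_co_eq_bot hpr.symm hR hM.symm (hMne M hM) h2).1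
  have hcoL : co p L = ⊥ := by
    by_contra h1
    have h2 : co r L = ⊥ := by
      by_contra h3
      exact hmix L hL h1 h3
    exact hPL (h.le_of_co_eq_bot hpr hP hL (hMne L hL) h2).1
  obtain ⟨-, hMP⟩ := h.le_of_co_eq_bot hpr hP hM (hMne M hM) hcoM
  obtain ⟨-, hLR⟩ := h.le_of_co_eq_bot hpr.symm hR hL.symm (hMne L hL) hcoL
  have hPs : Group.IsSolvable P := by
    haveI := hP.isP.isNilpotent
    infer_instance
  have hRs : Group.IsSolvable R := by
    haveI := hR.isP.isNilpotent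
    infer_instance
  have n : NM K A p r P R M L := by
    refine ⟨hM, hL, hP, hR, hPM, hRL, hMP, hLR, hRM, hPL, ?_, hcoM, hcoL⟩
    intro U hU
    obtain ⟨H, hH, hUH⟩ := exists_max hU
    by_cases h1 : co r H = ⊥
    · left
      obtain ⟨-, h2⟩ := h.le_of_co_eq_bot hpr hP hH (hMne H hH) h1
      exact hUH.trans (h.le_of_normalizes hM hP.le hP.inv hPne hPs hMP hH.toPI h2)
    · right
      have h3 : co p H = ⊥ := by
        by_contra h4
        exact hmix H hH h4 h1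
      obtain ⟨-, h2⟩ := h.le_of_co_eq_bot hpr.symm hR hH.symm (hMne H hH) h3
      exact hUH.trans (h.le_of_normalizes hL hR.le hR.inv hRne hRs hLR hH.toPI h2)
  exact h.final hpr n (hCP hPne) (hCR hRne)

end Hyp

end Cfsg.Agent.H32.SqAct
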