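import Mathlib
import Cfsg.Agent.H32.SqNon
import Cfsg.Agent.ZJ.NPCThm
import Cfsg.Agent.ZJ.TheoremE
import Cfsg.Agent.S0117
import Cfsg.Agent.S0006
import Cfsg.Agent.H34.Thompson
import Cfsg.Agent.H30.SylSys
import Cfsg.Agent.H30.Permute

/-!
Coprime action of a noncyclic group of order `q^2` with abelian centralizers: normal complements and the end.
-/

set_option autoImplicit false
set_option linter.all false

namespace Cfsg.Agent.H32.SqAct

open Subgroup
open scoped commutatorElement Pointwise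

universe u

section

variable {X : Type u} [Group X]

theorem centerThompsonOf_map_equiv {Y : Type u} [Group Y] (p : ℕ) (e : X ≃* Y) (P : Subgroup X) :
    (Cfsg.centerThompsonOf p P).map e.toMonoidHom = Cfsg.centerThompsonOf p (P.map e.toMonoidHom) := by
  have h1 := H34.thompsonSubgroupOf_map p e.toMonoidHom P
    (fun x _ hx => e.injective (by rw [map_one]; exact hx))
  unfold Cfsg.centerThompsonOf
  rw [Subgroup.map_inf _ _ _ e.injective, ← h1]
  congr 1
  ext y
  constructor
  · rintro ⟨x, hx, rfl⟩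
    rw [Subgroup.mem_centralizer_iff]
    rintro _ ⟨z, hz, rfl⟩
    change e z * e x = e x * e z
    rw [← map_mul, Subgroup.mem_centralizer_iff.1 hx z hz, map_mul]
  · intro hy
    refine ⟨e.symm y, ?_, e.apply_symm_apply y⟩
    rw [SetLike.mem_coe, Subgroup.mem_centralizer_iff]
    intro z hz
    apply e.injective
    have := Subgroup.mem_centralizer_iff.1 hy (e z) ⟨z, hz, rfl⟩
    rw [map_mul, map_mul, e.apply_symm_apply]
    exact this

/-- naturality for elements normalizing `K` and `P ≤ K`. -/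
theorem le_normalizer_ZJ {K A : Subgroup X} [hK : K.Normal] {p : ℕ} {P : Subgroup K}
    (hP : A ≤ normalizer ((P.map K.subtype : Subgroup X) : Set X)) :
    A ≤ normalizer (((Cfsg.centerThompsonOf p P : Subgroup K).map K.subtype : Subgroup X) : Set X) := by
  intro a ha
  have hcomm : ∀ Q : Subgroup K, (Q.map (MulAut.conjNormal a : MulAut K).toMonoidHom).map K.subtype =
      (Q.map K.subtype).map (MulAut.conj a).toMonoidHom := by
    intro Q
    rw [Subgroup.map_map, Subgroup.map_map]
    congr 1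
  have hmem : ∀ Q : Subgroup K, a ∈ normalizer ((Q.map K.subtype : Subgroup X) : Set X) ↔
      Q.map (MulAut.conjNormal a : MulAut K).toMonoidHom = Q := by
    intro Q
    constructor
    · intro h
      apply Subgroup.map_injective K.subtype_injective
      rw [hcomm]
      exact Cop.conj_smul_eq_of_mem_normalizer h
    · intro h
      apply Cop.mem_normalizer_of_conj_smul_eq
      have h2 := hcomm Q
      rw [h] at h2
      exact h2.symm
  rw [hmem]
  have h1 := (hmem P).1 (hP ha)
  rw [centerThompsonOf_map_equiv, h1]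

end

variable {X : Type u} [Group X] [Finite X]

theorem ZJ_ne_bot {p : ℕ} [Fact p.Prime] {P : Subgroup X} (hP : IsPGroup p P) (hne : P ≠ ⊥) :
    Cfsg.centerThompsonOf p P ≠ ⊥ := by
  rw [← ZJ.rel_zje]
  intro h
  have : Nontrivial P := (Subgroup.nontrivial_iff_ne_bot _).2 hne
  exact ZJ.zje_ne_bot P hP this ((Subgroup.map_eq_bot_iff_of_injective _ P.subtype_injective).1 h)

/-- relative normal `p`-complement -/
theorem hasNPC_of_rel {p : ℕ} [hp : Fact p.Prime] {H E P : Subgroup X} (hE : E ≤ H) (hn : H ≤ normalizer (E : Set X))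
    (hcop : (Nat.card E).Coprime p) (hP : IsPGroup p P) (hPH : P ≤ H) (hH : H ≤ E ⊔ P) :
    Cfsg.HasNormalPComplement p H := by
  rw [Transfer.hasNPC_iff_exists]
  refine ⟨E.subgroupOf H, (Subgroup.normal_subgroupOf_iff_le_normalizer hE).2 hn, ?_, ?_⟩
  · rw [Nat.card_congr (Subgroup.subgroupOfEquivOfLe hE).toEquiv]; exact hcop
  · have h1 : (E.subgroupOf H).index = E.relIndex P := by
      change E.relIndex H = _
      have h2 : H = E ⊔ P := le_antisymm hH (sup_le hE hPH)
      rw [h2]
      exact H32.relIndex_sup_of_le_normalizer (hPH.trans hn)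
    obtain ⟨k, hk⟩ := IsPGroup.iff_card.1 hP
    have h3 : E.relIndex P ∣ p ^ k := hk ▸ Subgroup.relIndex_dvd_card _ _
    obtain ⟨j, -, hj⟩ := (Nat.dvd_prime_pow hp.out).1 h3
    exact ⟨j, by rw [h1, hj]⟩

namespace Hyp

variable {q : ℕ} {K A : Subgroup X} {p : ℕ} [hp : Fact p.Prime]

theorem no_npc (h : Hyp q K A) (hpK : p ∣ Nat.card K) : ¬ Cfsg.HasNormalPComplement p K := by
  intro hn
  obtain ⟨N, hN, hNc, k, hk⟩ := Transfer.hasNPC_iff_exists.1 hn
  have hN1 : N ≤ Cfsg.pPrimeCore p K := Solv.le_pPrimeCore hN hNc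
  haveI := h.normal
  rcases h.chr ((Cfsg.pPrimeCore p K).map K.subtype) (Subgroup.map_subtype_le _) le_normalizer_of_normal
    le_normalizer_of_normal with h1 | h1
  · have h2 : N = ⊥ := by
      rw [eq_bot_iff, ← (Subgroup.map_eq_bot_iff_of_injective _ K.subtype_injective).1 h1]
      exact hN1
    rw [h2, Subgroup.index_bot] at hk
    apply h.ns
    haveI : Group.IsNilpotent K := (IsPGroup.of_card hk).isNilpotent
    infer_instance
  · have h2 := Solv.pPrimeCore_card_coprime (G := K) p
    rw [← Subgroup.card_map_of_injective K.subtype_injective, h1] at h2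
    exact (Nat.Prime.coprime_iff_not_dvd hp.out).1 h2.symm hpK

theorem cc (h : Hyp q K A) (P : Sylow p K) (hMS : MS K A p ((P : Subgroup K).map K.subtype))
    (hne : (P : Subgroup K).map K.subtype ≠ ⊥)
    (hP2 : p ≠ 2 ∨ ∀ x ∈ (P : Subgroup K).map K.subtype, ∀ y ∈ (P : Subgroup K).map K.subtype, x * y = y * x) :
    CC A ((P : Subgroup K).map K.subtype) := by
  haveI := h.normal
  set P' := (P : Subgroup K).map K.subtype with hP'
  have hpK : p ∣ Nat.card K := by
    by_contra h1
    apply hne
    have h2 : Nat.card P' = 1 := by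
      rw [hP', Subgroup.card_map_of_injective K.subtype_injective, Sylow.card_eq_multiplicity,
        Nat.factorization_eq_zero_of_not_dvd h1, pow_zero]
    exact Subgroup.card_eq_one.1 h2
  have hcardP : Nat.card P' = p ^ (Nat.card K).factorization p := by
    rw [hP', Subgroup.card_map_of_injective K.subtype_injective, Sylow.card_eq_multiplicity]
  by_contra hcon
  have hall : ∀ m ∈ A, m ≠ 1 → ∃ b ∈ A, b ≠ 1 ∧ b ∉ zpowers m ∧ P' ⊓ centralizer ({b} : Set X) = ⊥ := by
    intro m hm hm1
    by_contra h1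
    push Not at h1
    exact hcon ⟨m, hm, hm1, h1⟩
  have hPs : Group.IsSolvable P' := by
    haveI := hMS.isP.isNilpotent
    infer_instance
  set N := K ⊓ normalizer (P' : Set X) with hN
  have hNs := h.norm_sol hMS.le hMS.inv hne hPs
  obtain ⟨T, hTN, hAT, hTπ, hTmax, n, hn, hnπ⟩ := h.exists_hall {s | s ≠ p} (H := N) inf_le_left (h.inv_norm hMS.inv) hNs
  have hTp : (Nat.card T).Coprime p := by
    rw [Nat.coprime_comm, Nat.Prime.coprime_iff_not_dvd hp.out]
    intro h1
    exact hTπ p hp.out h1 rfl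
  have hTP : (Nat.card T).Coprime (Nat.card P') := by
    rw [hcardP]; exact Nat.Coprime.pow_right _ hTp
  have hTK : T ≤ K := hTN.trans inf_le_left
  have hTc : T ≤ centralizer (P' : Set X) := by
    apply h.gen hTK hAT
    intro m hm hm1
    obtain ⟨b, hb, hb1, hbm, hbot⟩ := hall m hm hm1
    refine h.fc (r := p) hMS.le hMS.inv hMS.isP (inf_le_left.trans hTK) (h.inv_inf hAT hm)
      ((inf_le_left.trans hTN).trans inf_le_right) ?_ hm hm1 inf_le_right hb hbm ?_
    · exact Nat.Coprime.coprime_dvd_left (Subgroup.card_dvd_of_le inf_le_left) hTP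
    · rw [hbot]; exact bot_le
  have hP'N : P' ≤ N := le_inf hMS.le le_normalizer
  -- `N = P' T`
  have hNsup : N ≤ P' ⊔ T := by
    have h1 : P' ⊔ T ≤ N := sup_le hP'N hTN
    have h2 := H32.card_sup_mul_card_inf (N := P') (H := T) (hTN.trans inf_le_right)
    rw [Cop.inf_eq_bot_of_coprime hTP.symm, Subgroup.card_bot, mul_one] at h2
    have h3 : n ≤ Nat.card P' := by
      have hn0 : n ≠ 0 := by rintro rfl; rw [mul_zero] at hn; exact Nat.card_pos.ne' hn
      have h4 : n = p ^ n.primeFactorsList.length :=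
        Nat.eq_prime_pow_of_unique_prime_dvd hn0 fun {d} hd hdd => by
          by_contra h5
          exact hnπ d hd hdd h5
      rw [hcardP, h4]
      apply Nat.pow_le_pow_right hp.out.pos
      rw [← hp.out.pow_dvd_iff_le_factorization Nat.card_pos.ne', ← h4]
      exact (Dvd.intro_left _ hn.symm).trans (Subgroup.card_dvd_of_le inf_le_left)
    have h5 := Subgroup.eq_of_le_of_card_ge h1 (by
      rw [hn, h2, mul_comm]
      exact Nat.mul_le_mul_right _ h3)
    exact h5.ge
  -- the abelian case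
  have hab : ¬ ∀ x ∈ P', ∀ y ∈ P', x * y = y * x := by
    intro hcomm
    apply h.no_npc hpK
    apply Transfer.hasNPC_of_normalizer_le_centralizer P
    intro x hx
    have h1 : (x : X) ∈ N := by
      refine ⟨x.2, ?_⟩
      change (x : X) ∈ normalizer (P' : Set X)
      rw [mem_normalizer_iff]
      intro y
      constructor
      · rintro ⟨z, hz, rfl⟩
        exact ⟨x * z * x⁻¹, (mem_normalizer_iff.1 hx z).1 hz, rfl⟩
      · rintro ⟨z, hz, hzy⟩
        refine ⟨x⁻¹ * z * x, ?_, ?_⟩
        · exact (mem_normalizer_iff''.1 hx z).1 hz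
        · change (x : X)⁻¹ * z * x = y
          change (z : X) = _ at hzy
          rw [hzy]; group
    have h2 : P' ⊔ T ≤ centralizer (P' : Set X) := by
      apply sup_le _ hTc
      intro y hy
      rw [mem_centralizer_iff]
      intro z hz
      exact hcomm z hz y hy
    rw [mem_centralizer_iff]
    intro y hy
    apply Subtype.ext
    exact mem_centralizer_iff.1 (h2 (hNsup h1)) (y : X) ⟨y, hy, rfl⟩
  have hp2 : p ≠ 2 := hP2.resolve_right hab
  -- Glauberman–Thompson
  apply h.no_npc hpK
  rw [S0117.result hp2 P]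
  set Z := Cfsg.centerThompsonOf p (P : Subgroup K) with hZ
  have hZP : Z ≤ (P : Subgroup K) := ZJ.centerThompsonOf_le p _
  have hPne : (P : Subgroup K) ≠ ⊥ := by
    intro h1; apply hne; rw [hP', h1, Subgroup.map_bot]
  have hZne : Z ≠ ⊥ := ZJ_ne_bot P.2 hPne
  set Z' := Z.map K.subtype with hZ'
  have hZ'ne : Z' ≠ ⊥ := by
    intro h1; exact hZne ((Subgroup.map_eq_bot_iff_of_injective _ K.subtype_injective).1 h1)
  have hZ'P' : Z' ≤ P' := Subgroup.map_mono hZP
  have hAZ' : A ≤ normalizer (Z' : Set X) := le_normalizer_ZJ hMS.inv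
  have hP'Z' : P' ≤ normalizer (Z' : Set X) := le_normalizer_ZJ le_normalizer
  have hZ'K : Z' ≤ K := hZ'P'.trans hMS.le
  have hZ's : Group.IsSolvable Z' := by
    haveI := (hMS.isP.to_le hZ'P').isNilpotent
    infer_instance
  set H := K ⊓ normalizer (Z' : Set X) with hH
  have hHK : H ≤ K := inf_le_left
  have hHs := h.norm_sol hZ'K hAZ' hZ'ne hZ's
  have hAH : A ≤ normalizer (H : Set X) := h.inv_norm hAZ'
  have hP'H : P' ≤ H := le_inf hMS.le hP'Z'
  have hPcardH : Nat.card P' = p ^ (Nat.card H).factorization p := by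
    apply le_antisymm
    · obtain ⟨k, hk⟩ := IsPGroup.iff_card.1 hMS.isP
      rw [hk]
      apply Nat.pow_le_pow_right hp.out.pos
      rw [← hp.out.pow_dvd_iff_le_factorization Nat.card_pos.ne', ← hk]
      exact Subgroup.card_dvd_of_le hP'H
    · rw [hcardP]
      apply Nat.pow_le_pow_right hp.out.pos
      exact (Nat.factorization_le_iff_dvd Nat.card_pos.ne' Nat.card_pos.ne').2 (Subgroup.card_dvd_of_le hHK) p
  obtain ⟨D, hDH, hHD, hDp, hHDP⟩ := le_normalizer_sup (h.fh2 hHK hAH hHs) p hP'H hPcardH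
  have hPD : P' ≤ normalizer (D : Set X) := hP'H.trans hHD
  have hDP : (Nat.card D).Coprime (Nat.card P') := by
    rw [hcardP]; exact Nat.Coprime.pow_right _ hDp
  set E := D ⊔ (T ⊓ H) with hE
  have hTHD : T ⊓ H ≤ normalizer (D : Set X) := inf_le_right.trans hHD
  -- Frattini
  have hHle : H ≤ E ⊔ P' := by
    intro x hx
    have hB : MulAut.conj x • P' ≤ D ⊔ P' := by
      have h1 : MulAut.conj x • (D ⊔ P') = D ⊔ P' := Cop.conj_smul_eq_of_mem_normalizer (hHDP hx)
      conv_rhs => rw [← h1]
      exact Hall.conj_smul_mono le_sup_right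
    obtain ⟨d, hd, hd'⟩ := Cop.sz_rel (N := D) (A := P') (B := MulAut.conj x • P') hPD hB (by
      exact (Nat.card_congr (Subgroup.equivSMul (MulAut.conj x) P').toEquiv).symm) hDP (Or.inr hPs)
    have h2 : d⁻¹ * x ∈ normalizer (P' : Set X) := by
      apply Cop.mem_normalizer_of_conj_smul_eq
      rw [map_mul, mul_smul, ← hd', ← mul_smul, ← map_mul, inv_mul_cancel, map_one, one_smul]
    have h3 : d⁻¹ * x ∈ N := ⟨K.mul_mem (K.inv_mem (hHK (hDH hd))) (hHK hx), h2⟩
    have h4 : d⁻¹ * x ∈ H := H.mul_mem (H.inv_mem (hDH hd)) hx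
    obtain ⟨y, hy, t, ht, hyt⟩ := (H32.mem_sup_of_le_normalizer (hTN.trans inf_le_right)).1 (hNsup h3)
    have h5 : t ∈ H := by
      have : t = y⁻¹ * (d⁻¹ * x) := by rw [← hyt]; group
      rw [this]
      exact H.mul_mem (H.inv_mem (hP'H hy)) h4
    have h6 : x = d * (y * t) := by rw [hyt]; group
    rw [h6]
    apply mul_mem (Subgroup.mem_sup_left (Subgroup.mem_sup_left hd))
    exact mul_mem (Subgroup.mem_sup_right hy) (Subgroup.mem_sup_left (Subgroup.mem_sup_right ⟨ht, h5⟩))
  have hEH : E ≤ H := sup_le hDH inf_le_right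
  have hPE : P' ≤ normalizer (E : Set X) := by
    intro x hx
    apply normalizer_sup (hPD hx)
    have h1 : x ∈ centralizer ((T ⊓ H : Subgroup X) : Set X) := by
      have h2 : P' ≤ centralizer (T : Set X) := Subgroup.le_centralizer_iff.1 hTc
      exact (centralizer_le (inf_le_left : T ⊓ H ≤ T)) (h2 hx)
    exact centralizer_le_normalizer _ h1
  have hHE : H ≤ normalizer (E : Set X) := hHle.trans (sup_le le_normalizer hPE)
  have hEc : (Nat.card E).Coprime p := by
    have h1 := H32.card_sup_mul_card_inf (N := D) (H := T ⊓ H) hTHD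
    refine Nat.Coprime.coprime_dvd_left (Dvd.intro _ h1) (Nat.Coprime.mul_left hDp ?_)
    exact Nat.Coprime.coprime_dvd_left (Subgroup.card_dvd_of_le inf_le_left) hTp
  have hHnpc : Cfsg.HasNormalPComplement p H := hasNPC_of_rel hEH hHE hEc hMS.isP hP'H hHle
  -- transport to `N_K(Z)`
  have hmem : ∀ x : normalizer (Z : Set K), ((x : K) : X) ∈ H := by
    intro x
    refine ⟨(x : K).2, ?_⟩
    change ((x : K) : X) ∈ normalizer (Z' : Set X)
    rw [mem_normalizer_iff]
    intro y
    constructor
    · rintro ⟨z, hz, rfl⟩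
      exact ⟨x * z * (x : K)⁻¹, (mem_normalizer_iff.1 x.2 z).1 hz, rfl⟩
    · rintro ⟨z, hz, hzy⟩
      refine ⟨(x : K)⁻¹ * z * x, (mem_normalizer_iff''.1 x.2 z).1 hz, ?_⟩
      change ((x : K) : X)⁻¹ * z * (x : K) = y
      change (z : X) = _ at hzy
      rw [hzy]; group
  let f : normalizer (Z : Set K) →* H := (K.subtype.comp (normalizer (Z : Set K)).subtype).codRestrict H hmem
  refine Transfer.HasNPC.of_injective hHnpc f ?_
  intro x y hxy
  have h7 : ((f x : H) : X) = ((f y : H) : X) := by rw [hxy]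
  exact Subtype.ext (Subtype.ext h7)

/-- The contradiction. -/
theorem false (h : Hyp q K A) : False := by
  classical
  haveI := h.normal
  choose! S hS using fun (p : Nat.Primes) => (haveI : Fact (p : ℕ).Prime := ⟨p.2⟩; h.exists_syl (p : ℕ))
  have hMS : ∀ p : Nat.Primes, MS K A (p : ℕ) (((S p : Sylow (p : ℕ) K) : Subgroup K).map K.subtype) := fun p =>
    ⟨Subgroup.map_subtype_le _, (hS p).1, (S p).2.map _, (hS p).2⟩
  -- the Sylow subgroups permute
  have hperm : ∀ p q : Nat.Primes, ((S p : Subgroup K) : Set K) * ((S q : Subgroup K) : Set K) =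
      ((S q : Subgroup K) : Set K) * ((S p : Subgroup K) : Set K) := by
    intro p r
    by_cases hpr : p = r
    · rw [hpr]
    haveI : Fact (p : ℕ).Prime := ⟨p.2⟩
    haveI : Fact (r : ℕ).Prime := ⟨r.2⟩
    have hpr' : (p : ℕ) ≠ r := fun h1 => hpr (Subtype.ext h1)
    obtain ⟨M, hM, hPM, hRM⟩ := h.pair hpr' (hMS p) (hMS r) (fun hne => h.cc (S p) (hMS p) hne)
      (fun hne => h.cc (S r) (hMS r) hne)
    set M' := M.subgroupOf K with hM'
    have hP1 : (S p : Subgroup K) ≤ M' := fun x hx => hPM ⟨x, hx, rfl⟩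
    have hR1 : (S r : Subgroup K) ≤ M' := fun x hx => hRM ⟨x, hx, rfl⟩
    have hcop : (Nat.card (S p : Subgroup K)).Coprime (Nat.card (S r : Subgroup K)) := by
      rw [Sylow.card_eq_multiplicity, Sylow.card_eq_multiplicity]
      exact Nat.Coprime.pow _ _ ((Nat.coprime_primes p.2 r.2).2 hpr')
    have hcard : Nat.card M' ≤ Nat.card (S p : Subgroup K) * Nat.card (S r : Subgroup K) := by
      apply Nat.le_of_dvd (Nat.mul_pos Nat.card_pos Nat.card_pos)
      rw [Nat.card_congr (Subgroup.subgroupOfEquivOfLe hM.le).toEquiv]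
      apply (Nat.factorization_prime_le_iff_dvd Nat.card_pos.ne' (Nat.mul_ne_zero Nat.card_pos.ne' Nat.card_pos.ne')).1
      intro s hs
      have hMK : (Nat.card M).factorization s ≤ (Nat.card K).factorization s :=
        (Nat.factorization_le_iff_dvd Nat.card_pos.ne' Nat.card_pos.ne').2 (Subgroup.card_dvd_of_le hM.le) s
      rw [Nat.factorization_mul Nat.card_pos.ne' Nat.card_pos.ne', Sylow.card_eq_multiplicity, Sylow.card_eq_multiplicity,
        p.2.factorization_pow, r.2.factorization_pow, Finsupp.add_apply]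
      by_cases hsd : s ∣ Nat.card M
      · rcases hM.pr s hs hsd with rfl | rfl
        · rw [Finsupp.single_eq_same]; omega
        · rw [Finsupp.single_eq_same]; omega
      · rw [Nat.factorization_eq_zero_of_not_dvd hsd]; omega
    have e1 := H30.coe_eq_mul_of_card hP1 hR1 hcop hcard
    have e2 := H30.coe_eq_mul_of_card hR1 hP1 hcop.symm (by rw [mul_comm]; exact hcard)
    rw [← e1, ← e2]
  apply h.ns
  apply Cfsg.Agent.S0006.result
  intro p hp
  obtain ⟨H, hH, -, -⟩ := H30.exists_prod_subgroup S hperm ((Nat.card K).primeFactors.erase p)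
    (fun q hq => Nat.prime_of_mem_primeFactors (Finset.mem_of_mem_erase hq))
  refine ⟨H, ?_⟩
  have h1 := H30.prod_factorization_erase (n := Nat.card K) Nat.card_pos.ne' p
  have h2 := H.index_mul_card
  rw [hH] at h2
  have h3 : 0 < ∏ q ∈ (Nat.card K).primeFactors.erase p, q ^ (Nat.card K).factorization q :=
    Finset.prod_pos (fun q hq => pow_pos (Nat.prime_of_mem_primeFactors (Finset.mem_of_mem_erase hq)).pos _)
  apply Nat.eq_of_mul_eq_mul_right h3
  rw [h2]
  exact h1.symm

end Hyp

end Cfsg.Agent.H32.SqAct
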