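import Mathlib
set_option autoImplicit false

/-! Concrete model of the wreath product D8 wr C2 (order 128). -/

namespace Cfsg.Agent.H32.DW

/-- D8: (i,j,k) = a^i b^j z^k, [a,b] = z -/
def D : Type := Bool × Bool × Bool

instance instDecD : DecidableEq D := inferInstanceAs (DecidableEq (Bool × Bool × Bool))
instance instFinD : Fintype D := inferInstanceAs (Fintype (Bool × Bool × Bool))

def Dmul (x y : D) : D := (xor x.1 y.1, xor x.2.1 y.2.1, xor (xor x.2.2 y.2.2) (x.2.1 && y.1))
def Dinv (x : D) : D := (x.1, x.2.1, xor x.2.2 (x.2.1 && x.1))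
def Do : D := (false, false, false)

instance instGrpD : Group D where
  mul := Dmul
  one := Do
  inv := Dinv
  mul_assoc := by
    show ∀ a b c : D, Dmul (Dmul a b) c = Dmul a (Dmul b c)
    decide +kernel
  one_mul := by
    show ∀ a : D, Dmul Do a = a
    decide +kernel
  mul_one := by
    show ∀ a : D, Dmul a Do = a
    decide +kernel
  inv_mul_cancel := by
    show ∀ a : D, Dmul (Dinv a) a = Do
    decide +kernel

/-- action on four points -/
def Dact (x : D) (p : Bool × Bool) : Bool × Bool :=
  let p1 : Bool × Bool := (xor p.1 x.2.2, xor p.2 x.2.2)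
  let p2 : Bool × Bool := if x.2.1 then (p1.2, p1.1) else p1
  (xor p2.1 x.1, p2.2)

theorem Dact_mul : ∀ (x y : D) (p : Bool × Bool), Dact (x * y) p = Dact x (Dact y p) := by
  show ∀ (x y : D) (p : Bool × Bool), Dact (Dmul x y) p = Dact x (Dact y p)
  decide +kernel

theorem Dact_one : ∀ (p : Bool × Bool), Dact 1 p = p := by
  show ∀ (p : Bool × Bool), Dact Do p = p
  decide +kernel

theorem Dact_faithful : ∀ (x : D), (∀ p, Dact x p = p) → x = 1 := by
  show ∀ (x : D), (∀ p, Dact x p = p) → x = Do
  decide +kernel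

def W : Type := D × D × Bool

instance instDecW : DecidableEq W := inferInstanceAs (DecidableEq (D × D × Bool))
instance instFinW : Fintype W := inferInstanceAs (Fintype (D × D × Bool))

def Wmul (x y : W) : W :=
  match x.2.2 with
  | false => (x.1 * y.1, x.2.1 * y.2.1, y.2.2)
  | true => (x.1 * y.2.1, x.2.1 * y.1, !y.2.2)

def Winv (x : W) : W :=
  match x.2.2 with
  | false => (x.1⁻¹, x.2.1⁻¹, false)
  | true => (x.2.1⁻¹, x.1⁻¹, true)

instance instGrpW : Group W where
  mul := Wmul
  one := (1, 1, false)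
  inv := Winv
  mul_assoc := by
    rintro ⟨a1, a2, e⟩ ⟨b1, b2, f⟩ ⟨c1, c2, g⟩
    show Wmul (Wmul _ _) _ = Wmul _ (Wmul _ _)
    cases e <;> cases f <;> cases g <;> (simp only [Wmul, mul_assoc]; first | rfl | (simp; try rfl))
  one_mul := by
    rintro ⟨a1, a2, e⟩
    show Wmul (1, 1, false) _ = _
    cases e <;> (simp only [Wmul, one_mul]; try rfl)
  mul_one := by
    rintro ⟨a1, a2, e⟩
    show Wmul _ (1, 1, false) = _
    cases e <;> (simp only [Wmul, mul_one]; try rfl)
  inv_mul_cancel := by
    rintro ⟨a1, a2, e⟩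
    show Wmul (Winv _) _ = (1, 1, false)
    cases e <;> (simp only [Wmul, Winv, inv_mul_cancel]; try rfl)

theorem card_W : Nat.card W = 128 := by
  rw [Nat.card_eq_fintype_card]
  decide +kernel

/-- action on eight points -/
def Wact (x : W) (q : Bool × (Bool × Bool)) : Bool × (Bool × Bool) :=
  match x.2.2 with
  | false => (q.1, Dact (if q.1 then x.2.1 else x.1) q.2)
  | true => (!q.1, Dact (if q.1 then x.1 else x.2.1) q.2)

theorem Wact_mul (x y : W) (q : Bool × (Bool × Bool)) : Wact (x * y) q = Wact x (Wact y q) := by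
  show Wact (Wmul x y) q = _
  obtain ⟨a1, a2, e⟩ := x
  obtain ⟨b1, b2, f⟩ := y
  obtain ⟨s, p⟩ := q
  cases e <;> cases f <;> cases s <;> simp [Wact, Wmul, Dact_mul]

theorem Wact_one (q : Bool × (Bool × Bool)) : Wact 1 q = q := by
  show Wact (1, 1, false) q = q
  obtain ⟨s, p⟩ := q
  cases s <;> simp [Wact, Dact_one]

theorem Wact_faithful (x : W) (h : ∀ q, Wact x q = q) : x = 1 := by
  obtain ⟨a1, a2, e⟩ := x
  cases e
  · have h1 : a1 = 1 := Dact_faithful a1 fun p => by
      have := h (false, p)
      simpa [Wact] using this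
    have h2 : a2 = 1 := Dact_faithful a2 fun p => by
      have := h (true, p)
      simpa [Wact] using this
    subst h1 h2
    rfl
  · have := h (false, (false, false))
    simp [Wact] at this

def Wperm : W →* Equiv.Perm (Bool × (Bool × Bool)) where
  toFun x :=
    { toFun := Wact x
      invFun := Wact x⁻¹
      left_inv := fun q => by rw [← Wact_mul, inv_mul_cancel, Wact_one]
      right_inv := fun q => by rw [← Wact_mul, mul_inv_cancel, Wact_one] }
  map_one' := by
    ext1 q
    exact Wact_one q
  map_mul' x y := by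
    ext1 q
    exact Wact_mul x y q

theorem Wperm_inj : Function.Injective Wperm := by
  rw [injective_iff_map_eq_one]
  intro x hx
  apply Wact_faithful
  intro q
  exact congrArg (fun (s : Equiv.Perm _) => s q) hx

theorem card_syl (T : Sylow 2 (Equiv.Perm (Fin 8))) : Nat.card T = 128 := by
  rw [T.card_eq_multiplicity, Nat.card_perm, Nat.card_fin]
  have : Nat.factorization (Nat.factorial 8) 2 = 7 := by
    have h8 : Nat.factorial 8 = 2 ^ 7 * 315 := by decide
    rw [h8, Nat.factorization_mul (by norm_num) (by norm_num), Nat.Prime.factorization_pow Nat.prime_two]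
    simp [Nat.factorization_eq_zero_of_not_dvd (show ¬ 2 ∣ 315 by norm_num)]
  rw [this]
  norm_num

/-- A group of order 128 embedding in the permutations of an 8-element type is isomorphic to every Sylow 2-subgroup of S_8. -/
theorem iso_syl {G X : Type*} [Group G] (hG : Nat.card G = 128) (hX : Nat.card X = 8)
    (f : G →* Equiv.Perm X) (hf : Function.Injective f) (T : Sylow 2 (Equiv.Perm (Fin 8))) :
    Nonempty (G ≃* ↥(T : Subgroup (Equiv.Perm (Fin 8)))) := by
  have : Finite X := Nat.finite_of_card_ne_zero (by rw [hX]; norm_num)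
  obtain ⟨e⟩ : Nonempty (X ≃ Fin 8) := ⟨(Finite.equivFinOfCardEq hX)⟩
  let g : G →* Equiv.Perm (Fin 8) := (e.permCongrHom : Equiv.Perm X ≃* Equiv.Perm (Fin 8)).toMonoidHom.comp f
  have hg : Function.Injective g := (e.permCongrHom).injective.comp hf
  have hcard : Nat.card g.range = 128 := by
    rw [← Nat.card_congr (MonoidHom.ofInjective hg).toEquiv, hG]
  have hp : IsPGroup 2 g.range := IsPGroup.of_card (n := 7) (by rw [hcard]; norm_num)
  obtain ⟨Q, hQ⟩ := hp.exists_le_sylow
  have hQe : g.range = (Q : Subgroup (Equiv.Perm (Fin 8))) := by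
    apply Subgroup.eq_of_le_of_card_ge hQ
    rw [hcard]
    exact (card_syl Q).le
  have e1 : G ≃* g.range := MonoidHom.ofInjective hg
  have e2 : g.range ≃* ↥(Q : Subgroup (Equiv.Perm (Fin 8))) := MulEquiv.subgroupCongr hQe
  exact ⟨(e1.trans e2).trans (Sylow.equiv Q T)⟩

end Cfsg.Agent.H32.DW
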