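import Cfsg.Agent.H32.DW1
set_option autoImplicit false

/-! Automorphisms of the model. -/

namespace Cfsg.Agent.H32.DW

def dz : D := (false, false, true)
def da : D := (true, false, false)
def db : D := (false, true, false)
def z1 : W := (dz, 1, false)
def z2 : W := (1, dz, false)
def z0 : W := (dz, dz, false)
def a1 : W := (da, 1, false)
def b1 : W := (db, 1, false)
def a2 : W := (1, da, false)
def b2 : W := (1, db, false)
def t0 : W := (1, 1, true)

/-- boolean membership in Z(B), a1 Z(B), ... : coordinates modulo Z(B) -/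
def cl (w : W) : Bool × Bool × Bool × Bool × Bool := (w.1.1, w.1.2.1, w.2.1.1, w.2.1.2.1, w.2.2)

theorem cen : ∀ w : W, (∀ g : W, g * w = w * g) → w = 1 ∨ w = z0 := by decide +kernel
theorem z0_cen : ∀ g : W, g * z0 = z0 * g := by decide +kernel
theorem cen2 : ∀ w : W, (∀ g : W, g * w = w * g ∨ g * w = z0 * (w * g)) → w = 1 ∨ w = z0 ∨ w = z1 ∨ w = z2 := by
  decide +kernel
theorem cen2z1 : ∀ g : W, g * z1 = z1 * g ∨ g * z1 = z0 * (z1 * g) := by decide +kernel
theorem z1_ne : z1 ≠ 1 := by decide +kernel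
theorem z0_ne : z0 ≠ 1 := by decide +kernel
theorem z1_ne0 : z1 ≠ z0 := by decide +kernel
theorem z10 : z1 * z0 = z2 := by decide +kernel
theorem z20 : z2 * z0 = z1 := by decide +kernel
theorem tz : t0 * z1 * t0⁻¹ = z2 := by decide +kernel
theorem tz' : t0 * z2 * t0⁻¹ = z1 := by decide +kernel

theorem inv1 : ∀ w : W, w * z1 = z1 * w → w * w = 1 → (∀ g : W, g * z1 = z1 * g → (g * w = w * g ∨ g * w = z1 * (w * g))) →
    cl w = cl 1 ∨ cl w = cl a1 ∨ cl w = cl b1 := by decide +kernel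
theorem inv2 : ∀ w : W, w * z1 = z1 * w → w * w = 1 → (∀ g : W, g * z1 = z1 * g → (g * w = w * g ∨ g * w = z2 * (w * g))) →
    cl w = cl 1 ∨ cl w = cl a2 ∨ cl w = cl b2 := by decide +kernel
theorem a1p : a1 * z1 = z1 * a1 ∧ a1 * a1 = 1 ∧ (∀ g : W, g * z1 = z1 * g → (g * a1 = a1 * g ∨ g * a1 = z1 * (a1 * g))) := by
  decide +kernel
theorem b1p : b1 * z1 = z1 * b1 ∧ b1 * b1 = 1 ∧ (∀ g : W, g * z1 = z1 * g → (g * b1 = b1 * g ∨ g * b1 = z1 * (b1 * g))) := by
  decide +kernel
theorem a2p : a2 * z1 = z1 * a2 ∧ a2 * a2 = 1 ∧ (∀ g : W, g * z1 = z1 * g → (g * a2 = a2 * g ∨ g * a2 = z2 * (a2 * g))) := by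
  decide +kernel
theorem b2p : b2 * z1 = z1 * b2 ∧ b2 * b2 = 1 ∧ (∀ g : W, g * z1 = z1 * g → (g * b2 = b2 * g ∨ g * b2 = z2 * (b2 * g))) := by
  decide +kernel
theorem cl1 : ∀ w : W, cl w = cl 1 → w = 1 ∨ w = z0 ∨ w = z1 ∨ w = z2 := by decide +kernel
theorem cl1' : ∀ w : W, (w = 1 ∨ w = z0 ∨ w = z1 ∨ w = z2) → cl w = cl 1 := by decide +kernel
theorem ab1 : ¬ (a1 * b1 = b1 * a1) := by decide +kernel
theorem ab2 : ¬ (a2 * b2 = b2 * a2) := by decide +kernel
theorem aa : ∀ u v : W, cl u = cl a1 → cl v = cl a1 → u * v = v * u := by decide +kernel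
theorem bb : ∀ u v : W, cl u = cl b1 → cl v = cl b1 → u * v = v * u := by decide +kernel
theorem aa2 : ∀ u v : W, cl u = cl a2 → cl v = cl a2 → u * v = v * u := by decide +kernel
theorem bb2 : ∀ u v : W, cl u = cl b2 → cl v = cl b2 → u * v = v * u := by decide +kernel
theorem ta : t0 * a1 * t0⁻¹ = a2 := by decide +kernel
theorem cja : ∀ u g : W, cl u = cl a1 → (cl (g * u * g⁻¹) = cl a1 ∨ cl (g * u * g⁻¹) = cl a2) := by decide +kernel
theorem cjb : ∀ u g : W, cl u = cl b1 → (cl (g * u * g⁻¹) = cl b1 ∨ cl (g * u * g⁻¹) = cl b2) := by decide +kernel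
theorem clne : cl a1 ≠ cl 1 ∧ cl b1 ≠ cl 1 ∧ cl a2 ≠ cl 1 ∧ cl b2 ≠ cl 1 ∧ cl a1 ≠ cl b1 ∧ cl a2 ≠ cl b2 ∧
    cl a1 ≠ cl a2 ∧ cl a1 ≠ cl b2 ∧ cl b1 ≠ cl a2 ∧ cl b1 ≠ cl b2 := by
  refine ⟨?_, ?_, ?_, ?_, ?_, ?_, ?_, ?_, ?_, ?_⟩ <;> decide +kernel

variable (φ : W ≃* W)

theorem phi_z0 : φ z0 = z0 := by
  rcases cen (φ z0) (fun g => by
    have := z0_cen (φ.symm g)
    have h := congrArg φ this
    simpa using h) with h | h
  · exact absurd (φ.injective (h.trans (map_one φ).symm)) z0_ne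
  · exact h

theorem phi_z1 : φ z1 = z1 ∨ φ z1 = z2 := by
  rcases cen2 (φ z1) (fun g => by
    rcases cen2z1 (φ.symm g) with h | h
    · left
      have h := congrArg φ h
      simpa using h
    · right
      have h := congrArg φ h
      simpa [phi_z0] using h) with h | h | h | h
  · exact absurd (φ.injective (h.trans (map_one φ).symm)) z1_ne
  · exact absurd (φ.injective (h.trans (phi_z0 φ).symm)) z1_ne0
  · exact Or.inl h
  · exact Or.inr h

theorem phi_z2 (h : φ z1 = z1) : φ z2 = z2 := by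
  rw [← z10, map_mul, h, phi_z0]

/-- class 1 is preserved -/
theorem phi_ne1 (h : φ z1 = z1) (w : W) (hw : cl w ≠ cl 1) : cl (φ w) ≠ cl 1 := by
  intro hc
  rcases cl1 _ hc with h1 | h1 | h1 | h1
  · exact hw (cl1' w (Or.inl (φ.injective (h1.trans (map_one φ).symm))))
  · exact hw (cl1' w (Or.inr (Or.inl (φ.injective (h1.trans (phi_z0 φ).symm)))))
  · exact hw (cl1' w (Or.inr (Or.inr (Or.inl (φ.injective (h1.trans h.symm))))))
  · exact hw (cl1' w (Or.inr (Or.inr (Or.inr (φ.injective (h1.trans (phi_z2 φ h).symm))))))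

theorem tr1 (h : φ z1 = z1) (w : W) (hw : w * z1 = z1 * w ∧ w * w = 1 ∧
    (∀ g : W, g * z1 = z1 * g → (g * w = w * g ∨ g * w = z1 * (w * g)))) (hne : cl w ≠ cl 1) :
    cl (φ w) = cl a1 ∨ cl (φ w) = cl b1 := by
  obtain ⟨h1, h2, h3⟩ := hw
  rcases inv1 (φ w) (by have := congrArg φ h1; rwa [map_mul, map_mul, h] at this)
    (by rw [← map_mul, h2, map_one]) (fun g hg => by
      have hg' : φ.symm g * z1 = z1 * φ.symm g := by
        apply φ.injective
        rw [map_mul, map_mul, h, MulEquiv.apply_symm_apply, hg]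
      rcases h3 (φ.symm g) hg' with h4 | h4
      · left
        have h5 := congrArg φ h4
        simpa using h5
      · right
        have h5 := congrArg φ h4
        simpa [h] using h5) with h6 | h6 | h6
  · exact absurd h6 (phi_ne1 φ h w hne)
  · exact Or.inl h6
  · exact Or.inr h6

theorem tr2 (h : φ z1 = z1) (w : W) (hw : w * z1 = z1 * w ∧ w * w = 1 ∧
    (∀ g : W, g * z1 = z1 * g → (g * w = w * g ∨ g * w = z2 * (w * g)))) (hne : cl w ≠ cl 1) :
    cl (φ w) = cl a2 ∨ cl (φ w) = cl b2 := by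
  obtain ⟨h1, h2, h3⟩ := hw
  rcases inv2 (φ w) (by have := congrArg φ h1; rwa [map_mul, map_mul, h] at this)
    (by rw [← map_mul, h2, map_one]) (fun g hg => by
      have hg' : φ.symm g * z1 = z1 * φ.symm g := by
        apply φ.injective
        rw [map_mul, map_mul, h, MulEquiv.apply_symm_apply, hg]
      rcases h3 (φ.symm g) hg' with h4 | h4
      · left
        have h5 := congrArg φ h4
        simpa using h5
      · right
        have h5 := congrArg φ h4
        simpa [phi_z2 φ h] using h5) with h6 | h6 | h6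
  · exact absurd h6 (phi_ne1 φ h w hne)
  · exact Or.inl h6
  · exact Or.inr h6

/-- dichotomy -/
theorem types (h : φ z1 = z1) :
    (cl (φ a1) = cl a1 ∧ cl (φ b1) = cl b1 ∧ cl (φ a2) = cl a2 ∧ cl (φ b2) = cl b2) ∨
    (cl (φ a1) = cl b1 ∧ cl (φ b1) = cl a1 ∧ cl (φ a2) = cl b2 ∧ cl (φ b2) = cl a2) := by
  obtain ⟨n1, n2, n3, n4, n5, n6, n7, n8, n9, n10⟩ := clne
  have hab1 : ¬ (φ a1 * φ b1 = φ b1 * φ a1) := by
    rw [← map_mul, ← map_mul]
    exact fun h => ab1 (φ.injective h)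
  have hab2 : ¬ (φ a2 * φ b2 = φ b2 * φ a2) := by
    rw [← map_mul, ← map_mul]
    exact fun h => ab2 (φ.injective h)
  have hta : φ t0 * φ a1 * (φ t0)⁻¹ = φ a2 := by
    rw [← map_inv, ← map_mul, ← map_mul, ta]
  rcases tr1 φ h a1 a1p n1 with ha | ha
  · left
    have hb : cl (φ b1) = cl b1 := by
      rcases tr1 φ h b1 b1p n2 with hb | hb
      · exact absurd (aa _ _ ha hb) hab1
      · exact hb
    have ha2 : cl (φ a2) = cl a2 := by
      rcases tr2 φ h a2 a2p n3 with h2 | h2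
      · exact h2
      · rcases cja (φ a1) (φ t0) ha with h3 | h3
        · rw [hta, h2] at h3; exact absurd h3.symm n8
        · rw [hta] at h3; exact h3
    have hb2 : cl (φ b2) = cl b2 := by
      rcases tr2 φ h b2 b2p n4 with hb | hb
      · exact absurd (aa2 _ _ ha2 hb) hab2
      · exact hb
    exact ⟨ha, hb, ha2, hb2⟩
  · right
    have hb : cl (φ b1) = cl a1 := by
      rcases tr1 φ h b1 b1p n2 with hb | hb
      · exact hb
      · exact absurd (bb _ _ ha hb) hab1
    have ha2 : cl (φ a2) = cl b2 := by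
      rcases tr2 φ h a2 a2p n3 with h2 | h2
      · rcases cjb (φ a1) (φ t0) ha with h3 | h3
        · rw [hta, h2] at h3; exact absurd h3.symm n9
        · rw [hta] at h3; exact h3
      · exact h2
    have hb2 : cl (φ b2) = cl a2 := by
      rcases tr2 φ h b2 b2p n4 with hb | hb
      · exact hb
      · exact absurd (bb2 _ _ ha2 hb) hab2
    exact ⟨ha, hb, ha2, hb2⟩

/-- the elements of B -/
def inB (w : W) : Prop := w.2.2 = false
instance instDecInB (w : W) : Decidable (inB w) := inferInstanceAs (Decidable (w.2.2 = false))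
/-- the elements of A -/
def inA (w : W) : Prop := w.2.2 = false ∧ w.1.2.1 = false ∧ w.2.1.2.1 = false
instance instDecInA (w : W) : Decidable (inA w) := inferInstanceAs (Decidable (_ ∧ _ ∧ _))
/-- the elements of A' -/
def inA' (w : W) : Prop := w.2.2 = false ∧ w.1.1 = false ∧ w.2.1.1 = false
instance instDecInA' (w : W) : Decidable (inA' w) := inferInstanceAs (Decidable (_ ∧ _ ∧ _))

def pw (w : W) (b : Bool) : W := if b then w else 1

theorem expand : ∀ w : W, inB w → w = pw a1 w.1.1 * (pw b1 w.1.2.1 * (pw z1 w.1.2.2 *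
    (pw a2 w.2.1.1 * (pw b2 w.2.1.2.1 * pw z2 w.2.1.2.2)))) := by decide +kernel

theorem clmul : ∀ u v : W, inB u → inB v → cl (u * v) =
    (xor (cl u).1 (cl v).1, xor (cl u).2.1 (cl v).2.1, xor (cl u).2.2.1 (cl v).2.2.1,
      xor (cl u).2.2.2.1 (cl v).2.2.2.1, false) := by decide +kernel


theorem inB_cl (w : W) : inB w ↔ (cl w).2.2.2.2 = false := Iff.rfl
theorem inA_cl (w : W) : inA w ↔ ((cl w).2.2.2.2 = false ∧ (cl w).2.1 = false ∧ (cl w).2.2.2.1 = false) := Iff.rfl
theorem inA'_cl (w : W) : inA' w ↔ ((cl w).2.2.2.2 = false ∧ (cl w).1 = false ∧ (cl w).2.2.1 = false) := Iff.rfl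

theorem inB_mul {u v : W} (hu : inB u) (hv : inB v) : inB (u * v) := by
  rw [inB_cl, clmul u v hu hv]

def sw (b : Bool) (c : Bool × Bool × Bool × Bool × Bool) : Bool × Bool × Bool × Bool × Bool :=
  if b then (c.2.1, c.1, c.2.2.2.1, c.2.2.1, c.2.2.2.2) else c

def good (b : Bool) (w : W) : Prop := inB w ∧ cl (φ w) = sw b (cl w)

theorem sw_last (b : Bool) (c : Bool × Bool × Bool × Bool × Bool) : (sw b c).2.2.2.2 = c.2.2.2.2 := by
  cases b <;> rfl

theorem good_mul {b : Bool} {u v : W} (hu : good φ b u) (hv : good φ b v) : good φ b (u * v) := by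
  have hu' : inB (φ u) := by rw [inB_cl, hu.2, sw_last]; exact hu.1
  have hv' : inB (φ v) := by rw [inB_cl, hv.2, sw_last]; exact hv.1
  refine ⟨inB_mul hu.1 hv.1, ?_⟩
  rw [map_mul, clmul _ _ hu' hv', clmul _ _ hu.1 hv.1, hu.2, hv.2]
  cases b <;> rfl

theorem good_one (b : Bool) : good φ b 1 := by
  refine ⟨rfl, ?_⟩
  rw [map_one]
  cases b <;> rfl

theorem good_pw {b : Bool} {u : W} (hu : good φ b u) (c : Bool) : good φ b (pw u c) := by
  cases c
  · exact good_one φ b
  · exact hu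

theorem good_all {b : Bool} (h1 : good φ b a1) (h2 : good φ b b1) (h3 : good φ b z1)
    (h4 : good φ b a2) (h5 : good φ b b2) (h6 : good φ b z2) (w : W) (hw : inB w) : good φ b w := by
  rw [expand w hw]
  exact good_mul φ (good_pw φ h1 _) (good_mul φ (good_pw φ h2 _) (good_mul φ (good_pw φ h3 _)
    (good_mul φ (good_pw φ h4 _) (good_mul φ (good_pw φ h5 _) (good_pw φ h6 _)))))

theorem type_good (h : φ z1 = z1) : (∀ w, inB w → good φ false w) ∨ (∀ w, inB w → good φ true w) := by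
  have h2 := phi_z2 φ h
  rcases types φ h with ⟨k1, k2, k3, k4⟩ | ⟨k1, k2, k3, k4⟩
  · left
    exact good_all φ ⟨rfl, k1⟩ ⟨rfl, k2⟩ ⟨rfl, by rw [h]; rfl⟩ ⟨rfl, k3⟩ ⟨rfl, k4⟩ ⟨rfl, by rw [h2]; rfl⟩
  · right
    exact good_all φ ⟨rfl, by rw [k1]; rfl⟩ ⟨rfl, by rw [k2]; rfl⟩ ⟨rfl, by rw [h]; rfl⟩ ⟨rfl, by rw [k3]; rfl⟩
      ⟨rfl, by rw [k4]; rfl⟩ ⟨rfl, by rw [h2]; rfl⟩

theorem inB_of_inA {w : W} (h : inA w) : inB w := h.1
theorem inB_of_inA' {w : W} (h : inA' w) : inB w := h.1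

theorem goodF_A {w : W} (h : good φ false w) (hA : inA w) : inA (φ w) := by
  rw [inA_cl, h.2]; exact hA
theorem goodF_A' {w : W} (h : good φ false w) (hA : inA' w) : inA' (φ w) := by
  rw [inA'_cl, h.2]; exact hA
theorem goodT_A {w : W} (h : good φ true w) (hA : inA w) : inA' (φ w) := by
  rw [inA'_cl, h.2]; exact hA
theorem goodT_A' {w : W} (h : good φ true w) (hA : inA' w) : inA (φ w) := by
  rw [inA_cl, h.2]; exact hA

theorem cA : ∀ w g : W, inA w → inA (g * w * g⁻¹) := by decide +kernel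
theorem cA' : ∀ w g : W, inA' w → inA' (g * w * g⁻¹) := by decide +kernel
theorem cB : ∀ w g : W, inB w → inB (g * w * g⁻¹) := by decide +kernel
theorem a1A : inA a1 := by decide +kernel
theorem a1A' : ¬ inA' a1 := by decide +kernel

/-- every automorphism fixes or swaps A and A' -/
theorem dich : ((∀ w, inA w → inA (φ w)) ∧ (∀ w, inA' w → inA' (φ w))) ∨
    ((∀ w, inA w → inA' (φ w)) ∧ (∀ w, inA' w → inA (φ w))) := by
  rcases phi_z1 φ with h | h
  · rcases type_good φ h with h2 | h2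
    · left
      exact ⟨fun w hw => goodF_A φ (h2 w hw.1) hw, fun w hw => goodF_A' φ (h2 w hw.1) hw⟩
    · right
      exact ⟨fun w hw => goodT_A φ (h2 w hw.1) hw, fun w hw => goodT_A' φ (h2 w hw.1) hw⟩
  · let ψ : W ≃* W := φ.trans (MulAut.conj t0)
    have hψ : ∀ w, ψ w = t0 * φ w * t0⁻¹ := fun w => rfl
    have hψ' : ∀ w, φ w = t0 * ψ w * t0⁻¹ := fun w => by
      rw [hψ]
      have h0 : t0 * t0 = 1 := by decide +kernel
      have h1 : t0⁻¹ = t0 := by decide +kernel
      rw [h1]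
      calc φ w = (t0 * t0) * φ w * (t0 * t0) := by rw [h0]; simp
        _ = _ := by group
    have hz : ψ z1 = z1 := by rw [hψ, h, tz']
    rcases type_good ψ hz with h2 | h2
    · left
      refine ⟨fun w hw => ?_, fun w hw => ?_⟩
      · rw [hψ']; exact cA _ _ (goodF_A ψ (h2 w hw.1) hw)
      · rw [hψ']; exact cA' _ _ (goodF_A' ψ (h2 w hw.1) hw)
    · right
      refine ⟨fun w hw => ?_, fun w hw => ?_⟩
      · rw [hψ']; exact cA' _ _ (goodT_A ψ (h2 w hw.1) hw)
      · rw [hψ']; exact cA _ _ (goodT_A' ψ (h2 w hw.1) hw)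

def subB : Subgroup W where
  carrier := {w | inB w}
  mul_mem' := fun {a b} ha hb => inB_mul ha hb
  one_mem' := rfl
  inv_mem' := by
    have : ∀ w : W, inB w → inB w⁻¹ := by decide +kernel
    exact fun {w} hw => this w hw

def inZ (w : W) : Prop := cl w = cl 1
instance instDecInZ (w : W) : Decidable (inZ w) := inferInstanceAs (Decidable (_ = _))

def subZ : Subgroup W where
  carrier := {w | inZ w}
  mul_mem' := by
    have : ∀ u v : W, inZ u → inZ v → inZ (u * v) := by decide +kernel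
    exact fun {a b} ha hb => this a b ha hb
  one_mem' := rfl
  inv_mem' := by
    have : ∀ w : W, inZ w → inZ w⁻¹ := by decide +kernel
    exact fun {w} hw => this w hw

theorem card_subB : Nat.card subB = 64 := by
  have : Nat.card subB = Fintype.card {w : W // inB w} := by
    rw [← Nat.card_eq_fintype_card]; rfl
  rw [this, Fintype.card_subtype]
  decide +kernel

theorem card_subZ : Nat.card subZ = 4 := by
  have : Nat.card subZ = Fintype.card {w : W // inZ w} := by
    rw [← Nat.card_eq_fintype_card]; rfl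
  rw [this, Fintype.card_subtype]
  decide +kernel

theorem Z_le_B : ∀ w : W, inZ w → inB w := by decide +kernel
theorem B_comm : ∀ u v : W, inB u → inB v → inZ (u * v * u⁻¹ * v⁻¹) := by decide +kernel
theorem B_sq : ∀ u : W, inB u → inZ (u * u) := by decide +kernel
theorem cl_div : ∀ u v : W, inB v → cl u = cl v → inZ (u * v⁻¹) := by decide +kernel
theorem cenB : ∀ u : W, (∀ g : W, inB g → g * u = u * g) → inZ u := by decide +kernel

end Cfsg.Agent.H32.DW
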