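import Cfsg.Agent.H32.DW2
import Cfsg.Agent.H73.Sec
set_option autoImplicit false

/-! Sectional rank argument. -/

namespace Cfsg.Agent.H32.DW

open Subgroup

theorem norm_of {S : Type*} [Group S] [Finite S] (N : Subgroup S) (g : S) (h : ∀ n ∈ N, g * n * g⁻¹ ∈ N) :
    g ∈ normalizer (N : Set S) := by
  rw [mem_normalizer_iff]
  intro n
  refine ⟨fun hn => h n hn, fun hn => ?_⟩
  have hsub : (N.map (MulAut.conj g).toMonoidHom) ≤ N := by
    rintro _ ⟨m, hm, rfl⟩
    exact h m hm
  have heq : N.map (MulAut.conj g).toMonoidHom = N := by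
    apply eq_of_le_of_card_ge hsub
    rw [Subgroup.card_map_of_injective (MulAut.conj g).injective]
  have h2 : g * n * g⁻¹ ∈ N.map (MulAut.conj g).toMonoidHom := by rw [heq]; exact hn
  obtain ⟨m, hm, h3⟩ := h2
  have h4 : m = n := by
    have : g * m * g⁻¹ = g * n * g⁻¹ := h3
    exact mul_left_cancel (mul_right_cancel this)
  exact h4 ▸ hm

theorem K {S : Type*} [Group S] [Finite S] (hr : Cfsg.SectionalPRankLE 2 4 S) (B N : Subgroup S) (hNB : N ≤ B)
    (hc : N.relIndex B = 16) (hBc : ∀ x ∈ B, ∀ y ∈ B, x * y * x⁻¹ * y⁻¹ ∈ N) (hB2 : ∀ x ∈ B, x ^ 2 ∈ N) (x : S)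
    (hx : ∀ b ∈ B, x * b * x⁻¹ * b⁻¹ ∈ N) (hx2 : x ^ 2 ∈ N) : x ∈ B := by
  have hxM : x ∈ normalizer (N : Set S) := by
    apply norm_of
    intro n hn
    have := N.mul_mem (hx n (hNB hn)) hn
    simpa using this
  have hBM : B ≤ normalizer (N : Set S) := by
    intro b hb
    apply norm_of
    intro n hn
    have := N.mul_mem (hBc b hb n (hNB hn)) hn
    simpa using this
  set M : Subgroup S := normalizer (N : Set S) with hM
  have hNn : (N.subgroupOf M).Normal := Subgroup.normal_in_normalizer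
  let π : M →* M ⧸ N.subgroupOf M := QuotientGroup.mk' (N.subgroupOf M)
  have hπ : ∀ u v : M, (v * u * v⁻¹ * u⁻¹ : S) ∈ N → π u * π v = π v * π u := by
    intro u v h
    have h1 : π (v * u * v⁻¹ * u⁻¹) = 1 := by
      rw [← MonoidHom.mem_ker, QuotientGroup.ker_mk', mem_subgroupOf]
      exact_mod_cast h
    have h2 : (v * u : M) = (v * u * v⁻¹ * u⁻¹) * (u * v) := by group
    have h3 : π (v * u) = π (u * v) := by rw [h2, map_mul, h1, one_mul]
    rw [map_mul, map_mul] at h3
    exact h3.symm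
  let G0 : Set (M ⧸ N.subgroupOf M) := {q | (∃ b : M, (b : S) ∈ B ∧ q = π b) ∨ q = π ⟨x, hxM⟩}
  have hcomm : ∀ a ∈ G0, ∀ b ∈ G0, a * b = b * a := by
    rintro a (⟨u, hu, rfl⟩ | rfl) b (⟨v, hv, rfl⟩ | rfl)
    · exact hπ _ _ (hBc _ hv _ hu)
    · exact hπ _ _ (hx _ hu)
    · exact (hπ _ _ (hx _ hv)).symm
    · rfl
  have hA : IsMulCommutative (closure G0) := Subgroup.isMulCommutative_closure hcomm
  have hsq : ∀ a ∈ closure G0, a ^ 2 = 1 := by
    intro a ha
    induction ha using Subgroup.closure_induction with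
    | mem a ha =>
      rcases ha with ⟨u, hu, rfl⟩ | rfl
      · rw [← map_pow, ← MonoidHom.mem_ker, QuotientGroup.ker_mk', mem_subgroupOf]
        exact_mod_cast hB2 _ hu
      · rw [← map_pow, ← MonoidHom.mem_ker, QuotientGroup.ker_mk', mem_subgroupOf]
        exact_mod_cast hx2
    | one => exact one_pow 2
    | mul a b ha hb h1 h2 =>
      have : a * b = b * a := congrArg Subtype.val (hA.is_comm.comm ⟨a, ha⟩ ⟨b, hb⟩)
      rw [(show Commute a b from this).mul_pow, h1, h2, one_mul]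
    | inv a ha h1 => rw [inv_pow, h1, inv_one]
  let L : Subgroup S := B ⊔ zpowers x
  have hLM : L ≤ M := sup_le hBM (by rw [zpowers_le]; exact hxM)
  have hL : ∀ s (hs : s ∈ L), π ⟨s, hLM hs⟩ ∈ closure G0 := by
    have h1 : L.subgroupOf M ≤ (closure G0).comap π := by
      have h2 : L ≤ ((closure G0).comap π).map M.subtype := by
        apply sup_le
        · intro b hb
          exact ⟨⟨b, hBM hb⟩, subset_closure (Or.inl ⟨_, hb, rfl⟩), rfl⟩
        · rw [zpowers_le]
          exact ⟨⟨x, hxM⟩, subset_closure (Or.inr rfl), rfl⟩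
      intro s hs
      obtain ⟨s', hs', h3⟩ := h2 hs
      have : s' = s := Subtype.ext h3
      exact this ▸ hs'
    intro s hs
    exact h1 (show (⟨s, hLM hs⟩ : M) ∈ L.subgroupOf M from hs)
  have hLN := Cfsg.Agent.H73.Sec.relIndex_le hr L N (hNB.trans le_sup_left) (by
    intro u hu v hv
    have h1 := hL u hu
    have h2 := hL v hv
    have h3 : π ⟨u, hLM hu⟩ * π ⟨v, hLM hv⟩ = π ⟨v, hLM hv⟩ * π ⟨u, hLM hu⟩ :=
      congrArg Subtype.val (hA.is_comm.comm ⟨_, h1⟩ ⟨_, h2⟩)
    have h4 : π (⟨u, hLM hu⟩ * ⟨v, hLM hv⟩ * ⟨u, hLM hu⟩⁻¹ * ⟨v, hLM hv⟩⁻¹) = 1 := by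
      rw [map_mul, map_mul, map_mul, h3, map_inv, map_inv]
      group
    rw [← MonoidHom.mem_ker, QuotientGroup.ker_mk', mem_subgroupOf] at h4
    exact_mod_cast h4) (by
    intro u hu
    have h1 := hsq _ (hL u hu)
    rw [← map_pow, ← MonoidHom.mem_ker, QuotientGroup.ker_mk', mem_subgroupOf] at h1
    exact_mod_cast h1)
  have hmul := Subgroup.relIndex_mul_relIndex N B L hNB le_sup_left
  rw [← hmul, hc] at hLN
  have h1 : B.relIndex L ≤ 1 := by omega
  have h2 : B.relIndex L ≠ 0 := (Subgroup.index_ne_zero_of_finite : (B.subgroupOf L).index ≠ 0)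
  have h3 : B.relIndex L = 1 := by omega
  rw [relIndex_eq_one] at h3
  exact h3 (mem_sup_right (mem_zpowers x))

section main

variable {S : Type*} [Group S] [Finite S] (f : W →* S) (hf : Function.Injective f)

include hf in
/-- conjugation by a normalizing element as an automorphism of `W` -/
theorem exists_phi (x : S) (hx : ∀ w, ∃ w', x * f w * x⁻¹ = f w') : ∃ φ : W ≃* W, ∀ w, f (φ w) = x * f w * x⁻¹ := by
  choose g hg using hx
  let φ0 : W →* W :=
    { toFun := g
      map_one' := by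
        apply hf
        rw [← hg, map_one]; group
      map_mul' := fun u v => by
        apply hf
        rw [← hg, map_mul, map_mul, ← hg, ← hg]; group }
  have hinj : Function.Injective φ0 := by
    intro u v huv
    apply hf
    have h1 := hg u
    have h2 := hg v
    have h3 : g u = g v := huv
    rw [h3, ← h2] at h1
    exact mul_left_cancel (mul_right_cancel h1)
  have hbij : Function.Bijective φ0 := Finite.injective_iff_bijective.1 hinj
  exact ⟨MulEquiv.ofBijective φ0 hbij, fun w => (hg w).symm⟩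

include hf in
theorem main0 (hr : Cfsg.SectionalPRankLE 2 4 S) (x : S) (φ : W ≃* W) (hφ : ∀ w, f (φ w) = x * f w * x⁻¹)
    (hx2 : ∃ w, x ^ 2 = f w) (hz : φ z1 = z1) (hA : ∀ w, inA w → inA (φ w)) : x ∈ f.range := by
  have htype : ∀ w, inB w → good φ false w := by
    rcases type_good φ hz with h | h
    · exact h
    · exfalso
      have h1 := goodT_A φ (h a1 a1A.1) a1A
      have h2 := hA _ a1A
      have h3 : ∀ w, inA w → inA' w → inZ w := by decide +kernel
      have h4 := h3 _ h2 h1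
      have h5 : cl (φ a1) = sw true (cl a1) := (h a1 a1A.1).2
      have h6 : cl (φ a1) = cl 1 := h4
      rw [h5] at h6
      revert h6
      decide +kernel
  obtain ⟨w0, hw0⟩ := hx2
  have hw0Z : inZ w0 := by
    apply cenB
    intro g hg
    -- φ (φ g) = g
    have h1 : φ (φ g) = g := by
      obtain ⟨_, hc⟩ := htype g hg
      have hc' : cl (φ g) = cl g := hc
      have hZ := cl_div (φ g) g hg hc'
      -- c := φ g * g⁻¹ in Z, fixed by φ
      set c := φ g * g⁻¹ with hcdef
      have hc1 : φ g = c * g := by rw [hcdef]; group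
      have hfix : φ c = c := by
        rcases cl1 c hZ with h | h | h | h
        · rw [h, map_one]
        · rw [h, phi_z0]
        · rw [h, hz]
        · rw [h, phi_z2 φ hz]
      have hcc : c * c = 1 := by
        have : ∀ c : W, inZ c → c * c = 1 := by decide +kernel
        exact this c hZ
      rw [hc1, map_mul, hfix, hc1, ← mul_assoc, hcc, one_mul]
    have h2 : f (φ (φ g)) = f w0 * f g * (f w0)⁻¹ := by
      rw [hφ, hφ, ← hw0]
      simp only [pow_two, mul_inv_rev, mul_assoc]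
    rw [h1, ← map_inv, ← map_mul, ← map_mul] at h2
    have h3 := hf h2
    calc g * w0 = w0 * g * w0⁻¹ * w0 := by rw [← h3]
      _ = w0 * g := by group
  have hcardB : Nat.card (subB.map f) = 64 := by
    rw [Subgroup.card_map_of_injective hf, card_subB]
  have hcardZ : Nat.card (subZ.map f) = 4 := by
    rw [Subgroup.card_map_of_injective hf, card_subZ]
  have hle : subZ.map f ≤ subB.map f := Subgroup.map_mono (fun w hw => Z_le_B w hw)
  have hx : x ∈ subB.map f := by
    apply K hr (subB.map f) (subZ.map f) hle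
    · have := Subgroup.relIndex_mul_relIndex ⊥ _ _ bot_le hle
      rw [Subgroup.relIndex_bot_left, Subgroup.relIndex_bot_left, hcardB, hcardZ] at this
      omega
    · rintro _ ⟨u, hu, rfl⟩ _ ⟨v, hv, rfl⟩
      exact ⟨_, B_comm u v hu hv, by simp⟩
    · rintro _ ⟨u, hu, rfl⟩
      exact ⟨_, B_sq u hu, by rw [map_mul, pow_two]⟩
    · rintro _ ⟨u, hu, rfl⟩
      refine ⟨φ u * u⁻¹, cl_div _ _ hu (htype u hu).2, ?_⟩
      rw [map_mul, hφ, map_inv]
    · rw [hw0]
      exact ⟨w0, hw0Z, rfl⟩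
  obtain ⟨w, _, rfl⟩ := hx
  exact ⟨w, rfl⟩

include hf in
theorem main1 (hr : Cfsg.SectionalPRankLE 2 4 S) (x : S) (hx : ∀ w, ∃ w', x * f w * x⁻¹ = f w')
    (hx2 : ∃ w, x ^ 2 = f w) (hA : ∀ w, inA w → ∃ w', inA w' ∧ x * f w * x⁻¹ = f w') : x ∈ f.range := by
  obtain ⟨φ, hφ⟩ := exists_phi f hf x hx
  have hA' : ∀ w, inA w → inA (φ w) := by
    intro w hw
    obtain ⟨w', h1, h2⟩ := hA w hw
    rw [← hφ] at h2
    rw [hf h2]; exact h1
  rcases phi_z1 φ with h | h
  · exact main0 f hf hr x φ hφ hx2 h hA'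
  · let ψ : W ≃* W := φ.trans (MulAut.conj t0)
    have hψ : ∀ w, ψ w = t0 * φ w * t0⁻¹ := fun w => rfl
    have h1 : f t0 * x ∈ f.range := by
      apply main0 f hf hr (f t0 * x) ψ
      · intro w
        rw [hψ, map_mul, map_mul, hφ, map_inv]; group
      · obtain ⟨w0, hw0⟩ := hx2
        refine ⟨t0 * φ t0 * w0, ?_⟩
        rw [map_mul, map_mul, hφ, ← hw0]
        simp only [pow_two]
        group
      · rw [hψ, h, tz']
      · intro w hw
        rw [hψ]
        exact cA _ _ (hA' w hw)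
    obtain ⟨w, hw⟩ := h1
    exact ⟨t0⁻¹ * w, by rw [map_mul, map_inv, hw]; group⟩

end main

end Cfsg.Agent.H32.DW
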