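import Cfsg.Agent.Fus.Cover
import Cfsg.Agent.H32.LyD
import Cfsg.Agent.H32.LyE

/-!
A group of order 256 given by a table of right multiplications (owner: helper32).
-/

set_option autoImplicit false
set_option maxRecDepth 1000000

namespace Cfsg.Agent.H32.LyA

open Cfsg.Agent.H32.LyD

/-- forcing a number -/
def fr {α : Type} (x : ℕ) (f : ℕ → α) : α := @Nat.rec (fun _ => α) (f 0) (fun n _ => f (Nat.succ n)) x

theorem fr_eq {α : Type} (x : ℕ) (f : ℕ → α) : fr x f = f x := by cases x <;> rfl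

/-- the tables -/
def tb (k : ℕ) : ℕ := @Bool.rec (fun _ => ℕ) (@Bool.rec (fun _ => ℕ) rn3 rn2 (Nat.beq k 17)) rn1 (Nat.beq k 16)

/-- right multiplication -/
def rt (k m : ℕ) : ℕ := Nat.land (Nat.shiftRight (tb k) (Nat.mul 8 m)) 255

/-- right multiplication by a word -/
def go (w : List ℕ) : ℕ → ℕ :=
  @List.rec ℕ (fun _ => ℕ → ℕ) (fun m => m) (fun k _ ih m => fr (rt k m) ih) w

theorem go_nil (m : ℕ) : go [] m = m := rfl

theorem go_cons (k : ℕ) (w : List ℕ) (m : ℕ) : go (k :: w) m = go w (rt k m) := by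
  show fr (rt k m) (go w) = _
  rw [fr_eq]

/-- words -/
def lk (l : List (List ℕ)) : ℕ → List ℕ :=
  @List.rec (List ℕ) (fun _ => ℕ → List ℕ) (fun _ => []) (fun w _ ih i => @Nat.rec (fun _ => List ℕ) w (fun j _ => ih j) i) l

/-- the word of an element -/
def wd (m : ℕ) : List ℕ := lk WL m

/-- test of all words -/
def allW (q : ℕ → List ℕ → Bool) (l : List (ℕ × List ℕ)) : Bool :=
  @List.rec (ℕ × List ℕ) (fun _ => Bool) true (fun p _ ih => @Bool.rec (fun _ => Bool) false ih (q p.1 p.2)) l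

/-- counting -/
def cntW (q : ℕ → List ℕ → Bool) (l : List (ℕ × List ℕ)) : ℕ :=
  @List.rec (ℕ × List ℕ) (fun _ => ℕ) 0 (fun p _ ih => @Bool.rec (fun _ => ℕ) ih (Nat.succ ih) (q p.1 p.2)) l

theorem allW_sound {q : ℕ → List ℕ → Bool} {l : List (ℕ × List ℕ)} (h : allW q l = true) : ∀ p ∈ l, q p.1 p.2 = true := by
  induction l with
  | nil => intro p hp; simp at hp
  | cons a l ih =>
    have h' : @Bool.rec (fun _ => Bool) false (allW q l) (q a.1 a.2) = true := h
    rcases hb : q a.1 a.2 with _ | _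
    · rw [hb] at h'; exact absurd h' (by simp)
    · rw [hb] at h'
      intro p hp
      rcases List.mem_cons.1 hp with rfl | hp
      · exact hb
      · exact ih h' p hp

theorem cntW_eq (q : ℕ → List ℕ → Bool) (l : List (ℕ × List ℕ)) : cntW q l = (l.filter fun p => q p.1 p.2).length := by
  induction l with
  | nil => rfl
  | cons a l ih =>
    have h' : cntW q (a :: l) = @Bool.rec (fun _ => ℕ) (cntW q l) (Nat.succ (cntW q l)) (q a.1 a.2) := rfl
    rw [h', List.filter_cons]
    rcases hb : q a.1 a.2 with _ | _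
    · simp [ih]
    · simp [ih]

theorem WI_eq : WI = (List.range 256).map fun m => (m, wd m) := by decide +kernel

theorem mem_WI {m : ℕ} (hm : m < 256) : (m, wd m) ∈ WI := by
  rw [WI_eq, List.mem_map]
  exact ⟨m, List.mem_range.2 hm, rfl⟩

theorem of_allW {q : ℕ → List ℕ → Bool} (h : allW q WI = true) {m : ℕ} (hm : m < 256) : q m (wd m) = true :=
  allW_sound h _ (mem_WI hm)

theorem cntW_WI (q : ℕ → List ℕ → Bool) :
    cntW q WI = ((Finset.range 256).filter fun m => q m (wd m) = true).card := by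
  rw [cntW_eq, WI_eq, List.filter_map, List.length_map]
  show _ = Multiset.card (Multiset.filter (fun m => q m (wd m) = true) (Multiset.range 256))
  rw [← Multiset.coe_range, Multiset.filter_coe, Multiset.coe_card]
  congr 1
  apply List.filter_congr
  intro x _
  simp

/-- the letters -/
def isK (k : ℕ) : Prop := k = 16 ∨ k = 17 ∨ k = 18

theorem rt_lt (k m : ℕ) : rt k m < 256 :=
  lt_of_le_of_lt Nat.and_le_right (by norm_num)

theorem go_lt (w : List ℕ) {m : ℕ} (hm : m < 256) : go w m < 256 := by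
  induction w generalizing m with
  | nil => exact hm
  | cons k w ih => rw [go_cons]; exact ih (rt_lt _ _)

theorem wdK0 : allW (fun _ w => w.all fun k => k == 16 || k == 17 || k == 18) WI = true := by decide +kernel

theorem wdK {m : ℕ} (hm : m < 256) : ∀ k ∈ wd m, isK k := by
  have h := of_allW wdK0 hm
  simp only [List.all_eq_true, Bool.or_eq_true, beq_iff_eq] at h
  intro k hk
  rcases h k hk with (h | h) | h
  · exact Or.inl h
  · exact Or.inr (Or.inl h)
  · exact Or.inr (Or.inr h)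

theorem wd_zero : wd 0 = [] := rfl

section

variable {G : Type*} [Group G] (t : ℕ → G)

/-- the elements -/
def nf (m : ℕ) : G := ((wd m).map t).prod

/-- the table describes the group generated by three involutions -/
structure Mod : Prop where
  sq : ∀ k, isK k → t k * t k = 1
  mul : ∀ m < 256, ∀ k, isK k → nf t m * t k = nf t (rt k m)
  inj : ∀ a < 256, ∀ b < 256, nf t a = nf t b → a = b

/-- the group -/
def U : Subgroup G := Subgroup.closure {t 16, t 17, t 18}

variable {t}

theorem nf_zero : nf t 0 = 1 := by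
  unfold nf
  rw [wd_zero]
  rfl

theorem t_mem {k : ℕ} (hk : isK k) : t k ∈ U t := by
  apply Subgroup.subset_closure
  rcases hk with rfl | rfl | rfl <;> simp

theorem nf_mem {m : ℕ} (hm : m < 256) : nf t m ∈ U t := by
  unfold nf
  apply Subgroup.list_prod_mem
  intro x hx
  rw [List.mem_map] at hx
  obtain ⟨k, hk, rfl⟩ := hx
  exact t_mem (wdK hm k hk)

variable (h : Mod t)

include h

theorem Mod.nf_go {m : ℕ} (hm : m < 256) (w : List ℕ) (hw : ∀ k ∈ w, isK k) : nf t m * (w.map t).prod = nf t (go w m) := by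
  induction w generalizing m with
  | nil => simp [go_nil]
  | cons k w ih =>
    rw [List.map_cons, List.prod_cons, ← mul_assoc, h.mul m hm k (hw k (by simp)), go_cons]
    exact ih (rt_lt _ _) (fun x hx => hw x (by simp [hx]))

theorem Mod.nf_mul {a b : ℕ} (ha : a < 256) (hb : b < 256) : nf t a * nf t b = nf t (go (wd b) a) :=
  h.nf_go ha _ (wdK hb)

theorem Mod.exists_nf {x : G} (hx : x ∈ U t) : ∃ m < 256, x = nf t m := by
  have hinv : ∀ k, isK k → (t k)⁻¹ = t k := fun k hk => inv_eq_of_mul_eq_one_left (h.sq k hk)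
  unfold U at hx
  induction hx using Subgroup.closure_induction_right with
  | one => exact ⟨0, by norm_num, nf_zero.symm⟩
  | mul_right x _ y hy ih =>
    obtain ⟨m, hm, rfl⟩ := ih
    obtain ⟨k, hk, rfl⟩ : ∃ k, isK k ∧ y = t k := by
      rcases hy with rfl | rfl | rfl
      exacts [⟨16, Or.inl rfl, rfl⟩, ⟨17, Or.inr (Or.inl rfl), rfl⟩, ⟨18, Or.inr (Or.inr rfl), rfl⟩]
    exact ⟨_, rt_lt k m, h.mul m hm k hk⟩
  | mul_inv_cancel x _ y hy ih =>
    obtain ⟨m, hm, rfl⟩ := ih
    obtain ⟨k, hk, rfl⟩ : ∃ k, isK k ∧ y = t k := by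
      rcases hy with rfl | rfl | rfl
      exacts [⟨16, Or.inl rfl, rfl⟩, ⟨17, Or.inr (Or.inl rfl), rfl⟩, ⟨18, Or.inr (Or.inr rfl), rfl⟩]
    rw [hinv k hk]
    exact ⟨_, rt_lt k m, h.mul m hm k hk⟩

/-- the element of the group -/
def Mod.el (_ : Mod t) (m : Fin 256) : U t := ⟨nf t m, nf_mem m.2⟩

theorem Mod.bij : Function.Bijective h.el := by
  constructor
  · intro a b hab
    exact Fin.ext (h.inj a a.2 b b.2 (congrArg Subtype.val hab))
  · rintro ⟨x, hx⟩
    obtain ⟨m, hm, rfl⟩ := h.exists_nf hx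
    exact ⟨⟨m, hm⟩, rfl⟩

theorem Mod.card : Nat.card (U t) = 256 := by
  rw [← Nat.card_eq_of_bijective _ h.bij, Nat.card_eq_fintype_card, Fintype.card_fin]

theorem Mod.card_of (P : U t → Prop) (q : ℕ → List ℕ → Bool)
    (hq : ∀ m (hm : m < 256), P ⟨nf t m, nf_mem hm⟩ ↔ q m (wd m) = true) : Nat.card {x : U t // P x} = cntW q WI := by
  classical
  rw [cntW_WI]
  have e : {m : Fin 256 // P (h.el m)} ≃ {x : U t // P x} :=
    (Equiv.ofBijective _ h.bij).subtypeEquiv (fun m => Iff.rfl)
  rw [← Nat.card_congr e, Nat.card_eq_fintype_card, Fintype.card_subtype]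
  apply Finset.card_bij (fun (m : Fin 256) _ => (m : ℕ))
  · intro m hm
    rw [Finset.mem_filter] at hm ⊢
    exact ⟨Finset.mem_range.2 m.2, (hq m m.2).1 hm.2⟩
  · intro a _ b _ hab
    exact Fin.ext hab
  · intro m hm
    rw [Finset.mem_filter, Finset.mem_range] at hm
    exact ⟨⟨m, hm.1⟩, by rw [Finset.mem_filter]; exact ⟨Finset.mem_univ _, (hq m hm.1).2 hm.2⟩, rfl⟩

end

end Cfsg.Agent.H32.LyA
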