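import Cfsg.Agent.H32.LyA

/-!
Automorphisms of odd order of the group of order 256 are trivial (owner: helper32).
-/

set_option autoImplicit false
set_option maxRecDepth 1000000

namespace Cfsg.Agent.H32.LyA

open Cfsg.Agent.H32.LyD

theorem nbeq {a b : ℕ} : Nat.beq a b = true ↔ a = b := ⟨Nat.eq_of_beq_eq_true, fun h => by rw [h]; exact Nat.beq_refl b⟩

/-- order of the centralizer -/
def cn (m : ℕ) : ℕ := Nat.land (Nat.shiftRight CN (Nat.mul 9 m)) 511

/-- square -/
def sq (m : ℕ) (w : List ℕ) : ℕ := go w m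

theorem cen_tab : allW (fun a wa => Nat.beq (cntW (fun b wb => Nat.beq (go wb a) (go wa b)) WI) (cn a)) WI = true := by
  decide +kernel

/-- elements of order 4 with centralizer of order 8 -/
def q1 (m : ℕ) (w : List ℕ) : Bool := fr (go w m) fun s => !(Nat.beq s 0) && Nat.beq (go (wd s) s) 0 && Nat.beq (cn m) 8

/-- elements of order 8 with centralizer of order 32 -/
def q2 (m : ℕ) (w : List ℕ) : Bool := fr (go w m) fun s => !(Nat.beq (go (wd s) s) 0) && Nat.beq (cn m) 32

/-- elements of order 4 with centralizer of order 16 -/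
def q3 (m : ℕ) (w : List ℕ) : Bool := fr (go w m) fun s => !(Nat.beq s 0) && Nat.beq (go (wd s) s) 0 && Nat.beq (cn m) 16

theorem cnt1 : cntW q1 WI = 32 := by decide +kernel

theorem cnt2 : cntW q2 WI = 16 := by decide +kernel

theorem cnt3 : cntW q3 WI = 16 := by decide +kernel

/-- sign of a word -/
def sg (a b c : Bool) (w : List ℕ) : Bool :=
  w.foldr (fun k s => (if k = 16 then a else if k = 17 then b else c) == s) true

theorem par1 : ∀ a b c : Bool, allW (fun m w => !(q1 m w) || (sg a b c w == (b == c))) WI = true := by decide +kernel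

theorem par2 : ∀ a b c : Bool, allW (fun m w => !(q2 m w) || (sg a b c w == a)) WI = true := by decide +kernel

theorem par3 : ∀ a b c : Bool, allW (fun m w => !(q3 m w) || (sg a b c w == c)) WI = true := by decide +kernel

theorem cen0 : allW (fun m w => Nat.beq m 0 || Nat.beq m 22 || !(Nat.beq (go w (rt 16 0)) (rt 16 m)) ||
    !(Nat.beq (go w (rt 17 0)) (rt 17 m)) || !(Nat.beq (go w (rt 18 0)) (rt 18 m))) WI = true := by decide +kernel

section

variable {G : Type*} [Group G] {t : ℕ → G} (h : Mod t)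

/-- order of the centralizer -/
noncomputable def cc (x : U t) : ℕ := Nat.card {y : U t // x * y = y * x}

theorem cc_aut (β : MulAut (U t)) (x : U t) : cc (β x) = cc x := by
  refine (Nat.card_congr (β.toEquiv.subtypeEquiv fun y => ?_)).symm
  show x * y = y * x ↔ β x * β y = β y * β x
  rw [← map_mul, ← map_mul, β.injective.eq_iff]

/-- conditions -/
def Q1 (x : U t) : Prop := x * x ≠ 1 ∧ x * x * (x * x) = 1 ∧ cc x = 8

def Q2 (x : U t) : Prop := x * x * (x * x) ≠ 1 ∧ cc x = 32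

def Q3 (x : U t) : Prop := x * x ≠ 1 ∧ x * x * (x * x) = 1 ∧ cc x = 16

theorem aut_ne_one (β : MulAut (U t)) (x : U t) : β x ≠ 1 ↔ x ≠ 1 := by
  rw [ne_eq, ne_eq, not_iff_not]
  constructor
  · intro h1; rw [← map_one β] at h1; exact β.injective h1
  · rintro rfl; exact map_one β

theorem Q1_aut (β : MulAut (U t)) {x : U t} (hx : Q1 x) : Q1 (β x) := by
  obtain ⟨h1, h2, h3⟩ := hx
  refine ⟨?_, ?_, ?_⟩
  · rw [← map_mul]; exact (aut_ne_one β _).2 h1
  · rw [← map_mul, ← map_mul, h2, map_one]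
  · rw [cc_aut, h3]

theorem Q2_aut (β : MulAut (U t)) {x : U t} (hx : Q2 x) : Q2 (β x) := by
  obtain ⟨h1, h3⟩ := hx
  refine ⟨?_, ?_⟩
  · rw [← map_mul, ← map_mul]; exact (aut_ne_one β _).2 h1
  · rw [cc_aut, h3]

theorem Q3_aut (β : MulAut (U t)) {x : U t} (hx : Q3 x) : Q3 (β x) := by
  obtain ⟨h1, h2, h3⟩ := hx
  refine ⟨?_, ?_, ?_⟩
  · rw [← map_mul]; exact (aut_ne_one β _).2 h1
  · rw [← map_mul, ← map_mul, h2, map_one]
  · rw [cc_aut, h3]

/-- an automorphism of odd prime order fixes an element of an invariant set whose order is a power of two -/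
theorem exists_fixed {P : U t → Prop} {r : ℕ} (hr : r.Prime) (hr2 : r ≠ 2) {β : MulAut (U t)} (hβ : β ^ r = 1)
    (hP : ∀ x, P x → P (β x)) {k : ℕ} (hk : Nat.card {x : U t // P x} = 2 ^ k) : ∃ x, P x ∧ β x = x := by
  classical
  haveI : Fact r.Prime := ⟨hr⟩
  have hfin : Finite {x : U t // P x} := Nat.finite_of_card_ne_zero (by rw [hk]; positivity)
  haveI := Fintype.ofFinite {x : U t // P x}
  have hpow : ∀ n : ℕ, ∀ x, P x → P ((β ^ n) x) := by
    intro n
    induction n with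
    | zero => intro x hx; simpa using hx
    | succ n ih =>
      intro x hx
      rw [pow_succ', MulAut.mul_apply]
      exact hP _ (ih x hx)
  have hinv : ∀ x, (β ^ (r - 1)) (β x) = x := by
    intro x
    rw [← MulAut.mul_apply, ← pow_succ, Nat.sub_add_cancel hr.one_le, hβ, MulAut.one_apply]
  have hinv' : ∀ x, β ((β ^ (r - 1)) x) = x := by
    intro x
    rw [← MulAut.mul_apply, ← pow_succ', Nat.sub_add_cancel hr.one_le, hβ, MulAut.one_apply]
  let σ : Equiv.Perm {x : U t // P x} :=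
    { toFun := fun x => ⟨β x.1, hP _ x.2⟩
      invFun := fun x => ⟨(β ^ (r - 1)) x.1, hpow _ _ x.2⟩
      left_inv := fun x => Subtype.ext (hinv x.1)
      right_inv := fun x => Subtype.ext (hinv' x.1) }
  have hσ1 : ∀ n : ℕ, ∀ x : {x : U t // P x}, ((σ ^ n) x : U t) = (β ^ n) x.1 := by
    intro n
    induction n with
    | zero => intro x; simp
    | succ n ih =>
      intro x
      rw [pow_succ', Equiv.Perm.mul_apply, pow_succ', MulAut.mul_apply, ← ih x]
      rfl
  have hσ : σ ^ r ^ 1 = 1 := by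
    rw [pow_one]
    ext x
    rw [hσ1, hβ]
    rfl
  obtain ⟨x, hx⟩ := Equiv.Perm.exists_fixed_point_of_prime (p := r) (n := 1) (σ := σ) (by
    rw [← Nat.card_eq_fintype_card, hk]
    intro h1
    exact hr2 ((Nat.prime_dvd_prime_iff_eq hr Nat.prime_two).1 (hr.dvd_of_dvd_pow h1))) hσ
  exact ⟨x.1, x.2, congrArg Subtype.val hx⟩

include h

theorem Mod.cc_el {m : ℕ} (hm : m < 256) : cc (⟨nf t m, nf_mem hm⟩ : U t) = cn m := by
  have h1 := of_allW cen_tab hm
  rw [nbeq] at h1
  rw [← h1]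
  refine h.card_of _ (fun b wb => Nat.beq (go wb m) (go (wd m) b)) ?_
  intro b hb
  rw [nbeq]
  constructor
  · intro h2
    have h3 : nf t m * nf t b = nf t b * nf t m := congrArg Subtype.val h2
    rw [h.nf_mul hm hb, h.nf_mul hb hm] at h3
    exact h.inj _ (go_lt _ hm) _ (go_lt _ hb) h3
  · intro h2
    apply Subtype.ext
    show nf t m * nf t b = nf t b * nf t m
    rw [h.nf_mul hm hb, h.nf_mul hb hm, h2]

theorem Mod.sq_el {m : ℕ} (hm : m < 256) : (⟨nf t m, nf_mem hm⟩ : U t) * ⟨nf t m, nf_mem hm⟩ =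
    ⟨nf t (go (wd m) m), nf_mem (go_lt _ hm)⟩ := Subtype.ext (h.nf_mul hm hm)

theorem Mod.one_el {m : ℕ} (hm : m < 256) : (⟨nf t m, nf_mem hm⟩ : U t) = 1 ↔ m = 0 := by
  constructor
  · intro h1
    have h2 : nf t m = nf t 0 := by rw [nf_zero]; exact congrArg Subtype.val h1
    exact h.inj _ hm _ (by norm_num) h2
  · rintro rfl
    exact Subtype.ext (nf_zero (t := t))

theorem Mod.Q1_el {m : ℕ} (hm : m < 256) : Q1 (⟨nf t m, nf_mem hm⟩ : U t) ↔ q1 m (wd m) = true := by
  unfold Q1 q1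
  rw [fr_eq, h.cc_el, h.sq_el, h.sq_el, ne_eq, h.one_el, h.one_el]
  · simp only [Bool.and_eq_true, Bool.not_eq_true', nbeq, ← Bool.not_eq_true]
    tauto
  all_goals first | exact hm | exact go_lt _ hm | exact go_lt _ (go_lt _ hm)

theorem Mod.Q2_el {m : ℕ} (hm : m < 256) : Q2 (⟨nf t m, nf_mem hm⟩ : U t) ↔ q2 m (wd m) = true := by
  unfold Q2 q2
  rw [fr_eq, h.cc_el, h.sq_el, h.sq_el, ne_eq, h.one_el]
  · simp only [Bool.and_eq_true, Bool.not_eq_true', nbeq, ← Bool.not_eq_true]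
  all_goals first | exact hm | exact go_lt _ hm | exact go_lt _ (go_lt _ hm)

theorem Mod.Q3_el {m : ℕ} (hm : m < 256) : Q3 (⟨nf t m, nf_mem hm⟩ : U t) ↔ q3 m (wd m) = true := by
  unfold Q3 q3
  rw [fr_eq, h.cc_el, h.sq_el, h.sq_el, ne_eq, h.one_el, h.one_el]
  · simp only [Bool.and_eq_true, Bool.not_eq_true', nbeq, ← Bool.not_eq_true]
    tauto
  all_goals first | exact hm | exact go_lt _ hm | exact go_lt _ (go_lt _ hm)

theorem Mod.card1 : Nat.card {x : U t // Q1 x} = 2 ^ 5 := by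
  rw [h.card_of Q1 q1 fun m hm => h.Q1_el hm, cnt1]
  norm_num

theorem Mod.card2 : Nat.card {x : U t // Q2 x} = 2 ^ 4 := by
  rw [h.card_of Q2 q2 fun m hm => h.Q2_el hm, cnt2]
  norm_num

theorem Mod.card3 : Nat.card {x : U t // Q3 x} = 2 ^ 4 := by
  rw [h.card_of Q3 q3 fun m hm => h.Q3_el hm, cnt3]
  norm_num

/-- membership in a subgroup of index two -/
theorem Mod.mem_iff (K : Subgroup (U t)) (hK : K.index = 2) (a b c : Bool)
    (h16 : (⟨t 16, t_mem (Or.inl rfl)⟩ : U t) ∈ K ↔ a = true)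
    (h17 : (⟨t 17, t_mem (Or.inr (Or.inl rfl))⟩ : U t) ∈ K ↔ b = true)
    (h18 : (⟨t 18, t_mem (Or.inr (Or.inr rfl))⟩ : U t) ∈ K ↔ c = true) (w : List ℕ) (hw : ∀ k ∈ w, isK k)
    (hm : (w.map t).prod ∈ U t) : (⟨(w.map t).prod, hm⟩ : U t) ∈ K ↔ sg a b c w = true := by
  induction w with
  | nil =>
    have h1 : (⟨(([] : List ℕ).map t).prod, hm⟩ : U t) = 1 := Subtype.ext (by simp)
    rw [h1]
    exact iff_of_true (one_mem _) rfl
  | cons k w ih =>
    have hk := hw k (by simp)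
    have hw' : (w.map t).prod ∈ U t := by
      apply Subgroup.list_prod_mem
      intro x hx
      rw [List.mem_map] at hx
      obtain ⟨j, hj, rfl⟩ := hx
      exact t_mem (hw j (by simp [hj]))
    have h1 : (⟨((k :: w).map t).prod, hm⟩ : U t) = ⟨t k, t_mem hk⟩ * ⟨(w.map t).prod, hw'⟩ :=
      Subtype.ext (by simp)
    rw [h1, Subgroup.mul_mem_iff_of_index_two hK, ih (fun x hx => hw x (by simp [hx])) hw']
    have h2 : sg a b c (k :: w) = ((if k = 16 then a else if k = 17 then b else c) == sg a b c w) := rfl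
    rw [h2, beq_iff_eq, Bool.eq_iff_iff]
    rcases hk with rfl | rfl | rfl
    · rw [h16]; simp
    · rw [h17]; simp
    · rw [h18]; simp

/-- three special elements generate -/
theorem Mod.gen (K : Subgroup (U t)) {x y z : U t} (hx : Q1 x) (hy : Q2 y) (hz : Q3 z) (hxK : x ∈ K) (hyK : y ∈ K)
    (hzK : z ∈ K) : K = ⊤ := by
  classical
  haveI : Finite (U t) := Nat.finite_of_card_ne_zero (by rw [h.card]; norm_num)
  haveI : Fact (Nat.Prime 2) := ⟨Nat.prime_two⟩
  by_contra hne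
  have hd : Nat.card K ∣ 2 ^ 8 := by
    have := Subgroup.card_subgroup_dvd_card K
    rwa [h.card] at this
  obtain ⟨n, hn, hcn⟩ := (Nat.dvd_prime_pow Nat.prime_two).1 hd
  have hn7 : n ≤ 7 := by
    by_contra h1
    have h2 : n = 8 := by omega
    apply hne
    apply Subgroup.eq_top_of_card_eq
    rw [hcn, h2, h.card]
    norm_num
  obtain ⟨L, hL, hKL⟩ := Sylow.exists_subgroup_card_pow_prime_le 2 (n := n) (m := 7) (G := U t)
    (by rw [h.card]; norm_num) K hcn hn7
  have hLi : L.index = 2 := by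
    have h1 := L.card_mul_index
    rw [hL, h.card] at h1
    omega
  set a : Bool := decide ((⟨t 16, t_mem (Or.inl rfl)⟩ : U t) ∈ L) with ha
  set b : Bool := decide ((⟨t 17, t_mem (Or.inr (Or.inl rfl))⟩ : U t) ∈ L) with hb
  set c : Bool := decide ((⟨t 18, t_mem (Or.inr (Or.inr rfl))⟩ : U t) ∈ L) with hc
  have key : ∀ m (hm : m < 256), (⟨nf t m, nf_mem hm⟩ : U t) ∈ L ↔ sg a b c (wd m) = true := by
    intro m hm
    exact h.mem_iff L hLi a b c (by rw [ha]; simp) (by rw [hb]; simp) (by rw [hc]; simp) (wd m) (wdK hm) _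
  have hst : ∀ x : U t, ∃ m, ∃ hm : m < 256, x = ⟨nf t m, nf_mem hm⟩ := by
    rintro ⟨x, hx⟩
    obtain ⟨m, hm, rfl⟩ := h.exists_nf hx
    exact ⟨m, hm, rfl⟩
  have e1 : (b == c) = true := by
    obtain ⟨m, hm, rfl⟩ := hst x
    have h1 := (h.Q1_el hm).1 hx
    have h2 := (key m hm).1 (hKL hxK)
    have h3 := of_allW (par1 a b c) hm
    rw [h1, h2] at h3
    simpa using h3
  have e2 : a = true := by
    obtain ⟨m, hm, rfl⟩ := hst y
    have h1 := (h.Q2_el hm).1 hy
    have h2 := (key m hm).1 (hKL hyK)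
    have h3 := of_allW (par2 a b c) hm
    rw [h1, h2] at h3
    simpa using h3
  have e3 : c = true := by
    obtain ⟨m, hm, rfl⟩ := hst z
    have h1 := (h.Q3_el hm).1 hz
    have h2 := (key m hm).1 (hKL hzK)
    have h3 := of_allW (par3 a b c) hm
    rw [h1, h2] at h3
    simpa using h3
  have e4 : b = true := by
    rw [e3] at e1
    simpa using e1
  have hLt : L = ⊤ := by
    rw [eq_top_iff]
    have h1 : U t ≤ L.map (U t).subtype := by
      unfold U
      rw [Subgroup.closure_le]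
      have f1 : t 16 ∈ L.map (U t).subtype := ⟨_, of_decide_eq_true (ha.symm.trans e2), rfl⟩
      have f2 : t 17 ∈ L.map (U t).subtype := ⟨_, of_decide_eq_true (hb.symm.trans e4), rfl⟩
      have f3 : t 18 ∈ L.map (U t).subtype := ⟨_, of_decide_eq_true (hc.symm.trans e3), rfl⟩
      rintro _ (rfl | rfl | rfl)
      exacts [f1, f2, f3]
    intro x _
    obtain ⟨y, hy, hyx⟩ := h1 x.2
    have : y = x := Subtype.ext hyx
    rwa [← this]
  rw [hLt, Subgroup.index_top] at hLi
  omega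

/-- automorphisms of odd prime order -/
theorem Mod.aut {r : ℕ} (hr : r.Prime) (hr2 : r ≠ 2) {β : MulAut (U t)} (hβ : β ^ r = 1) : β = 1 := by
  obtain ⟨x, hx, hx1⟩ := exists_fixed hr hr2 hβ (fun x hx => Q1_aut β hx) h.card1
  obtain ⟨y, hy, hy1⟩ := exists_fixed hr hr2 hβ (fun x hx => Q2_aut β hx) h.card2
  obtain ⟨z, hz, hz1⟩ := exists_fixed hr hr2 hβ (fun x hx => Q3_aut β hx) h.card3
  have h1 := h.gen (β.toMonoidHom.eqLocus (MonoidHom.id (U t))) hx hy hz hx1 hy1 hz1
  ext x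
  have h2 : x ∈ β.toMonoidHom.eqLocus (MonoidHom.id (U t)) := by rw [h1]; exact Subgroup.mem_top _
  have h3 : β x = x := h2
  rw [h3]
  rfl

/-- the centre -/
theorem Mod.cen {x : G} (hx : x ∈ U t) (h1 : ∀ s ∈ U t, s * x = x * s) : x = 1 ∨ x = nf t 22 := by
  obtain ⟨m, hm, rfl⟩ := h.exists_nf hx
  have key : ∀ k, isK k → go (wd m) (rt k 0) = rt k m := by
    intro k hk
    have h2 := h1 (t k) (t_mem hk)
    rw [h.mul m hm k hk] at h2
    have h3 : t k = nf t (rt k 0) := by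
      rw [← h.mul 0 (by norm_num) k hk, nf_zero, one_mul]
    rw [h3, h.nf_mul (rt_lt _ _) hm] at h2
    exact h.inj _ (go_lt _ (rt_lt _ _)) _ (rt_lt _ _) h2
  have h4 := of_allW cen0 hm
  simp only [Bool.or_eq_true, Bool.not_eq_true', nbeq, ← Bool.not_eq_true] at h4
  rcases h4 with (((h4 | h4) | h4) | h4) | h4
  · left; rw [h4, nf_zero]
  · right; rw [h4]
  · exact absurd (key 16 (Or.inl rfl)) h4
  · exact absurd (key 17 (Or.inr (Or.inl rfl))) h4
  · exact absurd (key 18 (Or.inr (Or.inr rfl))) h4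

end

end Cfsg.Agent.H32.LyA
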