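import Cfsg.Agent.H32.LyB

/-!
Simplicity of the 2-fusion system for a Sylow 2-subgroup of order 256 given by the table (owner: helper32).
-/

set_option autoImplicit false

namespace Cfsg.Agent.H32.LyA

open Cfsg Cfsg.Agent.Fus

theorem fusion_simple {G : Type*} [Group G] [Finite G] {t : ℕ → G} (h : Mod t) (S : Sylow 2 G)
    (hS : (S : Subgroup G) = U t) (hc : ∀ k, isK k → ∃ g : G, g * nf t 22 * g⁻¹ = t k) :
    (groupFusionSystem (S : Subgroup G)).IsSimple 2 := by
  haveI : Fact (Nat.Prime 2) := ⟨Nat.prime_two⟩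
  have hfin : Finite (S : Subgroup G) := inferInstance
  have ht : ∀ k, isK k → t k ∈ (S : Subgroup G) := fun k hk => by rw [hS]; exact t_mem hk
  have h22 : nf t 22 ≠ 1 := by
    intro h1
    have := h.inj 22 (by norm_num) 0 (by norm_num) (by rw [h1, nf_zero])
    omega
  -- odd order elements of the normalizer centralise
  have hodd : ∀ g : G, g ∈ Subgroup.normalizer ((S : Subgroup G) : Set G) → Odd (orderOf g) →
      ∀ x ∈ (S : Subgroup G), x * g = g * x := by
    intro g hg hgo x hx
    set f := (S : Subgroup G).normalizerMonoidHom with hf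
    set α : MulAut (S : Subgroup G) := f ⟨g, hg⟩ with hα
    have hα1 : α = 1 := by
      by_contra hne
      have ho : orderOf α ∣ orderOf g := by
        have h1 := orderOf_map_dvd f ⟨g, hg⟩
        rwa [Subgroup.orderOf_mk] at h1
      have hm1 : orderOf α ≠ 1 := fun h1 => hne (orderOf_eq_one_iff.1 h1)
      obtain ⟨r, hr, hrd⟩ := Nat.exists_prime_and_dvd hm1
      have hr2 : r ≠ 2 := by
        rintro rfl
        have h1 := hrd.trans ho
        exact (Nat.not_even_iff_odd.2 hgo) (even_iff_two_dvd.2 h1)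
      obtain ⟨q, hq⟩ := hrd
      have hq0 : 0 < q := by
        rcases Nat.eq_zero_or_pos q with h1 | h1
        · rw [h1, mul_zero] at hq
          have : 0 < orderOf α := Nat.pos_of_dvd_of_pos ho (orderOf_pos g)
          omega
        · exact h1
      have hβ : (α ^ q) ^ r = 1 := by
        rw [← pow_mul, mul_comm, ← hq, pow_orderOf_eq_one]
      have key : ∀ (V : Subgroup G), V = U t → ∀ β : MulAut V, β ^ r = 1 → β = 1 := by
        rintro V rfl β hβ'
        exact h.aut hr hr2 hβ'
      have h2 := key _ hS _ hβ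
      have h3 : orderOf α ∣ q := orderOf_dvd_of_pow_eq_one h2
      rw [hq] at h3
      have h4 := Nat.le_of_dvd hq0 h3
      have h5 := hr.two_le
      nlinarith
    have h6 : (g * x * g⁻¹ : G) = x := by
      have h7 : ((f ⟨g, hg⟩) ⟨x, hx⟩ : G) = g * x * g⁻¹ := rfl
      rw [← h7, ← hα, hα1]
      rfl
    calc x * g = g * x * g⁻¹ * g := by rw [h6]
      _ = g * x := by group
  refine isSimple_group_of S ?_ ?_ ?_
  · intro hb
    apply h22
    have h1 : nf t 22 ∈ (S : Subgroup G) := by rw [hS]; exact nf_mem (by norm_num)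
    rwa [hb, Subgroup.mem_bot] at h1
  · intro T hT
    rw [stronglyClosed_group_iff] at hT
    by_cases hT1 : T = ⊥
    · exact Or.inl hT1
    right
    apply le_antisymm hT.1
    obtain ⟨z, hz, hz1, hzc⟩ := exists_central_of_normal S.2 hT.1 (fun s hs x hx => hT.2 x hx s
      ((S : Subgroup G).mul_mem ((S : Subgroup G).mul_mem hs (hT.1 hx)) ((S : Subgroup G).inv_mem hs))) hT1
    have h1 : z = nf t 22 := by
      rcases h.cen (x := z) (by rw [← hS]; exact hT.1 hz) (by rw [← hS]; exact hzc) with h2 | h2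
      · exact absurd h2 hz1
      · exact h2
    have h2 : ∀ k, isK k → t k ∈ T := by
      intro k hk
      obtain ⟨g, hg⟩ := hc k hk
      rw [← hg, ← h1]
      refine hT.2 z hz g ?_
      rw [h1, hg]
      exact ht k hk
    rw [hS]
    unfold U
    rw [Subgroup.closure_le]
    rintro _ (rfl | rfl | rfl)
    exacts [h2 _ (Or.inl rfl), h2 _ (Or.inr (Or.inl rfl)), h2 _ (Or.inr (Or.inr rfl))]
  · intro g hg
    refine Subgroup.subset_closure ⟨hg, (S : Subgroup G), ?_, ?_⟩
    · refine isCentric_group_of S.2 le_rfl ?_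
      intro c hc1 hc2
      have h1 : c ∈ Subgroup.centralizer ((S : Subgroup G) : Set G) := by
        rw [Subgroup.mem_centralizer_iff]
        exact hc1
      -- `c` is a 2-element normalising `S`
      obtain ⟨k, hk⟩ := hc2
      have h2 : IsPGroup 2 (Subgroup.zpowers c) := by
        rintro ⟨y, hy⟩
        obtain ⟨m, rfl⟩ := Subgroup.mem_zpowers_iff.1 hy
        refine ⟨k, Subtype.ext ?_⟩
        show (c ^ m) ^ 2 ^ k = 1
        rw [← zpow_natCast, ← zpow_mul, mul_comm, zpow_mul, zpow_natCast, hk, one_zpow]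
      have h3 : (S : Subgroup G) ≤ Subgroup.normalizer ((Subgroup.zpowers c : Subgroup G) : Set G) := by
        intro s hs
        apply mem_normalizer_of_conj
        rintro _ ⟨m, rfl⟩
        refine ⟨m, ?_⟩
        have h4 : s * c * s⁻¹ = c := by rw [hc1 s hs]; group
        show c ^ m = s * c ^ m * s⁻¹
        rw [← conj_zpow, h4]
      have h5 : IsPGroup 2 ((S : Subgroup G) ⊔ Subgroup.zpowers c : Subgroup G) :=
        IsPGroup.to_sup_of_normal_right' S.2 h2 h3
      have h6 := S.3 h5 le_sup_left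
      have h7 : c ∈ ((S : Subgroup G) ⊔ Subgroup.zpowers c : Subgroup G) :=
        le_sup_right (a := (S : Subgroup G)) (Subgroup.mem_zpowers c)
      rw [h6] at h7
      exact h7
    · -- decomposition
      have hpos := orderOf_pos g
      obtain ⟨a, m, hm, ham⟩ := Nat.exists_eq_two_pow_mul_odd hpos.ne'
      have hcop : Nat.Coprime m (2 ^ a) := Nat.Coprime.pow_right _ (Nat.coprime_two_right.2 hm)
      set N := Subgroup.normalizer ((S : Subgroup G) : Set G) with hN
      have e1 : g ^ m ∈ Subgroup.closure {g : G | g ∈ Subgroup.normalizer ((S : Subgroup G) : Set G) ∧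
          ((∃ k : ℕ, g ^ 2 ^ k = 1) ∨ ∀ x ∈ (S : Subgroup G), x * g = g * x)} := by
        refine Subgroup.subset_closure ⟨N.pow_mem hg _, Or.inl ⟨a, ?_⟩⟩
        rw [← pow_mul, mul_comm, ← ham, pow_orderOf_eq_one]
      have e2 : g ^ 2 ^ a ∈ Subgroup.closure {g : G | g ∈ Subgroup.normalizer ((S : Subgroup G) : Set G) ∧
          ((∃ k : ℕ, g ^ 2 ^ k = 1) ∨ ∀ x ∈ (S : Subgroup G), x * g = g * x)} := by
        refine Subgroup.subset_closure ⟨N.pow_mem hg _, Or.inr (hodd _ (N.pow_mem hg _) ?_)⟩
        have h1 : orderOf (g ^ 2 ^ a) = m := by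
          rw [orderOf_pow, ham, Nat.gcd_eq_right (dvd_mul_right _ _), Nat.mul_div_cancel_left _ (by positivity)]
        rw [h1]
        exact hm
      have h1 := Nat.gcd_eq_gcd_ab m (2 ^ a)
      rw [hcop] at h1
      have h2 : g = (g ^ m) ^ (Nat.gcdA m (2 ^ a)) * (g ^ 2 ^ a) ^ (Nat.gcdB m (2 ^ a)) := by
        rw [← zpow_natCast, ← zpow_natCast, ← zpow_mul, ← zpow_mul, ← zpow_add, ← h1]
        simp
      rw [h2]
      exact Subgroup.mul_mem _ (Subgroup.zpow_mem _ e1 _) (Subgroup.zpow_mem _ e2 _)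

end Cfsg.Agent.H32.LyA
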