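import Cfsg.Agent.H32.LyM

/-!
Relations of the matrices, part 1 (owner: helper32).
-/

set_option autoImplicit false
set_option maxRecDepth 1000000

namespace Cfsg.Agent.H32.LyM

open Cfsg.Agent.CosetEnum Cfsg.Agent.KMat Cfsg.Agent.LyG Cfsg.Agent.H32.LyD

theorem r1_0 : allR (prB PM ms2 PA) 56 8 = true := by decide +kernel

theorem r1_1 : allR (prB PM ms2 PA) 64 8 = true := by decide +kernel

theorem r1_2 : allR (prB PM ms2 PA) 72 8 = true := by decide +kernel

theorem r1_3 : allR (prB PM ms2 PA) 80 8 = true := by decide +kernel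

theorem r1_4 : allR (prB PM ms2 PA) 88 8 = true := by decide +kernel

theorem r1_5 : allR (prB PM ms2 PA) 96 8 = true := by decide +kernel

theorem r1_6 : allR (prB PM ms2 PA) 104 7 = true := by decide +kernel

theorem r1 : Cov (prB PM ms2 PA) 56 111 := (((((((Cov.of r1_0 rfl).trans (Cov.of r1_1 rfl)).trans (Cov.of r1_2 rfl)).trans (Cov.of r1_3 rfl)).trans (Cov.of r1_4 rfl)).trans (Cov.of r1_5 rfl)).trans (Cov.of r1_6 rfl))

end Cfsg.Agent.H32.LyM
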