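import Cfsg.Agent.H32.LyR0
import Cfsg.Agent.H32.LyR1
import Cfsg.Agent.H32.LyC
import Cfsg.Agent.CosetEnum.Ly.Ord

/-!
A Sylow 2-subgroup of the Lyons group (owner: helper32).
-/

set_option autoImplicit false
set_option maxRecDepth 1000000

namespace Cfsg.Agent.H32.LyM

open Cfsg Cfsg.Agent.CosetEnum Cfsg.Agent.KMat Cfsg.Agent.LyG Cfsg.Agent.H32.LyD Cfsg.Agent.H32.LyA
open scoped Pointwise

theorem cov2 : Cov (prB PM ms2 PA) 0 PM.n := r0.trans r1

theorem p1M : 1 < PM.p := by show 1 < 5; norm_num

/-- the elements -/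
noncomputable def gx (x : ℕ) : Spor.Ly :=
  if x = 16 then ev gL w1 else if x = 17 then ev gL w2 else if x = 18 then ev gL w3 else gL x

theorem ms_eq {x : ℕ} (hx : x ∈ letsM) : ms2 x = ms x := by
  simp only [letsM, List.mem_cons, List.not_mem_nil, or_false] at hx
  rcases hx with rfl | rfl | rfl | rfl | rfl | rfl | rfl | rfl | rfl | rfl | rfl | rfl | rfl | rfl | rfl <;> rfl

theorem wm_ms {u : List ℕ} (hu : ∀ x ∈ u, x ∈ letsM) : wm PM ms2 u = wm PM ms u := by
  unfold wm
  congr 1
  apply List.map_congr_left
  intro x hx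
  rw [ms_eq (hu x hx)]

theorem lets_sub {x : ℕ} (hx : x ∈ letsM) : x ∈ lets2 := by
  simp only [letsM, List.mem_cons, List.not_mem_nil, or_false] at hx
  simp only [lets2, List.mem_cons, List.not_mem_nil, or_false]
  tauto

theorem chk {u : List ℕ} (h : (u.all fun x => letsM.contains x) = true) : ∀ x ∈ u, x ∈ letsM := by
  intro x hx
  have := List.all_eq_true.1 h x hx
  simpa using this

theorem chk2 {u : List ℕ} (h : (u.all fun x => lets2.contains x) = true) : ∀ x ∈ u, x ∈ lets2 := by
  intro x hx
  have := List.all_eq_true.1 h x hx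
  simpa using this

theorem val_new {x : ℕ} {u : List ℕ} (hx : x ∈ lets2) (hu : ∀ y ∈ u, y ∈ letsM) (hp : ([x], u) ∈ PA) :
    ((phi (ev gL u) : MU) : Matrix (Fin PM.n) (Fin PM.n) (ZMod PM.p)) = mat PM (ms2 x) := by
  have h1 := wm_eq PM_ok p1M cov2 hp (by
    intro y hy
    simp only [List.mem_cons, List.not_mem_nil, or_false] at hy
    rw [hy]
    exact mok2 x hx) (fun y hy => mok2 y (lets_sub (hu y hy)))
  have h2 : wm PM ms2 [x] = mat PM (ms2 x) := by simp [wm]
  rw [← h2, h1, phi_ev, wm_ms hu]
  exact RT.gm_word hu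

theorem FAM : Fam PM ms2 lets2 (fun x => phi (gx x)) where
  ok := PM_ok
  p1 := p1M
  mok := mok2
  val := by
    intro x hx
    by_cases h : x ∈ letsM
    · have h16 : x ≠ 16 ∧ x ≠ 17 ∧ x ≠ 18 := by
        simp only [letsM, List.mem_cons, List.not_mem_nil, or_false] at h
        omega
      have h1 : gx x = gL x := by
        unfold gx
        rw [if_neg h16.1, if_neg h16.2.1, if_neg h16.2.2]
      show ((phi (gx x) : MU) : Matrix (Fin PM.n) (Fin PM.n) (ZMod PM.p)) = _
      rw [h1, phi_gL, ms_eq h]
      exact RT.gm_val h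
    · have h2 : x = 16 ∨ x = 17 ∨ x = 18 := by
        simp only [letsM, List.mem_cons, List.not_mem_nil, or_false] at h
        simp only [lets2, List.mem_cons, List.not_mem_nil, or_false] at hx
        omega
      rcases h2 with rfl | rfl | rfl
      · exact val_new hx (chk (u := w1) (by decide)) (by decide +kernel)
      · exact val_new hx (chk (u := w2) (by decide)) (by decide +kernel)
      · exact val_new hx (chk (u := w3) (by decide)) (by decide +kernel)

theorem phi_inj : Function.Injective phi := by
  haveI := simple_Ly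
  rw [← MonoidHom.ker_eq_bot_iff]
  rcases IsSimpleGroup.eq_bot_or_eq_top_of_normal phi.ker inferInstance with h | h
  · exact h
  · exfalso
    have h1 : phi (gL 7) = 1 := by
      have : gL 7 ∈ phi.ker := by rw [h]; exact Subgroup.mem_top _
      exact this
    rw [phi_gL] at h1
    refine RT.ne (u := [7]) (u' := []) ?_ (by simp) (v := 2 ^ (12 * 0)) ?_ (by decide +kernel) (by simpa using h1)
    · intro x hx
      simp only [List.mem_cons, List.not_mem_nil, or_false] at hx
      subst hx
      decide
    · exact basis_vec (P := PM) (i := 0) (by show 1 < 5; norm_num) (by show 0 < 111; norm_num)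

/-- relations in the Lyons group -/
theorem rel {p : List ℕ × List ℕ} (hp : p ∈ PA) : (p.1.map gx).prod = (p.2.map gx).prod := by
  have hw : ∀ p ∈ PA, (p.1.all fun x => lets2.contains x) = true ∧ (p.2.all fun x => lets2.contains x) = true := by
    decide +kernel
  have h1 := FAM.rel cov2 hp (chk2 (hw p hp).1) (chk2 (hw p hp).2)
  apply phi_inj
  rw [map_list_prod, map_list_prod, List.map_map, List.map_map]
  exact h1

theorem relE {u v : List ℕ} (hp : PA.contains (u, v) = true) : (u.map gx).prod = (v.map gx).prod := by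
  rw [List.contains_iff_mem] at hp
  exact rel hp

/-- the right multiplication table is correct -/
def relB (k m : ℕ) : Bool :=
  (wd (rt k m) == wd m ++ [k]) || (wd m == wd (rt k m) ++ [k]) || PA.contains (wd m ++ [k], wd (rt k m)) ||
    PA.contains (wd (rt k m) ++ [k], wd m)

theorem relA16 : allW (fun m _ => relB 16 m) WI = true := by decide +kernel

theorem relA17 : allW (fun m _ => relB 17 m) WI = true := by decide +kernel

theorem relA18 : allW (fun m _ => relB 18 m) WI = true := by decide +kernel

theorem sqA : ∀ k, isK k → gx k * gx k = 1 := by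
  rintro k (rfl | rfl | rfl)
  · have := rel (p := ([16, 16], [])) (by decide +kernel)
    simpa using this
  · have := rel (p := ([17, 17], [])) (by decide +kernel)
    simpa using this
  · have := rel (p := ([18, 18], [])) (by decide +kernel)
    simpa using this

theorem dst : dstB PM ms2 1 WL = true := by decide +kernel

theorem WL_eq : WL = (List.range 256).map wd := by decide +kernel

theorem isK_lets {k : ℕ} (hk : isK k) : k ∈ lets2 := by
  rcases hk with rfl | rfl | rfl <;> decide

theorem mod : Mod gx where
  sq := sqA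
  mul := by
    intro m hm k hk
    have h1 : relB k m = true := by
      rcases hk with rfl | rfl | rfl
      exacts [of_allW relA16 hm, of_allW relA17 hm, of_allW relA18 hm]
    unfold relB at h1
    simp only [Bool.or_eq_true] at h1
    unfold nf
    rcases h1 with ((h1 | h1) | h1) | h1
    · rw [beq_iff_eq] at h1
      rw [h1, List.map_append, List.prod_append]
      simp
    · rw [beq_iff_eq] at h1
      nth_rewrite 1 [h1]
      rw [List.map_append, List.prod_append, mul_assoc]
      simp [sqA k hk]
    · have h2 := relE h1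
      rw [List.map_append, List.prod_append] at h2
      simpa using h2
    · have h2 := relE h1
      rw [List.map_append, List.prod_append] at h2
      rw [← h2, mul_assoc]
      simp [sqA k hk]
  inj := by
    intro a ha b hb hab
    have h1 := dstB_sound dst
    rw [WL_eq, List.map_map] at h1
    have hv : Vec PM 1 := by
      have := basis_vec (P := PM) p1M (i := 0) (by show 0 < 111; norm_num)
      simpa using this
    have h2 : walk PM ms2 (wd a) 1 = walk PM ms2 (wd b) 1 := by
      refine (FAM.walk_eq (fun x hx => isK_lets (wdK ha x hx)) (fun x hx => isK_lets (wdK hb x hx)) hv).2 ?_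
      have h3 := congrArg phi hab
      unfold nf at h3
      rw [map_list_prod, map_list_prod, List.map_map, List.map_map] at h3
      rw [show (fun x => phi (gx x)) = phi ∘ gx from rfl, h3]
    have h4 := List.inj_on_of_nodup_map h1 (List.mem_range.2 ha) (List.mem_range.2 hb)
    exact h4 h2

theorem conj1 {k : ℕ} {g : List ℕ} (hp : ([1, 1, 1, 1] ++ g, g ++ [k]) ∈ PA) :
    ∃ y : Spor.Ly, y * nf gx 22 * y⁻¹ = gx k := by
  have h0 := rel (p := ([1, 1, 1, 1], wd 22)) (by decide +kernel)
  have h1 := rel hp
  rw [List.map_append, List.prod_append, List.map_append, List.prod_append] at h1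
  refine ⟨((g.map gx).prod)⁻¹, ?_⟩
  have h2 : nf gx 22 = (([1, 1, 1, 1] : List ℕ).map gx).prod := h0.symm
  rw [h2, inv_inv, mul_assoc, h1]
  simp

theorem conj_all : ∀ k, isK k → ∃ y : Spor.Ly, y * nf gx 22 * y⁻¹ = gx k := by
  rintro k (rfl | rfl | rfl)
  · exact conj1 (g := g1) (by decide +kernel)
  · exact conj1 (g := g2) (by decide +kernel)
  · exact conj1 (g := g3) (by decide +kernel)

/-- the statement for the Lyons group -/
theorem main {G : Type*} [Group G] [Finite G] (e : Spor.Ly ≃* G) (S : Sylow 2 G) :
    (groupFusionSystem (S : Subgroup G)).IsSimple 2 := by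
  haveI : Fact (Nat.Prime 2) := ⟨Nat.prime_two⟩
  have hcG : Nat.card G = 2 ^ 8 * 202207730484375 := by
    rw [← Nat.card_congr e.toEquiv, card_Ly]
    norm_num
  -- the subgroup as a Sylow subgroup
  have hcU : Nat.card ((U gx).map e.toMonoidHom) = 2 ^ 8 := by
    rw [← Nat.card_congr ((U gx).equivMapOfInjective _ e.injective).toEquiv, mod.card]
    norm_num
  have hfac : (Nat.card G).factorization 2 = 8 := by
    rw [hcG, Nat.factorization_mul (by norm_num) (by norm_num), Finsupp.add_apply,
      Nat.Prime.factorization_pow Nat.prime_two, Finsupp.single_eq_same,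
      Nat.factorization_eq_zero_of_not_dvd (by norm_num)]
  let P : Sylow 2 G := Sylow.ofCard ((U gx).map e.toMonoidHom) (by rw [hcU, hfac])
  obtain ⟨g₀, hg₀⟩ := MulAction.exists_smul_eq G P S
  set ψ : Spor.Ly ≃* G := e.trans (MulAut.conj g₀) with hψ
  have hS : (S : Subgroup G) = U (ψ ∘ gx) := by
    have h1 : (S : Subgroup G) = (U gx).map ψ.toMonoidHom := by
      rw [← hg₀, Sylow.coe_subgroup_smul]
      show MulAut.conj g₀ • ((U gx).map e.toMonoidHom) = _
      ext y
      rw [Subgroup.mem_pointwise_smul_iff_inv_smul_mem]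
      constructor
      · rintro ⟨x, hx, h⟩
        refine ⟨x, hx, ?_⟩
        rw [← map_inv, MulAut.smul_def, MulAut.conj_apply, inv_inv] at h
        show g₀ * e x * g₀⁻¹ = y
        have h' : e x = g₀⁻¹ * y * g₀ := h
        rw [h']; group
      · rintro ⟨x, hx, rfl⟩
        refine ⟨x, hx, ?_⟩
        rw [← map_inv, MulAut.smul_def, MulAut.conj_apply, inv_inv]
        show e x = g₀⁻¹ * (g₀ * e x * g₀⁻¹) * g₀
        group
    rw [h1]
    unfold U
    rw [MonoidHom.map_closure]
    congr 1
    ext y
    simp [Set.image_insert_eq, eq_comm]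
  have hnf : ∀ m, nf (ψ ∘ gx) m = ψ (nf gx m) := by
    intro m
    unfold nf
    rw [map_list_prod, List.map_map]
  have hmod : Mod (ψ ∘ gx) := by
    refine ⟨?_, ?_, ?_⟩
    · intro k hk
      show ψ (gx k) * ψ (gx k) = 1
      rw [← map_mul, mod.sq k hk, map_one]
    · intro m hm k hk
      rw [hnf, hnf]
      show ψ (nf gx m) * ψ (gx k) = _
      rw [← map_mul, mod.mul m hm k hk]
    · intro a ha b hb hab
      rw [hnf, hnf] at hab
      exact mod.inj a ha b hb (ψ.injective hab)
  refine fusion_simple hmod S hS ?_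
  intro k hk
  obtain ⟨y, hy⟩ := conj_all k hk
  refine ⟨ψ y, ?_⟩
  rw [hnf, ← map_mul, ← map_inv, ← map_mul, hy]
  rfl

end Cfsg.Agent.H32.LyM
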