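import Cfsg.Agent.CosetEnum.Ly.Phi
import Cfsg.Agent.H32.LyD
import Cfsg.Agent.H32.LyT

/-!
Matrices for the letters 1, ..., 18 of the Lyons group (owner: helper32).
-/

set_option autoImplicit false
set_option maxRecDepth 1000000

namespace Cfsg.Agent.H32.LyM

open Cfsg.Agent.CosetEnum Cfsg.Agent.KMat Cfsg.Agent.LyG Cfsg.Agent.H32.LyD

/-- the matrices -/
noncomputable def ms2 : ℕ → ℕ := selM [0, mt1, mt2, mt3, mt4, mt5, mt6, mt7, mt8, mt9, mt10, mt11, mt12, mt13, mt14, mt15,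
  tm1, tm2, tm3]

/-- the letters -/
def lets2 : List ℕ := [1, 2, 3, 4, 5, 6, 7, 8, 9, 10, 11, 12, 13, 14, 15, 16, 17, 18]

theorem mok2A : matB PM ms2 lets2 = true := by decide +kernel

theorem mok2 : ∀ x ∈ lets2, MatOK PM (ms2 x) := matB_sound mok2A

end Cfsg.Agent.H32.LyM
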