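import Cfsg.Agent.H32.LyM

/-!
Relations of the matrices, part 0 (owner: helper32).
-/

set_option autoImplicit false
set_option maxRecDepth 1000000

namespace Cfsg.Agent.H32.LyM

open Cfsg.Agent.CosetEnum Cfsg.Agent.KMat Cfsg.Agent.LyG Cfsg.Agent.H32.LyD

theorem r0_0 : allR (prB PM ms2 PA) 0 8 = true := by decide +kernel

theorem r0_1 : allR (prB PM ms2 PA) 8 8 = true := by decide +kernel

theorem r0_2 : allR (prB PM ms2 PA) 16 8 = true := by decide +kernel

theorem r0_3 : allR (prB PM ms2 PA) 24 8 = true := by decide +kernel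

theorem r0_4 : allR (prB PM ms2 PA) 32 8 = true := by decide +kernel

theorem r0_5 : allR (prB PM ms2 PA) 40 8 = true := by decide +kernel

theorem r0_6 : allR (prB PM ms2 PA) 48 8 = true := by decide +kernel

theorem r0 : Cov (prB PM ms2 PA) 0 56 := (((((((Cov.of r0_0 rfl).trans (Cov.of r0_1 rfl)).trans (Cov.of r0_2 rfl)).trans (Cov.of r0_3 rfl)).trans (Cov.of r0_4 rfl)).trans (Cov.of r0_5 rfl)).trans (Cov.of r0_6 rfl))

end Cfsg.Agent.H32.LyM
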