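import Mathlib
import Cfsg.Prelude.Def_Local
import Cfsg.Prelude.Def_CaseTheorems
import Cfsg.Prelude.Def_Involutions
import Cfsg.Prelude.Def_LocalEven
import Cfsg.Agent.Hall.Hall
import Cfsg.Agent.S0132
import Cfsg.Agent.H46.Involves
import Cfsg.Agent.H64.Struct2
import Cfsg.Agent.SigF.Gen
import Cfsg.Agent.H32.MaxNilp

/-!
Groups all of whose `p'`-subgroups are nilpotent.
-/

set_option autoImplicit false
set_option linter.all false

namespace Cfsg.Agent.H32.NP

open Subgroup

universe u

/-- all `p'`-subgroups are nilpotent -/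
def NP (p : ℕ) (G : Type*) [Group G] : Prop :=
  ∀ X : Subgroup G, (Nat.card X).Coprime p → Group.IsNilpotent X

variable {G : Type u} [Group G] [Finite G] {p : ℕ} [hp : Fact p.Prime]

theorem NP.sub (h : NP p G) (K : Subgroup G) : NP p K := by
  intro X hX
  have h1 := h (X.map K.subtype) (by rwa [Subgroup.card_map_of_injective K.subtype_injective])
  haveI := h1
  exact SigF.isNilpotent_of_injective (X.equivMapOfInjective K.subtype K.subtype_injective).toMonoidHom
    (X.equivMapOfInjective K.subtype K.subtype_injective).injective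

theorem NP.comm (h : NP p G) {X : Subgroup G} (hX : (Nat.card X).Coprime p) {x y : G} (hx : x ∈ X)
    (hy : y ∈ X) (hxy : (orderOf x).Coprime (orderOf y)) : x * y = y * x := by
  haveI := h X hX
  have h1 := S0132.commute_of_coprime (G := X) (x := ⟨x, hx⟩) (y := ⟨y, hy⟩) (by
    rwa [Subgroup.orderOf_mk, Subgroup.orderOf_mk])
  exact congrArg Subtype.val h1.eq

/-- a `p'`-element normalizing a `p'`-subgroup of coprime order centralizes it -/
theorem NP.norm_comm (h : NP p G) {A : Subgroup G} {x : G} (hA : (Nat.card A).Coprime p)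
    (hx : (orderOf x).Coprime p) (hxA : x ∈ normalizer (A : Set G))
    (hcop : (orderOf x).Coprime (Nat.card A)) {a : G} (ha : a ∈ A) : x * a = a * x := by
  have h1 : (Nat.card ↥(A ⊔ zpowers x)).Coprime p := by
    have h2 := H64.card_sup_dvd_mul (A := A) (B := zpowers x) (zpowers_le.2 hxA)
    refine Nat.Coprime.coprime_dvd_left h2 ?_
    rw [Nat.card_zpowers]
    exact Nat.Coprime.mul_left hA hx
  apply h.comm h1 ((le_sup_right : zpowers x ≤ _) (mem_zpowers x)) ((le_sup_left : A ≤ _) ha)
  refine Nat.Coprime.coprime_dvd_right ?_ hcop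
  have := orderOf_dvd_natCard (⟨a, ha⟩ : A)
  rwa [Subgroup.orderOf_mk] at this

/-- `p'`-subgroups of quotients of solvable groups -/
theorem NP.quotient (h : NP p G) (hs : Group.IsSolvable G) {Q : Type*} [Group Q] (f : G →* Q)
    (hf : Function.Surjective f) : NP p Q := by
  intro X hX
  haveI : Finite Q := Finite.of_surjective f hf
  set K := X.comap f with hK
  haveI : Group.IsSolvable K := inferInstance
  -- Hall `p'`-subgroup of `K`
  have hKpos : Nat.card K ≠ 0 := Nat.card_pos.ne'
  obtain ⟨B, hB⟩ := Hall.hall_exists (G := K) ((Nat.card K) / p ^ (Nat.card K).factorization p)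
    (p ^ (Nat.card K).factorization p)
    (by rw [Nat.div_mul_cancel (Nat.ordProj_dvd _ p)])
    (Nat.Coprime.pow_right _ ((Nat.coprime_comm.1 (Nat.coprime_ordCompl hp.out hKpos))))
  have hBp : (Nat.card B).Coprime p := by
    rw [hB]; exact (Nat.coprime_comm.1 (Nat.coprime_ordCompl hp.out hKpos))
  have hBnil : Group.IsNilpotent (B.map K.subtype) := by
    apply h
    rwa [Subgroup.card_map_of_injective K.subtype_injective]
  -- `B` covers `X`
  set g : K →* X := f.subgroupComap X with hg
  have hgs : Function.Surjective g := by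
    rintro ⟨x, hx⟩
    obtain ⟨y, rfl⟩ := hf x
    exact ⟨⟨y, hx⟩, rfl⟩
  have hidx : (B.map g).index = 1 := by
    have h1 : (B.map g).index ∣ p ^ (Nat.card K).factorization p := by
      have h2 : (B.map g).index ∣ B.index := by
        exact Subgroup.index_map_dvd B hgs
      have h3 : B.index = p ^ (Nat.card K).factorization p := by
        have h4 := B.card_mul_index
        rw [hB] at h4
        have h5 : (Nat.card K) / p ^ (Nat.card K).factorization p * p ^ (Nat.card K).factorization p = Nat.card K :=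
          Nat.div_mul_cancel (Nat.ordProj_dvd _ p)
        have h6 : 0 < (Nat.card K) / p ^ (Nat.card K).factorization p := Nat.ordCompl_pos p hKpos
        exact Nat.eq_of_mul_eq_mul_left h6 (h4.trans h5.symm)
      rwa [h3] at h2
    have h2 : (B.map g).index ∣ Nat.card X := Subgroup.index_dvd_card _
    exact Nat.eq_one_of_dvd_coprimes (Nat.Coprime.pow_right _ hX) h2 h1
  have htop : B.map g = ⊤ := Subgroup.index_eq_one.1 hidx
  haveI : Group.IsNilpotent B := by
    haveI := hBnil
    exact SigF.isNilpotent_of_injective (B.equivMapOfInjective K.subtype K.subtype_injective).toMonoidHom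
      (B.equivMapOfInjective K.subtype K.subtype_injective).injective
  have h7 : Group.IsNilpotent ↥(B.map g) :=
    Group.nilpotent_of_surjective (g.subgroupMap B) (MonoidHom.subgroupMap_surjective g B)
  rw [htop] at h7
  haveI := h7
  exact SigF.isNilpotent_of_injective (Subgroup.topEquiv (G := X)).symm.toMonoidHom
    (Subgroup.topEquiv (G := X)).symm.injective

/-- elements of odd order inverted by an involution are `p`-elements -/
theorem NP.inverted (h : NP p G) (hp2 : p ≠ 2) {t y : G} (ht : orderOf t = 2) (hy : Odd (orderOf y))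
    (hty : t * y * t⁻¹ = y⁻¹) : ∃ k, orderOf y = p ^ k := by
  have hy0 : orderOf y ≠ 0 := (orderOf_pos y).ne'
  refine ⟨_, Nat.eq_prime_pow_of_unique_prime_dvd hy0 ?_⟩
  intro q hq hqy
  by_contra hqp
  have hq2 : q ≠ 2 := by
    rintro rfl
    exact (Nat.not_even_iff_odd.2 hy) (even_iff_two_dvd.2 hqy)
  set w : G := y ^ (orderOf y / q) with hw
  have hwo : orderOf w = q := orderOf_pow_orderOf_div hy0 hqy
  have hwt : t * w * t⁻¹ = w⁻¹ := by
    rw [hw, ← conj_pow, hty, inv_pow]
  have h2p : Nat.Coprime 2 p := (Nat.coprime_primes Nat.prime_two hp.out).2 (Ne.symm hp2)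
  have h2q : Nat.Coprime 2 q := (Nat.coprime_primes Nat.prime_two hq).2 (Ne.symm hq2)
  have hc := h.norm_comm (A := zpowers w) (x := t)
    (by rw [Nat.card_zpowers, hwo]; exact (Nat.coprime_primes hq hp.out).2 hqp)
    (by rw [ht]; exact h2p)
    (by
      rw [mem_normalizer_iff]
      have key : ∀ z : G, z ∈ zpowers w → t * z * t⁻¹ ∈ zpowers w := by
        rintro _ ⟨k, rfl⟩
        rw [← conj_zpow, hwt]
        exact zpow_mem (inv_mem (mem_zpowers w)) k
      intro z
      refine ⟨key z, fun hz => ?_⟩
      have htt : t * t = 1 := by rw [← pow_two, ← ht]; exact pow_orderOf_eq_one t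
      have hti : t⁻¹ = t := inv_eq_of_mul_eq_one_left htt
      have h3 := key _ hz
      rw [hti] at h3
      have h4 : t * (t * z * t) * t = z := by
        calc t * (t * z * t) * t = (t * t) * z * (t * t) := by group
          _ = z := by rw [htt, one_mul, mul_one]
      rwa [h4] at h3)
    (by rw [ht, Nat.card_zpowers, hwo]; exact h2q) (mem_zpowers w)
  rw [hc, mul_inv_cancel_right] at hwt
  have h5 : w ^ 2 = 1 := by
    rw [pow_two]
    nth_rewrite 1 [hwt]
    exact inv_mul_cancel w
  have h6 : q ∣ 2 := by rw [← hwo]; exact orderOf_dvd_of_pow_eq_one h5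
  exact hq2 ((Nat.prime_dvd_prime_iff_eq hq Nat.prime_two).1 h6)

theorem not_nil3 : ¬ Group.IsNilpotent (Equiv.Perm (Fin 3)) := by
  intro h
  have h1 : orderOf (Equiv.swap (0 : Fin 3) 1) = 2 := orderOf_eq_prime (by decide) (by decide)
  have h2 : orderOf (Equiv.swap (0 : Fin 3) 1 * Equiv.swap 1 2) = 3 := by
    haveI : Fact (Nat.Prime 3) := ⟨Nat.prime_three⟩
    exact orderOf_eq_prime (by decide) (by decide)
  have h3 := S0132.commute_of_coprime (x := Equiv.swap (0 : Fin 3) 1)
    (y := Equiv.swap (0 : Fin 3) 1 * Equiv.swap 1 2) (by rw [h1, h2]; norm_num)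
  revert h3
  unfold Commute SemiconjBy
  decide

theorem not_nil4 : ¬ Group.IsNilpotent (Equiv.Perm (Fin 4)) := by
  intro h
  have h1 : orderOf (Equiv.swap (0 : Fin 4) 1) = 2 := orderOf_eq_prime (by decide) (by decide)
  have h2 : orderOf (Equiv.swap (0 : Fin 4) 1 * Equiv.swap 1 2) = 3 := by
    haveI : Fact (Nat.Prime 3) := ⟨Nat.prime_three⟩
    exact orderOf_eq_prime (by decide) (by decide)
  have h3 := S0132.commute_of_coprime (x := Equiv.swap (0 : Fin 4) 1)
    (y := Equiv.swap (0 : Fin 4) 1 * Equiv.swap 1 2) (by rw [h1, h2]; norm_num)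
  revert h3
  unfold Commute SemiconjBy
  decide

theorem NP.free (h : NP p G) (hs : Group.IsSolvable G) {Q : Type} [Group Q] (hQ : (Nat.card Q).Coprime p)
    (hQn : ¬ Group.IsNilpotent Q) : ¬ Cfsg.Involves Q G := by
  intro hinv
  rw [H46.involves_iff] at hinv
  obtain ⟨K, f, hf⟩ := hinv
  haveI : Group.IsSolvable K := inferInstance
  have h1 := (h.sub K).quotient inferInstance f hf
  have h2 := h1 ⊤ (by rwa [Subgroup.card_top])
  haveI := h2
  exact hQn (SigF.isNilpotent_of_injective (Subgroup.topEquiv (G := Q)).symm.toMonoidHom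
    (Subgroup.topEquiv (G := Q)).symm.injective)

theorem NP.free3 (h : NP p G) (hs : Group.IsSolvable G) (hp3 : 3 < p) : ¬ Cfsg.Involves (Equiv.Perm (Fin 3)) G := by
  apply h.free hs _ not_nil3
  rw [Nat.card_perm, Nat.card_eq_fintype_card, Fintype.card_fin]
  rw [Nat.coprime_comm, hp.out.coprime_iff_not_dvd]
  intro hd
  exact absurd ((hp.out.dvd_factorial).1 hd) (by omega)

theorem NP.free4 (h : NP p G) (hs : Group.IsSolvable G) (hp3 : 3 < p) : ¬ Cfsg.Involves (Equiv.Perm (Fin 4)) G := by
  apply h.free hs _ not_nil4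
  rw [Nat.card_perm, Nat.card_eq_fintype_card, Fintype.card_fin]
  rw [Nat.coprime_comm, hp.out.coprime_iff_not_dvd]
  intro hd
  have := (hp.out.dvd_factorial).1 hd
  have h4 : p = 4 := by omega
  have := hp.out
  rw [h4] at this
  exact absurd this (by norm_num)

end Cfsg.Agent.H32.NP
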