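import Mathlib
import Cfsg.Prelude.Def_ConjugacyFunctors
import Cfsg.Agent.H62.W5

/-!
The functors `Ω₁(Z(·))` and `J(·)`.
-/

set_option autoImplicit false
set_option linter.all false

namespace Cfsg.Agent.H32.NP

open Subgroup
open Cfsg.Agent.H62 (omZ JJ EA)
open Cfsg.Agent.H34 (maxEA)

universe u

/-- `Ω₁(Z(Q))` -/
abbrev F1 : ∀ (Q : Type u) [Group Q], Subgroup Q := fun Q _ => omZ (⊤ : Subgroup Q)

/-- `J(Q)` -/
abbrev F2 : ∀ (Q : Type u) [Group Q], Subgroup Q := fun Q _ => JJ (⊤ : Subgroup Q)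

variable {X Y : Type u} [Group X] [Group Y]

theorem omZ_map (f : X →* Y) (hf : Function.Injective f) (T : Subgroup X) : (omZ T).map f = omZ (T.map f) := by
  ext y
  constructor
  · rintro ⟨x, ⟨hx1, hx2, hx3⟩, rfl⟩
    refine ⟨⟨x, hx1, rfl⟩, ?_, ?_⟩
    · rintro _ ⟨s, hs, rfl⟩
      rw [← map_mul, hx2 s hs, map_mul]
    · rw [← map_mul, hx3, map_one]
  · rintro ⟨⟨x, hx, rfl⟩, h2, h3⟩
    refine ⟨x, ⟨hx, ?_, ?_⟩, rfl⟩
    · intro s hs
      apply hf
      rw [map_mul, map_mul]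
      exact h2 _ ⟨s, hs, rfl⟩
    · apply hf
      rw [map_mul, map_one]
      exact h3

theorem JJ_eq (T : Subgroup X) : JJ T = Cfsg.thompsonSubgroupOf 2 T := (H34.thompsonSubgroupOf_eq 2 T).symm

theorem JJ_map (f : X →* Y) (hf : Function.Injective f) (T : Subgroup X) : (JJ T).map f = JJ (T.map f) := by
  rw [JJ_eq, JJ_eq]
  exact H34.thompsonSubgroupOf_map 2 f T (fun x _ hx => hf (hx.trans (map_one f).symm))

theorem ind1 (T : Subgroup X) : Cfsg.inducedFunctor F1 T = omZ T := by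
  unfold Cfsg.inducedFunctor
  rw [omZ_map _ T.subtype_injective, ← MonoidHom.range_eq_map, Subgroup.range_subtype]

theorem ind2 (T : Subgroup X) : Cfsg.inducedFunctor F2 T = JJ T := by
  unfold Cfsg.inducedFunctor
  rw [JJ_map _ T.subtype_injective, ← MonoidHom.range_eq_map, Subgroup.range_subtype]

theorem omZ_le_A [Finite X] {T A : Subgroup X} (hA : A ∈ maxEA 2 T) : omZ T ≤ A := by
  have hAe := H62.EA_iff.2 hA.2.1
  have hOe := H62.EA_omZ T
  intro z hz
  have hE : Cfsg.IsElementaryAbelian 2 (A ⊔ zpowers z) := by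
    apply H62.EA_iff.1
    have hcomm : ∀ a ∈ A, ∀ b ∈ zpowers z, a * b = b * a := by
      rintro a ha _ ⟨k, rfl⟩
      exact ((show Commute a z from (hz.2.1 a (hA.1 ha)).symm).zpow_right k).eq
    have hcl : A ⊔ zpowers z = Subgroup.closure ((A : Set X) ∪ (zpowers z : Set X)) := by
      rw [Subgroup.closure_union, Subgroup.closure_eq, Subgroup.closure_eq]
    have hmem : ∀ x ∈ A ⊔ zpowers z, ∃ a ∈ A, ∃ b ∈ zpowers z, a * b = x := by
      intro x hx
      rw [hcl] at hx
      induction hx using Subgroup.closure_induction with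
      | mem x hx =>
        rcases hx with hx | hx
        · exact ⟨x, hx, 1, one_mem _, mul_one x⟩
        · exact ⟨1, one_mem _, x, hx, one_mul x⟩
      | one => exact ⟨1, one_mem _, 1, one_mem _, mul_one 1⟩
      | mul x y _ _ ihx ihy =>
        obtain ⟨a, ha, b, hb, rfl⟩ := ihx
        obtain ⟨c, hc, d, hd, rfl⟩ := ihy
        refine ⟨a * c, mul_mem ha hc, b * d, mul_mem hb hd, ?_⟩
        calc a * c * (b * d) = a * (c * b) * d := by group
          _ = a * (b * c) * d := by rw [hcomm c hc b hb]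
          _ = a * b * (c * d) := by group
      | inv x _ ihx =>
        obtain ⟨a, ha, b, hb, rfl⟩ := ihx
        refine ⟨a⁻¹, inv_mem ha, b⁻¹, inv_mem hb, ?_⟩
        rw [hcomm _ (inv_mem ha) _ (inv_mem hb), mul_inv_rev]
    have hzz : ∀ b ∈ zpowers z, b * b = 1 := by
      rintro _ ⟨k, rfl⟩
      show z ^ k * z ^ k = 1
      rw [← (Commute.refl z).mul_zpow k, hz.2.2, one_zpow]
    have hzc : ∀ b ∈ zpowers z, ∀ d ∈ zpowers z, b * d = d * b := by
      rintro _ ⟨k, rfl⟩ _ ⟨l, rfl⟩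
      exact ((Commute.refl z).zpow_zpow k l).eq
    refine ⟨?_, ?_⟩
    · intro x hx y hy
      obtain ⟨a, ha, b, hb, rfl⟩ := hmem x hx
      obtain ⟨c, hc, d, hd, rfl⟩ := hmem y hy
      calc a * b * (c * d) = a * (b * c) * d := by group
        _ = a * (c * b) * d := by rw [hcomm c hc b hb]
        _ = (a * c) * (b * d) := by group
        _ = (c * a) * (d * b) := by rw [hAe.1 a ha c hc, hzc b hb d hd]
        _ = c * (a * d) * b := by group
        _ = c * (d * a) * b := by rw [hcomm a ha d hd]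
        _ = c * d * (a * b) := by group
    · intro x hx
      obtain ⟨a, ha, b, hb, rfl⟩ := hmem x hx
      calc a * b * (a * b) = a * (b * a) * b := by group
        _ = a * (a * b) * b := by rw [hcomm a ha b hb]
        _ = (a * a) * (b * b) := by group
        _ = 1 := by rw [hAe.2 a ha, hzz b hb, mul_one]
  have hle : A ⊔ zpowers z ≤ T := sup_le hA.1 (zpowers_le.2 hz.1)
  have h1 := Subgroup.eq_of_le_of_card_ge (le_sup_left : A ≤ A ⊔ zpowers z) (hA.2.2 _ hle hE)
  rw [h1]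
  exact (le_sup_right : zpowers z ≤ _) (mem_zpowers z)

theorem omZ_le_JJ [Finite X] (T : Subgroup X) : omZ T ≤ JJ T := by
  obtain ⟨A, hA⟩ := H34.maxEA_nonempty 2 T
  exact (omZ_le_A hA).trans (le_sSup hA)

theorem char1 : Cfsg.IsCharPFunctor.{u} 2 F1.{u} := by
  constructor
  · intro Q _ _ hQ hn
    exact H62.omZ_ne_bot (hQ.to_subgroup ⊤) (by
      intro h
      obtain ⟨x, y, hxy⟩ := hn
      apply hxy
      have hx : x ∈ (⊤ : Subgroup Q) := trivial
      have hy : y ∈ (⊤ : Subgroup Q) := trivial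
      rw [h, Subgroup.mem_bot] at hx hy
      rw [hx, hy])
  · intro Q R _ _ _ _ φ
    show (omZ (⊤ : Subgroup Q)).map φ.toMonoidHom = omZ (⊤ : Subgroup R)
    rw [omZ_map φ.toMonoidHom φ.injective, Subgroup.map_top_of_surjective _ φ.surjective]

theorem char2 : Cfsg.IsCharPFunctor.{u} 2 F2.{u} := by
  constructor
  · intro Q _ _ hQ hn h
    apply char1.1 Q hQ hn
    rw [eq_bot_iff]
    exact (omZ_le_JJ _).trans h.le
  · intro Q R _ _ _ _ φ
    show (JJ (⊤ : Subgroup Q)).map φ.toMonoidHom = JJ (⊤ : Subgroup R)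
    rw [JJ_map φ.toMonoidHom φ.injective, Subgroup.map_top_of_surjective _ φ.surjective]

end Cfsg.Agent.H32.NP
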