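import Mathlib
import Cfsg.Agent.H32.NPBase
import Cfsg.Agent.H32.SEEmb
import Cfsg.Agent.SigF.PC
import Cfsg.Agent.StrEmb.Basic

/-!
Strongly embedded subgroups and solvable subgroups.
-/

set_option autoImplicit false
set_option linter.all false

namespace Cfsg.Agent.H32.NP

open Subgroup
open Cfsg.Agent.H32.SFB Cfsg.Agent.H32.SE
open scoped Pointwise

universe u

section X

variable {X : Type u} [Group X] [Finite X]

theorem exists_invol_pp (hs : Group.IsSolvable X) (he : 2 ∣ Nat.card X) :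
    ∃ u ∈ Cfsg.pPrimePCore 2 X, orderOf u = 2 := by
  haveI : Fact (Nat.Prime 2) := ⟨Nat.prime_two⟩
  set K := Cfsg.pPrimeCore 2 X with hK
  haveI hKn : K.Normal := by rw [hK]; infer_instance
  haveI hLn : (Cfsg.pPrimePCore 2 X).Normal := inferInstance
  obtain ⟨T⟩ : Nonempty (Sylow 2 X) := inferInstance
  obtain ⟨P, hP⟩ := ZJ.exists_sylow_map_eq_inf T (Cfsg.pPrimePCore 2 X)
  have hmap := H36.PConstr.map_sylow_pPrimePCore (p := 2) P
  rw [hP] at hmap
  set P' : Subgroup X := (T : Subgroup X) ⊓ Cfsg.pPrimePCore 2 X with hP'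
  have hne : P' ≠ ⊥ := by
    intro h
    rw [h, Subgroup.map_bot] at hmap
    have hY : H36.PConstr.CharP 2 (X ⧸ K) :=
      H36.PConstr.isPConstrained_iff.1 (SigF.PC.isPConstrained_of_isSolvable hs)
    unfold H36.PConstr.CharP at hY
    rw [← hmap] at hY
    have h1 : Subgroup.centralizer (((⊥ : Subgroup (X ⧸ K)) : Subgroup (X ⧸ K)) : Set (X ⧸ K)) = ⊤ := by
      rw [eq_top_iff]
      intro x _
      rw [Subgroup.mem_centralizer_iff]
      intro y hy
      rw [Subgroup.mem_bot.1 hy, one_mul, mul_one]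
    rw [h1, top_le_iff] at hY
    have h2 : Nat.card (X ⧸ K) = 1 := by
      have h3 : Nat.card (⊤ : Subgroup (X ⧸ K)) = 1 := by rw [← hY]; exact Subgroup.card_bot
      rwa [Subgroup.card_top] at h3
    have h3 : K = ⊤ := by
      rw [← Subgroup.index_eq_one]
      exact h2
    have h4 : (Nat.card K).Coprime 2 := Solv.pPrimeCore_card_coprime 2
    rw [h3, Subgroup.card_top] at h4
    have := Nat.Coprime.eq_one_of_dvd h4.symm he
    omega
  have hPp : IsPGroup 2 P' := T.2.to_le inf_le_left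
  obtain ⟨n, hn⟩ := IsPGroup.iff_card.1 hPp
  rcases n with _ | n
  · rw [pow_zero, Subgroup.card_eq_one] at hn
    exact absurd hn hne
  · obtain ⟨u, hu⟩ := exists_prime_orderOf_dvd_card' 2 (show 2 ∣ Nat.card P' by
      rw [hn]; exact dvd_pow_self 2 (Nat.succ_ne_zero n))
    exact ⟨u, u.2.2, by rwa [Subgroup.orderOf_coe]⟩

theorem pp_le (T : Sylow 2 X) {M : Subgroup X} (hTM : (T : Subgroup X) ≤ M)
    (hKM : Cfsg.pPrimeCore 2 X ≤ M) : Cfsg.pPrimePCore 2 X ≤ M := by
  haveI : Fact (Nat.Prime 2) := ⟨Nat.prime_two⟩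
  haveI hLn : (Cfsg.pPrimePCore 2 X).Normal := inferInstance
  obtain ⟨P, hP⟩ := ZJ.exists_sylow_map_eq_inf T (Cfsg.pPrimePCore 2 X)
  have hmap := H36.PConstr.map_sylow_pPrimePCore (p := 2) P
  rw [hP] at hmap
  intro l hl
  have hl' : (QuotientGroup.mk' (Cfsg.pPrimeCore 2 X)) l ∈ Cfsg.pCore 2 (X ⧸ Cfsg.pPrimeCore 2 X) := hl
  rw [← hmap] at hl'
  obtain ⟨q, hq, hql⟩ := hl'
  have h3 : q⁻¹ * l ∈ Cfsg.pPrimeCore 2 X := QuotientGroup.eq.1 hql
  have h4 : l = q * (q⁻¹ * l) := by group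
  rw [h4]
  exact mul_mem (hTM hq.1) (hKM h3)

end X

variable {G : Type u} [Group G] [Finite G]

theorem two_le_centralizer {H : Subgroup G} (hH : Cfsg.IsStronglyEmbedded H) {T : Subgroup G}
    (hT : IsPGroup 2 T) {t : G} (htT : t ∈ T) (ht : orderOf t = 2) (htH : t ∈ H) : T ≤ H := by
  haveI : Fact (Nat.Prime 2) := ⟨Nat.prime_two⟩
  haveI : Nontrivial T := ⟨⟨⟨t, htT⟩, 1, fun h => (StrEmb.ne_one ht) (congrArg Subtype.val h)⟩⟩
  have hnt : Nontrivial (Subgroup.center T) := hT.center_nontrivial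
  have h2 : 2 ∣ Nat.card (Subgroup.center T) := by
    obtain ⟨n, hn, hcard⟩ := (hT.to_subgroup (Subgroup.center T)).nontrivial_iff_card.1 hnt
    rw [hcard]
    exact dvd_pow_self 2 (by omega)
  obtain ⟨z, hz⟩ := exists_prime_orderOf_dvd_card' 2 h2
  have hz2 : orderOf ((z : T) : G) = 2 := by
    rw [Subgroup.orderOf_coe, Subgroup.orderOf_coe, hz]
  have hcz : ∀ x ∈ T, Commute x ((z : T) : G) := fun x hx =>
    congrArg Subtype.val (Subgroup.mem_center_iff.1 z.2 ⟨x, hx⟩)
  have hzH : ((z : T) : G) ∈ H := StrEmb.mem_of_commute hH ht htH (hcz t htT).symm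
  exact fun x hx => StrEmb.mem_of_commute hH hz2 hzH (hcz x hx)

/-- **Lemma A** -/
theorem le_of_pair {H : Subgroup G} (hH : Cfsg.IsStronglyEmbedded H) {L : Subgroup G}
    (hL : Group.IsSolvable L) {t s : G} (htH : t ∈ H) (htL : t ∈ L) (hsL : s ∈ L)
    (ht : orderOf t = 2) (hs : orderOf s = 2) (hne : s ≠ t) (hc : s * t = t * s) : L ≤ H := by
  haveI : Fact (Nat.Prime 2) := ⟨Nat.prime_two⟩
  have htt := StrEmb.mul_self_eq_one ht
  have hss := StrEmb.mul_self_eq_one hs
  have hsH : s ∈ H := StrEmb.mem_of_commute hH ht htH hc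
  set M := H.subgroupOf L with hM
  -- a Sylow subgroup of `L` containing `t`
  have hz : IsPGroup 2 (Subgroup.zpowers (⟨t, htL⟩ : L)) := by
    rw [IsPGroup.iff_card]
    exact ⟨1, by rw [Nat.card_zpowers, Subgroup.orderOf_mk, ht, pow_one]⟩
  obtain ⟨T, hT⟩ := hz.exists_le_sylow
  have htT : (⟨t, htL⟩ : L) ∈ (T : Subgroup L) := hT (Subgroup.mem_zpowers _)
  have hTM : (T : Subgroup L) ≤ M := by
    have h1 : (T : Subgroup L).map L.subtype ≤ H :=
      two_le_centralizer hH (T.2.map _) ⟨⟨t, htL⟩, htT, rfl⟩ ht htH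
    intro x hx
    exact h1 ⟨x, hx, rfl⟩
  -- the core
  set a : L := ⟨s, hsL⟩ with ha
  set b : L := ⟨t, htL⟩ with hb
  have haa : a * a = 1 := Subtype.ext hss
  have hbb : b * b = 1 := Subtype.ext htt
  have hab : a * b = b * a := Subtype.ext hc
  have ha1 : a ≠ 1 := fun h => StrEmb.ne_one hs (congrArg Subtype.val h)
  have hb1 : b ≠ 1 := fun h => StrEmb.ne_one ht (congrArg Subtype.val h)
  have hab1 : a ≠ b := fun h => hne (congrArg Subtype.val h)
  set V := FourGraph.fourSubgroup a b haa hbb hab with hV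
  have hVk : IsKleinFour V := FourGraph.isKleinFour_fourSubgroup ha1 hb1 hab1
  have hVe : Cfsg.IsElementaryAbelian 2 V := ⟨IsKleinFour.isMulCommutative, fun x hx => by
    rw [pow_two]; exact FourGraph.mul_self_of_mem hVk hx⟩
  have hKM : Cfsg.pPrimeCore 2 L ≤ M := by
    have hKc : (Nat.card (Cfsg.pPrimeCore 2 L)).Coprime 2 := Solv.pPrimeCore_card_coprime 2
    have h1 := SigF.eq_of_fixed_le (p := 2) (A := V) (K := Cfsg.pPrimeCore 2 L)
      (H := Cfsg.pPrimeCore 2 L ⊓ M) hVe (by rw [hVk.card_four]; norm_num)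
      (fun h => by have := Nat.Coprime.eq_one_of_dvd hKc.symm h; omega)
      (by rw [Subgroup.normalizer_eq_top]; exact le_top) inf_le_left (by
        intro v hv hv1
        refine le_inf inf_le_left ?_
        intro x hx
        have hvH : ((v : L) : G) ∈ H := by
          rcases FourGraph.mem_fourSubgroup.1 hv with h | h | h | h
          · exact absurd h hv1
          · rw [h]; exact hsH
          · rw [h]; exact htH
          · rw [h]; exact mul_mem hsH htH
        have hv2 : orderOf ((v : L) : G) = 2 := by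
          rw [Subgroup.orderOf_coe]
          exact orderOf_eq_prime (hVe.2 v hv) hv1
        have hxv := Subgroup.mem_centralizer_singleton_iff.1 hx.2
        exact StrEmb.mem_of_commute hH hv2 hvH (congrArg Subtype.val hxv))
    rw [← h1]
    exact inf_le_right
  have hpp := pp_le T hTM hKM
  have hcard : 2 ∣ Nat.card L := by
    have := orderOf_dvd_natCard b
    rwa [hb, Subgroup.orderOf_mk, ht] at this
  obtain ⟨u, hu, hu2⟩ := exists_invol_pp hL hcard
  have huH : (u : G) ∈ H := hpp hu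
  haveI hLn : (Cfsg.pPrimePCore 2 L).Normal := inferInstance
  intro l hl
  have h1 := hLn.conj_mem u hu ⟨l, hl⟩
  exact StrEmb.mem_of_conj_mem hH (t := (u : G)) (by rwa [Subgroup.orderOf_coe]) huH (hpp h1)

end Cfsg.Agent.H32.NP
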