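import Mathlib
import Cfsg.Agent.H32.NPSE1
import Cfsg.Agent.H71.PrimPowOut

/-!
Minimal simple groups with nilpotent `p'`-subgroups and a strongly embedded subgroup: first facts.
-/

set_option autoImplicit false
set_option linter.all false

namespace Cfsg.Agent.H32.NP

open Subgroup
open Cfsg.Agent.H32.SFB Cfsg.Agent.H32.SE
open scoped Pointwise

universe u

/-- minimal simple group with nilpotent `p'`-subgroups -/
structure Dat (p : ℕ) (G : Type u) [Group G] : Prop where
  np : NP p G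
  hp3 : 3 < p
  sol : ∀ K : Subgroup G, K ≠ ⊤ → Group.IsSolvable K
  simp : ∀ N : Subgroup G, N.Normal → N = ⊥ ∨ N = ⊤
  nab : ¬ Group.IsSolvable G

variable {G : Type u} [Group G] [Finite G] {p : ℕ} [hp : Fact p.Prime]

theorem Dat.ne_top (D : Dat p G) {A : Subgroup G} (hA : Group.IsSolvable A) : A ≠ ⊤ := by
  rintro rfl
  apply D.nab
  haveI := hA
  exact Group.isSolvable_of_isSolvable_injective (f := (Subgroup.topEquiv (G := G)).symm.toMonoidHom)
    (Subgroup.topEquiv (G := G)).symm.injective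

theorem Dat.norm_ne_top (D : Dat p G) {A : Subgroup G} (hA : A ≠ ⊥) (hA' : A ≠ ⊤) :
    Subgroup.normalizer (A : Set G) ≠ ⊤ := by
  intro h
  rcases D.simp A (Subgroup.normalizer_eq_top_iff.1 h) with h1 | h1
  · exact hA h1
  · exact hA' h1

theorem Dat.p2 (D : Dat p G) : p ≠ 2 := by have := D.hp3; omega

/-- Hall `p'`-subgroups of a solvable group -/
theorem exists_hall_compl {C : Type u} [Group C] [Finite C] (hs : Group.IsSolvable C) (K : Subgroup C)
    (hK : (Nat.card K).Coprime p) : ∃ B : Subgroup C, K ≤ B ∧ (Nat.card B).Coprime p ∧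
      (∃ k, B.index = p ^ k) ∧
      ∀ K' : Subgroup C, (Nat.card K').Coprime p → ∃ c : C, K' ≤ MulAut.conj c • B := by
  have hpos : Nat.card C ≠ 0 := Nat.card_pos.ne'
  have h5 : (Nat.card C) / p ^ (Nat.card C).factorization p * p ^ (Nat.card C).factorization p = Nat.card C :=
    Nat.div_mul_cancel (Nat.ordProj_dvd _ p)
  have h6 : 0 < (Nat.card C) / p ^ (Nat.card C).factorization p := Nat.ordCompl_pos p hpos
  have hc : ((Nat.card C) / p ^ (Nat.card C).factorization p).Coprime p :=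
    Nat.coprime_comm.1 (Nat.coprime_ordCompl hp.out hpos)
  obtain ⟨B, hB, hKB⟩ := Hall.hall_exists_ge (G := C) ((Nat.card C) / p ^ (Nat.card C).factorization p)
    (p ^ (Nat.card C).factorization p) h5.symm (Nat.Coprime.pow_right _ hc) K
    (Nat.Coprime.pow_right _ hK)
  refine ⟨B, hKB, by rw [hB]; exact hc, ⟨(Nat.card C).factorization p, ?_⟩, ?_⟩
  · have h4 := B.card_mul_index
    rw [hB] at h4
    exact Nat.eq_of_mul_eq_mul_left h6 (h4.trans h5.symm)
  · intro K' hK'
    exact Hall.hall_le_conj _ _ h5.symm (Nat.Coprime.pow_right _ hc) B K' hB (Nat.Coprime.pow_right _ hK')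

theorem coprime_two_p (D : Dat p G) : Nat.Coprime 2 p :=
  (Nat.coprime_primes Nat.prime_two hp.out).2 (Ne.symm D.p2)

/-- another involution commuting with `t` -/
theorem exists_other {H : Subgroup G} (hH : Cfsg.IsStronglyEmbedded H)
    (four : ∃ a b : G, orderOf a = 2 ∧ orderOf b = 2 ∧ a ≠ b ∧ a * b = b * a) {t : G} (ht : orderOf t = 2) :
    ∃ s : G, orderOf s = 2 ∧ s ≠ t ∧ s * t = t * s := by
  obtain ⟨a, b, ha, hb, hab, hc⟩ := four
  obtain ⟨g, hg⟩ := isConj_iff.1 (StrEmb.isConj hH ha ht)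
  refine ⟨g * b * g⁻¹, by rw [StrEmb.orderOf_conj, hb], ?_, ?_⟩
  · intro h
    apply hab
    rw [← hg] at h
    have h1 : g * b = g * a := mul_right_cancel h
    exact (mul_left_cancel h1).symm
  · rw [← hg]
    calc g * b * g⁻¹ * (g * a * g⁻¹) = g * (b * a) * g⁻¹ := by group
      _ = g * (a * b) * g⁻¹ := by rw [hc]
      _ = g * a * g⁻¹ * (g * b * g⁻¹) := by group

/-- **Lemma B** : the normalizer of a `p'`-group of odd order centralized by an involution of `H` lies in `H` -/
theorem Dat.norm_le (D : Dat p G) {H : Subgroup G} (hH : Cfsg.IsStronglyEmbedded H)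
    (four : ∃ a b : G, orderOf a = 2 ∧ orderOf b = 2 ∧ a ≠ b ∧ a * b = b * a) {t : G} (ht : orderOf t = 2)
    (htH : t ∈ H) {A : Subgroup G} (hA1 : A ≠ ⊥) (hAo : Odd (Nat.card A)) (hAp : (Nat.card A).Coprime p)
    (hAt : A ≤ Subgroup.centralizer ({t} : Set G)) : Subgroup.normalizer (A : Set G) ≤ H := by
  obtain ⟨s₀, hs₀, hs₀t, hc₀⟩ := exists_other hH four ht
  set C := Subgroup.centralizer ({t} : Set G) with hC
  have hCH : C ≤ H := StrEmb.centralizer_le hH ht htH
  have hCt : C ≠ ⊤ := by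
    intro h
    rw [h, top_le_iff] at hCH
    exact hH.1 hCH
  have hCs := D.sol C hCt
  have hAC : (Nat.card (A.subgroupOf C)).Coprime p := by
    rwa [Nat.card_congr (Subgroup.subgroupOfEquivOfLe hAt).toEquiv]
  obtain ⟨B, hAB, hBp, -, hBc⟩ := exists_hall_compl (p := p) hCs (A.subgroupOf C) hAC
  have hs₀C : s₀ ∈ C := by rw [hC, Subgroup.mem_centralizer_singleton_iff]; exact hc₀
  obtain ⟨c, hcB⟩ := hBc (Subgroup.zpowers (⟨s₀, hs₀C⟩ : C)) (by
    rw [Nat.card_zpowers, Subgroup.orderOf_mk, hs₀]; exact coprime_two_p D)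
  have h1 : c⁻¹ * (⟨s₀, hs₀C⟩ : C) * c ∈ B := by
    have := hcB (Subgroup.mem_zpowers _)
    rwa [H9.mem_conj_smul_iff] at this
  set s : C := c⁻¹ * (⟨s₀, hs₀C⟩ : C) * c with hs
  have hs2 : orderOf (s : G) = 2 := by
    rw [Subgroup.orderOf_coe, hs]
    have := StrEmb.orderOf_conj (c⁻¹) (⟨s₀, hs₀C⟩ : C)
    rw [inv_inv] at this
    rw [this, Subgroup.orderOf_mk, hs₀]
  have hct : ((c : C) : G) * t = t * c := Subgroup.mem_centralizer_singleton_iff.1 c.2
  have hst : (s : G) ≠ t := by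
    intro h
    apply hs₀t
    have h2 : ((c : C) : G)⁻¹ * s₀ * c = t := h
    have h3 : s₀ = c * t * ((c : C) : G)⁻¹ := by rw [← h2]; group
    rw [h3, hct, mul_inv_cancel_right]
  have hsc : (s : G) * t = t * s := Subgroup.mem_centralizer_singleton_iff.1 s.2
  -- `s` commutes with `A`
  have hBnil := D.np (B.map C.subtype) (by rwa [Subgroup.card_map_of_injective C.subtype_injective])
  have hsA : ∀ a ∈ A, (s : G) * a = a * s := by
    intro a ha
    apply D.np.comm (X := B.map C.subtype) (by rwa [Subgroup.card_map_of_injective C.subtype_injective])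
      ⟨s, h1, rfl⟩ ⟨⟨a, hAt ha⟩, hAB (by exact ha), rfl⟩
    show (orderOf (s : G)).Coprime (orderOf a)
    rw [hs2]
    apply (Nat.coprime_two_left).2
    have h2 := orderOf_dvd_natCard (⟨a, ha⟩ : A)
    rw [Subgroup.orderOf_mk] at h2
    exact hAo.of_dvd_nat h2
  have hcentN : ∀ y : G, (∀ a ∈ A, y * a = a * y) → y ∈ Subgroup.normalizer (A : Set G) := by
    intro y hy
    apply Subgroup.centralizer_le_normalizer
    rw [Subgroup.mem_centralizer_iff]
    intro a ha
    exact (hy a ha).symm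
  have htA : ∀ a ∈ A, t * a = a * t := fun a ha => (Subgroup.mem_centralizer_singleton_iff.1 (hAt ha)).symm
  have hA' : A ≠ ⊤ := by
    rintro rfl
    exact hCt (top_le_iff.1 hAt)
  exact le_of_pair hH (D.sol _ (D.norm_ne_top hA1 hA')) htH (hcentN t htA) (hcentN s hsA) ht hs2 hst hsc

/-- elements inverted by an involution of `H` which are not in `H` -/
theorem Dat.outside (D : Dat p G) {H : Subgroup G} (hH : Cfsg.IsStronglyEmbedded H) {t x : G}
    (ht : orderOf t = 2) (htH : t ∈ H) (hx : t * x * t⁻¹ = x⁻¹) (hxH : x ∉ H) :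
    orderOf (t * x) = 2 ∧ t * x ∉ H ∧ ∃ k, orderOf x = p ^ k := by
  have htt := StrEmb.mul_self_eq_one ht
  have hti := StrEmb.inv_eq_self ht
  have h1 : t * x ∉ H := by
    intro h
    apply hxH
    have := mul_mem (inv_mem htH) h
    rwa [inv_mul_cancel_left] at this
  have h2 : orderOf (t * x) = 2 := by
    apply orderOf_eq_prime
    · rw [pow_two]
      calc t * x * (t * x) = (t * x * t) * x := by group
        _ = (t * x * t⁻¹) * x := by rw [hti]
        _ = 1 := by rw [hx, inv_mul_cancel]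
    · intro h
      exact h1 (h ▸ one_mem H)
  have hodd : Odd (orderOf x) := by
    have h3 : t * (t * x) = x := by rw [← mul_assoc, htt, one_mul]
    rw [← h3, ← Nat.not_even_iff_odd]
    intro he
    obtain ⟨z, hz, hzt, hzi⟩ := StrEmb.exists_involution_commute ht h2 (orderOf_pos _).ne' he
    exact h1 (StrEmb.mem_of_commute hH hz (StrEmb.mem_of_commute hH ht htH hzt) hzi.symm)
  exact ⟨h2, h1, D.np.inverted D.p2 ht hodd hx⟩


theorem dvd_center {X : Type u} [Group X] [Finite X] (hX : Group.IsNilpotent X) (h2 : 2 ∣ Nat.card X) :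
    ∃ z ∈ Subgroup.center X, orderOf z = 2 := by
  haveI : Fact (Nat.Prime 2) := ⟨Nat.prime_two⟩
  have h3 := H71.PPO.dvd_card_center_of_nilpotent hX Nat.prime_two h2
  obtain ⟨z, hz⟩ := exists_prime_orderOf_dvd_card' 2 h3
  exact ⟨z, z.2, by rwa [Subgroup.orderOf_coe]⟩

/-- the number of involutions of `H` is a power of `p` -/
theorem Dat.card_invol (D : Dat p G) {H : Subgroup G} (hH : Cfsg.IsStronglyEmbedded H)
    (four : ∃ a b : G, orderOf a = 2 ∧ orderOf b = 2 ∧ a ≠ b ∧ a * b = b * a) :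
    p ∣ Nat.card {i : G // orderOf i = 2 ∧ i ∈ H} := by
  have hs := D.sol H hH.1
  obtain ⟨B, -, hBp, ⟨k, hk⟩, -⟩ := exists_hall_compl (p := p) hs (⊥ : Subgroup H) (by simp)
  have hBnil := (D.np.sub H) B hBp
  have h2B : 2 ∣ Nat.card B := by
    have h1 := B.card_mul_index
    rw [hk] at h1
    have h2 : 2 ∣ Nat.card B * p ^ k := by rw [h1]; exact hH.2.1.two_dvd
    exact Nat.Coprime.dvd_of_dvd_mul_right (Nat.Coprime.pow_right _ (coprime_two_p D)) h2
  obtain ⟨z, hz, hz2⟩ := dvd_center hBnil h2B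
  have hzG : orderOf (((z : B) : H) : G) = 2 := by rw [Subgroup.orderOf_coe, Subgroup.orderOf_coe, hz2]
  let I := {i : G // orderOf i = 2 ∧ i ∈ H}
  let act : MulAction H I :=
    { smul := fun h i => ⟨h * i * (h : G)⁻¹, by
        refine ⟨by rw [StrEmb.orderOf_conj]; exact i.2.1, mul_mem (mul_mem h.2 i.2.2) (inv_mem h.2)⟩⟩
      one_smul := fun i => Subtype.ext (by
        show ((1 : H) : G) * i * ((1 : H) : G)⁻¹ = i
        simp)
      mul_smul := fun a b i => Subtype.ext (by
        show ((a * b : H) : G) * i * ((a * b : H) : G)⁻¹ = a * (b * i * (b : G)⁻¹) * (a : G)⁻¹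
        rw [Subgroup.coe_mul]; group) }
  let z0 : I := ⟨((z : B) : H), hzG, ((z : B) : H).2⟩
  obtain ⟨u, huH⟩ : ∃ u, u ∉ H := by
    by_contra h
    push Not at h
    exact hH.1 (eq_top_iff.2 fun x _ => h x)
  have horb : MulAction.orbit H z0 = Set.univ := by
    rw [Set.eq_univ_iff_forall]
    intro i
    obtain ⟨d, hd, hdi⟩ := StrEmb.exists_conj_inf hH huH hzG ((z : B) : H).2 i.2.1 i.2.2
    exact ⟨⟨d, hd.1⟩, Subtype.ext hdi⟩
  have h1 := MulAction.index_stabilizer H z0
  rw [horb, Set.ncard_univ] at h1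
  have hB : B ≤ MulAction.stabilizer H z0 := by
    intro b hb
    rw [MulAction.mem_stabilizer_iff]
    apply Subtype.ext
    show ((b : H) : G) * ((z : B) : H) * ((b : H) : G)⁻¹ = ((z : B) : H)
    have h3 : (⟨b, hb⟩ : B) * z = z * ⟨b, hb⟩ := Subgroup.mem_center_iff.1 hz ⟨b, hb⟩
    have h4 : ((b : H) : G) * ((z : B) : H) = ((z : B) : H) * ((b : H) : G) :=
      congrArg (fun x : B => ((x : H) : G)) h3
    rw [h4, mul_inv_cancel_right]
  have h2 : Nat.card I ∣ p ^ k := by
    rw [← h1, ← hk]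
    exact Subgroup.index_dvd_of_le hB
  obtain ⟨j, hj, hj2⟩ := (Nat.dvd_prime_pow hp.out).1 h2
  have hj0 : j ≠ 0 := by
    rintro rfl
    rw [pow_zero, Nat.card_eq_one_iff_unique] at hj2
    obtain ⟨s, hs2, hst, hsc⟩ := exists_other hH four hzG
    have hsH : s ∈ H := StrEmb.mem_of_commute hH hzG ((z : B) : H).2 hsc
    have := hj2.1.elim (⟨s, hs2, hsH⟩ : I) z0
    exact hst (congrArg Subtype.val this)
  rw [show Nat.card {i : G // orderOf i = 2 ∧ i ∈ H} = Nat.card I from rfl, hj2]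
  exact dvd_pow_self p hj0

end Cfsg.Agent.H32.NP
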