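import Mathlib
import Cfsg.Agent.H32.NPSE2
import Cfsg.Agent.S1188
import Cfsg.Agent.Cop.Basic

/-!
Sylow `p`-subgroups normalized by an involution.
-/

set_option autoImplicit false
set_option linter.all false

namespace Cfsg.Agent.H32.NP

open Subgroup
open Cfsg.Agent.H32.SFB Cfsg.Agent.H32.SE
open scoped Pointwise

universe u

variable {G : Type u} [Group G] [Finite G] {p : ℕ} [hp : Fact p.Prime]

theorem isSolvable_of_pgroup {V : Subgroup G} (hV : IsPGroup p V) : Group.IsSolvable V := by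
  haveI := hV.isNilpotent
  infer_instance

theorem norm_zpowers_of_inv {t x : G} (ht : orderOf t = 2) (hx : t * x * t⁻¹ = x⁻¹) :
    t ∈ Subgroup.normalizer (Subgroup.zpowers x : Set G) := by
  rw [mem_normalizer_iff]
  have key : ∀ z : G, z ∈ zpowers x → t * z * t⁻¹ ∈ zpowers x := by
    rintro _ ⟨k, rfl⟩
    rw [← conj_zpow, hx]
    exact zpow_mem (inv_mem (mem_zpowers x)) k
  intro z
  refine ⟨key z, fun hz => ?_⟩
  have hti : t⁻¹ = t := StrEmb.inv_eq_self ht
  have htt := StrEmb.mul_self_eq_one ht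
  have h3 := key _ hz
  rw [hti] at h3
  have h4 : t * (t * z * t) * t = z := by
    calc t * (t * z * t) * t = (t * t) * z * (t * t) := by group
      _ = z := by rw [htt, one_mul, mul_one]
  rwa [h4] at h3

theorem norm_of_inv {t : G} (ht : orderOf t = 2) {K : Subgroup G} (h : ∀ z ∈ K, t * z * t⁻¹ ∈ K) :
    t ∈ Subgroup.normalizer (K : Set G) := by
  rw [mem_normalizer_iff]
  intro z
  refine ⟨h z, fun hz => ?_⟩
  have hti : t⁻¹ = t := StrEmb.inv_eq_self ht
  have htt := StrEmb.mul_self_eq_one ht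
  have h3 := h _ hz
  rw [hti] at h3
  have h4 : t * (t * z * t) * t = z := by
    calc t * (t * z * t) * t = (t * t) * z * (t * t) := by group
      _ = z := by rw [htt, one_mul, mul_one]
  rwa [h4] at h3

theorem card_le_sylow {K : Subgroup G} (P : Sylow p K) {Y : Subgroup G} (hY : IsPGroup p Y) (hYK : Y ≤ K) :
    Nat.card Y ≤ Nat.card (P : Subgroup K) := by
  obtain ⟨Q, hQ⟩ := (hY.comap_of_injective K.subtype K.subtype_injective).exists_le_sylow
  have h1 : Nat.card (P : Subgroup K) = Nat.card (Q : Subgroup K) := by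
    rw [P.card_eq_multiplicity, Q.card_eq_multiplicity]
  rw [h1, ← Nat.card_congr (Subgroup.subgroupOfEquivOfLe hYK).toEquiv]
  exact Nat.card_le_card_of_injective _ (Subgroup.inclusion_injective hQ)

theorem Dat.exists_sylow (D : Dat p G) {H : Subgroup G} (hH : Cfsg.IsStronglyEmbedded H) {t x : G}
    (ht : orderOf t = 2) (htH : t ∈ H) (hx : t * x * t⁻¹ = x⁻¹) (hxH : x ∉ H) :
    ∃ P : Sylow p G, x ∈ (P : Subgroup G) ∧ t ∈ Subgroup.normalizer ((P : Subgroup G) : Set G) := by
  obtain ⟨h1, h2, k, hk⟩ := D.outside hH ht htH hx hxH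
  have hx1 : x ≠ 1 := fun h => hxH (h ▸ one_mem H)
  have hUp : IsPGroup p (Subgroup.zpowers x) := by
    rw [IsPGroup.iff_card]
    exact ⟨k, by rw [Nat.card_zpowers, hk]⟩
  obtain ⟨V, hUV, hV⟩ := (Set.toFinite {V : Subgroup G | IsPGroup p V ∧ x ∈ V ∧
    t ∈ Subgroup.normalizer (V : Set G)}).exists_le_maximal (a := Subgroup.zpowers x)
    ⟨hUp, Subgroup.mem_zpowers x, norm_zpowers_of_inv ht hx⟩
  obtain ⟨hVp, hxV, htV⟩ := hV.prop
  have hV1 : V ≠ ⊥ := by
    rintro rfl
    exact hx1 (Subgroup.mem_bot.1 hxV)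
  have hVt : V ≠ ⊤ := D.ne_top (isSolvable_of_pgroup hVp)
  set L := Subgroup.normalizer (V : Set G) with hL
  have hLs : Group.IsSolvable L := D.sol L (D.norm_ne_top hV1 hVt)
  have hVL : V ≤ L := Subgroup.le_normalizer
  have hLH : ¬ L ≤ H := fun h => hxH (h (hVL hxV))
  -- `t` is isolated in `L`
  set z : L := ⟨t, htV⟩ with hz
  have hz2 : orderOf z = 2 := by rw [hz, Subgroup.orderOf_mk, ht]
  have hiso : Cfsg.IsIsolatedInvolution z := by
    refine ⟨hz2, fun g hg => ?_⟩
    by_contra hne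
    apply hLH
    refine le_of_pair hH hLs htH htV (s := ((g * z * g⁻¹ : L) : G)) (g * z * g⁻¹ : L).2 ht ?_ ?_ ?_
    · rw [Subgroup.orderOf_coe, StrEmb.orderOf_conj, hz2]
    · intro h
      exact hne (Subtype.ext h)
    · exact (congrArg Subtype.val hg.eq).symm
  have hZ := S1188.result z hiso inferInstance
  set O := Cfsg.oddCore L with hO
  haveI hOn : O.Normal := by rw [hO]; infer_instance
  have hOc : (Nat.card O).Coprime 2 := Solv.pPrimeCore_card_coprime 2
  obtain ⟨P₂⟩ : Nonempty (Sylow p L) := inferInstance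
  set K₀ : Subgroup L := O ⊔ (P₂ : Subgroup L) with hK₀
  have hK₀2 : (Nat.card K₀).Coprime 2 := by
    have h3 := H64.card_sup_dvd_mul (A := O) (B := (P₂ : Subgroup L))
      (by rw [Subgroup.normalizer_eq_top]; exact le_top)
    refine Nat.Coprime.coprime_dvd_left h3 (Nat.Coprime.mul_left hOc ?_)
    obtain ⟨n, hn⟩ := IsPGroup.iff_card.1 P₂.2
    rw [show Nat.card (P₂ : Subgroup L) = p ^ n from hn]
    exact Nat.Coprime.pow_left _ (coprime_two_p D).symm
  set K : Subgroup G := K₀.map L.subtype with hK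
  have htK : t ∈ Subgroup.normalizer (K : Set G) := by
    apply norm_of_inv ht
    rintro _ ⟨r, hr, rfl⟩
    refine ⟨z * r * z⁻¹, ?_, rfl⟩
    have h3 : z * r * z⁻¹ = (z * r * z⁻¹ * r⁻¹) * r := by group
    rw [h3]
    exact mul_mem ((le_sup_left : O ≤ K₀) (hZ r)) hr
  have hP₂K : (P₂ : Subgroup L).map L.subtype ≤ K := Subgroup.map_mono le_sup_right
  have hVn : (V.subgroupOf L).Normal := by rw [hL]; exact Subgroup.normal_in_normalizer
  have hVP₂ : V ≤ (P₂ : Subgroup L).map L.subtype := by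
    have h3 := H49.normal_pgroup_le_sylow hVn (hVp.comap_of_injective _ L.subtype_injective) P₂
    intro v hv
    exact ⟨⟨v, hVL hv⟩, h3 (by exact hv), rfl⟩
  have hcop : (Nat.card (Subgroup.zpowers t)).Coprime (Nat.card K) := by
    rw [Nat.card_zpowers, ht, hK, Subgroup.card_map_of_injective L.subtype_injective]
    exact hK₀2.symm
  obtain ⟨P, hVP, htP⟩ := Cop.exists_invariant_sylow_ge (A := Subgroup.zpowers t) (K := K)
    (Subgroup.zpowers_le.2 htK) hcop (Or.inl inferInstance) p (U := V) (hVP₂.trans hP₂K) hVp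
    (Subgroup.zpowers_le.2 htV)
  have hPV : (P : Subgroup K).map K.subtype ≤ V :=
    hV.le_of_ge ⟨P.2.map _, hVP hxV, htP (Subgroup.mem_zpowers t)⟩ hVP
  have hcardV : Nat.card (P : Subgroup K) ≤ Nat.card V := by
    rw [← Subgroup.card_map_of_injective (K := (P : Subgroup K)) K.subtype_injective]
    exact Nat.card_le_card_of_injective _ (Subgroup.inclusion_injective hPV)
  have hcardP₂ : Nat.card (P₂ : Subgroup L) ≤ Nat.card V := by
    refine le_trans ?_ hcardV
    rw [← Subgroup.card_map_of_injective (K := (P₂ : Subgroup L)) L.subtype_injective]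
    exact card_le_sylow P (P₂.2.map _) hP₂K
  -- `V` is Sylow in `G`
  obtain ⟨Q, hQ⟩ := hVp.exists_le_sylow
  have hVQ : V = (Q : Subgroup G) := by
    by_contra hne
    have hlt : V < (Q : Subgroup G) := lt_of_le_of_ne hQ hne
    have h3 := H9.lt_inf_normalizer Q.2 hlt
    have h4 : Nat.card ↥((Q : Subgroup G) ⊓ L) ≤ Nat.card (P₂ : Subgroup L) :=
      card_le_sylow P₂ (Q.2.to_le inf_le_left) inf_le_right
    have h5 : Nat.card V < Nat.card ↥((Q : Subgroup G) ⊓ L) := by
      apply lt_of_le_of_ne (Nat.card_le_card_of_injective _ (Subgroup.inclusion_injective h3.le))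
      intro h
      exact h3.ne (Subgroup.eq_of_le_of_card_ge h3.le h.ge)
    omega
  exact ⟨Q, hVQ ▸ hxV, by rw [← hVQ]; exact htV⟩

end Cfsg.Agent.H32.NP
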