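import Mathlib
import Cfsg.Agent.H32.NPSE3

/-!
The case where the involutions of the strongly embedded subgroup commute.
-/

set_option autoImplicit false
set_option linter.all false

namespace Cfsg.Agent.H32.NP

open Subgroup
open Cfsg.Agent.H32.SFB Cfsg.Agent.H32.SE
open scoped Pointwise

universe u

/-- the commuting case -/
structure CDat (p : ℕ) {G : Type u} [Group G] [Finite G] (H : Subgroup G) : Prop where
  D : Dat p G
  hH : Cfsg.IsStronglyEmbedded H
  four : ∃ a b : G, orderOf a = 2 ∧ orderOf b = 2 ∧ a ≠ b ∧ a * b = b * a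
  comm : ∀ s ∈ H, ∀ t ∈ H, orderOf s = 2 → orderOf t = 2 → s * t = t * s

variable {G : Type u} [Group G] [Finite G] {p : ℕ} [hp : Fact p.Prime] {H : Subgroup G}

/-- the involutions of a subgroup -/
abbrev Inv (H : Subgroup G) : Type u := {i : G // orderOf i = 2 ∧ i ∈ H}

/-- conjugation action on the involutions -/
@[reducible] def actInv (H : Subgroup G) : MulAction H (Inv H) where
  smul := fun h i => ⟨h * i * (h : G)⁻¹, by
    refine ⟨by rw [StrEmb.orderOf_conj]; exact i.2.1, mul_mem (mul_mem h.2 i.2.2) (inv_mem h.2)⟩⟩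
  one_smul := fun i => Subtype.ext (by
    show ((1 : H) : G) * i * ((1 : H) : G)⁻¹ = i
    simp)
  mul_smul := fun a b i => Subtype.ext (by
    show ((a * b : H) : G) * i * ((a * b : H) : G)⁻¹ = a * (b * i * (b : G)⁻¹) * (a : G)⁻¹
    rw [Subgroup.coe_mul]; group)

theorem CDat.inv_eq_one (C : CDat p H) {t y : G} (ht : orderOf t = 2) (htH : t ∈ H) (hyH : y ∈ H)
    (hy : Odd (orderOf y)) (hty : t * y * t⁻¹ = y⁻¹) : y = 1 := by
  by_contra hne
  have htt := StrEmb.mul_self_eq_one ht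
  have hti := StrEmb.inv_eq_self ht
  have h1 : orderOf (t * y) = 2 := by
    apply orderOf_eq_prime
    · rw [pow_two]
      calc t * y * (t * y) = (t * y * t) * y := by group
        _ = (t * y * t⁻¹) * y := by rw [hti]
        _ = 1 := by rw [hty, inv_mul_cancel]
    · intro h
      have h2 : y = t⁻¹ := eq_inv_of_mul_eq_one_right h
      rw [h2, hti, ht] at hy
      exact absurd hy (by decide)
  have h2 := C.comm t htH (t * y) (mul_mem htH hyH) ht h1
  have h3 : y = t * y * t⁻¹ := by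
    rw [hti]
    calc y = t * (t * y) := by rw [← mul_assoc, htt, one_mul]
      _ = t * y * t := h2
  rw [hty] at h3
  have h4 : y ^ 2 = 1 := by
    rw [pow_two]
    nth_rewrite 1 [h3]
    exact inv_mul_cancel y
  have h5 : orderOf y ∣ 2 := orderOf_dvd_of_pow_eq_one h4
  have h6 : orderOf y = 1 := by
    rcases (Nat.dvd_prime Nat.prime_two).1 h5 with h | h
    · exact h
    · rw [h] at hy; exact absurd hy (by decide)
  exact hne (orderOf_eq_one_iff.1 h6)

/-- the normalizer of a `p`-group centralizing an involution of `H` lies in `H` -/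
theorem CDat.norm_le (C : CDat p H) {t : G} (ht : orderOf t = 2) (htH : t ∈ H) {Y : Subgroup G}
    (hY : IsPGroup p Y) (hY1 : Y ≠ ⊥) (hYt : ∀ y ∈ Y, y * t = t * y) :
    Subgroup.normalizer (Y : Set G) ≤ H := by
  have hYH : Y ≤ H := fun y hy => StrEmb.mem_of_commute C.hH ht htH (hYt y hy)
  letI := actInv H
  letI : MulAction (Y.subgroupOf H) (Inv H) := inferInstance
  have hYp : IsPGroup p (Y.subgroupOf H) := hY.comap_of_injective _ H.subtype_injective
  have hm := C.D.card_invol C.hH C.four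
  have hfix : (⟨t, ht, htH⟩ : Inv H) ∈ MulAction.fixedPoints (Y.subgroupOf H) (Inv H) := by
    intro y
    apply Subtype.ext
    show ((y : H) : G) * t * ((y : H) : G)⁻¹ = t
    have h1 : ((y : H) : G) * t = t * ((y : H) : G) := hYt _ y.2
    rw [h1, mul_inv_cancel_right]
  obtain ⟨s, hs, hst⟩ := hYp.exists_fixed_point_of_prime_dvd_card_of_fixed_point (Inv H) hm hfix
  have hsY : ∀ y ∈ Y, y * (s : G) = s * y := by
    intro y hy
    have h1 : y * (s : G) * y⁻¹ = s := congrArg Subtype.val (hs ⟨⟨y, hYH hy⟩, hy⟩)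
    rw [mul_inv_eq_iff_eq_mul] at h1
    exact h1
  have hcentN : ∀ g : G, (∀ y ∈ Y, y * g = g * y) → g ∈ Subgroup.normalizer (Y : Set G) := by
    intro g hg
    apply Subgroup.centralizer_le_normalizer
    rw [Subgroup.mem_centralizer_iff]
    exact hg
  have hYt' : Y ≠ ⊤ := C.D.ne_top (isSolvable_of_pgroup hY)
  refine le_of_pair C.hH (C.D.sol _ (C.D.norm_ne_top hY1 hYt')) htH (hcentN t hYt) (hcentN s hsY) ht s.2.1 ?_
    (C.comm s s.2.2 t htH s.2.1 ht)
  intro h
  exact hst (Subtype.ext h.symm)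

theorem odd_of_pgroup (D : Dat p G) {P : Subgroup G} (hP : IsPGroup p P) {y : G} (hy : y ∈ P) :
    Odd (orderOf y) := by
  obtain ⟨k, hk⟩ := (IsPGroup.iff_orderOf.1 hP) ⟨y, hy⟩
  rw [Subgroup.orderOf_mk] at hk
  rw [hk]
  exact (hp.out.odd_of_ne_two D.p2).pow

/-- (I.3) -/
theorem CDat.inverts (C : CDat p H) {t x : G} (ht : orderOf t = 2) (htH : t ∈ H) (P : Sylow p G)
    (hxP : x ∈ (P : Subgroup G)) (hxH : x ∉ H) (htP : t ∈ Subgroup.normalizer ((P : Subgroup G) : Set G)) :
    ∀ y ∈ (P : Subgroup G), t * y * t⁻¹ = y⁻¹ := by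
  have htt := StrEmb.mul_self_eq_one ht
  have hti := StrEmb.inv_eq_self ht
  have hconj : ∀ y ∈ (P : Subgroup G), t * y * t⁻¹ ∈ (P : Subgroup G) := fun y hy =>
    (Subgroup.mem_normalizer_iff.1 htP y).1 hy
  -- `t` centralizes `P ∩ H`
  have hcen : ∀ y ∈ (P : Subgroup G) ⊓ H, y * t = t * y := by
    intro y hy
    have h1 : t * y * t⁻¹ * y⁻¹ = 1 := by
      apply C.inv_eq_one ht htH
      · exact mul_mem (mul_mem (mul_mem htH hy.2) (inv_mem htH)) (inv_mem hy.2)
      · exact odd_of_pgroup C.D P.2 (mul_mem (hconj y hy.1) (inv_mem hy.1))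
      · simp only [hti, mul_inv_rev, inv_inv]
        calc t * (t * y * t * y⁻¹) * t = (t * t) * y * (t * (y⁻¹ * t)) := by group
          _ = y * (t * (y⁻¹ * t)) := by rw [htt, one_mul]
    have h2 : t * y * t⁻¹ = y := mul_inv_eq_one.1 h1
    exact (mul_inv_eq_iff_eq_mul.1 h2).symm
  -- `P ∩ H = 1`
  have hbot : (P : Subgroup G) ⊓ H = ⊥ := by
    by_contra hne
    have h1 := C.norm_le ht htH (P.2.to_le inf_le_left) hne hcen
    have hlt : (P : Subgroup G) ⊓ H < (P : Subgroup G) := by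
      apply lt_of_le_of_ne inf_le_left
      intro h
      have h2 : x ∈ (P : Subgroup G) ⊓ H := by rw [h]; exact hxP
      exact hxH h2.2
    have h2 := H9.lt_inf_normalizer P.2 hlt
    have h3 : (P : Subgroup G) ⊓ Subgroup.normalizer (((P : Subgroup G) ⊓ H : Subgroup G) : Set G) ≤
        (P : Subgroup G) ⊓ H := inf_le_inf_left _ h1
    exact absurd (h2.trans_le h3) (lt_irrefl _)
  let φ : (P : Subgroup G) →* (P : Subgroup G) :=
    { toFun := fun y => ⟨t * y * t⁻¹, hconj y y.2⟩
      map_one' := Subtype.ext (by simp)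
      map_mul' := fun a b => Subtype.ext (by
        show t * ((a * b : (P : Subgroup G)) : G) * t⁻¹ = t * a * t⁻¹ * (t * b * t⁻¹)
        rw [Subgroup.coe_mul]; group) }
  have hφ : MonoidHom.FixedPointFree φ := by
    intro y hy
    have h1 : t * (y : G) * t⁻¹ = y := congrArg Subtype.val hy
    have h2 : (y : G) * t = t * y := (mul_inv_eq_iff_eq_mul.1 h1).symm
    have h3 : (y : G) ∈ (P : Subgroup G) ⊓ H := ⟨y.2, StrEmb.mem_of_commute C.hH ht htH h2⟩
    rw [hbot, Subgroup.mem_bot] at h3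
    exact Subtype.ext h3
  have hφ2 : Function.Involutive φ := by
    intro y
    apply Subtype.ext
    show t * (t * (y : G) * t⁻¹) * t⁻¹ = y
    rw [hti]
    calc t * (t * (y : G) * t) * t = (t * t) * y * (t * t) := by group
      _ = y := by rw [htt, one_mul, mul_one]
  intro y hy
  have h1 := hφ.coe_eq_inv_of_involutive hφ2
  exact congrArg Subtype.val (congrFun h1 ⟨y, hy⟩)

/-- an involution outside `H` gives an element inverted by `t ∈ H` outside `H` -/
theorem CDat.exists_x (C : CDat p H) {t : G} (ht : orderOf t = 2) (htH : t ∈ H) :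
    ∃ x : G, t * x * t⁻¹ = x⁻¹ ∧ x ∉ H := by
  obtain ⟨u, huH⟩ : ∃ u, u ∉ H := by
    by_contra h
    push Not at h
    exact C.hH.1 (eq_top_iff.2 fun x _ => h x)
  have htt := StrEmb.mul_self_eq_one ht
  have hti := StrEmb.inv_eq_self ht
  refine ⟨t * (u * t * u⁻¹), ?_, ?_⟩
  · simp only [mul_inv_rev, inv_inv, hti]
    calc t * (t * (u * t * u⁻¹)) * t = (t * t) * (u * t * u⁻¹) * t := by group
      _ = u * (t * u⁻¹) * t := by rw [htt]; group
  · intro h
    have h1 : u * t * u⁻¹ ∈ H := by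
      have := mul_mem (inv_mem htH) h
      rwa [inv_mul_cancel_left] at this
    exact huH (StrEmb.mem_of_conj_mem C.hH ht htH h1)

/-- (I.4) involutions do not commute with elements of order `p` -/
theorem CDat.no_comm (C : CDat p H) {t y : G} (ht : orderOf t = 2) (htH : t ∈ H) (hy : orderOf y = p)
    (hc : y * t = t * y) : False := by
  obtain ⟨x, hx, hxH⟩ := C.exists_x ht htH
  obtain ⟨P, hxP, htP⟩ := C.D.exists_sylow C.hH ht htH hx hxH
  have hinv := C.inverts ht htH P hxP hxH htP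
  have hyp : IsPGroup p (Subgroup.zpowers y) := by
    rw [IsPGroup.iff_card]
    exact ⟨1, by rw [Nat.card_zpowers, hy, pow_one]⟩
  obtain ⟨g, hg⟩ := H9.exists_conj_smul_le_sylow hyp P
  have hy1 : g * y * g⁻¹ ∈ (P : Subgroup G) := H9.conj_smul_le_iff.1 hg y (Subgroup.mem_zpowers y)
  have h1 := hinv _ hy1
  set s := g⁻¹ * t * g with hs
  have hs2 : orderOf s = 2 := by
    have := StrEmb.orderOf_conj g⁻¹ t
    rw [inv_inv] at this
    rw [hs, this, ht]
  have hsy : s * y * s⁻¹ = y⁻¹ := by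
    have h2 : y⁻¹ = g⁻¹ * (g * y * g⁻¹)⁻¹ * g := by group
    rw [h2, ← h1, hs]
    group
  have hy0 : Subgroup.zpowers y ≠ ⊥ := by
    rw [Ne, Subgroup.zpowers_eq_bot]
    rintro rfl
    rw [orderOf_one] at hy
    exact hp.out.one_lt.ne hy
  have hN := C.norm_le ht htH hyp hy0 (by
    rintro _ ⟨k, rfl⟩
    exact ((show Commute y t from hc).zpow_left k).eq)
  have hsH : s ∈ H := hN (norm_zpowers_of_inv hs2 hsy)
  have hyH : y ∈ H := StrEmb.mem_of_commute C.hH ht htH hc
  have := C.inv_eq_one hs2 hsH hyH (odd_of_pgroup C.D hyp (Subgroup.mem_zpowers y)) hsy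
  rw [this, orderOf_one] at hy
  exact hp.out.one_lt.ne hy

theorem CDat.no_comm' (C : CDat p H) {t y : G} (ht : orderOf t = 2) (hy : orderOf y = p)
    (hc : y * t = t * y) : False := by
  obtain ⟨g, hg⟩ := StrEmb.exists_conj_mem C.hH ht
  refine C.no_comm (t := g * t * g⁻¹) (y := g * y * g⁻¹) (by rw [StrEmb.orderOf_conj, ht]) hg
    (by rw [StrEmb.orderOf_conj, hy]) ?_
  calc g * y * g⁻¹ * (g * t * g⁻¹) = g * (y * t) * g⁻¹ := by group
    _ = g * (t * y) * g⁻¹ := by rw [hc]
    _ = g * t * g⁻¹ * (g * y * g⁻¹) := by group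

end Cfsg.Agent.H32.NP
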