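import Mathlib
import Cfsg.Agent.H32.NPSE4
import Cfsg.Agent.BG.Core

/-!
The commuting case is impossible.
-/

set_option autoImplicit false
set_option linter.all false

namespace Cfsg.Agent.H32.NP

open Subgroup
open Cfsg.Agent.H32.SFB Cfsg.Agent.H32.SE
open scoped Pointwise

universe u

variable {G : Type u} [Group G] [Finite G] {p : ℕ} [hp : Fact p.Prime] {H : Subgroup G}

theorem comm_of_inverted {t : G} {P : Subgroup G} (h : ∀ y ∈ P, t * y * t⁻¹ = y⁻¹) {y z : G} (hy : y ∈ P)
    (hz : z ∈ P) : y * z = z * y := by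
  have h1 := h (y * z) (mul_mem hy hz)
  have h2 : t * (y * z) * t⁻¹ = (t * y * t⁻¹) * (t * z * t⁻¹) := by group
  rw [h2, h y hy, h z hz, mul_inv_rev] at h1
  have h3 : (z * y)⁻¹ = (y * z)⁻¹ := by rw [mul_inv_rev, mul_inv_rev]; exact h1
  exact (inv_injective h3).symm

/-- an element of order `p` among the powers -/
theorem exists_order_p {P : Subgroup G} (hP : IsPGroup p P) {x : G} (hx : x ∈ P) (hx1 : x ≠ 1) :
    ∃ y ∈ Subgroup.zpowers x, orderOf y = p := by
  have h1 : IsPGroup p (Subgroup.zpowers x) := hP.to_le (Subgroup.zpowers_le.2 hx)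
  obtain ⟨n, hn⟩ := IsPGroup.iff_card.1 h1
  rcases n with _ | n
  · exfalso
    rw [pow_zero, Subgroup.card_eq_one, Subgroup.zpowers_eq_bot] at hn
    exact hx1 hn
  · obtain ⟨y, hy⟩ := exists_prime_orderOf_dvd_card' p (show p ∣ Nat.card (Subgroup.zpowers x) by
      rw [hn]; exact dvd_pow_self p (Nat.succ_ne_zero n))
    exact ⟨y, y.2, by rwa [Subgroup.orderOf_coe]⟩

/-- uniqueness of the inverted Sylow subgroup -/
theorem CDat.unique (C : CDat p H) {t : G} (ht : orderOf t = 2) (htH : t ∈ H) {P₁ P₂ : Sylow p G}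
    (h1 : ∀ y ∈ (P₁ : Subgroup G), t * y * t⁻¹ = y⁻¹) (h2 : ∀ y ∈ (P₂ : Subgroup G), t * y * t⁻¹ = y⁻¹)
    {x : G} (hx1 : x ∈ (P₁ : Subgroup G)) (hx2 : x ∈ (P₂ : Subgroup G)) (hx : x ≠ 1) : P₁ = P₂ := by
  have htt := StrEmb.mul_self_eq_one ht
  have hti := StrEmb.inv_eq_self ht
  have hxp : IsPGroup p (Subgroup.zpowers x) := P₁.2.to_le (Subgroup.zpowers_le.2 hx1)
  obtain ⟨y, hy, hyp⟩ := exists_order_p P₁.2 hx1 hx
  have hxH : x ∉ H := fun h => hx (C.inv_eq_one ht htH h (odd_of_pgroup C.D P₁.2 hx1) (h1 x hx1))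
  set Z := Subgroup.centralizer ({x} : Set G) with hZ
  have hZt : Z ≠ ⊤ := by
    intro h
    have h3 := C.D.norm_ne_top (A := Subgroup.zpowers x) (by rwa [Ne, Subgroup.zpowers_eq_bot])
      (C.D.ne_top (isSolvable_of_pgroup hxp))
    apply h3
    rw [eq_top_iff, ← h]
    rw [hZ, ← Subgroup.centralizer_closure, ← Subgroup.zpowers_eq_closure]
    exact Subgroup.centralizer_le_normalizer _
  have hZs := C.D.sol Z hZt
  have hodd : Odd (Nat.card Z) := by
    rw [← Nat.not_even_iff_odd]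
    intro he
    obtain ⟨s, hs⟩ := exists_prime_orderOf_dvd_card' 2 he.two_dvd
    obtain ⟨n, hn⟩ := hy
    refine C.no_comm' (t := (s : G)) (by rw [Subgroup.orderOf_coe, hs]) hyp ?_
    have h3 : (s : G) * x = x * s := Subgroup.mem_centralizer_singleton_iff.1 s.2
    rw [← hn]
    exact (((show Commute x (s : G) from h3.symm).zpow_left n).eq)
  have htZ : t ∈ Subgroup.normalizer (Z : Set G) := by
    apply norm_of_inv ht
    intro z hz
    rw [hZ, Subgroup.mem_centralizer_singleton_iff] at hz ⊢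
    have h3 : t * x = x⁻¹ * t := by
      have := h1 x hx1
      rwa [mul_inv_eq_iff_eq_mul] at this
    have h4 : t * x⁻¹ = x * t := by
      have h5 : x * (t * x) = t := by rw [h3, ← mul_assoc, mul_inv_cancel, one_mul]
      calc t * x⁻¹ = (x * (t * x)) * x⁻¹ := by rw [h5]
        _ = x * t := by group
    rw [hti]
    have hz' : z * x⁻¹ = x⁻¹ * z := by
      have h6 : Commute z x := hz
      exact h6.inv_right.eq
    calc t * z * t * x = t * z * (t * x) := by group
      _ = t * z * (x⁻¹ * t) := by rw [h3]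
      _ = t * (z * x⁻¹) * t := by group
      _ = t * (x⁻¹ * z) * t := by rw [hz']
      _ = (t * x⁻¹) * z * t := by group
      _ = (x * t) * z * t := by rw [h4]
      _ = x * (t * z * t) := by group
  -- the `p'`-core of the centralizer
  set A : Subgroup G := (Cfsg.pPrimeCore p Z).map Z.subtype with hA
  have hAcard : Nat.card A = Nat.card (Cfsg.pPrimeCore p Z) := Subgroup.card_map_of_injective Z.subtype_injective
  have hAp : (Nat.card A).Coprime p := by
    rw [hAcard]; exact Solv.pPrimeCore_card_coprime p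
  have hAo : Odd (Nat.card A) := by
    rw [hAcard]; exact hodd.of_dvd_nat (Subgroup.card_subgroup_dvd_card _)
  have hAbot : A = ⊥ := by
    by_contra hne
    have htA : t ∈ Subgroup.normalizer (A : Set G) := BG.normalizer_le_normalizer_map_char Z _ htZ
    have hcA : ∀ a ∈ A, t * a = a * t := by
      intro a ha
      refine C.D.np.norm_comm hAp (by rw [ht]; exact coprime_two_p C.D) htA ?_ ha
      rw [ht]
      exact Nat.coprime_two_left.2 hAo
    have h3 := C.D.norm_le C.hH C.four ht htH hne hAo hAp (by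
      intro a ha
      rw [Subgroup.mem_centralizer_singleton_iff]
      exact (hcA a ha).symm)
    apply hxH
    apply h3
    apply Subgroup.centralizer_le_normalizer
    rw [Subgroup.mem_centralizer_iff]
    rintro _ ⟨a, ha, rfl⟩
    exact Subgroup.mem_centralizer_singleton_iff.1 a.2
  have hcore : Cfsg.pPrimeCore p Z = ⊥ := by
    rwa [hA, Subgroup.map_eq_bot_iff_of_injective _ Z.subtype_injective] at hAbot
  have hCP : H36.PConstr.CharP p Z := (H36.PConstr.isPConstrained_iff_of_core_eq_bot hcore).1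
    (SigF.PC.isPConstrained_of_isSolvable hZs)
  have key : ∀ P : Sylow p G, (∀ y ∈ (P : Subgroup G), t * y * t⁻¹ = y⁻¹) → x ∈ (P : Subgroup G) →
      (P : Subgroup G) ≤ Z ∧ (P : Subgroup G).subgroupOf Z = Cfsg.pCore p Z := by
    intro P hP hxP
    have hPZ : (P : Subgroup G) ≤ Z := by
      intro y hy
      rw [hZ, Subgroup.mem_centralizer_singleton_iff]
      exact comm_of_inverted hP hy hxP
    refine ⟨hPZ, ?_⟩
    have h4 : Cfsg.pCore p Z ≤ (P : Subgroup G).subgroupOf Z := by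
      have h5 := H49.normal_pgroup_le_sylow (H49.pCore_normal' p) (H49.pCore_isPGroup p)
        (P.subtype hPZ)
      rwa [Sylow.coe_subtype] at h5
    refine le_antisymm ?_ h4
    refine le_trans ?_ hCP
    intro y hy
    rw [Subgroup.mem_centralizer_iff]
    intro z hz
    apply Subtype.ext
    exact comm_of_inverted hP (h4 hz) hy
  obtain ⟨ha, hb⟩ := key P₁ h1 hx1
  obtain ⟨hc, hd⟩ := key P₂ h2 hx2
  apply Sylow.ext
  have h5 : ((P₁ : Subgroup G).subgroupOf Z).map Z.subtype = ((P₂ : Subgroup G).subgroupOf Z).map Z.subtype := by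
    rw [hb, hd]
  rwa [Subgroup.map_subgroupOf_eq_of_le ha, Subgroup.map_subgroupOf_eq_of_le hc] at h5

/-- `p` divides the number of involutions -/
theorem CDat.dvd_all (C : CDat p H) (P : Sylow p G) (hP : (P : Subgroup G) ≠ ⊥) :
    p ∣ Nat.card {i : G // orderOf i = 2} := by
  let act : MulAction (P : Subgroup G) {i : G // orderOf i = 2} :=
    { smul := fun h i => ⟨h * i * (h : G)⁻¹, by rw [StrEmb.orderOf_conj]; exact i.2⟩
      one_smul := fun i => Subtype.ext (by
        show ((1 : (P : Subgroup G)) : G) * i * ((1 : (P : Subgroup G)) : G)⁻¹ = i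
        simp)
      mul_smul := fun a b i => Subtype.ext (by
        show ((a * b : (P : Subgroup G)) : G) * i * ((a * b : (P : Subgroup G)) : G)⁻¹ =
          a * (b * i * (b : G)⁻¹) * (a : G)⁻¹
        rw [Subgroup.coe_mul]; group) }
  have h1 := P.2.card_modEq_card_fixedPoints {i : G // orderOf i = 2}
  obtain ⟨⟨x, hx⟩, hx1'⟩ := Subgroup.ne_bot_iff_exists_ne_one.1 hP
  have hx1 : x ≠ 1 := fun h => hx1' (Subtype.ext h)
  obtain ⟨y, hy, hyp⟩ := exists_order_p P.2 hx hx1
  have hyP : y ∈ (P : Subgroup G) := (Subgroup.zpowers_le.2 hx) hy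
  have h2 : Nat.card (MulAction.fixedPoints (P : Subgroup G) {i : G // orderOf i = 2}) = 0 := by
    rw [Nat.card_eq_zero]
    left
    constructor
    rintro ⟨i, hi⟩
    have h3 : y * (i : G) * y⁻¹ = i := congrArg Subtype.val (hi ⟨y, hyP⟩)
    exact C.no_comm' i.2 hyp (mul_inv_eq_iff_eq_mul.1 h3)
  rw [h2] at h1
  exact (Nat.modEq_zero_iff_dvd).1 h1

/-- the Sylow `p`-subgroups inverted by `t` -/
abbrev PT (p : ℕ) (t : G) : Type u := {P : Sylow p G // ∀ y ∈ (P : Subgroup G), t * y * t⁻¹ = y⁻¹}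

/-- action of the centralizer of `t` -/
@[reducible] def actPT (p : ℕ) (t : G) : MulAction (Subgroup.centralizer ({t} : Set G)) (PT p t) where
  smul := fun c P => ⟨(c : G) • P.1, by
    intro y hy
    have h1 : (c : G)⁻¹ * y * c ∈ (P.1 : Subgroup G) := by
      have h2 : y ∈ MulAut.conj (c : G) • (P.1 : Subgroup G) := hy
      rwa [H9.mem_conj_smul_iff] at h2
    have h3 := P.2 _ h1
    have h4 : (c : G) * t = t * c := Subgroup.mem_centralizer_singleton_iff.1 c.2
    have h5 : (c : G)⁻¹ * t = t * (c : G)⁻¹ := ((show Commute (c : G) t from h4).inv_left).eq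
    have h6 : (c : G) * t⁻¹ = t⁻¹ * c := ((show Commute (c : G) t from h4).inv_right).eq
    calc t * y * t⁻¹ = (c : G) * ((c : G)⁻¹ * t) * y * t⁻¹ := by group
      _ = (c : G) * (t * (c : G)⁻¹) * y * t⁻¹ := by rw [h5]
      _ = (c : G) * (t * ((c : G)⁻¹ * y * c)) * ((c : G)⁻¹ * t⁻¹) := by group
      _ = (c : G) * (t * ((c : G)⁻¹ * y * c) * t⁻¹) * (t * (c : G)⁻¹ * t⁻¹) := by group
      _ = (c : G) * ((c : G)⁻¹ * y * c)⁻¹ * (((c : G)⁻¹ * t) * t⁻¹) := by rw [h3, ← h5]
      _ = y⁻¹ := by group⟩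
  one_smul := fun P => Subtype.ext (one_smul G P.1)
  mul_smul := fun a b P => Subtype.ext (mul_smul (a : G) (b : G) P.1)

theorem CDat.trans (C : CDat p H) {t : G} (ht : orderOf t = 2) (htH : t ∈ H) (P₁ P₂ : PT p t) :
    ∃ c : Subgroup.centralizer ({t} : Set G), (c : G) • P₁.1 = P₂.1 := by
  have htt := StrEmb.mul_self_eq_one ht
  have hti := StrEmb.inv_eq_self ht
  obtain ⟨g, hg⟩ := MulAction.exists_smul_eq G P₁.1 P₂.1
  set s := g * t * g⁻¹ with hs
  have hs2 : orderOf s = 2 := by rw [hs, StrEmb.orderOf_conj, ht]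
  have hsi := StrEmb.inv_eq_self hs2
  have hss := StrEmb.mul_self_eq_one hs2
  -- `s` inverts `P₂`
  have hsP : ∀ y ∈ (P₂.1 : Subgroup G), s * y * s⁻¹ = y⁻¹ := by
    intro y hy
    have h1 : g⁻¹ * y * g ∈ (P₁.1 : Subgroup G) := by
      rw [← hg] at hy
      have h2 : y ∈ MulAut.conj g • (P₁.1 : Subgroup G) := hy
      rwa [H9.mem_conj_smul_iff] at h2
    have h3 := P₁.2 _ h1
    calc s * y * s⁻¹ = g * (t * (g⁻¹ * y * g) * t⁻¹) * g⁻¹ := by rw [hs]; group
      _ = g * (g⁻¹ * y * g)⁻¹ * g⁻¹ := by rw [h3]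
      _ = y⁻¹ := by group
  set c := t * s with hc
  have hcinv : t * c * t⁻¹ = c⁻¹ := by
    rw [hc, mul_inv_rev, hti, hsi, ← mul_assoc, htt, one_mul]
  have hccomm : ∀ y ∈ (P₂.1 : Subgroup G), c * y = y * c := by
    intro y hy
    have h1 : s * y = y⁻¹ * s := by
      have := hsP y hy
      rwa [mul_inv_eq_iff_eq_mul] at this
    have h2 : t * y⁻¹ = y * t := by
      have := P₂.2 y⁻¹ (inv_mem hy)
      rw [mul_inv_eq_iff_eq_mul, inv_inv] at this
      exact this
    calc c * y = t * (s * y) := by rw [hc]; group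
      _ = (t * y⁻¹) * s := by rw [h1]; group
      _ = y * c := by rw [h2, hc]; group
  -- `c ∈ P₂`
  have hcP : c ∈ (P₂.1 : Subgroup G) := by
    by_cases hc1 : c = 1
    · rw [hc1]; exact one_mem _
    · have hcp : ∃ k, orderOf c = p ^ k := by
        by_cases hcH : c ∈ H
        · exfalso
          have hsH : s ∈ H := by
            have := mul_mem (inv_mem htH) hcH
            rwa [hc, inv_mul_cancel_left] at this
          have h1 := C.comm t htH s hsH ht hs2
          have hc2 : orderOf c = 2 := by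
            apply orderOf_eq_prime _ hc1
            rw [hc, pow_two]
            calc t * s * (t * s) = t * (s * t) * s := by group
              _ = t * (t * s) * s := by rw [h1]
              _ = (t * t) * (s * s) := by group
              _ = 1 := by rw [htt, hss, one_mul]
          have hP2 : (P₂.1 : Subgroup G) ≠ ⊥ := by
            intro hbot
            obtain ⟨x, hx, hxH⟩ := C.exists_x ht htH
            obtain ⟨P, hxP, -⟩ := C.D.exists_sylow C.hH ht htH hx hxH
            obtain ⟨k, hk⟩ := MulAction.exists_smul_eq G P₂.1 P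
            have h2 : (P : Subgroup G) = ⊥ := by
              rw [← hk]
              show MulAut.conj k • (P₂.1 : Subgroup G) = ⊥
              rw [hbot]
              exact Subgroup.map_bot _
            rw [h2, Subgroup.mem_bot] at hxP
            exact hxH (hxP ▸ one_mem H)
          obtain ⟨⟨x, hx⟩, hx1'⟩ := Subgroup.ne_bot_iff_exists_ne_one.1 hP2
          have hx1 : x ≠ 1 := fun h => hx1' (Subtype.ext h)
          obtain ⟨y, hy, hyp⟩ := exists_order_p P₂.1.2 hx hx1
          have hyP : y ∈ (P₂.1 : Subgroup G) := (Subgroup.zpowers_le.2 hx) hy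
          exact C.no_comm' hc2 hyp (hccomm y hyP).symm
        · exact (C.D.outside C.hH ht htH hcinv hcH).2.2
      obtain ⟨k, hk⟩ := hcp
      have h1 : IsPGroup p (Subgroup.zpowers c) := by
        rw [IsPGroup.iff_card]
        exact ⟨k, by rw [Nat.card_zpowers, hk]⟩
      have h2 : IsPGroup p ↥(Subgroup.zpowers c ⊔ (P₂.1 : Subgroup G)) := by
        apply h1.to_sup_of_normal_right' P₂.1.2
        rw [Subgroup.zpowers_le]
        apply Subgroup.centralizer_le_normalizer
        rw [Subgroup.mem_centralizer_iff]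
        intro y hy
        exact (hccomm y hy).symm
      have h3 := P₂.1.3 h2 le_sup_right
      rw [← h3]
      exact (le_sup_left : Subgroup.zpowers c ≤ _) (Subgroup.mem_zpowers c)
  -- a square root
  have hodd := odd_of_pgroup C.D P₂.1.2 hcP
  obtain ⟨n, hn⟩ := hodd
  set d := (c⁻¹) ^ (n + 1) with hd
  have hdP : d ∈ (P₂.1 : Subgroup G) := pow_mem (inv_mem hcP) _
  have hdd : d * d = c⁻¹ := by
    rw [hd, ← pow_add]
    have h1 : n + 1 + (n + 1) = (2 * n + 1) + 1 := by ring
    rw [h1, pow_succ, inv_pow, ← hn, pow_orderOf_eq_one, inv_one, one_mul]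
  have hdt : d * t * d⁻¹ = s := by
    have h1 : t * d⁻¹ = d * t := by
      have := P₂.2 d⁻¹ (inv_mem hdP)
      rw [mul_inv_eq_iff_eq_mul, inv_inv] at this
      exact this
    calc d * t * d⁻¹ = d * (t * d⁻¹) := by group
      _ = (d * d) * t := by rw [h1]; group
      _ = c⁻¹ * t := by rw [hdd]
      _ = s := by rw [hc, mul_inv_rev, hti, hsi, mul_assoc, htt, mul_one]
  refine ⟨⟨d⁻¹ * g, ?_⟩, ?_⟩
  · rw [Subgroup.mem_centralizer_singleton_iff]
    have h1 : g * t = d * t * d⁻¹ * g := by rw [hdt, hs]; group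
    calc d⁻¹ * g * t = d⁻¹ * (g * t) := by group
      _ = d⁻¹ * (d * t * d⁻¹ * g) := by rw [h1]
      _ = t * (d⁻¹ * g) := by group
  · show (d⁻¹ * g) • P₁.1 = P₂.1
    rw [mul_smul, hg]
    rw [Sylow.smul_eq_iff_mem_normalizer]
    exact Subgroup.le_normalizer (inv_mem hdP)

theorem CDat.not_dvd_PT (C : CDat p H) {t : G} (ht : orderOf t = 2) (htH : t ∈ H) (P : PT p t) :
    ¬ p ∣ Nat.card (PT p t) := by
  letI := actPT (G := G) p t
  intro hd
  have horb : MulAction.orbit (Subgroup.centralizer ({t} : Set G)) P = Set.univ := by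
    rw [Set.eq_univ_iff_forall]
    intro Q
    obtain ⟨c, hc⟩ := C.trans ht htH P Q
    exact ⟨c, Subtype.ext hc⟩
  have h1 := MulAction.index_stabilizer (Subgroup.centralizer ({t} : Set G)) P
  rw [horb, Set.ncard_univ] at h1
  rw [← h1] at hd
  have h2 := hd.trans (Subgroup.index_dvd_card _)
  obtain ⟨y, hy⟩ := exists_prime_orderOf_dvd_card' p h2
  exact C.no_comm ht htH (y := (y : G)) (by rw [Subgroup.orderOf_coe, hy])
    (Subgroup.mem_centralizer_singleton_iff.1 y.2)

/-- the commuting case is impossible -/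
theorem CDat.false (C : CDat p H) : False := by
  classical
  obtain ⟨t, htH, ht⟩ := StrEmb.exists_involution_mem C.hH
  have htt := StrEmb.mul_self_eq_one ht
  have hti := StrEmb.inv_eq_self ht
  obtain ⟨x₀, hx₀, hx₀H⟩ := C.exists_x ht htH
  obtain ⟨P₀, hxP₀, htP₀⟩ := C.D.exists_sylow C.hH ht htH hx₀ hx₀H
  have hinv₀ := C.inverts ht htH P₀ hxP₀ hx₀H htP₀
  have hx₀1 : x₀ ≠ 1 := fun h => hx₀H (h ▸ one_mem H)
  have hP₀ : (P₀ : Subgroup G) ≠ ⊥ := by
    intro h
    rw [h, Subgroup.mem_bot] at hxP₀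
    exact hx₀1 hxP₀
  let X := {x : G // t * x * t⁻¹ = x⁻¹ ∧ x ∉ H}
  let F : (Σ P : PT p t, {x : G // x ∈ (P.1 : Subgroup G) ∧ x ≠ 1}) → X := fun a =>
    ⟨a.2, a.1.2 _ a.2.2.1, fun h => a.2.2.2 (C.inv_eq_one ht htH h (odd_of_pgroup C.D a.1.1.2 a.2.2.1)
      (a.1.2 _ a.2.2.1))⟩
  have hF : Function.Bijective F := by
    constructor
    · rintro ⟨⟨P, hP⟩, ⟨x, hx⟩⟩ ⟨⟨Q, hQ⟩, ⟨y, hy⟩⟩ h
      have hxy : x = y := congrArg Subtype.val h
      subst hxy
      have hPQ : P = Q := C.unique ht htH hP hQ hx.1 hy.1 hx.2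
      subst hPQ
      rfl
    · rintro ⟨x, hx, hxH⟩
      obtain ⟨P, hxP, htP⟩ := C.D.exists_sylow C.hH ht htH hx hxH
      have hinv := C.inverts ht htH P hxP hxH htP
      exact ⟨⟨⟨P, hinv⟩, ⟨x, hxP, fun h => hxH (h ▸ one_mem H)⟩⟩, rfl⟩
  have hcardP : ∀ P : PT p t, Nat.card {x : G // x ∈ (P.1 : Subgroup G) ∧ x ≠ 1} =
      Nat.card (P₀ : Subgroup G) - 1 := by
    intro P
    have h1 : Nat.card (P.1 : Subgroup G) = Nat.card (P₀ : Subgroup G) := by
      rw [P.1.card_eq_multiplicity, P₀.card_eq_multiplicity]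
    rw [← h1]
    have h2 : Nat.card {x : G // x ∈ (P.1 : Subgroup G) ∧ x ≠ 1} =
        Set.ncard (((P.1 : Subgroup G) : Set G) \ {1}) := rfl
    rw [h2, Set.ncard_diff_singleton_of_mem (one_mem (P.1 : Subgroup G))]
    rfl
  have hX : Nat.card X = Nat.card (PT p t) * (Nat.card (P₀ : Subgroup G) - 1) := by
    rw [← Nat.card_congr (Equiv.ofBijective F hF)]
    haveI := Fintype.ofFinite (PT p t)
    rw [Nat.card_sigma, Finset.sum_congr rfl (fun P _ => hcardP P), Finset.sum_const, Finset.card_univ,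
      smul_eq_mul, ← Nat.card_eq_fintype_card (α := PT p t)]
  -- involutions outside `H`
  have hX2 : Nat.card X = Nat.card {i : G // orderOf i = 2 ∧ i ∉ H} := by
    refine Nat.card_congr ⟨fun x => ⟨t * x, ?_⟩, fun i => ⟨t * i, ?_⟩, ?_, ?_⟩
    · obtain ⟨h1, h2, -⟩ := C.D.outside C.hH ht htH x.2.1 x.2.2
      exact ⟨h1, h2⟩
    · have hii := StrEmb.inv_eq_self i.2.1
      refine ⟨?_, fun h => i.2.2 ?_⟩
      · rw [mul_inv_rev, hii, hti, ← mul_assoc, htt, one_mul]
      · have := mul_mem (inv_mem htH) h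
        rwa [inv_mul_cancel_left] at this
    · intro x
      apply Subtype.ext
      show t * (t * (x : G)) = x
      rw [← mul_assoc, htt, one_mul]
    · intro i
      apply Subtype.ext
      show t * (t * (i : G)) = i
      rw [← mul_assoc, htt, one_mul]
  have hsum : Nat.card {i : G // orderOf i = 2} = Nat.card {i : G // orderOf i = 2 ∧ i ∈ H} +
      Nat.card {i : G // orderOf i = 2 ∧ i ∉ H} := by
    have h1 : ({i : G | orderOf i = 2} : Set G) = {i | orderOf i = 2 ∧ i ∈ H} ∪ {i | orderOf i = 2 ∧ i ∉ H} := by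
      ext i
      simp only [Set.mem_setOf_eq, Set.mem_union]
      tauto
    have h2 : Disjoint ({i | orderOf i = 2 ∧ i ∈ H} : Set G) {i | orderOf i = 2 ∧ i ∉ H} := by
      rw [Set.disjoint_left]
      rintro i ⟨_, h3⟩ ⟨_, h4⟩
      exact h4 h3
    have h3 := Set.ncard_union_eq h2 (Set.toFinite _) (Set.toFinite _)
    rw [← h1] at h3
    exact h3
  have hd1 := C.dvd_all P₀ hP₀
  have hd2 := C.D.card_invol C.hH C.four
  have hd3 : p ∣ Nat.card X := by
    rw [hX2]
    rw [hsum] at hd1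
    exact (Nat.dvd_add_right hd2).1 hd1
  rw [hX] at hd3
  rcases hp.out.dvd_mul.1 hd3 with h | h
  · exact C.not_dvd_PT ht htH ⟨P₀, hinv₀⟩ h
  · obtain ⟨n, hn⟩ := IsPGroup.iff_card.1 P₀.2
    have hn' : Nat.card (P₀ : Subgroup G) = p ^ n := hn
    rcases n with _ | n
    · rw [pow_zero, Subgroup.card_eq_one] at hn'
      exact hP₀ hn'
    · have h1 : p ∣ Nat.card (P₀ : Subgroup G) := by rw [hn']; exact dvd_pow_self p (Nat.succ_ne_zero n)
      have h2 : 1 ≤ Nat.card (P₀ : Subgroup G) := Nat.card_pos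
      have h3 : p ∣ 1 := by
        have := Nat.dvd_sub h1 h
        rwa [Nat.sub_sub_self h2] at this
      exact hp.out.one_lt.ne' (Nat.dvd_one.1 h3)

end Cfsg.Agent.H32.NP
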