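import Mathlib
import Cfsg.Agent.H32.NPSE5
import Cfsg.Agent.H36.NoSL2
import Cfsg.Agent.ZJ.SolvFact
import Cfsg.Agent.ZJ.Control
import Cfsg.Agent.FStar.AxB

/-!
There is no strongly embedded subgroup.
-/

set_option autoImplicit false
set_option linter.all false

namespace Cfsg.Agent.H32.NP

open Subgroup
open Cfsg.Agent.H32.SFB Cfsg.Agent.H32.SE
open scoped Pointwise

universe u

variable {G : Type u} [Group G] [Finite G] {p : ℕ} [hp : Fact p.Prime] {H : Subgroup G}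

/-- the involutions commute if `O₂(H) ≠ 1` -/
theorem Dat.comm_of (D : Dat p G) (hH : Cfsg.IsStronglyEmbedded H) (h2 : Cfsg.pCore 2 H ≠ ⊥) :
    ∀ s ∈ H, ∀ t ∈ H, orderOf s = 2 → orderOf t = 2 → s * t = t * s := by
  haveI : Fact (Nat.Prime 2) := ⟨Nat.prime_two⟩
  have hQn : (Cfsg.pCore 2 H).Normal := H49.pCore_normal' 2
  have hQp : IsPGroup 2 (Cfsg.pCore 2 H) := H49.pCore_isPGroup 2
  have h2' : 2 ∣ Nat.card (Cfsg.pCore 2 H) := by
    obtain ⟨n, hn⟩ := IsPGroup.iff_card.1 hQp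
    rcases n with _ | n
    · rw [pow_zero, Subgroup.card_eq_one] at hn
      exact absurd hn h2
    · rw [hn]; exact dvd_pow_self 2 (Nat.succ_ne_zero n)
  obtain ⟨z, hz, hz2⟩ := dvd_center hQp.isNilpotent h2'
  have hzG : orderOf (((z : Cfsg.pCore 2 H) : H) : G) = 2 := by rw [Subgroup.orderOf_coe, Subgroup.orderOf_coe, hz2]
  obtain ⟨u, huH⟩ : ∃ u, u ∉ H := by
    by_contra h
    push Not at h
    exact hH.1 (eq_top_iff.2 fun x _ => h x)
  have hzc : ∀ q : H, q ∈ Cfsg.pCore 2 H → q * ((z : Cfsg.pCore 2 H) : H) = ((z : Cfsg.pCore 2 H) : H) * q :=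
    fun q hq => congrArg Subtype.val (Subgroup.mem_center_iff.1 hz ⟨q, hq⟩)
  intro s hs t ht hs2 ht2
  obtain ⟨d, hd, hds⟩ := StrEmb.exists_conj_inf hH huH hzG ((z : Cfsg.pCore 2 H) : H).2 hs2 hs
  obtain ⟨e, he, het⟩ := StrEmb.exists_conj_inf hH huH hzG ((z : Cfsg.pCore 2 H) : H).2 ht2 ht
  set d' : H := ⟨d, hd.1⟩ with hd'
  set e' : H := ⟨e, he.1⟩ with he'
  set z' : H := ((z : Cfsg.pCore 2 H) : H) with hz'
  have h3 : d'⁻¹ * (e' * z' * e'⁻¹) * d' ∈ Cfsg.pCore 2 H := by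
    have h4 := hQn.conj_mem _ (hQn.conj_mem z' z.2 e') d'⁻¹
    rwa [inv_inv] at h4
  have h5 := hzc _ h3
  have h6 : (d' * z' * d'⁻¹) * (e' * z' * e'⁻¹) = (e' * z' * e'⁻¹) * (d' * z' * d'⁻¹) := by
    calc (d' * z' * d'⁻¹) * (e' * z' * e'⁻¹) = d' * (z' * (d'⁻¹ * (e' * z' * e'⁻¹) * d')) * d'⁻¹ := by group
      _ = d' * ((d'⁻¹ * (e' * z' * e'⁻¹) * d') * z') * d'⁻¹ := by rw [h5]
      _ = (e' * z' * e'⁻¹) * (d' * z' * d'⁻¹) := by group
  have h7 := congrArg Subtype.val h6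
  rw [← hds, ← het]
  exact h7

/-- **E4** : `p` divides the index of `H` -/
theorem Dat.dvd_index (D : Dat p G) (hH : Cfsg.IsStronglyEmbedded H) : p ∣ H.index := by
  classical
  by_contra hnd
  obtain ⟨t, htH, ht⟩ := StrEmb.exists_involution_mem hH
  have htt := StrEmb.mul_self_eq_one ht
  have hti := StrEmb.inv_eq_self ht
  set m := Nat.card {i : G // orderOf i = 2 ∧ i ∈ H} with hm
  let Ω := G ⧸ H
  let β : Ω := QuotientGroup.mk 1
  have hfixβ : ∀ g : G, g • β = β ↔ g ∈ H := by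
    intro g
    rw [StrEmb.smul_mk_eq_iff]
    simp
  haveI := Fintype.ofFinite Ω
  haveI := Fintype.ofFinite G
  have htβ : t • β = β := (hfixβ t).2 htH
  -- total number of involutions
  have htot : Nat.card {i : G // orderOf i = 2} = Nat.card Ω * m := by
    let F : (Σ a : Ω, {i : G // orderOf i = 2 ∧ i • a = a}) → {i : G // orderOf i = 2} := fun a => ⟨a.2, a.2.2.1⟩
    have hF : Function.Bijective F := by
      constructor
      · rintro ⟨a, ⟨i, hi⟩⟩ ⟨b, ⟨j, hj⟩⟩ h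
        have hij : i = j := congrArg Subtype.val h
        subst hij
        have hab : a = b := StrEmb.eq_of_smul_eq hH hi.1 hi.2 hj.2
        subst hab
        rfl
      · rintro ⟨i, hi⟩
        obtain ⟨a, ha⟩ := StrEmb.exists_smul_eq hH hi
        exact ⟨⟨a, ⟨i, hi, ha⟩⟩, rfl⟩
    rw [← Nat.card_congr (Equiv.ofBijective F hF), Nat.card_sigma,
      Finset.sum_congr rfl (fun a _ => StrEmb.card_fix_eq (H := H) a), Finset.sum_const, Finset.card_univ, smul_eq_mul,
      ← Nat.card_eq_fintype_card]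
  have hsum : Nat.card {i : G // orderOf i = 2} = m + Nat.card {i : G // orderOf i = 2 ∧ i ∉ H} := by
    have h1 : ({i : G | orderOf i = 2} : Set G) = {i | orderOf i = 2 ∧ i ∈ H} ∪ {i | orderOf i = 2 ∧ i ∉ H} := by
      ext i
      simp only [Set.mem_setOf_eq, Set.mem_union]
      tauto
    have h2 : Disjoint ({i | orderOf i = 2 ∧ i ∈ H} : Set G) {i | orderOf i = 2 ∧ i ∉ H} := by
      rw [Set.disjoint_left]
      rintro i ⟨_, h3⟩ ⟨_, h4⟩
      exact h4 h3
    have h3 := Set.ncard_union_eq h2 (Set.toFinite _) (Set.toFinite _)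
    rw [← h1] at h3
    exact h3
  -- fixed points
  have hfix : ∀ i : {i : G // orderOf i = 2 ∧ i ∉ H}, ∃ a : {a : Ω // a ≠ β}, (i : G) • a.1 = t • a.1 := by
    rintro ⟨i, hi, hiH⟩
    have hii := StrEmb.mul_self_eq_one hi
    have hx : t * (t * i) * t⁻¹ = (t * i)⁻¹ := by
      rw [mul_inv_rev, StrEmb.inv_eq_self hi, hti, ← mul_assoc, htt, one_mul]
    have hxH : t * i ∉ H := by
      intro h
      have := mul_mem (inv_mem htH) h
      rw [inv_mul_cancel_left] at this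
      exact hiH this
    obtain ⟨-, -, k, hk⟩ := D.outside hH ht htH hx hxH
    have hpg : IsPGroup p (Subgroup.zpowers (t * i)) := by
      rw [IsPGroup.iff_card]
      exact ⟨k, by rw [Nat.card_zpowers, hk]⟩
    obtain ⟨a, ha⟩ := hpg.nonempty_fixed_point_of_prime_not_dvd_card Ω hnd
    have ha1 : (t * i) • a = a := ha ⟨t * i, Subgroup.mem_zpowers _⟩
    have ha2 : i • a = t • a := by
      rw [mul_smul] at ha1
      have := congrArg (fun b => t • b) ha1
      rwa [← mul_smul t t, htt, one_smul] at this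
    refine ⟨⟨a, ?_⟩, ha2⟩
    rintro rfl
    rw [htβ, hfixβ] at ha2
    exact hiH ha2
  choose f hf using hfix
  let Q := Σ a : {a : Ω // a ≠ β}, {i : G // (orderOf i = 2 ∧ i • a.1 = t • a.1) ∧ i ≠ t}
  have hle : Nat.card {i : G // orderOf i = 2 ∧ i ∉ H} ≤ Nat.card Q := by
    let g : {i : G // orderOf i = 2 ∧ i ∉ H} → Q := fun i => ⟨f i, ⟨i, ⟨i.2.1, hf i⟩, fun h => i.2.2 (h ▸ htH)⟩⟩
    apply Nat.card_le_card_of_injective g
    intro i j hij
    apply Subtype.ext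
    have h1 : ((g i).2 : G) = ((g j).2 : G) := by rw [hij]
    exact h1
  have hcardQ : Nat.card Q = (Nat.card Ω - 1) * (m - 1) := by
    have h1 : ∀ a : {a : Ω // a ≠ β}, Nat.card {i : G // (orderOf i = 2 ∧ i • a.1 = t • a.1) ∧ i ≠ t} = m - 1 := by
      rintro ⟨a, ha⟩
      have hta : a ≠ t • a := by
        intro h
        exact ha (StrEmb.eq_of_smul_eq hH ht h.symm htβ)
      have h2 := StrEmb.card_swap hH hta
      rw [← hm] at h2
      rw [← h2]
      have h3 : ({i : G | (orderOf i = 2 ∧ i • a = t • a) ∧ i ≠ t} : Set G) =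
          {i : G | orderOf i = 2 ∧ i • a = t • a} \ {t} := by
        ext i
        simp [Set.mem_diff]
      show Set.ncard ({i : G | (orderOf i = 2 ∧ i • a = t • a) ∧ i ≠ t} : Set G) =
        Set.ncard {i : G | orderOf i = 2 ∧ i • a = t • a} - 1
      rw [h3]
      exact Set.ncard_diff_singleton_of_mem ⟨ht, rfl⟩
    haveI : Fintype {a : Ω // a ≠ β} := Fintype.ofFinite _
    have h4 : Nat.card {a : Ω // a ≠ β} = Nat.card Ω - 1 := by
      show Set.ncard {a : Ω | a ≠ β} = _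
      have h5 : ({a : Ω | a ≠ β} : Set Ω) = Set.univ \ {β} := by ext a; simp
      rw [h5, Set.ncard_diff_singleton_of_mem (Set.mem_univ β), Set.ncard_univ]
    rw [Nat.card_sigma, Finset.sum_congr rfl (fun a _ => h1 a), Finset.sum_const, Finset.card_univ, smul_eq_mul,
      ← Nat.card_eq_fintype_card, h4]
  have hm1 : 1 ≤ m := by
    rw [hm]
    haveI : Nonempty {i : G // orderOf i = 2 ∧ i ∈ H} := ⟨⟨t, ht, htH⟩⟩
    exact Nat.card_pos
  have hn2 : 2 ≤ Nat.card Ω := by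
    have h1 : H.index ≠ 1 := fun h => hH.1 (Subgroup.index_eq_one.1 h)
    have h2 : Nat.card Ω = H.index := rfl
    have h3 : 0 < H.index := Nat.pos_of_ne_zero (Subgroup.index_ne_zero_of_finite)
    omega
  obtain ⟨n', hn'⟩ : ∃ n', Nat.card Ω = n' + 2 := ⟨Nat.card Ω - 2, by omega⟩
  obtain ⟨m', hm'⟩ : ∃ m', m = m' + 1 := ⟨m - 1, by omega⟩
  rw [hcardQ, hn', hm'] at hle
  rw [htot, hn', hm'] at hsum
  have h1 : n' + 2 - 1 = n' + 1 := by omega
  have h2 : m' + 1 - 1 = m' := by omega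
  rw [h1, h2] at hle
  nlinarith

end Cfsg.Agent.H32.NP
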