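import Mathlib
import Cfsg.Agent.H32.NPSE6

/-!
There is no strongly embedded subgroup, conclusion.
-/

set_option autoImplicit false
set_option linter.all false

namespace Cfsg.Agent.H32.NP

open Subgroup
open Cfsg.Agent.H32.SFB Cfsg.Agent.H32.SE
open scoped Pointwise

universe u

variable {G : Type u} [Group G] [Finite G] {p : ℕ} [hp : Fact p.Prime] {H : Subgroup G}

theorem Dat.no_sl2 (D : Dat p G) : ¬ H36.QuadSL2.HasSL2Section p G := by
  have hp5 : 5 ≤ p := by
    have h1 := D.hp3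
    by_contra h
    have h4 : p = 4 := by omega
    have := hp.out
    rw [h4] at this
    exact absurd this (by norm_num)
  rintro ⟨K, f, hf⟩
  by_cases hK : K = ⊤
  · subst hK
    -- the central involution
    obtain ⟨c, hc⟩ := hf (-1)
    have h20 : (2 : ZMod p) ≠ 0 := by
      intro h
      have : ((2 : ℕ) : ZMod p) = 0 := by exact_mod_cast h
      rw [ZMod.natCast_eq_zero_iff] at this
      exact D.p2 ((Nat.prime_dvd_prime_iff_eq hp.out Nat.prime_two).1 this)
    have hne : (-1 : Matrix.SpecialLinearGroup (Fin 2) (ZMod p)) ≠ 1 := by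
      intro h
      have h1 := congrArg (fun A : Matrix.SpecialLinearGroup (Fin 2) (ZMod p) => A 0 0) h
      simp at h1
      apply h20
      have h2 : (1 : ZMod p) + 1 = 0 := by
        nth_rewrite 1 [← h1]
        ring
      rw [← h2]; norm_num
    have hkn : (f.ker.map (⊤ : Subgroup G).subtype).Normal := by
      constructor
      rintro _ ⟨x, hx, rfl⟩ g
      refine ⟨(⟨g, Subgroup.mem_top g⟩ : (⊤ : Subgroup G)) * x * (⟨g, Subgroup.mem_top g⟩)⁻¹, ?_, rfl⟩
      exact (MonoidHom.normal_ker f).conj_mem x hx _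
    rcases D.simp _ hkn with h | h
    · rw [Subgroup.map_eq_bot_iff_of_injective _ (Subgroup.subtype_injective _)] at h
      have hinj : Function.Injective f := (MonoidHom.ker_eq_bot_iff f).1 h
      have hcc : ∀ g : G, g * (c : G) = c * g := by
        intro g
        have h1 : f (⟨g, Subgroup.mem_top g⟩ * c) = f (c * ⟨g, Subgroup.mem_top g⟩) := by
          rw [map_mul, map_mul, hc]
          simp
        exact congrArg Subtype.val (hinj h1)
      have hc1 : (c : G) ≠ 1 := by
        intro h1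
        apply hne
        rw [← hc, show c = 1 from Subtype.ext h1, map_one]
      have hzn : (Subgroup.center G).Normal := inferInstance
      have hcZ : (c : G) ∈ Subgroup.center G := Subgroup.mem_center_iff.2 hcc
      rcases D.simp _ hzn with h1 | h1
      · rw [h1, Subgroup.mem_bot] at hcZ
        exact hc1 hcZ
      · have hsol : Group.IsSolvable ↥(Subgroup.center G) :=
          isSolvable_of_comm (fun a b => Subtype.ext ((Subgroup.mem_center_iff.1 b.2) a))
        exact D.ne_top (A := Subgroup.center G) hsol h1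
    · have h1 : f c = 1 := by
        have h2 : (c : G) ∈ f.ker.map (⊤ : Subgroup G).subtype := by rw [h]; trivial
        obtain ⟨c', hc', hcc'⟩ := h2
        have h3 : c' = c := Subtype.ext hcc'
        rw [← h3]; exact hc'
      exact hne (hc ▸ h1)
  · have hs := D.sol K hK
    exact H36.NoSL2.not_hasSL2Section_of_isPSolvable hp5 (ZJ.isPSolvable_of_isSolvable p hs)
      ⟨⊤, f.comp (Subgroup.topEquiv (G := K)).toMonoidHom, hf.comp (Subgroup.topEquiv (G := K)).surjective⟩

/-- a Sylow 2-subgroup of `G` inside `H` -/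
theorem exists_sylow_two_le (hH : Cfsg.IsStronglyEmbedded H) (he : 2 ∣ Nat.card G) :
    ∃ S : Sylow 2 G, (S : Subgroup G) ≤ H := by
  haveI : Fact (Nat.Prime 2) := ⟨Nat.prime_two⟩
  obtain ⟨t, htH, ht⟩ := StrEmb.exists_involution_mem hH
  have hz : IsPGroup 2 (Subgroup.zpowers t) := by
    rw [IsPGroup.iff_card]
    exact ⟨1, by rw [Nat.card_zpowers, ht, pow_one]⟩
  obtain ⟨S, hS⟩ := hz.exists_le_sylow
  exact ⟨S, two_le_centralizer hH S.2 (hS (Subgroup.mem_zpowers t)) ht htH⟩

/-- two commuting involutions in every Sylow 2-subgroup -/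
theorem exists_pair (S : Sylow 2 G)
    (four : ∃ a b : G, orderOf a = 2 ∧ orderOf b = 2 ∧ a ≠ b ∧ a * b = b * a) :
    ∃ a ∈ (S : Subgroup G), ∃ b ∈ (S : Subgroup G), orderOf a = 2 ∧ orderOf b = 2 ∧ a ≠ b ∧ a * b = b * a := by
  haveI : Fact (Nat.Prime 2) := ⟨Nat.prime_two⟩
  obtain ⟨a, b, ha, hb, hab, hc⟩ := four
  have hza : IsPGroup 2 (Subgroup.zpowers a) := by
    rw [IsPGroup.iff_card]
    exact ⟨1, by rw [Nat.card_zpowers, ha, pow_one]⟩
  have hzb : IsPGroup 2 (Subgroup.zpowers b) := by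
    rw [IsPGroup.iff_card]
    exact ⟨1, by rw [Nat.card_zpowers, hb, pow_one]⟩
  have hsup : IsPGroup 2 ↥(Subgroup.zpowers a ⊔ Subgroup.zpowers b) := by
    apply hza.to_sup_of_normal_right' hzb
    rw [Subgroup.zpowers_le]
    apply Subgroup.centralizer_le_normalizer
    rw [Subgroup.mem_centralizer_iff]
    rintro _ ⟨k, rfl⟩
    exact (((show Commute b a from hc.symm).zpow_left k).eq)
  obtain ⟨g, hg⟩ := H9.exists_conj_smul_le_sylow hsup S
  have ha' := H9.conj_smul_le_iff.1 hg a ((le_sup_left : Subgroup.zpowers a ≤ _) (Subgroup.mem_zpowers a))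
  have hb' := H9.conj_smul_le_iff.1 hg b ((le_sup_right : Subgroup.zpowers b ≤ _) (Subgroup.mem_zpowers b))
  refine ⟨_, ha', _, hb', by rw [StrEmb.orderOf_conj, ha], by rw [StrEmb.orderOf_conj, hb], ?_, ?_⟩
  · intro h
    exact hab (mul_left_cancel (mul_right_cancel h))
  · calc g * a * g⁻¹ * (g * b * g⁻¹) = g * (a * b) * g⁻¹ := by group
      _ = g * (b * a) * g⁻¹ := by rw [hc]
      _ = g * b * g⁻¹ * (g * a * g⁻¹) := by group

/-- if `O₂(H) = 1` the Sylow 2-subgroup acts faithfully on `O_p(H)` -/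
theorem Dat.faithful (D : Dat p G) (hH : H ≠ ⊤) (h2 : Cfsg.pCore 2 H = ⊥) {S : Subgroup G} (hS : IsPGroup 2 S)
    (hSH : S ≤ H) {s : G} (hs : s ∈ S) (hc : ∀ y ∈ (Cfsg.pCore p H).map H.subtype, s * y = y * s) : s = 1 := by
  haveI : Fact (Nat.Prime 2) := ⟨Nat.prime_two⟩
  haveI hHs := D.sol H hH
  set s' : H := ⟨s, hSH hs⟩ with hs'
  obtain ⟨k, hk⟩ := (IsPGroup.iff_orderOf.1 hS) ⟨s, hs⟩
  rw [Subgroup.orderOf_mk] at hk
  have h1 : s' ∈ Subgroup.centralizer (Cfsg.fittingSubgroup H : Set H) := by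
    rw [Subgroup.mem_centralizer_iff]
    have h3 : Cfsg.fittingSubgroup H ≤ Subgroup.centralizer ({s'} : Set H) := by
      rw [Solv.fitting_eq_iSup_pCore]
      apply iSup_le
      rintro ⟨q, hq⟩
      haveI : Fact q.Prime := ⟨hq⟩
      intro y hy
      have hy' : y ∈ Cfsg.pCore q H := hy
      rw [Subgroup.mem_centralizer_singleton_iff]
      by_cases hq2 : q = 2
      · subst hq2
        rw [h2, Subgroup.mem_bot] at hy'
        rw [hy', one_mul, mul_one]
      by_cases hqp : q = p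
      · subst hqp
        exact Subtype.ext (hc y ⟨y, hy', rfl⟩).symm
      · have hqg : IsPGroup q (Cfsg.pCore q H) := H49.pCore_isPGroup q
        obtain ⟨n, hn⟩ := IsPGroup.iff_card.1 hqg
        have h5 : (Cfsg.pCore q H).Normal := H49.pCore_normal' q
        have h4 := (D.np.sub H).norm_comm (A := Cfsg.pCore q H) (x := s')
          (by rw [hn]; exact Nat.Coprime.pow_left _ ((Nat.coprime_primes hq hp.out).2 hqp))
          (by rw [hs', Subgroup.orderOf_mk, hk]; exact Nat.Coprime.pow_left _ (coprime_two_p D))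
          (by rw [Subgroup.normalizer_eq_top]; trivial)
          (by
            rw [hs', Subgroup.orderOf_mk, hk, hn]
            exact Nat.Coprime.pow _ _ ((Nat.coprime_primes Nat.prime_two hq).2 (Ne.symm hq2))) hy'
        exact h4.symm
    intro y hy
    exact Subgroup.mem_centralizer_singleton_iff.1 (h3 hy)
  have h4 : s' ∈ Cfsg.fittingSubgroup H := Solv.centralizer_fitting_le h1
  have h5 : Cfsg.fittingSubgroup H ≤ Cfsg.pPrimeCore 2 H := by
    rw [Solv.fitting_eq_iSup_pCore]
    apply iSup_le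
    rintro ⟨q, hq⟩
    haveI : Fact q.Prime := ⟨hq⟩
    by_cases hq2 : q = 2
    · subst hq2
      show Cfsg.pCore 2 H ≤ _
      rw [h2]
      exact bot_le
    · exact FStar.pCore_le_pPrimeCore_of_ne hq2
  have h6 := h5 h4
  have h7 : (Nat.card (Cfsg.pPrimeCore 2 H)).Coprime 2 := Solv.pPrimeCore_card_coprime 2
  have h8 := orderOf_dvd_natCard (⟨s', h6⟩ : Cfsg.pPrimeCore 2 H)
  rw [Subgroup.orderOf_mk, hs', Subgroup.orderOf_mk, hk] at h8
  have h9 : 2 ^ k = 1 := Nat.Coprime.eq_one_of_dvd (Nat.Coprime.pow_left k h7.symm) h8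
  rw [h9] at hk
  exact orderOf_eq_one_iff.1 hk

theorem le_normalizer_ZJ (P : Subgroup G) :
    Subgroup.normalizer (P : Set G) ≤ Subgroup.normalizer (Cfsg.centerThompsonOf p P : Set G) := by
  have h1 := H34.normalizer_le_normalizer_thompson p P
  refine h1.trans ?_
  intro g hg
  exact Subgroup.inf_normalizer_le_normalizer_inf ⟨hg, H23.normalizer_le_normalizer_centralizer _ hg⟩

theorem card_dvd_of_ctl {S N Y : Subgroup G} (hSY : S ≤ Subgroup.normalizer (Y : Set G))
    (hctl : ∀ s ∈ S, ∃ n ∈ N, ∀ y ∈ Y, n * y * n⁻¹ = s * y * s⁻¹)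
    (hf : ∀ s ∈ S, (∀ y ∈ Y, s * y = y * s) → s = 1) : Nat.card S ∣ Nat.card N := by
  set NY := Subgroup.normalizer (Y : Set G) with hNY
  set f : NY →* MulAut Y := Subgroup.normalizerMonoidHom Y with hfd
  have hfv : ∀ (n : NY) (y : Y), ((f n) y : G) = (n : G) * y * (n : G)⁻¹ := fun _ _ => rfl
  have h1 : (S.subgroupOf NY).map f ≤ ((N ⊓ NY).subgroupOf NY).map f := by
    rintro _ ⟨s, hs, rfl⟩
    obtain ⟨n, hn, hny⟩ := hctl s hs
    have hnN : n ∈ NY := by
      rw [hNY, mem_normalizer_iff]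
      intro y
      constructor
      · intro hy
        rw [hny y hy]
        exact (mem_normalizer_iff.1 s.2 y).1 hy
      · intro hy
        -- `n y n⁻¹ ∈ Y`
        have hy' : (s : G)⁻¹ * (n * y * n⁻¹) * s ∈ Y := by
          have := (mem_normalizer_iff.1 (inv_mem s.2) (n * y * n⁻¹)).1 hy
          rwa [inv_inv] at this
        have h3 := hny _ hy'
        have h4 : (s : G) * ((s : G)⁻¹ * (n * y * n⁻¹) * s) * (s : G)⁻¹ = n * y * n⁻¹ := by group
        rw [h4] at h3
        have h5 := mul_left_cancel (mul_right_cancel h3)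
        rwa [h5] at hy'
    refine ⟨⟨n, hnN⟩, ⟨hn, hnN⟩, ?_⟩
    ext y
    rw [hfv, hfv]
    exact hny y y.2
  have h2 : Nat.card ((S.subgroupOf NY).map f) = Nat.card S := by
    rw [← Nat.card_congr (Subgroup.subgroupOfEquivOfLe hSY).toEquiv]
    symm
    apply Nat.card_congr
    refine Equiv.ofBijective (fun s => ⟨f s, ⟨s, s.2, rfl⟩⟩) ⟨?_, ?_⟩
    · intro a b hab
      have h3 : f a = f b := congrArg Subtype.val hab
      have h4 : f ((b : NY)⁻¹ * a) = 1 := by
        rw [map_mul, map_inv, h3, inv_mul_cancel]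
      have h5 : ((b : NY)⁻¹ * (a : NY) : NY) = 1 := by
        apply Subtype.ext
        apply hf
        · exact (S.subgroupOf NY).mul_mem ((S.subgroupOf NY).inv_mem b.2) a.2
        · intro y hy
          have h6 := hfv ((b : NY)⁻¹ * (a : NY)) ⟨y, hy⟩
          rw [h4] at h6
          have h7 : y = (((b : NY)⁻¹ * (a : NY) : NY) : G) * y * (((b : NY)⁻¹ * (a : NY) : NY) : G)⁻¹ := h6
          exact (eq_mul_inv_iff_mul_eq.1 h7).symm
      apply Subtype.ext
      exact (inv_mul_eq_one.1 h5).symm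
    · rintro ⟨_, ⟨s, hs, rfl⟩⟩
      exact ⟨⟨s, hs⟩, rfl⟩
  rw [← h2]
  refine (Subgroup.card_dvd_of_le h1).trans ((Subgroup.card_map_dvd _ _).trans ?_)
  rw [Nat.card_congr (Subgroup.subgroupOfEquivOfLe (inf_le_right : N ⊓ NY ≤ NY)).toEquiv]
  exact Subgroup.card_dvd_of_le inf_le_left

/-- **there is no strongly embedded subgroup** -/
theorem Dat.no_se (D : Dat p G) (hH : Cfsg.IsStronglyEmbedded H)
    (four : ∃ a b : G, orderOf a = 2 ∧ orderOf b = 2 ∧ a ≠ b ∧ a * b = b * a) : False := by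
  haveI : Fact (Nat.Prime 2) := ⟨Nat.prime_two⟩
  by_cases h2 : Cfsg.pCore 2 H = ⊥
  swap
  · exact CDat.false (p := p) (H := H) ⟨D, hH, four, D.comm_of hH h2⟩
  -- `O₂(H) = 1`
  have hdvd := D.dvd_index hH
  have he : 2 ∣ Nat.card G := hH.2.1.two_dvd.trans (Subgroup.card_subgroup_dvd_card H)
  obtain ⟨S, hSH⟩ := exists_sylow_two_le hH he
  set Y := (Cfsg.pCore p H).map H.subtype with hY
  have hYp : IsPGroup p Y := (H49.pCore_isPGroup p).map _
  have hHY : H ≤ Subgroup.normalizer (Y : Set G) := by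
    have hn : (Cfsg.pCore p H).Normal := H49.pCore_normal' p
    intro g hg
    rw [mem_normalizer_iff]
    intro y
    constructor
    · rintro ⟨z, hz, rfl⟩
      exact ⟨(⟨g, hg⟩ : H) * z * (⟨g, hg⟩ : H)⁻¹, hn.conj_mem z hz _, rfl⟩
    · rintro ⟨z, hz, hz2⟩
      refine ⟨(⟨g, hg⟩ : H)⁻¹ * z * (⟨g, hg⟩ : H), ?_, ?_⟩
      · have := hn.conj_mem z hz (⟨g, hg⟩ : H)⁻¹
        rwa [inv_inv] at this
      · show g⁻¹ * (z : G) * g = y
        have h3 : (z : G) = g * y * g⁻¹ := hz2
        rw [h3]; group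
  obtain ⟨P, hYP⟩ := hYp.exists_le_sylow
  have hP1 : (P : Subgroup G) ≠ ⊥ := by
    intro h
    have h1 : p ∣ Nat.card G := hdvd.trans (Subgroup.index_dvd_card H)
    exact (Sylow.ne_bot_of_dvd_card P h1) h
  set N := Subgroup.normalizer (Cfsg.centerThompsonOf p (P : Subgroup G) : Set G) with hN
  have hZ1 := MaxNilp.ZJ_ne_bot P.2 hP1
  have hZP : Cfsg.centerThompsonOf p (P : Subgroup G) ≤ (P : Subgroup G) :=
    inf_le_left.trans (Subgroup.map_subtype_le _)
  have hZt : Cfsg.centerThompsonOf p (P : Subgroup G) ≠ ⊤ :=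
    D.ne_top (isSolvable_of_pgroup (P.2.to_le hZP))
  have hNt : N ≠ ⊤ := D.norm_ne_top hZ1 hZt
  have hPN : (P : Subgroup G) ≤ N :=
    Subgroup.le_normalizer.trans (le_normalizer_ZJ (P : Subgroup G))
  -- `S` embeds in the automorphisms of `Y` induced by `N`
  have hctl : ∀ s ∈ (S : Subgroup G), ∃ n ∈ N, ∀ y ∈ Y, n * y * n⁻¹ = s * y * s⁻¹ := by
    intro s hs
    exact ZJ.zje_control D.p2 D.no_sl2 P (Y : Set G) hYP s (by
      rintro _ ⟨y, hy, rfl⟩
      exact hYP ((mem_normalizer_iff.1 (hHY (hSH hs)) y).1 hy))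
  have hcard : Nat.card (S : Subgroup G) ∣ Nat.card N := by
    refine card_dvd_of_ctl (hSH.trans hHY) hctl ?_
    intro s hs hsy
    exact D.faithful hH.1 h2 S.2 hSH hs hsy
  obtain ⟨T⟩ : Nonempty (Sylow 2 N) := inferInstance
  have hT2 : IsPGroup 2 ((T : Subgroup N).map N.subtype) := T.2.map _
  have hTc : Nat.card (S : Subgroup G) ≤ Nat.card ((T : Subgroup N).map N.subtype) := by
    rw [Subgroup.card_map_of_injective (Subgroup.subtype_injective _)]
    apply Nat.le_of_dvd Nat.card_pos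
    rw [Sylow.card_eq_multiplicity S, Sylow.card_eq_multiplicity T]
    apply Nat.pow_dvd_pow
    rw [Sylow.card_eq_multiplicity S] at hcard
    exact (Nat.prime_two.pow_dvd_iff_le_factorization Nat.card_pos.ne').1 hcard
  -- a Sylow subgroup of `G` in `N`
  obtain ⟨g, hg⟩ := H9.exists_conj_smul_le_sylow hT2 S
  have hg' := H9.conj_smul_le_iff.1 hg
  set N' := N.map (MulAut.conj g).toMonoidHom with hN'
  have hSN : (S : Subgroup G) ≤ N' := by
    have h1 : ((T : Subgroup N).map N.subtype).map (MulAut.conj g).toMonoidHom ≤ S := by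
      rintro _ ⟨x, hx, rfl⟩
      exact hg' x hx
    have h3 := Subgroup.eq_of_le_of_card_ge h1 (by
      rw [Subgroup.card_map_of_injective (MulAut.conj g).injective]
      exact hTc)
    rw [← h3]
    exact Subgroup.map_mono (Subgroup.map_subtype_le _)
  obtain ⟨a, ha, b, hb, ha2, hb2, hab, hc⟩ := exists_pair S four
  have hN's : Group.IsSolvable N' := by
    haveI := D.sol N hNt
    exact Group.isSolvable_of_surjective (MonoidHom.subgroupMap_surjective (MulAut.conj g).toMonoidHom N)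
  have hle := le_of_pair hH hN's (hSH ha) (hSN ha) (hSN hb) ha2 hb2 hab.symm hc.symm
  have hPH : Nat.card (P : Subgroup G) ∣ Nat.card H := by
    have h1 : (P : Subgroup G).map (MulAut.conj g).toMonoidHom ≤ H := (Subgroup.map_mono hPN).trans hle
    have h2 := Subgroup.card_dvd_of_le h1
    rwa [Subgroup.card_map_of_injective (MulAut.conj g).injective] at h2
  rw [Sylow.card_eq_multiplicity P, ← Subgroup.card_mul_index H,
    Nat.factorization_mul Nat.card_pos.ne' Subgroup.index_ne_zero_of_finite, Finsupp.add_apply,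
    hp.out.pow_dvd_iff_le_factorization Nat.card_pos.ne'] at hPH
  have h5 : 0 < (H.index).factorization p :=
    hp.out.factorization_pos_of_dvd Subgroup.index_ne_zero_of_finite hdvd
  omega

end Cfsg.Agent.H32.NP
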