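import Mathlib
import Cfsg.Agent.H32.NPF1
import Cfsg.Agent.H32.NPSE7
import Cfsg.Agent.S1996
import Cfsg.Agent.S0215

/-!
A normal elementary abelian subgroup of order at least 8 in a Sylow 2-subgroup.
-/

set_option autoImplicit false
set_option linter.all false

namespace Cfsg.Agent.H32.NP

open Subgroup
open Cfsg.Agent.H62 (omZ JJ EA)
open Cfsg.Agent.H34 (maxEA)

universe u

variable {G : Type u} [Group G] [Finite G] {p : ℕ} [hp : Fact p.Prime]

theorem factor_X {X : Type u} [Group X] [Finite X] (hp3 : 3 < p) (hnp : NP p X) (hs : Group.IsSolvable X)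
    (hc : centralizer (Cfsg.pCore 2 X : Set X) ≤ Cfsg.pCore 2 X) (T : Sylow 2 X) (x : X) :
    ∃ a ∈ normalizer (Cfsg.inducedFunctor F1 (T : Subgroup X) : Set X),
      ∃ b ∈ normalizer (Cfsg.inducedFunctor F2 (T : Subgroup X) : Set X), x = a * b := by
  haveI : Fact (Nat.Prime 2) := ⟨Nat.prime_two⟩
  have ho2 : H62.o2 (⊤ : Subgroup X) = Cfsg.pCore 2 X := H47.pCoreOf_top 2
  have hL : H62.Loc (T : Subgroup X) ⊤ := by
    refine ⟨H33.isSyl_top T, inferInstance, (hnp.sub ⊤).free3 inferInstance hp3, ?_⟩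
    rw [ho2]
    exact inf_le_right.trans hc
  obtain ⟨c, hc, n, hn, rfl⟩ := H62.factor hL (Subgroup.mem_top x)
  refine ⟨c, ?_, n, ?_, rfl⟩
  · rw [ind1]; exact Subgroup.centralizer_le_normalizer _ hc.2
  · rw [ind2]; exact hn.2

theorem Dat.factor_top (D : Dat p G) {X : Type u} [Group X] [Finite X] (π : G →* X)
    (hπs : Function.Surjective π) (hc : centralizer (Cfsg.pCore 2 X : Set X) ≤ Cfsg.pCore 2 X)
    (T : Sylow 2 X) (x : X) :
    ∃ a ∈ normalizer (Cfsg.inducedFunctor F1 (T : Subgroup X) : Set X),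
      ∃ b ∈ normalizer (Cfsg.inducedFunctor F2 (T : Subgroup X) : Set X), x = a * b := by
  haveI : Fact (Nat.Prime 2) := ⟨Nat.prime_two⟩
  have hQn : (Cfsg.pCore 2 X).Normal := H49.pCore_normal' 2
  have hQp : IsPGroup 2 (Cfsg.pCore 2 X) := H49.pCore_isPGroup 2
  rcases D.simp ((Cfsg.pCore 2 X).comap π) inferInstance with h | h
  · have h1 : Cfsg.pCore 2 X = ⊥ := by
      rw [← Subgroup.map_comap_eq_self_of_surjective hπs (Cfsg.pCore 2 X), h, Subgroup.map_bot]
    rw [h1] at hc
    have hx : ∀ y : X, y = 1 := by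
      intro y
      have : y ∈ centralizer (((⊥ : Subgroup X)) : Set X) := by
        rw [mem_centralizer_iff]
        intro h hh
        have : h = 1 := hh
        rw [this, one_mul, mul_one]
      exact hc this
    exact ⟨1, one_mem _, 1, one_mem _, by rw [hx x, mul_one]⟩
  · have h1 : Cfsg.pCore 2 X = ⊤ := by
      rw [← Subgroup.map_comap_eq_self_of_surjective hπs (Cfsg.pCore 2 X), h,
        Subgroup.map_top_of_surjective π hπs]
    have hX2 : IsPGroup 2 X := by
      rw [h1] at hQp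
      exact hQp.of_equiv Subgroup.topEquiv
    haveI : Group.IsNilpotent X := hX2.isNilpotent
    exact factor_X D.hp3 (fun Y _ => (hX2.to_subgroup Y).isNilpotent) inferInstance hc T x

theorem Dat.fusion (D : Dat p G) : Cfsg.FamilyControlsStrongFusionIn 2
    {Cfsg.inducedFunctor (G := G) F1, Cfsg.inducedFunctor (G := G) F2} ⊤ := by
  haveI : Fact (Nat.Prime 2) := ⟨Nat.prime_two⟩
  refine S1996.result F1 F2 char1 char2 ?_
  intro K R hR hc T x
  by_cases hK : K = ⊤
  · subst hK
    exact D.factor_top ((QuotientGroup.mk' (R.subgroupOf ⊤)).comp (Subgroup.topEquiv (G := G)).symm.toMonoidHom)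
      ((QuotientGroup.mk'_surjective _).comp (Subgroup.topEquiv (G := G)).symm.surjective) hc T x
  · have hs := D.sol K hK
    exact factor_X D.hp3 ((D.np.sub K).quotient hs (QuotientGroup.mk' _) (QuotientGroup.mk'_surjective _))
      inferInstance hc T x

theorem Dat.eight (D : Dat p G) {T : Subgroup G} (hT : H33.IsSyl 2 T ⊤) {A N : Subgroup G} (hA : EA A)
    (hN : N ≤ normalizer (A : Set G)) (hTN : T ≤ N) {z : G} (hz : z ∈ A) (hzT : ∀ s ∈ T, s * z = z * s)
    {n : G} (hn : n ∈ N) (hnz : n * z ≠ z * n) : 2 ^ 3 ≤ Nat.card A := by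
  haveI : Fact (Nat.Prime 2) := ⟨Nat.prime_two⟩
  by_contra hlt
  push Not at hlt
  obtain ⟨k, hk⟩ := IsPGroup.iff_card.1 hA.isPGroup
  have hk3 : k < 3 := by
    rw [hk] at hlt
    exact (Nat.pow_lt_pow_iff_right (by norm_num)).1 hlt
  have hA4 : Nat.card A ≤ 4 := by
    rw [hk]
    calc 2 ^ k ≤ 2 ^ 2 := Nat.pow_le_pow_right (by norm_num) (by omega)
      _ = 4 := by norm_num
  set C := (centralizer ({z} : Set G)).subgroupOf N with hC
  have hmemC : ∀ x : N, x ∈ C ↔ (x : G) * z = z * x := by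
    intro x
    rw [hC, mem_subgroupOf, mem_centralizer_singleton_iff]
  have hz1 : z ≠ 1 := by
    rintro rfl
    exact hnz (by rw [mul_one, one_mul])
  -- the index is at most 3
  have hidx : C.index < 4 := by
    letI : MulAction N A := MulAction.compHom A ((normalizerMonoidHom A).comp (Subgroup.inclusion hN))
    have hsm : ∀ (x : N) (a : A), ((x • a : A) : G) = x * a * (x : G)⁻¹ := fun _ _ => rfl
    have hst : MulAction.stabilizer N (⟨z, hz⟩ : A) = C := by
      ext x
      rw [MulAction.mem_stabilizer_iff, hmemC]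
      constructor
      · intro h
        have h1 := congrArg Subtype.val h
        rw [hsm] at h1
        exact mul_inv_eq_iff_eq_mul.1 h1
      · intro h
        apply Subtype.ext
        rw [hsm]
        exact mul_inv_eq_iff_eq_mul.2 h
    rw [← hst, MulAction.index_stabilizer]
    have h1 : MulAction.orbit N (⟨z, hz⟩ : A) ⊆ ({1}ᶜ : Set A) := by
      rintro _ ⟨x, rfl⟩ hx
      have hx' : x • (⟨z, hz⟩ : A) = 1 := hx
      have h2 := congrArg Subtype.val hx'
      rw [hsm] at h2
      have h3 : (x : G) * z * (x : G)⁻¹ = 1 := h2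
      rw [mul_inv_eq_one, mul_eq_left] at h3
      exact hz1 h3
    have h2 := Set.ncard_le_ncard h1 (Set.toFinite _)
    rw [Set.ncard_compl, Set.ncard_singleton] at h2
    have : 0 < Nat.card A := Nat.card_pos
    omega
  have hidx0 : C.index ≠ 0 := Subgroup.index_ne_zero_of_finite
  have h1 : C.index = 1 := by
    by_contra h
    obtain ⟨q, hq, hqd⟩ := Nat.exists_prime_and_dvd h
    haveI : Fact q.Prime := ⟨hq⟩
    have hqle : q ≤ C.index := Nat.le_of_dvd (Nat.pos_of_ne_zero hidx0) hqd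
    have hqp : q ≠ p := by
      rintro rfl
      have := D.hp3
      omega
    by_cases hq2 : q = 2
    · subst hq2
      have hle : T.subgroupOf N ≤ C := by
        intro x hx
        rw [hmemC]
        exact hzT x hx
      have h2 : C.index ∣ (T.subgroupOf N).index := Subgroup.index_dvd_of_le hle
      have h3 : (T.subgroupOf N).index ∣ T.index := Subgroup.relIndex_dvd_index_of_le hTN
      have h4 := hT.2.2
      rw [Subgroup.relIndex_top_right] at h4
      exact h4 (hqd.trans (h2.trans h3))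
    · obtain ⟨Q⟩ : Nonempty (Sylow q N) := inferInstance
      have hle : (Q : Subgroup N) ≤ C := by
        intro x hx
        rw [hmemC]
        obtain ⟨j, hj⟩ := (IsPGroup.iff_orderOf.1 Q.2) ⟨x, hx⟩
        rw [Subgroup.orderOf_mk] at hj
        refine D.np.norm_comm (A := A) (x := (x : G)) ?_ ?_ (hN x.2) ?_ hz
        · rw [hk]; exact Nat.Coprime.pow_left _ (coprime_two_p D)
        · rw [Subgroup.orderOf_coe, hj]
          exact Nat.Coprime.pow_left _ ((Nat.coprime_primes hq hp.out).2 hqp)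
        · rw [Subgroup.orderOf_coe, hj, hk]
          exact Nat.Coprime.pow _ _ ((Nat.coprime_primes hq Nat.prime_two).2 hq2)
      have h2 : C.index ∣ (Q : Subgroup N).index := Subgroup.index_dvd_of_le hle
      exact Q.not_dvd_index (hqd.trans h2)
  have h2 : C = ⊤ := Subgroup.index_eq_one.1 h1
  apply hnz
  exact (hmemC ⟨n, hn⟩).1 (by rw [h2]; trivial)

/-- a normal elementary abelian subgroup of order at least 8 in a Sylow 2-subgroup -/
theorem Dat.exists_V (D : Dat p G) (he : 2 ∣ Nat.card G) : ∃ (S : Sylow 2 G) (V : Subgroup G),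
    V ≤ (S : Subgroup G) ∧ Cfsg.IsElementaryAbelian 2 V ∧ 2 ^ 3 ≤ Nat.card V ∧
    (S : Subgroup G) ≤ normalizer (V : Set G) := by
  haveI : Fact (Nat.Prime 2) := ⟨Nat.prime_two⟩
  obtain ⟨T, -, hTp, hTi, hfus⟩ := D.fusion
  have hT : H33.IsSyl 2 T ⊤ := ⟨le_top, hTp, hTi⟩
  set S := hT.topSylow with hS
  have hSc : (S : Subgroup G) = T := hT.topSylow_coe
  have hTb : T ≠ ⊥ := by
    rw [← hSc]
    exact Sylow.ne_bot_of_dvd_card S he
  obtain ⟨⟨z, hz⟩, hz1'⟩ := Subgroup.ne_bot_iff_exists_ne_one.1 (H62.omZ_ne_bot hTp hTb)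
  have hz1 : z ≠ 1 := fun h => hz1' (Subtype.ext h)
  have hz2 : orderOf z = 2 := orderOf_eq_prime (by rw [pow_two]; exact hz.2.2) hz1
  have hzT : ∀ s ∈ T, s * z = z * s := fun s hs => (hz.2.1 s hs).symm
  have hTn1 : T ≤ normalizer (omZ T : Set G) := le_normalizer.trans (H62.norm_omZ T)
  have hTn2 : T ≤ normalizer (JJ T : Set G) := by
    rw [JJ_eq]
    exact le_normalizer.trans (H34.normalizer_le_normalizer_thompson 2 T)
  have hJT : JJ T ≤ T := by
    rw [JJ_eq]
    exact H34.thompsonSubgroupOf_le 2 T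
  have main : ∀ W : Subgroup G, W ≤ T → T ≤ normalizer (W : Set G) → z ∈ W →
      (∃ n ∈ normalizer (W : Set G), n * z ≠ z * n) → ∃ (S : Sylow 2 G) (V : Subgroup G),
    V ≤ (S : Subgroup G) ∧ Cfsg.IsElementaryAbelian 2 V ∧ 2 ^ 3 ≤ Nat.card V ∧
    (S : Subgroup G) ≤ normalizer (V : Set G) := by
    rintro W hWT hTW hzW ⟨n, hn, hnz⟩
    have hzA : z ∈ omZ W := ⟨hzW, fun s hs => hz.2.1 s (hWT hs), hz.2.2⟩
    refine ⟨S, omZ W, ?_, H62.EA_iff.1 (H62.EA_omZ W), ?_, ?_⟩
    · rw [hSc]; exact (H62.omZ_le W).trans hWT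
    · exact D.eight hT (H62.EA_omZ W) (H62.norm_omZ W) hTW hzA hzT hn hnz
    · rw [hSc]; exact hTW.trans (H62.norm_omZ W)
  by_cases h1 : ∃ n ∈ normalizer (omZ T : Set G), n * z ≠ z * n
  · exact main _ (H62.omZ_le T) hTn1 hz h1
  by_cases h2 : ∃ n ∈ normalizer (JJ T : Set G), n * z ≠ z * n
  · exact main _ hJT hTn2 (omZ_le_JJ T hz) h2
  exfalso
  push Not at h1 h2
  -- `z` is isolated
  have hiso : ∀ g : G, g * z * g⁻¹ ∈ S → g * z * g⁻¹ = z := by
    intro g hg
    have hg' : g * z * g⁻¹ ∈ T := hSc ▸ hg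
    obtain ⟨m, c, hc0, hstep, hmem, hlast⟩ := hfus {z} g trivial
      (by rintro x rfl; exact (H62.omZ_le T) hz) (by rintro _ ⟨x, rfl, rfl⟩; exact hg')
    have key : ∀ i : ℕ, ∀ hi : i < m + 1, c ⟨i, hi⟩ * z * (c ⟨i, hi⟩)⁻¹ = z := by
      intro i
      induction i with
      | zero =>
        intro hi
        have : c ⟨0, hi⟩ = 1 := hc0
        rw [this]; group
      | succ i ih =>
        intro hi
        have ih' := ih (by omega)
        obtain ⟨W, hW, hW2⟩ := hstep ⟨i, by omega⟩
        have hd : ∀ d : G, d * z = z * d → c ⟨i + 1, hi⟩ * (c ⟨i, by omega⟩)⁻¹ = d →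
            c ⟨i + 1, hi⟩ * z * (c ⟨i + 1, hi⟩)⁻¹ = z := by
          intro d hd hcd
          have h3 : c ⟨i + 1, hi⟩ = d * c ⟨i, by omega⟩ := by rw [← hcd]; group
          rw [h3]
          calc d * c ⟨i, by omega⟩ * z * (d * c ⟨i, by omega⟩)⁻¹
              = d * (c ⟨i, by omega⟩ * z * (c ⟨i, by omega⟩)⁻¹) * d⁻¹ := by group
            _ = d * z * d⁻¹ := by rw [ih']
            _ = z := by rw [hd]; group
        apply hd _ ?_ rfl
        rcases hW with rfl | hW
        · have h3 := hW2.2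
          rw [ind1] at h3
          exact h1 _ h3
        · have hW' : W = Cfsg.inducedFunctor (G := G) F2 := hW
          subst hW'
          have h3 := hW2.2
          rw [ind2] at h3
          exact h2 _ h3
    have h3 := hlast z rfl
    have h4 := key m (by omega)
    rw [← h3]
    exact h4
  obtain ⟨N, hN, hNo, hNt⟩ := Cfsg.Agent.S0215.result S z hz2 (by rw [← hSc] at *; exact (H62.omZ_le _) hz) hiso
  rcases D.simp N hN with h | h
  · have hzc : z ∈ Subgroup.center G := by
      rw [Subgroup.mem_center_iff]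
      intro g
      have h3 := hNt g
      rw [h, Subgroup.mem_bot] at h3
      rw [mul_inv_eq_one, mul_inv_eq_iff_eq_mul] at h3
      exact h3.symm
    rcases D.simp (Subgroup.center G) inferInstance with h3 | h3
    · rw [h3, Subgroup.mem_bot] at hzc
      exact hz1 hzc
    · have hsol : Group.IsSolvable ↥(Subgroup.center G) :=
        Group.isSolvable_of_comm (fun a b => Subtype.ext ((Subgroup.mem_center_iff.1 b.2) a))
      exact D.ne_top hsol h3
  · rw [h, Subgroup.card_top] at hNo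
    exact (Nat.not_even_iff_odd.2 hNo) (even_iff_two_dvd.2 he)

end Cfsg.Agent.H32.NP
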