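import Mathlib.GroupTheory.Perm.Cycle.Type
import Mathlib.GroupTheory.GroupAction.Quotient
import Mathlib.GroupTheory.Index
import Mathlib.GroupTheory.GroupAction.Basic

set_option autoImplicit false

namespace Cfsg.Agent.H32

open Equiv Equiv.Perm

/-- A permutation all of whose orbits have the same even length `o`, on a set of `o * r` points
with `r` odd, is odd. -/
theorem sign_semiregular {X : Type*} [Fintype X] [DecidableEq X] (σ : Perm X) (o r : ℕ)
    (ho : Even o) (ho0 : 0 < o) (h1 : σ ^ o = 1) (h2 : ∀ (k : ℕ) (x : X), (σ ^ k) x = x → o ∣ k)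
    (hcard : Fintype.card X = o * r) (hr : Odd r) : sign σ = -1 := by
  classical
  have hmem : ∀ n ∈ σ.cycleType, n = o := by
    intro n hn
    rw [cycleType_def, Multiset.mem_map] at hn
    obtain ⟨c, hc, rfl⟩ := hn
    have hc' : c ∈ σ.cycleFactorsFinset := hc
    have hcyc := (mem_cycleFactorsFinset_iff.1 hc').1
    obtain ⟨a, ha⟩ : c.support.Nonempty := hcyc.nonempty_support
    have hca := cycle_is_cycleOf ha hc'
    apply Nat.dvd_antisymm
    · have h3 : (c ^ o) = 1 := by
        have h4 : (c ^ o) a = a := by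
          rw [hca, cycleOf_pow_apply_self, h1]; rfl
        exact hcyc.pow_eq_one_iff.2 ⟨a, mem_support.1 ha, h4⟩
      have := orderOf_dvd_of_pow_eq_one h3
      rwa [hcyc.orderOf] at this
    · apply h2 _ a
      have h5 : (c ^ c.support.card) = 1 := by rw [← hcyc.orderOf]; exact pow_orderOf_eq_one c
      show (σ ^ c.support.card) a = a
      rw [← cycleOf_pow_apply_self, ← hca, h5]; rfl
  have hrep : σ.cycleType = Multiset.replicate (Multiset.card σ.cycleType) o :=
    Multiset.eq_replicate.2 ⟨rfl, hmem⟩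
  have hsupp : σ.support = Finset.univ := by
    ext x
    simp only [mem_support, Finset.mem_univ, iff_true]
    intro h
    have h6 := h2 1 x (by simpa using h)
    rw [Nat.dvd_one] at h6
    rw [h6] at ho
    exact absurd ho (by decide)
  have hsum : σ.cycleType.sum = o * r := by
    rw [sum_cycleType, hsupp, Finset.card_univ, hcard]
  have hcr : Multiset.card σ.cycleType = r := by
    rw [hrep, Multiset.sum_replicate, smul_eq_mul, mul_comm] at hsum
    exact Nat.eq_of_mul_eq_mul_left ho0 hsum
  rw [sign_of_cycleType, hsum, hcr]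
  have : Odd (o * r + r) := (ho.mul_right r).add_odd hr
  exact this.neg_one_pow

/-- If no nontrivial power of `x` is conjugate into `M` and `|G : M| = |x| * odd`, `|x|` even,
there is a homomorphism `G → {±1}` sending `x` to `-1`. -/
theorem exists_sign_hom {G : Type*} [Group G] [Finite G] (M : Subgroup G) (x : G) (r : ℕ)
    (ho : Even (orderOf x)) (hx : ∀ (k : ℕ) (g : G), g * x ^ k * g⁻¹ ∈ M → x ^ k = 1)
    (hidx : M.index = orderOf x * r) (hr : Odd r) : ∃ f : G →* ℤˣ, f x = -1 := by
  classical
  have : Fintype (G ⧸ M) := Fintype.ofFinite _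
  refine ⟨sign.comp (MulAction.toPermHom G (G ⧸ M)), ?_⟩
  show sign (MulAction.toPermHom G (G ⧸ M) x) = -1
  refine sign_semiregular _ (orderOf x) r ho (orderOf_pos x) ?_ ?_ ?_ hr
  · rw [← map_pow, pow_orderOf_eq_one, map_one]
  · intro k q hq
    rw [← map_pow] at hq
    obtain ⟨g, rfl⟩ := QuotientGroup.mk_surjective q
    have h1 : x ^ k • (g : G ⧸ M) = (g : G ⧸ M) := hq
    rw [MulAction.Quotient.smul_coe, smul_eq_mul, eq_comm, QuotientGroup.eq] at h1
    apply orderOf_dvd_of_pow_eq_one
    apply hx k g⁻¹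
    have : g⁻¹ * x ^ k * (g⁻¹)⁻¹ = g⁻¹ * (x ^ k * g) := by group
    rwa [this]
  · rw [← hidx, Subgroup.index, Nat.card_eq_fintype_card]

end Cfsg.Agent.H32
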