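import Mathlib
import Cfsg.Prelude.Def_OddOrderLocal
import Cfsg.Agent.FC.Struct5
import Cfsg.Agent.S3742
import Cfsg.Agent.S5112
import Cfsg.Agent.Solv.Core
import Cfsg.Agent.BG.Coprime
import Cfsg.Agent.BG.Core
import Cfsg.Agent.H72.SmallSolvable

set_option autoImplicit false

/-!
TI-subgroups `H` which are Hall subgroups of their normalizer: `H` is a Hall subgroup of `G`; free action of `H`
on a section of a normal solvable subgroup of coprime order; solvability of the normalizer.
-/

namespace Cfsg.Agent.H32.TIHall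

open Cfsg Subgroup
open Cfsg.Agent.Frob (HasFPFModule IsFPF conjAct)
open scoped commutatorElement

section Basic

variable {G : Type*} [Group G] [Finite G]

theorem mem_norm {H : Subgroup G} (hTI : Cfsg.IsTISubset (H : Set G)) {g x : G} (hx : x ∈ H) (hx1 : x ≠ 1)
    (h : g * x * g⁻¹ ∈ H) : g ∈ normalizer (H : Set G) := by
  by_contra hg
  exact hx1 (hTI g hg x hx h)

/-- the normalizer of a nontrivial subgroup of a TI subgroup -/
theorem norm_le {H P : Subgroup G} (hTI : Cfsg.IsTISubset (H : Set G)) (hP : P ≤ H) (hne : P ≠ ⊥) :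
    normalizer (P : Set G) ≤ normalizer (H : Set G) := by
  intro g hg
  obtain ⟨x, hx, hx1⟩ := P.ne_bot_iff_exists_ne_one.mp hne |> fun ⟨a, ha⟩ => (⟨(a : G), a.2, fun h => ha (Subtype.ext h)⟩ : ∃ x : G, x ∈ P ∧ x ≠ 1)
  exact mem_norm hTI (hP hx) hx1 (hP ((mem_normalizer_iff.mp hg x).mp hx))

theorem hall {H : Subgroup G} (hTI : Cfsg.IsTISubset (H : Set G))
    (hHall : (Nat.card H).Coprime (H.subgroupOf (normalizer (H : Set G))).index) :
    (Nat.card H).Coprime H.index := by
  rw [Nat.coprime_iff_gcd_eq_one] 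
  by_contra hcon
  obtain ⟨p, hp, hpd⟩ := Nat.exists_prime_and_dvd hcon
  have hp1 : p ∣ Nat.card H := hpd.trans (Nat.gcd_dvd_left _ _)
  have hp2 : p ∣ H.index := hpd.trans (Nat.gcd_dvd_right _ _)
  haveI : Fact p.Prime := ⟨hp⟩
  obtain ⟨S⟩ : Nonempty (Sylow p H) := inferInstance
  set n := (Nat.card H).factorization p with hn
  have hScard : Nat.card S = p ^ n := S.card_eq_multiplicity
  set P : Subgroup G := (S : Subgroup H).map H.subtype with hP
  have hPcard : Nat.card P = p ^ n := by
    rw [hP, Nat.card_congr ((S : Subgroup H).equivMapOfInjective _ H.subtype_injective).toEquiv.symm]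
    exact hScard
  have hPH : P ≤ H := by
    rw [hP]; exact Subgroup.map_subtype_le _
  have hn0 : n ≠ 0 := by
    intro h0
    have := (hp.dvd_iff_one_le_factorization Nat.card_pos.ne').mp hp1
    omega
  have hPne : P ≠ ⊥ := by
    intro h0
    rw [h0, card_bot] at hPcard
    have := Nat.one_lt_pow hn0 hp.one_lt
    omega
  have hdvd : p ^ (n + 1) ∣ Nat.card G := by
    rw [← H.card_mul_index, pow_succ]
    exact mul_dvd_mul (Nat.ordProj_dvd _ _) hp2
  have h1 := Sylow.prime_pow_dvd_card_normalizer hdvd hPcard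
  have h2 : p ^ (n + 1) ∣ Nat.card (normalizer (H : Set G)) :=
    h1.trans (Subgroup.card_dvd_of_le (norm_le hTI hPH hPne))
  have h3 : Nat.card H * (H.subgroupOf (normalizer (H : Set G))).index = Nat.card (normalizer (H : Set G)) := by
    rw [← Subgroup.card_mul_index (H.subgroupOf (normalizer (H : Set G))),
      Nat.card_congr (subgroupOfEquivOfLe le_normalizer).toEquiv]
  rw [← h3] at h2
  have h4 : Nat.Coprime (p ^ (n + 1)) (H.subgroupOf (normalizer (H : Set G))).index := by
    apply Nat.Coprime.pow_left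
    exact Nat.Coprime.coprime_dvd_left hp1 hHall
  have h5 : p ^ (n + 1) ∣ Nat.card H := h4.dvd_of_dvd_mul_right h2
  exact Nat.pow_succ_factorization_not_dvd Nat.card_pos.ne' hp h5

/-- a normal subgroup `K` which is a `π`-group modulo the normal `π'`-subgroup `M` -/
theorem le_sup {H M K : Subgroup G} [K.Normal] (hH : (Nat.card H).Coprime H.index) (hMK : M ≤ K) [M.Normal]
    (hpi : ∀ q : ℕ, q.Prime → q ∣ M.relIndex K → q ∣ Nat.card H) : K ≤ M ⊔ (H ⊓ K) := by
  rw [← relIndex_eq_one]
  by_contra hcon
  obtain ⟨q, hq, hqd⟩ := Nat.exists_prime_and_dvd hcon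
  have hle : M ⊔ (H ⊓ K) ≤ K := sup_le hMK inf_le_right
  have h1 : (M ⊔ (H ⊓ K)).relIndex K ∣ M.relIndex K := relIndex_dvd_of_le_left K le_sup_left
  have h2 : (M ⊔ (H ⊓ K)).relIndex K ∣ (H ⊓ K).relIndex K := relIndex_dvd_of_le_left K le_sup_right
  rw [inf_relIndex_right] at h2
  have h3 : q ∣ Nat.card H := hpi q hq (hqd.trans h1)
  have h4 : H.relIndex K ∣ H.index := by
    have h5 : H.relIndex K = H.relIndex (H ⊔ K) := by
      have e1 := relIndex_mul_relIndex (H ⊓ K) K (H ⊔ K) inf_le_right le_sup_right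
      have e2 := relIndex_mul_relIndex (H ⊓ K) H (H ⊔ K) inf_le_left le_sup_left
      rw [inf_relIndex_right, relIndex_sup_right] at e1
      rw [inf_relIndex_left] at e2
      have hne : K.relIndex H ≠ 0 := index_ne_zero_of_finite
      apply Nat.eq_of_mul_eq_mul_left (Nat.pos_of_ne_zero hne)
      rw [e2, mul_comm, e1]
    rw [h5]
    exact relIndex_dvd_index_of_le le_sup_left
  exact Nat.Prime.not_coprime_iff_dvd.mpr ⟨q, hq, h3, (hqd.trans h2).trans h4⟩ hH

theorem sup_norm_eq_top {H : Subgroup G} (hTI : Cfsg.IsTISubset (H : Set G))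
    (hH : (Nat.card H).Coprime H.index) {M K : Subgroup G} [M.Normal] [K.Normal] (hMK : M ≤ K)
    (hpi : ∀ q : ℕ, q.Prime → q ∣ M.relIndex K → q ∣ Nat.card H)
    (hK : ¬ (Nat.card K).Coprime (Nat.card H)) : M ⊔ normalizer (H : Set G) = ⊤ := by
  obtain ⟨p, hp, hpK, hpH⟩ := Nat.Prime.not_coprime_iff_dvd.mp hK
  haveI : Fact p.Prime := ⟨hp⟩
  have hle := le_sup hH hMK hpi
  have hnd : ¬ p ∣ (H ⊓ K).relIndex K := by
    rw [inf_relIndex_right]
    intro hd
    have h5 : H.relIndex K = H.relIndex (H ⊔ K) := by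
      have e1 := relIndex_mul_relIndex (H ⊓ K) K (H ⊔ K) inf_le_right le_sup_right
      have e2 := relIndex_mul_relIndex (H ⊓ K) H (H ⊔ K) inf_le_left le_sup_left
      rw [inf_relIndex_right, relIndex_sup_right] at e1
      rw [inf_relIndex_left] at e2
      have hne : K.relIndex H ≠ 0 := index_ne_zero_of_finite
      apply Nat.eq_of_mul_eq_mul_left (Nat.pos_of_ne_zero hne)
      rw [e2, mul_comm, e1]
    rw [h5] at hd
    exact Nat.Prime.not_coprime_iff_dvd.mpr ⟨p, hp, hpH, hd.trans (relIndex_dvd_index_of_le le_sup_left)⟩ hH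
  obtain ⟨T⟩ : Nonempty (Sylow p (H ⊓ K : Subgroup G)) := inferInstance
  set P : Subgroup G := (T : Subgroup (H ⊓ K : Subgroup G)).map (H ⊓ K).subtype with hP
  have hcK : Nat.card K = Nat.card (H ⊓ K : Subgroup G) * (H ⊓ K).relIndex K := by
    rw [← relIndex_bot_left (H ⊓ K), relIndex_mul_relIndex _ _ _ bot_le inf_le_right, relIndex_bot_left]
  have hPcard : Nat.card P = p ^ (Nat.card K).factorization p := by
    rw [hP, Nat.card_congr ((T : Subgroup (H ⊓ K : Subgroup G)).equivMapOfInjective _ (Subgroup.subtype_injective _)).toEquiv.symm]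
    have hne : (H ⊓ K).relIndex K ≠ 0 := index_ne_zero_of_finite
    rw [T.card_eq_multiplicity, hcK, Nat.factorization_mul Nat.card_pos.ne' hne, Finsupp.add_apply,
      Nat.factorization_eq_zero_of_not_dvd hnd, add_zero]
  have hPle : P ≤ H ⊓ K := by rw [hP]; exact map_subtype_le _
  have hPne : P ≠ ⊥ := by
    intro h0
    rw [h0, card_bot] at hPcard
    have h1 := (hp.dvd_iff_one_le_factorization Nat.card_pos.ne').mp hpK
    have := Nat.one_lt_pow (n := (Nat.card K).factorization p) (by omega) hp.one_lt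
    omega
  let T' : Sylow p K := Sylow.ofCard (P.subgroupOf K) (by
    rw [Nat.card_congr (subgroupOfEquivOfLe (hPle.trans inf_le_right)).toEquiv, hPcard])
  have hT' : (T' : Subgroup K).map K.subtype = P := by
    show (P.subgroupOf K).map K.subtype = P
    rw [subgroupOf_map_subtype, inf_eq_left]
    exact hPle.trans inf_le_right
  have hfr := Sylow.normalizer_sup_eq_top T'
  rw [hT'] at hfr
  rw [eq_top_iff, ← hfr, sup_le_iff]
  refine ⟨(norm_le hTI (hPle.trans inf_le_left) hPne).trans le_sup_right, hle.trans (sup_le le_sup_left ?_)⟩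
  exact (inf_le_left.trans le_normalizer).trans le_sup_right

theorem sup_normal {H O : Subgroup G} [O.Normal] (h : O ⊔ normalizer (H : Set G) = ⊤) : (O ⊔ H).Normal := by
  have h1 : normalizer ((O ⊔ H : Subgroup G) : Set G) = ⊤ := by
    rw [eq_top_iff, ← h, sup_le_iff]
    constructor
    · exact le_sup_left.trans le_normalizer
    · intro g hg
      have h2 : H.map (MulAut.conj g).toMonoidHom = H := (mem_normalizer_iff_map_conj_eq.mp hg)
      have h3 : O.map (MulAut.conj g).toMonoidHom = O :=
        mem_normalizer_iff_map_conj_eq.mp (by rw [normalizer_eq_top]; exact mem_top g)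
      apply mem_normalizer_iff_map_conj_eq.mpr
      rw [Subgroup.map_sup]
      exact congrArg₂ _ h3 h2
  exact normalizer_eq_top_iff.mp h1

end Basic

section Free

universe u

variable {G : Type u} [Group G] [Finite G]

theorem cent {H O : Subgroup G} (hTI : Cfsg.IsTISubset (H : Set G)) [hOn : O.Normal]
    (hO : (Nat.card O).Coprime (Nat.card H)) {h x : G} (hh : h ∈ H) (h1 : h ≠ 1) (hx : x ∈ O) (hc : h * x = x * h) :
    ∀ y ∈ H, y * x = x * y := by
  intro y hy
  have h2 : x ∈ normalizer (H : Set G) := by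
    apply mem_norm hTI hh h1
    rw [← hc, mul_assoc, mul_inv_cancel, mul_one]
    exact hh
  have h3 : x * y * x⁻¹ * y⁻¹ ∈ H := H.mul_mem ((mem_normalizer_iff.mp h2 y).mp hy) (H.inv_mem hy)
  have h4 : x * y * x⁻¹ * y⁻¹ ∈ O := by
    have : x * y * x⁻¹ * y⁻¹ = x * (y * x⁻¹ * y⁻¹) := by group
    rw [this]
    exact O.mul_mem hx (hOn.conj_mem _ (O.inv_mem hx) _)
  have h5 : O ⊓ H = ⊥ := inf_eq_bot_of_coprime hO
  have h6 : x * y * x⁻¹ * y⁻¹ = 1 := by
    have : x * y * x⁻¹ * y⁻¹ ∈ O ⊓ H := ⟨h4, h3⟩
    rw [h5] at this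
    exact this
  rw [mul_inv_eq_one, mul_inv_eq_iff_eq_mul] at h6
  exact h6.symm

/-- functoriality of the abelianization on automorphisms -/
def abMap (X : Type u) [Group X] : MulAut X →* MulAut (Abelianization X) where
  toFun f := MulEquiv.abelianizationCongr f
  map_one' := by
    apply MulEquiv.ext
    intro w
    obtain ⟨x, rfl⟩ := QuotientGroup.mk_surjective w
    rfl
  map_mul' f g := by
    apply MulEquiv.ext
    intro w
    obtain ⟨x, rfl⟩ := QuotientGroup.mk_surjective w
    rfl

theorem abMap_of {X : Type u} [Group X] (f : MulAut X) (x : X) :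
    abMap X f (Abelianization.of x) = Abelianization.of (f x) := rfl

theorem exists_fpf {H O : Subgroup G} (hTI : Cfsg.IsTISubset (H : Set G)) [hOn : O.Normal]
    (hO : (Nat.card O).Coprime (Nat.card H)) (hOs : Group.IsSolvable O) (hne : ¬ O ≤ centralizer (H : Set G)) :
    HasFPFModule H := by
  classical
  obtain ⟨X, ⟨hXO, hHX, hXc⟩, hmin⟩ := Set.Finite.exists_minimal
    (s := {X : Subgroup G | X ≤ O ∧ H ≤ normalizer (X : Set G) ∧ ¬ X ≤ centralizer (H : Set G)})
    (Set.toFinite _) ⟨O, le_rfl, by rw [normalizer_eq_top]; exact le_top, hne⟩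
  have hXs : Group.IsSolvable X := Group.isSolvable_of_isSolvable_injective (inclusion_injective hXO)
  have hcop : (Nat.card H).Coprime (Nat.card X) :=
    (Nat.Coprime.coprime_dvd_left (card_dvd_of_le hXO) hO).symm
  have hconjX : ∀ k ∈ H, X.map (MulAut.conj k).toMonoidHom = X := fun k hk =>
    mem_normalizer_iff_map_conj_eq.mp (hHX hk)
  have hconjH : ∀ k ∈ H, H.map (MulAut.conj k).toMonoidHom = H := fun k hk =>
    mem_normalizer_iff_map_conj_eq.mp (le_normalizer hk)
  -- the derived subgroup
  have hDX : ⁅X, X⁆ ≤ X := commutator_le_self X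
  have hHD : H ≤ normalizer ((⁅X, X⁆ : Subgroup G) : Set G) := by
    intro k hk
    apply mem_normalizer_iff_map_conj_eq.mpr
    have := map_commutator X X (MulAut.conj k).toMonoidHom
    rw [hconjX k hk] at this
    exact this
  have hDne : ⁅X, X⁆ ≠ X := by
    intro h
    apply hXc
    have : X = ⊥ := by
      by_contra hne
      have hnt : Nontrivial X := (Subgroup.nontrivial_iff_ne_bot X).2 hne
      have h1 := Group.IsSolvable.commutator_lt_top_of_nontrivial X
      apply h1.ne
      apply Subgroup.map_injective X.subtype_injective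
      rw [_root_.commutator_def, Subgroup.map_commutator, ← MonoidHom.range_eq_map, Subgroup.range_subtype]
      exact h
    rw [this]
    exact bot_le
  have hDc : ⁅X, X⁆ ≤ centralizer (H : Set G) := by
    by_contra hcon
    exact hDne (le_antisymm hDX (hmin (y := ⁅X, X⁆) ⟨hDX.trans hXO, hHD, hcon⟩ hDX))
  -- the commutator with `H`
  have hWX : ⁅X, H⁆ ≤ X := le_normalizer_iff_commutator_le_left.1 hHX
  have hHW : H ≤ normalizer ((⁅X, H⁆ : Subgroup G) : Set G) := by
    intro k hk
    apply mem_normalizer_iff_map_conj_eq.mpr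
    have := map_commutator X H (MulAut.conj k).toMonoidHom
    rw [hconjX k hk, hconjH k hk] at this
    exact this
  have hWc : ¬ ⁅X, H⁆ ≤ centralizer (H : Set G) := by
    intro hcon
    have h1 : ⁅⁅X, H⁆, H⁆ = ⊥ := commutator_eq_bot_iff_le_centralizer.mpr hcon
    have h2 := BG.commutator_eq_bot_of_comm_comm hHX hcop h1
    exact hXc (commutator_eq_bot_iff_le_centralizer.mp h2)
  have hW : ⁅X, H⁆ = X := le_antisymm hWX (hmin (y := ⁅X, H⁆) ⟨hWX.trans hXO, hHW, hWc⟩ hWX)
  -- the action
  let α : H →* MulAut X := conjAct H X hHX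
  have hα : ∀ (k : H) (x : X), ((α k x : X) : G) = k * x * (k : G)⁻¹ := fun k x => rfl
  let φ : H →* MulAut (Abelianization X) := (abMap X).comp α
  have hφ : ∀ (k : H) (x : X), φ k (Abelianization.of x) = Abelianization.of (α k x) := fun k x => rfl
  haveI : Fintype H := Fintype.ofFinite H
  let ν : X →* Abelianization X := ∏ k : H, (φ k).toMonoidHom.comp Abelianization.of
  have hν : ∀ x : X, ν x = ∏ k : H, φ k (Abelianization.of x) := by
    intro x
    show (∏ k : H, (φ k).toMonoidHom.comp Abelianization.of) x = _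
    rw [MonoidHom.finset_prod_apply]
    rfl
  have hνc : ∀ (k : H) (x : X), ν (α k x) = ν x := by
    intro k x
    rw [hν, hν]
    apply Fintype.prod_equiv (Equiv.mulRight k)
    intro j
    show φ j (Abelianization.of (α k x)) = φ (j * k) (Abelianization.of x)
    rw [map_mul, MulAut.mul_apply, hφ k x]
  have hν1 : ∀ x : X, ν x = 1 := by
    have h1 : ⁅X, H⁆ ≤ ν.ker.map X.subtype := by
      rw [commutator_le]
      intro x hx k hk
      refine ⟨(⟨x, hx⟩ : X) * α ⟨k, hk⟩ (⟨x, hx⟩ : X)⁻¹, ?_, ?_⟩
      · rw [SetLike.mem_coe, MonoidHom.mem_ker, map_mul, hνc, map_inv, mul_inv_cancel]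
      · show x * (((α ⟨k, hk⟩ (⟨x, hx⟩ : X)⁻¹ : X)) : G) = ⁅x, k⁆
        rw [hα, commutatorElement_def]
        show x * (k * x⁻¹ * k⁻¹) = _
        group
    rw [hW] at h1
    intro x
    obtain ⟨y, hy, hyx⟩ := h1 x.2
    have : y = x := Subtype.ext hyx
    rw [← this]
    exact hy
  refine ⟨Abelianization X, inferInstance, inferInstance, ?_, φ, ?_⟩
  · by_contra hnt
    rw [not_nontrivial_iff_subsingleton] at hnt
    apply hDne
    have h1 : commutator X = ⊤ := by
      rw [eq_top_iff]
      intro x _
      rw [← QuotientGroup.eq_one_iff]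
      exact hnt.elim _ _
    have h2 := congrArg (Subgroup.map X.subtype) h1
    rw [_root_.commutator_def, Subgroup.map_commutator, ← MonoidHom.range_eq_map, Subgroup.range_subtype] at h2
    exact h2
  · intro k hk w hw
    obtain ⟨x, rfl⟩ := QuotientGroup.mk_surjective w
    have hk1 : (k : G) ≠ 1 := fun h => hk (Subtype.ext h)
    have h1 : Abelianization.of (α k x) = Abelianization.of x := hw
    have h2 : x⁻¹ * α k x ∈ commutator X := QuotientGroup.eq.mp h1.symm
    have h3 : ((x⁻¹ * α k x : X) : G) ∈ ⁅X, X⁆ := by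
      have h4 : ((x⁻¹ * α k x : X) : G) ∈ (commutator X).map X.subtype := ⟨_, h2, rfl⟩
      rw [_root_.commutator_def, Subgroup.map_commutator, ← MonoidHom.range_eq_map, Subgroup.range_subtype] at h4
      exact h4
    have h5 : ((x⁻¹ * α k x : X) : G) = ⁅(x : G)⁻¹, (k : G)⁆ := by
      show (x : G)⁻¹ * ((k : G) * x * (k : G)⁻¹) = _
      rw [commutatorElement_def, inv_inv]; group
    rw [h5] at h3
    have h6 : (k : G) * (x : G)⁻¹ = (x : G)⁻¹ * k := by
      refine BG.comm_of_commutator_mem (A := H) (K := ⁅X, X⁆) ?_ k.2 ?_ h3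
      · exact Nat.Coprime.coprime_dvd_right (card_dvd_of_le hDX) hcop
      · intro y hy
        exact (mem_centralizer_iff.mp (hDc hy)) k k.2
    have h7 : ∀ y ∈ H, y * (x : G)⁻¹ = (x : G)⁻¹ * y := cent hTI hO k.2 hk1 (O.inv_mem (hXO x.2)) h6
    have h8 : ∀ y : H, φ y (Abelianization.of x) = Abelianization.of x := by
      intro y
      rw [hφ]
      congr 1
      apply Subtype.ext
      rw [hα]
      have := h7 y y.2
      have h9 : (y : G) * x = x * y := by
        have := congrArg (fun z => (x : G) * z * x) this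
        simp only [mul_assoc, inv_mul_cancel, mul_one, mul_inv_cancel_left] at this
        exact this.symm
      rw [h9, mul_inv_cancel_right]
    have h9 := hν1 x
    rw [hν, Finset.prod_congr rfl (fun y _ => h8 y), Finset.prod_const, Finset.card_univ, ← Nat.card_eq_fintype_card] at h9
    have h10 : orderOf (Abelianization.of x) ∣ Nat.card H := orderOf_dvd_of_pow_eq_one h9
    have h11 : orderOf (Abelianization.of x) ∣ Nat.card X :=
      (_root_.orderOf_dvd_natCard _).trans (Subgroup.card_quotient_dvd_card _)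
    have h12 := Nat.eq_one_of_dvd_coprimes hcop h10 h11
    exact orderOf_eq_one_iff.mp h12

end Free



section Residual

variable {G : Type*} [Group G]

/-- the derived series of a subgroup, as subgroups of the group -/
def dser (N : Subgroup G) : ℕ → Subgroup G
  | 0 => N
  | n + 1 => ⁅dser N n, dser N n⁆

theorem solvable_of_derived {D : Subgroup G} (h : Group.IsSolvable (⁅D, D⁆ : Subgroup G)) : Group.IsSolvable D := by
  have h1 : (commutator D).map D.subtype = ⁅D, D⁆ := by
    rw [_root_.commutator_def, Subgroup.map_commutator, ← MonoidHom.range_eq_map, Subgroup.range_subtype]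
  have h2 : Group.IsSolvable (commutator D) := by
    have e := (commutator D).equivMapOfInjective _ D.subtype_injective
    rw [h1] at e
    exact Group.isSolvable_of_isSolvable_injective (f := e.toMonoidHom) e.injective
  have h3 : Group.IsSolvable (D ⧸ commutator D) := by
    have : Group.IsSolvable (Abelianization D) := inferInstance
    exact this
  exact FC.solvable_ext (commutator D) h2 h3

theorem exists_residual [Finite G] (N : Subgroup G) : ∃ R : Subgroup G, R ≤ N ∧ ⁅R, R⁆ = R ∧
    normalizer (N : Set G) ≤ normalizer (R : Set G) ∧ (Group.IsSolvable R → Group.IsSolvable N) := by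
  obtain ⟨R, ⟨n, rfl⟩, hmin⟩ := Set.Finite.exists_minimal (s := Set.range (dser N)) (Set.toFinite _) ⟨_, 0, rfl⟩
  refine ⟨dser N n, ?_, ?_, ?_, ?_⟩
  · clear hmin
    induction n with
    | zero => exact le_rfl
    | succ n ih => exact (commutator_le_self _).trans ih
  · exact le_antisymm (commutator_le_self _) (hmin (y := dser N (n + 1)) ⟨n + 1, rfl⟩ (commutator_le_self _))
  · clear hmin
    induction n with
    | zero => exact le_rfl
    | succ n ih =>
      intro g hg
      have h1 := mem_normalizer_iff_map_conj_eq.mp (ih hg)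
      apply mem_normalizer_iff_map_conj_eq.mpr
      have := map_commutator (dser N n) (dser N n) (MulAut.conj g).toMonoidHom
      have h2 : (dser N n).map (MulAut.conj g).toMonoidHom = dser N n := h1
      rw [h2] at this
      exact this
  · clear hmin
    induction n with
    | zero => exact id
    | succ n ih => intro h; exact ih (solvable_of_derived h)

theorem eq_bot_of_perfect_solvable {Q : Subgroup G} (hp : ⁅Q, Q⁆ = Q) (hs : Group.IsSolvable Q) : Q = ⊥ := by
  by_contra hne
  have hnt : Nontrivial Q := (Subgroup.nontrivial_iff_ne_bot Q).2 hne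
  have h1 := Group.IsSolvable.commutator_lt_top_of_nontrivial Q
  apply h1.ne
  apply Subgroup.map_injective Q.subtype_injective
  rw [_root_.commutator_def, Subgroup.map_commutator, ← MonoidHom.range_eq_map, Subgroup.range_subtype]
  exact hp

/-- a perfect subgroup normalizing `P` with `Aut P` solvable centralizes `P` -/
theorem perfect_le_centralizer {R P : Subgroup G} (hR : ⁅R, R⁆ = R) (hn : R ≤ normalizer (P : Set G))
    (hs : Group.IsSolvable (MulAut P)) : R ≤ centralizer (P : Set G) := by
  let α : R →* MulAut P := conjAct R P hn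
  have h1 : commutator R = ⊤ := by
    apply Subgroup.map_injective R.subtype_injective
    rw [_root_.commutator_def, Subgroup.map_commutator, ← MonoidHom.range_eq_map, Subgroup.range_subtype]
    exact hR
  have h2 : ⁅α.range, α.range⁆ = α.range := by
    rw [MonoidHom.range_eq_map, ← map_commutator, ← _root_.commutator_def, h1]
  have h3 : α.range = ⊥ := eq_bot_of_perfect_solvable h2 inferInstance
  intro r hr
  rw [mem_centralizer_iff]
  intro x hx
  have h4 : α ⟨r, hr⟩ = 1 := by
    have : α ⟨r, hr⟩ ∈ α.range := ⟨_, rfl⟩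
    rw [h3] at this
    exact this
  have h5 : ((α ⟨r, hr⟩ ⟨x, hx⟩ : P) : G) = x := by rw [h4]; rfl
  have h6 : r * x * r⁻¹ = x := h5
  exact (mul_inv_eq_iff_eq_mul.mp h6).symm

end Residual

section AutSolv

theorem solvable_of_two {A : Type*} [Group A] [Finite A] (h : IsPGroup 2 A) : Group.IsSolvable A := by
  haveI : Fact (Nat.Prime 2) := ⟨Nat.prime_two⟩
  haveI := h.isNilpotent
  infer_instance

theorem aut_solvable {P : Type*} [Group P] [Finite P] {p : ℕ} 
    (h : IsCyclic P ∨ (p = 2 ∧ ∃ n : ℕ, Nonempty (P ≃* QuaternionGroup (2 ^ n)))) : Group.IsSolvable (MulAut P) := by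
  rcases h with hc | ⟨-, n, ⟨e⟩⟩
  · have f := IsCyclic.mulAutMulEquiv P
    exact Group.isSolvable_of_isSolvable_injective (f := f.toMonoidHom) f.injective
  · rcases Nat.lt_or_ge n 2 with hn | hn
    · interval_cases n
      · have : IsCyclic P := by
          have h1 : IsCyclic (QuaternionGroup (2 ^ 0)) := by
            haveI : NeZero (2 ^ 0) := ⟨by norm_num⟩
            apply isCyclic_of_orderOf_eq_card (QuaternionGroup.xa 0)
            rw [QuaternionGroup.orderOf_xa, Nat.card_eq_fintype_card, QuaternionGroup.card]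
            norm_num
          exact isCyclic_of_injective e.toMonoidHom e.injective
        have f := IsCyclic.mulAutMulEquiv P
        exact Group.isSolvable_of_isSolvable_injective (f := f.toMonoidHom) f.injective
      · obtain ⟨f⟩ := S3742.result
        have g : MulAut P ≃* MulAut (QuaternionGroup (2 ^ 1)) := MulAut.congr e
        have h2 : Group.IsSolvable (Equiv.Perm (Fin 4)) := H72.isSolvable_perm_fin_four
        exact Group.isSolvable_of_isSolvable_injective (f := (g.trans f).toMonoidHom) (g.trans f).injective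
    · have g : MulAut P ≃* MulAut (QuaternionGroup (2 ^ n)) := MulAut.congr e
      haveI : NeZero (2 ^ n) := ⟨by positivity⟩
      haveI : Finite (MulAut (QuaternionGroup (2 ^ n))) := Finite.of_equiv _ g.toEquiv
      have h2 : Group.IsSolvable (MulAut (QuaternionGroup (2 ^ n))) :=
        solvable_of_two (S5112.isPGroup_mulAut_quaternion n hn)
      exact Group.isSolvable_of_isSolvable_injective (f := g.toMonoidHom) g.injective

end AutSolv

section Norm

universe u

variable {G : Type u} [Group G] [Finite G]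

theorem fittingOf_eq (H : Subgroup G) : fittingOf H = ⨆ p : Nat.Primes, BG.pCoreOf (p : ℕ) H := by
  show (fittingSubgroup H).map H.subtype = _
  rw [Solv.fitting_eq_iSup_pCore, Subgroup.map_iSup]

/-- a perfect normal subgroup of a group having a normal central Hall subgroup intersection -/
theorem inf_eq_bot_of_central {R T : Subgroup G} (hR : ⁅R, R⁆ = R) (hTR : T ≤ R) (hn : R ≤ normalizer (T : Set G))
    (hc : T ≤ centralizer (R : Set G)) (hcop : (Nat.card T).Coprime (T.relIndex R)) : T = ⊥ := by
  haveI : (T.subgroupOf R).Normal := normal_subgroupOf_iff_le_normalizer hTR |>.mpr hn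
  have hc' : (Nat.card (T.subgroupOf R)).Coprime (T.subgroupOf R).index := by
    rw [Nat.card_congr (subgroupOfEquivOfLe hTR).toEquiv]
    exact hcop
  obtain ⟨K, hK⟩ := exists_right_complement'_of_coprime hc'
  have h1 : commutator R = ⊤ := by
    apply Subgroup.map_injective R.subtype_injective
    rw [_root_.commutator_def, Subgroup.map_commutator, ← MonoidHom.range_eq_map, Subgroup.range_subtype]
    exact hR
  have hcen : ∀ t ∈ T.subgroupOf R, ∀ r : R, t * r = r * t := by
    intro t ht r
    apply Subtype.ext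
    exact ((mem_centralizer_iff.mp (hc (mem_subgroupOf.mp ht))) r r.2).symm
  have hsup : (T.subgroupOf R) ⊔ K = ⊤ := hK.sup_eq_top
  have h2 : commutator R ≤ K := by
    rw [_root_.commutator_def, commutator_le]
    intro a _ b _
    have ha : a ∈ (T.subgroupOf R) ⊔ K := by rw [hsup]; exact mem_top _
    have hb : b ∈ (T.subgroupOf R) ⊔ K := by rw [hsup]; exact mem_top _
    obtain ⟨t1, ht1, k1, hk1, rfl⟩ := mem_sup_of_normal_left.mp ha
    obtain ⟨t2, ht2, k2, hk2, rfl⟩ := mem_sup_of_normal_left.mp hb
    have e1 : t1 * k1 * (t2 * k2) = t1 * t2 * (k1 * k2) := by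
      rw [mul_assoc, ← mul_assoc k1, ← hcen t2 ht2 k1]; group
    have e2 : t2 * k2 * (t1 * k1) = t1 * t2 * (k2 * k1) := by
      rw [mul_assoc, ← mul_assoc k2, ← hcen t1 ht1 k2, ← mul_assoc, ← mul_assoc, ← hcen t2 ht2 t1 |>.symm]; group
    have e3 : ⁅t1 * k1, t2 * k2⁆ = ⁅k1, k2⁆ := by
      have : ⁅t1 * k1, t2 * k2⁆ = (t1 * k1 * (t2 * k2)) * (t2 * k2 * (t1 * k1))⁻¹ := by
        rw [commutatorElement_def]; group
      rw [this, e1, e2, commutatorElement_def]
      have h5 : (t1 * t2) * (k1 * k2 * k1⁻¹ * k2⁻¹) = (k1 * k2 * k1⁻¹ * k2⁻¹) * (t1 * t2) :=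
        hcen _ (mul_mem ht1 ht2) _
      have h6 : t1 * t2 * (k1 * k2) * (t1 * t2 * (k2 * k1))⁻¹
          = (t1 * t2) * (k1 * k2 * k1⁻¹ * k2⁻¹) * (t1 * t2)⁻¹ := by group
      rw [h6, h5, mul_inv_cancel_right]
    rw [e3]
    exact K.mul_mem (K.mul_mem (K.mul_mem hk1 hk2) (K.inv_mem hk1)) (K.inv_mem hk2)
  rw [h1, top_le_iff] at h2
  have h3 : (T.subgroupOf R) ⊓ K = ⊥ := hK.disjoint.eq_bot
  rw [h2, inf_top_eq] at h3
  rw [subgroupOf_eq_bot] at h3
  exact h3.eq_bot_of_le hTR

theorem normalizer_solvable {H : Subgroup G} (hH : (Nat.card H).Coprime H.index) (hHs : Group.IsSolvable H)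
    (hF : HasFPFModule H)
    (hO : ∀ R : Subgroup G, normalizer (H : Set G) ≤ normalizer (R : Set G) → (Nat.card R).Coprime (Nat.card H) →
      Group.IsSolvable R) : Group.IsSolvable (normalizer (H : Set G)) := by
  obtain ⟨R, hRN, hR, hRn, hRs⟩ := exists_residual (normalizer (H : Set G))
  apply hRs
  have hRn' : normalizer (H : Set G) ≤ normalizer (R : Set G) := le_normalizer.trans hRn
  -- `R` centralizes the Fitting subgroup
  have h1 : R ≤ centralizer ((fittingOf H : Subgroup G) : Set G) := by
    rw [le_centralizer_iff, fittingOf_eq, iSup_le_iff]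
    rintro ⟨p, hp⟩
    rw [le_centralizer_iff]
    haveI : Fact p.Prime := ⟨hp⟩
    apply perfect_le_centralizer hR (hRN.trans (BG.normalizer_le_normalizer_pCoreOf p H))
    apply aut_solvable (p := p)
    have hQ : IsPGroup p (pCore p H) := by
      have := BG.pCoreOf_isPGroup p H
      exact this.of_injective ((pCore p H).equivMapOfInjective _ H.subtype_injective).toMonoidHom
        ((pCore p H).equivMapOfInjective _ H.subtype_injective).injective
    have e : pCore p H ≃* BG.pCoreOf p H := (pCore p H).equivMapOfInjective _ H.subtype_injective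
    rcases FC.psub hF hQ with h | ⟨h, n, ⟨f⟩⟩
    · exact Or.inl (isCyclic_of_surjective e.toMonoidHom e.surjective)
    · exact Or.inr ⟨h, n, ⟨e.symm.trans f⟩⟩
  have h2 : R ⊓ H ≤ fittingOf H := by
    refine le_trans ?_ (BG.inf_centralizer_fittingOf_le hHs)
    exact le_inf inf_le_right (inf_le_left.trans h1)
  have hcop : (Nat.card (R ⊓ H : Subgroup G)).Coprime ((R ⊓ H).relIndex R) := by
    rw [inf_relIndex_left]
    refine Nat.Coprime.coprime_dvd_left (card_dvd_of_le inf_le_right) ?_
    have h3 : H.relIndex R ∣ H.relIndex (normalizer (H : Set G)) := by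
      have h4 : (H.subgroupOf (normalizer (H : Set G))).relIndex (R.subgroupOf (normalizer (H : Set G)))
          ∣ (H.subgroupOf (normalizer (H : Set G))).index := relIndex_dvd_index_of_normal _ _
      rw [relIndex_subgroupOf hRN] at h4
      exact h4
    exact Nat.Coprime.coprime_dvd_right (h3.trans (relIndex_dvd_index_of_le le_normalizer)) hH
  have h5 : R ⊓ H = ⊥ := by
    apply inf_eq_bot_of_central hR inf_le_left ?_ ?_ hcop
    · intro r hr
      rw [mem_normalizer_iff]
      intro x
      rw [mem_inf, mem_inf, ← mem_normalizer_iff.mp (le_normalizer hr) x, ← mem_normalizer_iff.mp (hRN hr) x]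
    · rw [le_centralizer_iff]
      exact h1.trans (centralizer_le h2)
  apply hO R hRn'
  have h6 : Nat.card R = H.relIndex R := by
    rw [← relIndex_bot_left, ← h5, inf_relIndex_left]
  have h3 : H.relIndex R ∣ H.relIndex (normalizer (H : Set G)) := by
    have h4 : (H.subgroupOf (normalizer (H : Set G))).relIndex (R.subgroupOf (normalizer (H : Set G)))
        ∣ (H.subgroupOf (normalizer (H : Set G))).index := relIndex_dvd_index_of_normal _ _
    rw [relIndex_subgroupOf hRN] at h4
    exact h4
  rw [h6]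
  exact (Nat.Coprime.coprime_dvd_right (h3.trans (relIndex_dvd_index_of_le le_normalizer)) hH).symm

end Norm

end Cfsg.Agent.H32.TIHall
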