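import Cfsg.Agent.H33.SecControl
import Cfsg.Agent.H51.ZJFun
import Cfsg.Agent.S2795

set_option autoImplicit false
set_option linter.all false

/-!
`Z(J(T))` controls strong fusion in every section of a `Qd(p)`-free group, `p` odd.
-/

namespace Cfsg.Agent.H32.ZJControl

open Cfsg Cfsg.Agent.H33 Cfsg.Agent.ZJ

universe u

/-- the functor `Z(J(P))`. -/
abbrev WZ : ∀ (Q : Type u) [Group Q], Subgroup Q := fun X _ => zja X

theorem charWZ {p : ℕ} [Fact p.Prime] (hp : p ≠ 2) : Cfsg.IsCharPFunctor.{u} p WZ.{u} :=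
  ⟨fun Q _ _ h1 h2 => (Cfsg.Agent.H51.goodFun_zja hp).ne_bot Q h1 h2, fun Q R _ _ _ _ φ => isNat_zja Q R φ⟩

theorem charWZ' {p : ℕ} [Fact p.Prime] (hp : p ≠ 2) :
    ∀ W ∈ ({WZ.{u}} : Set (∀ (Q : Type u) [Group Q], Subgroup Q)), Cfsg.IsCharPFunctor.{u} p W := by
  intro W hW
  rw [Set.mem_singleton_iff] at hW
  rw [hW]; exact charWZ hp

theorem induced_eq {G : Type u} [Group G] (P : Subgroup G) :
    Cfsg.inducedFunctor WZ.{u} P = Cfsg.centerThompsonAOf P := rel_zja P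

/-- family form to element form -/
theorem exists_mem_of_family {p : ℕ} [Fact p.Prime] (hp : p ≠ 2) {X : Type u} [Group X] [Finite X]
    (h : Cfsg.FamilyControlsStrongFusionIn p (ind X {WZ.{u}}) ⊤) {T : Subgroup X} (hT : IsSyl p T ⊤)
    {A : Subgroup X} (hA : A ≤ T) {g : X} (hg : cj g A ≤ T) :
    ∃ x ∈ Subgroup.normalizer (Cfsg.centerThompsonAOf T : Set X), ∀ a ∈ A, x * a * x⁻¹ = g * a * g⁻¹ := by
  have h2 := SFcontrol.of_family (ind_conj (G := X) (charWZ' hp)) h hT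
  have h3 := h2 A hA g (Subgroup.mem_top _) hg
  have h4 : nFam (ind X {WZ.{u}}) ⊤ T = {⊤ ⊓ Subgroup.normalizer
      ((Cfsg.inducedFunctor WZ.{u} T : Subgroup X) : Set X)} := by
    ext N; simp [nFam]
  rw [h4] at h3
  obtain ⟨x, hx, h6⟩ := h3.single_fam
  refine ⟨x, ?_, h6⟩
  have := hx.2
  rwa [induced_eq] at this

theorem family_of_constrained {p : ℕ} [Fact p.Prime] (hp : p ≠ 2) {X : Type u} [Group X] [Finite X]
    (hst : IsNormalizerPStable p X)
    (hc : Subgroup.centralizer ((Cfsg.pCore p X : Subgroup X) : Set X) ≤ Cfsg.pCore p X) :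
    Cfsg.FamilyControlsStrongFusionIn p (ind X {WZ.{u}}) ⊤ := by
  obtain ⟨S⟩ : Nonempty (Sylow p X) := inferInstance
  refine family_iff.2 ⟨(S : Subgroup X), isSyl_top S, ?_⟩
  have hnorm : (Cfsg.centerThompsonAOf (S : Subgroup X)).Normal :=
    centerThompsonAOf_normal hp hc (fun P hP hPp => Cfsg.Agent.H51.isPStableOn_of_normalizer hst P hPp) S
  intro A hA h hh hhA
  refine SFc.single (N := ⊤ ⊓ Subgroup.normalizer ((Cfsg.inducedFunctor WZ.{u} (S : Subgroup X) : Subgroup X) : Set X))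
    ⟨_, ⟨_, Set.mem_singleton _, rfl⟩, rfl⟩ ?_ hA hhA
  refine ⟨Subgroup.mem_top _, ?_⟩
  rw [induced_eq, Subgroup.normalizer_eq_top]
  trivial

/-- `Z(J(T))` controls strong fusion in all sections `X` of a `Qd(p)`-free group. -/
theorem family_of_qd_free {p : ℕ} [Fact p.Prime] (hp : p ≠ 2) {G : Type u} [Group G] [Finite G]
    (hqd : ¬ Cfsg.Involves ↥(Cfsg.qd p) G) (X : Type u) [Group X] (hX : H2.Sec X G) :
    Cfsg.FamilyControlsStrongFusionIn p (ind X {WZ.{u}}) ⊤ := by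
  refine sf_of_quotients (charWZ' hp) ?_ X hX
  intro K R _ hc
  exact family_of_constrained hp ((S2795.result hp).1 hqd K R) hc

theorem centerThompsonAOf_le {G : Type u} [Group G] (T : Subgroup G) : centerThompsonAOf T ≤ T := by
  rw [← rel_zja]; exact rel_le _ T

theorem centerThompsonAOf_ne_bot {p : ℕ} [Fact p.Prime] (hp : p ≠ 2) {G : Type u} [Group G] [Finite G]
    {T : Subgroup G} (hT : IsPGroup p T) (hT1 : T ≠ ⊥) : centerThompsonAOf T ≠ ⊥ := by
  rw [← rel_zja]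
  exact Cfsg.Agent.H51.rel_ne_bot (Cfsg.Agent.H51.goodFun_zja hp) hT hT1

end Cfsg.Agent.H32.ZJControl
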